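import Cfsg.Agent.Lib.H43.AltMain

/-!
Presentations of symmetric and alternating groups: conclusions.
-/
set_option autoImplicit false

namespace H43.AltFin

open Equiv H43.Carm H43.AltRel H43.AltVer H43.Tietze H43.AltMain

/-- numerical choice by Bertrand's postulate -/
theorem exists_prime (m : ℕ) (hm : 3 ≤ m) : ∃ p, p.Prime ∧ p ≤ m ∧ m < 2 * p ∧ Odd p := by
  by_cases h3 : m = 3
  · exact ⟨3, by norm_num, by omega, by omega, by decide⟩
  · obtain ⟨p, hp, h1, h2⟩ := Nat.exists_prime_lt_and_le_two_mul (m / 2) (by omega)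
    refine ⟨p, hp, by omega, by omega, ?_⟩
    rcases hp.eq_two_or_odd' with h | h
    · omega
    · exact h

section
variable {Γ : Type*} [Group Γ]

/-- a presentation on three generators `a, x, k` and seven relators such that `x, ak` generate -/
def Good (Γ : Type*) [Group Γ] : Prop :=
  ∃ (v : Fin 3 → Γ) (R : Fin 7 → FreeGroup (Fin 3)), Pres v (Set.range R) ∧ Subgroup.closure {v 1, v 0 * v 2} = ⊤

theorem Good.map {Δ : Type*} [Group Δ] (h : Good Γ) (e : Γ ≃* Δ) : Good Δ := by
  obtain ⟨v, R, hP, hg⟩ := h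
  refine ⟨fun i => e (v i), R, hP.map e, ?_⟩
  have h1 := congrArg (Subgroup.map e.toMonoidHom) hg
  rw [MonoidHom.map_closure, Subgroup.map_top_of_surjective _ e.surjective, Set.image_pair] at h1
  rw [← h1]
  change _ = Subgroup.closure {e (v 1), e (v 0 * v 2)}
  rw [map_mul]

theorem good_sym {n : ℕ} (hn : 5 ≤ n) : Good (Perm (Fin n)) := by
  obtain ⟨m, rfl⟩ : ∃ m, n = m + 2 := ⟨n - 2, by omega⟩
  obtain ⟨p, hp, hpm, hmp, hodd⟩ := exists_prime m (by omega)
  have : Fact p.Prime := ⟨hp⟩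
  have : NeZero m := ⟨by omega⟩
  obtain ⟨C⟩ := exists_choice (p := p) (m := m) hpm hmp hodd
  have e : ZMod m ⊕ Fin 2 ≃ Fin (m + 2) := Fintype.equivFinOfCardEq (by
    rw [Fintype.card_sum, ZMod.card, Fintype.card_fin])
  refine Good.map ⟨_, _, pres_sym C, ?_⟩ e.permCongrHom
  change Subgroup.closure {px m, pa C.hpm * pk C.hpm (-1 * C.sw)} = ⊤
  rw [pg_eq C, neg_one_mul]
  exact gen_odd C

theorem good_alt {n : ℕ} (hn : 5 ≤ n) : Good (alternatingGroup (Fin n)) := by
  obtain ⟨m, rfl⟩ : ∃ m, n = m + 2 := ⟨n - 2, by omega⟩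
  obtain ⟨p, hp, hpm, hmp, hodd⟩ := exists_prime m (by omega)
  have : Fact p.Prime := ⟨hp⟩
  have : NeZero m := ⟨by omega⟩
  obtain ⟨C⟩ := exists_choice (p := p) (m := m) hpm hmp hodd
  have e : ZMod m ⊕ Fin 2 ≃ Fin (m + 2) := Fintype.equivFinOfCardEq (by
    rw [Fintype.card_sum, ZMod.card, Fintype.card_fin])
  refine Good.map ⟨_, _, pres_alt C, ?_⟩ e.altCongrHom
  rw [eq_top_iff]
  rintro y -
  have hle : alternatingGroup (ZMod m ⊕ Fin 2) ≤
      (Subgroup.closure {wA C 1, wA C 0 * wA C 2}).map (alternatingGroup _).subtype := by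
    refine le_of_eq_of_le (gen_even C).symm ?_
    rw [Subgroup.closure_le]
    rintro z (rfl | rfl)
    · exact ⟨wA C 1, Subgroup.subset_closure (by simp), rfl⟩
    · refine ⟨wA C 0 * wA C 2, Subgroup.subset_closure (by simp), ?_⟩
      rw [← pg_eq C, ← one_mul C.sw]; rfl
  obtain ⟨z, hz, hzy⟩ := hle y.2
  have : z = y := Subtype.ext hzy
  rw [← this]; exact hz

theorem card_image_le {κ : Type*} (N : ℕ) (f : Fin N → FreeGroup κ) [DecidableEq (FreeGroup κ)] :
    (Finset.univ.image f).card ≤ N := by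
  calc _ ≤ (Finset.univ : Finset (Fin N)).card := Finset.card_image_le
    _ = N := by rw [Finset.card_univ, Fintype.card_fin]

/-- three generators, seven relations -/
theorem Good.three (h : Good Γ) : ∃ rels : Finset (FreeGroup (Fin 3)), rels.card ≤ 7 ∧
    Nonempty (PresentedGroup (↑rels : Set (FreeGroup (Fin 3))) ≃* Γ) := by
  classical
  obtain ⟨v, R, hP, -⟩ := h
  refine ⟨Finset.univ.image R, card_image_le 7 R, ?_⟩
  rw [Finset.coe_image, Finset.coe_univ, Set.image_univ]
  obtain ⟨e, -⟩ := hP.iso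
  exact ⟨e⟩

theorem closure_range_two (x y : Γ) : Subgroup.closure (Set.range ![x, y]) = Subgroup.closure {x, y} := by
  congr 1
  ext z
  constructor
  · rintro ⟨i, rfl⟩
    fin_cases i <;> simp
  · rintro (rfl | rfl)
    · exact ⟨0, rfl⟩
    · exact ⟨1, rfl⟩

/-- two generators, seven relations -/
theorem Good.two (h : Good Γ) : ∃ rels : Finset (FreeGroup (Fin 2)), rels.card ≤ 7 ∧
    Nonempty (PresentedGroup (↑rels : Set (FreeGroup (Fin 2))) ≃* Γ) := by
  classical
  obtain ⟨v, R, hP, hg⟩ := h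
  set w : Fin 2 → Γ := ![v 1, v 0 * v 2] with hw
  obtain ⟨Wa, hWa⟩ := exists_word_of_gen (v := w) (by rw [hw, closure_range_two]; exact hg) (v 0)
  let V : Fin 3 → FreeGroup (Fin 2) := ![Wa, FreeGroup.of 0, Wa⁻¹ * FreeGroup.of 1]
  have hV : ∀ i, FreeGroup.lift w (V i) = v i := by
    intro i
    fin_cases i
    · exact hWa
    · change FreeGroup.lift w (FreeGroup.of 0) = _
      rw [FreeGroup.lift_apply_of]; rfl
    · change FreeGroup.lift w (Wa⁻¹ * FreeGroup.of 1) = _
      rw [map_mul, map_inv, hWa, FreeGroup.lift_apply_of]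
      change (v 0)⁻¹ * (v 0 * v 2) = v 2
      rw [inv_mul_cancel_left]
  let U : Fin 2 → FreeGroup (Fin 3) := ![FreeGroup.of 1, FreeGroup.of 0 * FreeGroup.of 2]
  have hU : ∀ j, FreeGroup.lift v (U j) = w j := by
    intro j
    fin_cases j
    · change FreeGroup.lift v (FreeGroup.of 1) = _
      rw [FreeGroup.lift_apply_of]; rfl
    · change FreeGroup.lift v (FreeGroup.of 0 * FreeGroup.of 2) = _
      rw [map_mul, FreeGroup.lift_apply_of, FreeGroup.lift_apply_of]; rfl
  refine ⟨Finset.univ.image (fun i => FreeGroup.lift V (R i)), card_image_le 7 _, ?_⟩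
  rw [Finset.coe_image, Finset.coe_univ, Set.image_univ]
  have hP2 := hP.change w V hV U hU (Set.range (fun i => FreeGroup.lift V (R i))) (by
      rintro _ ⟨i, rfl⟩
      dsimp only
      rw [lift_lift, show (fun i => FreeGroup.lift w (V i)) = v from funext hV]
      exact hP.rel _ ⟨i, rfl⟩) (by
      rintro _ ⟨i, rfl⟩
      exact Subgroup.subset_normalClosure ⟨i, rfl⟩) (by
      intro j
      have : (FreeGroup.of j)⁻¹ * FreeGroup.lift V (U j) = 1 := by
        fin_cases j
        · change (FreeGroup.of 0)⁻¹ * FreeGroup.lift V (FreeGroup.of 1) = 1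
          rw [FreeGroup.lift_apply_of]
          exact inv_mul_cancel _
        · change (FreeGroup.of 1)⁻¹ * FreeGroup.lift V (FreeGroup.of 0 * FreeGroup.of 2) = 1
          rw [map_mul, FreeGroup.lift_apply_of, FreeGroup.lift_apply_of]
          change (FreeGroup.of 1)⁻¹ * (Wa * (Wa⁻¹ * FreeGroup.of 1)) = 1
          group
      rw [this]; exact one_mem _)
  obtain ⟨e, -⟩ := hP2.iso
  exact ⟨e⟩

/-- any generating pair, nine relations -/
theorem Good.pair (h : Good Γ) (a b : Γ) (hab : Subgroup.closure {a, b} = ⊤) :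
    ∃ rels : Finset (FreeGroup (Fin 2)), rels.card ≤ 9 ∧
      ∃ e : PresentedGroup (↑rels : Set (FreeGroup (Fin 2))) ≃* Γ,
        e (PresentedGroup.of 0) = a ∧ e (PresentedGroup.of 1) = b := by
  classical
  obtain ⟨v, R, hP, hg⟩ := h
  set w : Fin 2 → Γ := ![a, b] with hw
  have hgw : Subgroup.closure (Set.range w) = ⊤ := by rw [hw, closure_range_two]; exact hab
  choose V hV using fun i => exists_word_of_gen hgw (v i)
  choose U hU using fun j => exists_word_of_gen hP.gen (w j)
  let S : Fin 7 ⊕ Fin 2 → FreeGroup (Fin 2) := Sum.elim (fun i => FreeGroup.lift V (R i))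
    (fun j => (FreeGroup.of j)⁻¹ * FreeGroup.lift V (U j))
  refine ⟨Finset.univ.image S, ?_, ?_⟩
  · calc _ ≤ (Finset.univ : Finset (Fin 7 ⊕ Fin 2)).card := Finset.card_image_le
      _ = 9 := by rw [Finset.card_univ, Fintype.card_sum, Fintype.card_fin, Fintype.card_fin]
  · rw [Finset.coe_image, Finset.coe_univ, Set.image_univ]
    have hl : ∀ r, FreeGroup.lift w (FreeGroup.lift V r) = FreeGroup.lift v r := by
      intro r
      rw [lift_lift, show (fun i => FreeGroup.lift w (V i)) = v from funext hV]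
    have hP2 := hP.change w V hV U hU (Set.range S) (by
      rintro _ ⟨i | j, rfl⟩
      · change FreeGroup.lift w (FreeGroup.lift V (R i)) = 1
        rw [hl]; exact hP.rel _ ⟨i, rfl⟩
      · change FreeGroup.lift w ((FreeGroup.of j)⁻¹ * FreeGroup.lift V (U j)) = 1
        rw [map_mul, map_inv, hl, hU, FreeGroup.lift_apply_of, inv_mul_cancel]) (by
      rintro _ ⟨i, rfl⟩
      exact Subgroup.subset_normalClosure ⟨Sum.inl i, rfl⟩) (by
      intro j
      exact Subgroup.subset_normalClosure ⟨Sum.inr j, rfl⟩)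
    obtain ⟨e, he⟩ := hP2.iso
    exact ⟨e, he 0, he 1⟩

end

end H43.AltFin
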