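import Mathlib

/-!
Presentations of finite groups: criterion by order, change of generators.
-/
set_option autoImplicit false

namespace H43.Tietze

universe uι uκ uΓ

/-- `R` presents `Γ` on the family `v` -/
structure Pres {ι : Type uι} {Γ : Type uΓ} [Group Γ] (v : ι → Γ) (R : Set (FreeGroup ι)) : Prop where
  gen : Subgroup.closure (Set.range v) = ⊤
  rel : ∀ r ∈ R, FreeGroup.lift v r = 1
  ker : ∀ r, FreeGroup.lift v r = 1 → r ∈ Subgroup.normalClosure R

section
variable {ι : Type uι} {κ : Type uκ} {Γ : Type uΓ} [Group Γ] {v : ι → Γ} {R : Set (FreeGroup ι)}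

theorem Pres.iso (h : Pres v R) : ∃ e : PresentedGroup R ≃* Γ, ∀ i, e (PresentedGroup.of i) = v i := by
  have h1 : ∀ r ∈ R, FreeGroup.lift v r = 1 := h.rel
  let f : PresentedGroup R →* Γ := PresentedGroup.toGroup h1
  have hf : ∀ r : FreeGroup ι, f (PresentedGroup.mk R r) = FreeGroup.lift v r := by
    intro r
    have : f.comp (PresentedGroup.mk R) = FreeGroup.lift v := by
      apply FreeGroup.ext_hom
      intro i
      rw [FreeGroup.lift_apply_of]
      exact PresentedGroup.toGroup.of h1
    exact DFunLike.congr_fun this r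
  have hsurj : Function.Surjective f := by
    rw [← MonoidHom.range_eq_top, eq_top_iff, ← h.gen, Subgroup.closure_le]
    rintro _ ⟨i, rfl⟩
    exact ⟨PresentedGroup.of i, PresentedGroup.toGroup.of h1⟩
  have hinj : Function.Injective f := by
    rw [injective_iff_map_eq_one]
    intro y hy
    obtain ⟨r, rfl⟩ := PresentedGroup.mk_surjective R y
    rw [hf] at hy
    exact (QuotientGroup.eq_one_iff r).2 (h.ker r hy)
  exact ⟨MulEquiv.ofBijective f ⟨hinj, hsurj⟩, fun i => PresentedGroup.toGroup.of h1⟩

theorem pres_of_iso {R : Set (FreeGroup ι)} (e : PresentedGroup R ≃* Γ) :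
    Pres (fun i => e (PresentedGroup.of i)) R := by
  have hl : FreeGroup.lift (fun i => e (PresentedGroup.of i)) = e.toMonoidHom.comp (PresentedGroup.mk R) := by
    apply FreeGroup.ext_hom
    intro i
    rw [FreeGroup.lift_apply_of]; rfl
  refine ⟨?_, ?_, ?_⟩
  · rw [← FreeGroup.range_lift_eq_closure, hl, MonoidHom.range_eq_top]
    exact e.surjective.comp (PresentedGroup.mk_surjective R)
  · intro r hr
    rw [hl]
    change e (PresentedGroup.mk R r) = 1
    rw [PresentedGroup.one_of_mem hr, map_one]
  · intro r hr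
    rw [hl] at hr
    change e (PresentedGroup.mk R r) = 1 at hr
    have : PresentedGroup.mk R r = 1 := by rw [← e.map_eq_one_iff]; exact hr
    exact (QuotientGroup.eq_one_iff r).1 this

/-- criterion by order -/
theorem pres_of_card [Finite Γ] (hgen : Subgroup.closure (Set.range v) = ⊤) (hrel : ∀ r ∈ R, FreeGroup.lift v r = 1)
    (hfin : Finite (PresentedGroup R)) (hcard : Nat.card (PresentedGroup R) ≤ Nat.card Γ) : Pres v R := by
  let f : PresentedGroup R →* Γ := PresentedGroup.toGroup hrel
  have hf : ∀ r : FreeGroup ι, f (PresentedGroup.mk R r) = FreeGroup.lift v r := by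
    intro r
    have : f.comp (PresentedGroup.mk R) = FreeGroup.lift v := by
      apply FreeGroup.ext_hom
      intro i
      rw [FreeGroup.lift_apply_of]
      exact PresentedGroup.toGroup.of hrel
    exact DFunLike.congr_fun this r
  have hsurj : Function.Surjective f := by
    rw [← MonoidHom.range_eq_top, eq_top_iff, ← hgen, Subgroup.closure_le]
    rintro _ ⟨i, rfl⟩
    exact ⟨PresentedGroup.of i, PresentedGroup.toGroup.of hrel⟩
  have hcard' : Nat.card Γ ≤ Nat.card (PresentedGroup R) := Nat.card_le_card_of_surjective f hsurj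
  have hinj : Function.Injective f :=
    ((Nat.bijective_iff_surjective_and_card f).2 ⟨hsurj, le_antisymm hcard hcard'⟩).1
  refine ⟨hgen, hrel, fun r hr => ?_⟩
  rw [← hf] at hr
  have : PresentedGroup.mk R r = 1 := hinj (by rw [hr, map_one])
  exact (QuotientGroup.eq_one_iff r).1 this

theorem lift_lift {H : Type*} [Group H] (V : ι → FreeGroup κ) (w : κ → H) (r : FreeGroup ι) :
    FreeGroup.lift w (FreeGroup.lift V r) = FreeGroup.lift (fun i => FreeGroup.lift w (V i)) r := by
  have : (FreeGroup.lift w).comp (FreeGroup.lift V) = FreeGroup.lift (fun i => FreeGroup.lift w (V i)) := by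
    apply FreeGroup.ext_hom
    intro i
    rw [MonoidHom.comp_apply, FreeGroup.lift_apply_of, FreeGroup.lift_apply_of]
  exact DFunLike.congr_fun this r

/-- change of generators -/
theorem Pres.change (h : Pres v R) (w : κ → Γ) (V : ι → FreeGroup κ) (hV : ∀ i, FreeGroup.lift w (V i) = v i)
    (U : κ → FreeGroup ι) (hU : ∀ j, FreeGroup.lift v (U j) = w j) (S : Set (FreeGroup κ))
    (hS : ∀ s ∈ S, FreeGroup.lift w s = 1) (hSR : ∀ r ∈ R, FreeGroup.lift V r ∈ Subgroup.normalClosure S)
    (hSU : ∀ j, (FreeGroup.of j)⁻¹ * FreeGroup.lift V (U j) ∈ Subgroup.normalClosure S) : Pres w S := by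
  refine ⟨?_, hS, ?_⟩
  · rw [← FreeGroup.range_lift_eq_closure, eq_top_iff, ← h.gen, Subgroup.closure_le]
    rintro _ ⟨i, rfl⟩
    exact ⟨V i, hV i⟩
  · intro s hs
    -- `s ≡ lift V (lift U s)`
    let π := QuotientGroup.mk' (Subgroup.normalClosure S)
    have h1 : ∀ s, π (FreeGroup.lift V (FreeGroup.lift U s)) = π s := by
      have : π.comp ((FreeGroup.lift V).comp (FreeGroup.lift U)) = π := by
        apply FreeGroup.ext_hom
        intro j
        rw [MonoidHom.comp_apply, MonoidHom.comp_apply, FreeGroup.lift_apply_of]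
        exact (QuotientGroup.eq.2 (hSU j)).symm
      intro s
      exact DFunLike.congr_fun this s
    have h2 : FreeGroup.lift v (FreeGroup.lift U s) = 1 := by
      rw [lift_lift]
      have : (fun j => FreeGroup.lift v (U j)) = w := funext hU
      rw [this, hs]
    have h3 := h.ker _ h2
    have h4 : Subgroup.normalClosure R ≤ (Subgroup.normalClosure S).comap (FreeGroup.lift V) :=
      Subgroup.normalClosure_le_normal (fun r hr => hSR r hr)
    have h5 := h4 h3
    have h6 : π (FreeGroup.lift V (FreeGroup.lift U s)) = 1 := (QuotientGroup.eq_one_iff _).2 h5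
    rw [h1] at h6
    exact (QuotientGroup.eq_one_iff _).1 h6

theorem exists_word_of_gen (hgen : Subgroup.closure (Set.range v) = ⊤) (g : Γ) : ∃ W, FreeGroup.lift v W = g := by
  have : g ∈ (FreeGroup.lift v).range := by rw [FreeGroup.range_lift_eq_closure, hgen]; trivial
  exact this

theorem normalClosure_closure_mem {s : FreeGroup κ} {S : Set (FreeGroup κ)} (h : s ∈ S) :
    s ∈ Subgroup.normalClosure S := Subgroup.subset_normalClosure h

/-- transport along an isomorphism -/
theorem Pres.map {Δ : Type*} [Group Δ] (h : Pres v R) (e : Γ ≃* Δ) : Pres (fun i => e (v i)) R := by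
  have hl : FreeGroup.lift (fun i => e (v i)) = e.toMonoidHom.comp (FreeGroup.lift v) := by
    apply FreeGroup.ext_hom
    intro i
    rw [FreeGroup.lift_apply_of, MonoidHom.comp_apply, FreeGroup.lift_apply_of]; rfl
  refine ⟨?_, ?_, ?_⟩
  · rw [← FreeGroup.range_lift_eq_closure, hl, MonoidHom.range_eq_top]
    exact e.surjective.comp (by rw [← MonoidHom.range_eq_top, FreeGroup.range_lift_eq_closure, h.gen])
  · intro r hr
    rw [hl, MonoidHom.comp_apply, h.rel r hr, map_one]
  · intro r hr
    apply h.ker
    rw [hl, MonoidHom.comp_apply] at hr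
    exact (e.map_eq_one_iff).1 hr

end

end H43.Tietze
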