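import Cfsg.Agent.Lib.H43.AltVer2
import Cfsg.Agent.Lib.H43.Tietze

/-!
Presentations of symmetric and alternating groups.
-/
set_option autoImplicit false

namespace H43.AltMain

open Equiv H43.Carm H43.AltRel H43.AltVer H43.Tietze

section relv
variable {G H : Type*} [Group G] [Group H] {p : ℕ}

theorem map_F (f : G →* H) (a x : G) (j : ZMod p) : f (F p a x j) = F p (f a) (f x) j := by
  simp only [F, map_mul, map_pow, map_inv]

theorem map_lift (f : G →* H) (a x : G) (W : FreeGroup (ZMod p)) :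
    f (FreeGroup.lift (F p a x) W) = FreeGroup.lift (F p (f a) (f x)) W := by
  have : f.comp (FreeGroup.lift (F p a x)) = FreeGroup.lift (F p (f a) (f x)) := by
    apply FreeGroup.ext_hom
    intro j
    rw [MonoidHom.comp_apply, FreeGroup.lift_apply_of, FreeGroup.lift_apply_of, map_F]
  exact DFunLike.congr_fun this W

theorem map_ww (f : G →* H) (Ww : FreeGroup (ZMod p)) (a x k : G) : f (ww Ww a x k) = ww Ww (f a) (f x) (f k) := by
  simp only [ww, map_mul, map_pow, map_inv, map_lift]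

theorem map_del (f : G →* H) (Ww : FreeGroup (ZMod p)) (a x k : G) : f (del Ww a x k) = del Ww (f a) (f x) (f k) := by
  simp only [del, map_mul, map_inv, map_ww]

theorem map_bb (f : G →* H) (Ww Wb : FreeGroup (ZMod p)) (a x k : G) : f (bb Ww Wb a x k) = bb Ww Wb (f a) (f x) (f k) := by
  simp only [bb, map_mul, map_lift, map_del]

theorem map_tt (f : G →* H) (W : FreeGroup (ZMod p)) (a x : G) : f (tt W a x) = tt W (f a) (f x) := map_lift f a x W

/-- the seven relators -/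
def relv (Wb Wt Ww : FreeGroup (ZMod p)) (u : ℕ) (ρ ε : ℤ) (a x k : G) : Fin 7 → G :=
  ![x ^ 3 * (a ^ p)⁻¹,
    bb Ww Wb a x k * a ^ u * (bb Ww Wb a x k)⁻¹ * (a ^ (u - 1))⁻¹,
    bb Ww Wb a x k * x * (bb Ww Wb a x k)⁻¹ * (x ^ (-ρ))⁻¹,
    (x * (a * x * a⁻¹)) ^ 2,
    k * x * k⁻¹ * (x ^ ε)⁻¹,
    k * tt Wt a x * k⁻¹ * (tt Wt a x)⁻¹,
    if ρ = 1 then del Ww a x k else (a * k) * del Ww a x k * (a * k)⁻¹ * del Ww a x k]

variable {Wb Wt Ww : FreeGroup (ZMod p)} {u : ℕ} {ρ ε : ℤ}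

theorem map_relv (f : G →* H) (a x k : G) (i : Fin 7) :
    f (relv Wb Wt Ww u ρ ε a x k i) = relv Wb Wt Ww u ρ ε (f a) (f x) (f k) i := by
  have e0 := map_bb f Ww Wb a x k
  have e1 := map_del f Ww a x k
  have e2 := map_tt f Wt a x
  fin_cases i
  · change f (x ^ 3 * (a ^ p)⁻¹) = (f x) ^ 3 * ((f a) ^ p)⁻¹
    simp only [map_mul, map_inv, map_pow]
  · change f (bb Ww Wb a x k * a ^ u * (bb Ww Wb a x k)⁻¹ * (a ^ (u - 1))⁻¹) = _
    simp only [map_mul, map_inv, map_pow, e0]; rfl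
  · change f (bb Ww Wb a x k * x * (bb Ww Wb a x k)⁻¹ * (x ^ (-ρ))⁻¹) = _
    simp only [map_mul, map_inv, map_zpow, e0]; rfl
  · change f ((x * (a * x * a⁻¹)) ^ 2) = _
    simp only [map_mul, map_inv, map_pow]; rfl
  · change f (k * x * k⁻¹ * (x ^ ε)⁻¹) = _
    simp only [map_mul, map_inv, map_zpow]; rfl
  · change f (k * tt Wt a x * k⁻¹ * (tt Wt a x)⁻¹) = _
    simp only [map_mul, map_inv, e2]; rfl
  · change f (if ρ = 1 then del Ww a x k else (a * k) * del Ww a x k * (a * k)⁻¹ * del Ww a x k) = 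
      if ρ = 1 then del Ww (f a) (f x) (f k) else (f a * f k) * del Ww (f a) (f x) (f k) * (f a * f k)⁻¹ * del Ww (f a) (f x) (f k)
    split_ifs
    · exact e1
    · simp only [map_mul, map_inv, e1]

theorem rels_iff {a x k : G} : (∀ i, relv Wb Wt Ww u ρ ε a x k i = 1) ↔ Rels Wb Wt Ww u ρ ε a x k := by
  constructor
  · intro h
    refine ⟨mul_inv_eq_one.1 (h 0), mul_inv_eq_one.1 (h 1), mul_inv_eq_one.1 (h 2), h 3, mul_inv_eq_one.1 (h 4),
      mul_inv_eq_one.1 (h 5), ?_⟩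
    have h6 : (if ρ = 1 then del Ww a x k else (a * k) * del Ww a x k * (a * k)⁻¹ * del Ww a x k) = 1 := h 6
    split_ifs at h6 ⊢ with h1
    · exact h6
    · exact eq_inv_of_mul_eq_one_left h6
  · intro h i
    fin_cases i
    · exact mul_inv_eq_one.2 h.r1
    · exact mul_inv_eq_one.2 h.r2
    · exact mul_inv_eq_one.2 h.r3
    · exact h.r4
    · exact mul_inv_eq_one.2 h.r5
    · exact mul_inv_eq_one.2 h.r6
    · change (if ρ = 1 then del Ww a x k else (a * k) * del Ww a x k * (a * k)⁻¹ * del Ww a x k) = 1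
      have h7 := h.r7
      split_ifs at h7 ⊢ with h1
      · exact h7
      · rw [h7, inv_mul_cancel]

/-- the relators in the free group -/
def relf (Wb Wt Ww : FreeGroup (ZMod p)) (u : ℕ) (ρ ε : ℤ) : Fin 7 → FreeGroup (Fin 3) :=
  relv Wb Wt Ww u ρ ε (FreeGroup.of 0) (FreeGroup.of 1) (FreeGroup.of 2)

theorem lift_relf (w : Fin 3 → G) : (∀ i, FreeGroup.lift w (relf Wb Wt Ww u ρ ε i) = 1) ↔
    Rels Wb Wt Ww u ρ ε (w 0) (w 1) (w 2) := by
  rw [← rels_iff]
  apply forall_congr'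
  intro i
  rw [relf, map_relv, FreeGroup.lift_apply_of, FreeGroup.lift_apply_of, FreeGroup.lift_apply_of]

end relv

/-- The general conclusion: the group `Γ` (of order `(m+2)!` or half of it) is presented. -/
theorem pres {p m : ℕ} [Fact p.Prime] [NeZero m] (C : Choice p m) (ρ : ℤˣ) {Γ : Type*} [Group Γ] [Finite Γ]
    (w : Fin 3 → Γ) (hgen : Subgroup.closure (Set.range w) = ⊤)
    (hrel : Rels C.Wb C.Wt C.Ww C.u (ρ : ℤ) ((ρ * C.sw : ℤˣ) : ℤ) (w 0) (w 1) (w 2))
    (h1 : ρ = 1 → 2 * Nat.card Γ = (m + 2).factorial) (h2 : ρ = -1 → Nat.card Γ = (m + 2).factorial) :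
    Pres w (Set.range (relf C.Wb C.Wt C.Ww C.u (ρ : ℤ) ((ρ * C.sw : ℤˣ) : ℤ))) := by
  set R := Set.range (relf C.Wb C.Wt C.Ww C.u (ρ : ℤ) ((ρ * C.sw : ℤˣ) : ℤ)) with hR
  have hr := (lift_relf (Wb := C.Wb) (Wt := C.Wt) (Ww := C.Ww) (u := C.u) (ρ := (ρ : ℤ)) (ε := ((ρ * C.sw : ℤˣ) : ℤ)) w).2 hrel
  have hr' := (lift_relf (Wb := C.Wb) (Wt := C.Wt) (Ww := C.Ww) (u := C.u) (ρ := (ρ : ℤ)) (ε := ((ρ * C.sw : ℤˣ) : ℤ))
    (fun i => (PresentedGroup.of i : PresentedGroup R))).1 (by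
      intro i
      have hl : FreeGroup.lift (fun i => (PresentedGroup.of i : PresentedGroup R)) = PresentedGroup.mk R := by
        apply FreeGroup.ext_hom
        intro i
        rw [FreeGroup.lift_apply_of]; rfl
      rw [hl]
      exact PresentedGroup.one_of_mem ⟨i, rfl⟩)
  have hg : Subgroup.closure {(PresentedGroup.of 0 : PresentedGroup R), PresentedGroup.of 1, PresentedGroup.of 2} = ⊤ := by
    rw [eq_top_iff, ← PresentedGroup.closure_range_of R, Subgroup.closure_le]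
    rintro _ ⟨i, rfl⟩
    apply Subgroup.subset_closure
    fin_cases i <;> simp
  obtain ⟨hfin, hc1, hc2⟩ := card_le hr' (C.wordProp ρ) hg
  apply pres_of_card hgen (by rintro _ ⟨i, rfl⟩; exact hr i) hfin
  rcases Int.units_eq_one_or ρ with h | h
  · have := hc1 (by rw [h]; rfl)
    have := h1 h
    omega
  · have := hc2 (by rw [h]; rfl)
    have := h2 h
    omega

/-- relations inherited by a subgroup -/
theorem rels_subgroup {G : Type*} [Group G] {p : ℕ} {Wb Wt Ww : FreeGroup (ZMod p)} {u : ℕ} {ρ ε : ℤ} {S : Subgroup G}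
    {a x k : S} (h : Rels Wb Wt Ww u ρ ε (a : G) (x : G) (k : G)) : Rels Wb Wt Ww u ρ ε a x k := by
  rw [← rels_iff] at h ⊢
  intro i
  apply Subtype.ext
  have := map_relv (Wb := Wb) (Wt := Wt) (Ww := Ww) (u := u) (ρ := ρ) (ε := ε) S.subtype a x k i
  rw [Subgroup.coe_one, ← Subgroup.coe_subtype, this]
  exact h i

section final
variable {p m : ℕ} [Fact p.Prime] [NeZero m]

/-- symmetric group -/
theorem pres_sym (C : Choice p m) : Pres ![pa C.hpm, px m, pk C.hpm (-1 * C.sw)]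
    (Set.range (relf C.Wb C.Wt C.Ww C.u ((-1 : ℤˣ) : ℤ) (((-1) * C.sw : ℤˣ) : ℤ))) := by
  apply pres C (-1)
  · rw [eq_top_iff, ← gen_odd C, Subgroup.closure_le]
    have h1 : pa C.hpm ∈ Subgroup.closure (Set.range ![pa C.hpm, px m, pk C.hpm (-1 * C.sw)]) := Subgroup.subset_closure ⟨0, rfl⟩
    have h2 : px m ∈ Subgroup.closure (Set.range ![pa C.hpm, px m, pk C.hpm (-1 * C.sw)]) := Subgroup.subset_closure ⟨1, rfl⟩
    have h3 : pk C.hpm (-1 * C.sw) ∈ Subgroup.closure (Set.range ![pa C.hpm, px m, pk C.hpm (-1 * C.sw)]) := Subgroup.subset_closure ⟨2, rfl⟩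
    rintro y (rfl | rfl)
    · exact h2
    · have h5 : pg m (-C.sw) = pa C.hpm * pk C.hpm (-1 * C.sw) := by rw [pg_eq C, neg_one_mul]
      rw [h5]
      exact mul_mem h1 h3
  · exact rels C (-1)
  · intro h; exact absurd h (by decide)
  · intro _
    rw [Nat.card_perm, Nat.card_sum, Nat.card_zmod, Nat.card_eq_fintype_card (α := Fin 2), Fintype.card_fin]

/-- generators inside the alternating group -/
noncomputable def wA (C : Choice p m) : Fin 3 → alternatingGroup (ZMod m ⊕ Fin 2) :=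
  ![⟨pa C.hpm, Perm.mem_alternatingGroup.2 (sign_pa C)⟩, ⟨px m, Perm.mem_alternatingGroup.2 (sign_px m)⟩,
    ⟨pk C.hpm (1 * C.sw), Perm.mem_alternatingGroup.2 (sign_pk C 1)⟩]

theorem pres_alt (C : Choice p m) : Pres (wA C)
    (Set.range (relf C.Wb C.Wt C.Ww C.u ((1 : ℤˣ) : ℤ) ((1 * C.sw : ℤˣ) : ℤ))) := by
  apply pres C 1
  · rw [eq_top_iff]
    rintro y -
    have hle : alternatingGroup (ZMod m ⊕ Fin 2) ≤ (Subgroup.closure (Set.range (wA C))).map (alternatingGroup _).subtype := by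
      refine le_of_eq_of_le (gen_even C).symm ?_
      rw [Subgroup.closure_le]
      have h1 : wA C 0 ∈ Subgroup.closure (Set.range (wA C)) := Subgroup.subset_closure ⟨0, rfl⟩
      have h2 : wA C 1 ∈ Subgroup.closure (Set.range (wA C)) := Subgroup.subset_closure ⟨1, rfl⟩
      have h3 : wA C 2 ∈ Subgroup.closure (Set.range (wA C)) := Subgroup.subset_closure ⟨2, rfl⟩
      rintro z (rfl | rfl)
      · exact ⟨_, h2, rfl⟩
      · refine ⟨_, mul_mem h1 h3, ?_⟩
        rw [← pg_eq C, ← one_mul C.sw]; rfl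
    obtain ⟨z, hz, hzy⟩ := hle y.2
    have : z = y := Subtype.ext hzy
    rw [← this]; exact hz
  · exact rels_subgroup (rels C 1)
  · intro _
    have : Nontrivial (ZMod m ⊕ Fin 2) := ⟨Sum.inr 0, Sum.inr 1, by simp⟩
    rw [two_mul_nat_card_alternatingGroup, Nat.card_perm, Nat.card_sum, Nat.card_zmod, Nat.card_eq_fintype_card (α := Fin 2), Fintype.card_fin]
  · intro h; exact absurd h (by decide)

end final

end H43.AltMain
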