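import Cfsg.Agent.Lib.H43.AltTrans

/-!
Small presentations of `A_4` and `A_5`.
-/
set_option autoImplicit false

namespace H43.AltPres

open Equiv H43.Tietze H43.AltSmall H43.AltFin H43.Carm

theorem three_of {Γ : Type*} [Group Γ] [Finite Γ] (w : Fin 2 → Γ) (R : Fin 3 → FreeGroup (Fin 2))
    (hgen : Subgroup.closure (Set.range w) = ⊤) (hrel : ∀ i, FreeGroup.lift w (R i) = 1)
    (hbound : ∀ (P : Type) [Group P] (x y : P), Subgroup.closure {x, y} = ⊤ → (∀ i, FreeGroup.lift ![x, y] (R i) = 1) →
      Finite P ∧ Nat.card P ≤ Nat.card Γ) : HasPres Γ 2 3 := by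
  classical
  refine ⟨Finset.univ.image R, le_trans (card_image_le 3 R) (by norm_num), ?_⟩
  rw [Finset.coe_image, Finset.coe_univ, Set.image_univ]
  have hb := hbound (PresentedGroup (Set.range R)) (PresentedGroup.of 0) (PresentedGroup.of 1) (pg_closure _) (by
    intro i
    have := pg_lift (R := Set.range R) ⟨i, rfl⟩
    have e : (fun i => (PresentedGroup.of i : PresentedGroup (Set.range R))) =
        ![(PresentedGroup.of 0 : PresentedGroup (Set.range R)), PresentedGroup.of 1] := by
      funext i; fin_cases i <;> rfl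
    rwa [e] at this)
  have hP : Pres w (Set.range R) := pres_of_card hgen (by rintro _ ⟨i, rfl⟩; exact hrel i) hb.1 hb.2
  obtain ⟨e, -⟩ := hP.iso
  exact ⟨e⟩

theorem pres_A4 : HasPres (alternatingGroup (Fin 4)) 2 3 := by
  have key : HasPres (alternatingGroup (Fin 2 ⊕ Fin 2)) 2 3 := by
    apply three_of ![ca 0, ca 1] ![FreeGroup.of 0 ^ 3, FreeGroup.of 1 ^ 3, (FreeGroup.of 0 * FreeGroup.of 1) ^ 2]
    · rw [closure_range_two]
      refine ca_top (fun i => ?_)
      fin_cases i
      · exact Subgroup.subset_closure (by simp)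
      · exact Subgroup.subset_closure (by simp)
    · intro i
      fin_cases i
      · change FreeGroup.lift _ (FreeGroup.of 0 ^ 3) = 1
        rw [map_pow, FreeGroup.lift_apply_of]
        exact Subtype.ext (rel_c3.cube 0)
      · change FreeGroup.lift _ (FreeGroup.of 1 ^ 3) = 1
        rw [map_pow, FreeGroup.lift_apply_of]
        exact Subtype.ext (rel_c3.cube 1)
      · change FreeGroup.lift _ ((FreeGroup.of 0 * FreeGroup.of 1) ^ 2) = 1
        rw [map_pow, map_mul, FreeGroup.lift_apply_of, FreeGroup.lift_apply_of]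
        exact Subtype.ext (rel_c3.sq 0 1 (by decide))
    · intro P _ x y hg hr
      have h0 := hr 0
      have h1 := hr 1
      have h2 := hr 2
      change FreeGroup.lift ![x, y] (FreeGroup.of 0 ^ 3) = 1 at h0
      change FreeGroup.lift ![x, y] (FreeGroup.of 1 ^ 3) = 1 at h1
      change FreeGroup.lift ![x, y] ((FreeGroup.of 0 * FreeGroup.of 1) ^ 2) = 1 at h2
      rw [map_pow, FreeGroup.lift_apply_of] at h0 h1
      rw [map_pow, map_mul, FreeGroup.lift_apply_of, FreeGroup.lift_apply_of] at h2
      change x ^ 3 = 1 at h0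
      change y ^ 3 = 1 at h1
      change (x * y) ^ 2 = 1 at h2
      have hrel : Rel ![x, y] := by
        refine ⟨?_, ?_⟩
        · intro i
          fin_cases i
          · exact h0
          · exact h1
        · intro i j hij
          fin_cases i <;> fin_cases j
          · exact absurd rfl hij
          · exact h2
          · exact H43.AltRel.sq_comm h2
          · exact absurd rfl hij
      obtain ⟨hfin, hcard⟩ := bound _ hrel
      have htop : Subgroup.closure (Set.range ![x, y]) = ⊤ := by rw [closure_range_two, hg]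
      rw [htop] at hfin hcard
      have hP : Finite P := Finite.of_equiv _ Subgroup.topEquiv.toEquiv
      rw [Nat.card_congr Subgroup.topEquiv.toEquiv, Nat.card_eq_fintype_card (α := Fin 2), Fintype.card_fin] at hcard
      have := card_alt 2
      exact ⟨hP, by omega⟩
  exact key.map (Equiv.altCongrHom (Fintype.equivFinOfCardEq (by simp)))

/-- a 5-cycle -/
def p5 : Perm (Fin 3 ⊕ Fin 2) := swap (Sum.inl 0) (Sum.inl 1) * swap (Sum.inl 1) (Sum.inr 1) *
  swap (Sum.inr 1) (Sum.inl 2) * swap (Sum.inl 2) (Sum.inr 0)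
/-- a 5-cycle -/
def y5 : alternatingGroup (Fin 3 ⊕ Fin 2) := ⟨p5, Perm.mem_alternatingGroup.2 (by decide)⟩

theorem y5_pow : p5 ^ 5 = 1 := by decide
theorem y5_mul : (c3 (0 : Fin 3) * p5) ^ 2 = 1 := by decide
theorem y5_c1 : p5 * c3 (0 : Fin 3) * c3 0 * p5 * p5 = c3 1 := by decide
theorem y5_c2 : c3 (0 : Fin 3) * c3 0 * p5 * c3 0 * c3 0 * p5 * p5 * p5 = c3 2 := by decide

theorem pres_A5 : HasPres (alternatingGroup (Fin 5)) 2 3 := by
  have key : HasPres (alternatingGroup (Fin 3 ⊕ Fin 2)) 2 3 := by
    apply three_of ![ca 0, y5] ![FreeGroup.of 0 ^ 3, FreeGroup.of 1 ^ 5, (FreeGroup.of 0 * FreeGroup.of 1) ^ 2]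
    · rw [closure_range_two]
      have hx : (ca 0 : alternatingGroup (Fin 3 ⊕ Fin 2)) ∈ Subgroup.closure {ca 0, y5} := Subgroup.subset_closure (by simp)
      have hy : y5 ∈ Subgroup.closure {ca 0, y5} := Subgroup.subset_closure (by simp)
      refine ca_top (fun i => ?_)
      fin_cases i
      · exact hx
      · have : (ca 1 : alternatingGroup (Fin 3 ⊕ Fin 2)) = y5 * ca 0 * ca 0 * y5 * y5 := Subtype.ext y5_c1.symm
        change ca 1 ∈ _
        rw [this]
        exact mul_mem (mul_mem (mul_mem (mul_mem hy hx) hx) hy) hy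
      · have : (ca 2 : alternatingGroup (Fin 3 ⊕ Fin 2)) = ca 0 * ca 0 * y5 * ca 0 * ca 0 * y5 * y5 * y5 :=
          Subtype.ext y5_c2.symm
        change ca 2 ∈ _
        rw [this]
        exact mul_mem (mul_mem (mul_mem (mul_mem (mul_mem (mul_mem (mul_mem hx hx) hy) hx) hx) hy) hy) hy
    · intro i
      fin_cases i
      · change FreeGroup.lift _ (FreeGroup.of 0 ^ 3) = 1
        rw [map_pow, FreeGroup.lift_apply_of]
        exact Subtype.ext (rel_c3.cube 0)
      · change FreeGroup.lift _ (FreeGroup.of 1 ^ 5) = 1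
        rw [map_pow, FreeGroup.lift_apply_of]
        exact Subtype.ext y5_pow
      · change FreeGroup.lift _ ((FreeGroup.of 0 * FreeGroup.of 1) ^ 2) = 1
        rw [map_pow, map_mul, FreeGroup.lift_apply_of, FreeGroup.lift_apply_of]
        exact Subtype.ext y5_mul
    · intro P _ x y hg hr
      have h0 := hr 0
      have h1 := hr 1
      have h2 := hr 2
      change FreeGroup.lift ![x, y] (FreeGroup.of 0 ^ 3) = 1 at h0
      change FreeGroup.lift ![x, y] (FreeGroup.of 1 ^ 5) = 1 at h1
      change FreeGroup.lift ![x, y] ((FreeGroup.of 0 * FreeGroup.of 1) ^ 2) = 1 at h2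
      rw [map_pow, FreeGroup.lift_apply_of] at h0 h1
      rw [map_pow, map_mul, FreeGroup.lift_apply_of, FreeGroup.lift_apply_of] at h2
      change x ^ 3 = 1 at h0
      change y ^ 5 = 1 at h1
      change (x * y) ^ 2 = 1 at h2
      obtain ⟨hfin, hcard⟩ := H60.Tri235.card_closure_le x y 1 h0 h1 h2 (one_pow _) (by rw [one_mul, mul_one])
        (by rw [one_mul, mul_one]) hg
      rw [orderOf_one, mul_one] at hcard
      have := card_alt 3
      have h5 : (3 + 2).factorial = 120 := by decide
      rw [h5] at this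
      exact ⟨hfin, by omega⟩
  exact key.map (Equiv.altCongrHom (Fintype.equivFinOfCardEq (by simp)))

theorem pres_An {n : ℕ} (hn : 5 ≤ n) : HasPres (alternatingGroup (Fin n)) 3 7 := (good_alt hn).three

end H43.AltPres
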