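import Cfsg.Agent.Lib.H43.Carm

/-!
Presentations of alternating and symmetric groups with three generators and seven relations: the upper bound.
-/
set_option autoImplicit false

namespace H43.AltRel

open H43.Carm

variable {G : Type*} [Group G] {p : ℕ}

/-- the conjugates of `x` by powers of `a` -/
def F (p : ℕ) (a x : G) (j : ZMod p) : G := a ^ j.val * x * (a ^ j.val)⁻¹

def tt (W : FreeGroup (ZMod p)) (a x : G) : G := FreeGroup.lift (F p a x) W
def ww (W : FreeGroup (ZMod p)) (a x k : G) : G := (a * k) ^ (p - 1) * FreeGroup.lift (F p a x) W * ((a * k) ^ (p - 1))⁻¹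
def del (Ww : FreeGroup (ZMod p)) (a x k : G) : G := k * (ww Ww a x k)⁻¹
def bb (Ww Wb : FreeGroup (ZMod p)) (a x k : G) : G := del Ww a x k * FreeGroup.lift (F p a x) Wb

/-- the relations -/
structure Rels (Wb Wt Ww : FreeGroup (ZMod p)) (u : ℕ) (ρ ε : ℤ) (a x k : G) : Prop where
  r1 : x ^ 3 = a ^ p
  r2 : bb Ww Wb a x k * a ^ u * (bb Ww Wb a x k)⁻¹ = a ^ (u - 1)
  r3 : bb Ww Wb a x k * x * (bb Ww Wb a x k)⁻¹ = x ^ (-ρ)
  r4 : (x * (a * x * a⁻¹)) ^ 2 = 1
  r5 : k * x * k⁻¹ = x ^ ε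
  r6 : k * tt Wt a x * k⁻¹ = tt Wt a x
  r7 : if ρ = 1 then del Ww a x k = 1 else (a * k) * del Ww a x k * (a * k)⁻¹ = (del Ww a x k)⁻¹

/-- properties of the words -/
structure WordProp (Wb Wt Ww : FreeGroup (ZMod p)) (u m : ℕ) (r : ZMod p) (ρ ε ςt ςw : ℤ) : Prop where
  hu1 : 1 ≤ u
  hur : (u : ZMod p) * (1 - r) = 1
  hr : ∀ d : ZMod p, d ≠ 0 → ∃ n : ℕ, d = r ^ n
  hb : ∀ j, FreeGroup.lift c3 Wb * c3 j * (FreeGroup.lift c3 Wb)⁻¹ = (c3 (r * j))⁻¹
  ht : ∀ j : ℕ, j + 2 ≤ p - 1 → FreeGroup.lift c3 Wt * c3 (j : ZMod p) * (FreeGroup.lift c3 Wt)⁻¹ = c3 ((j + 1 : ℕ) : ZMod p) ^ ςt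
  hw : FreeGroup.lift c3 Ww * c3 ((m - p : ℕ) : ZMod p) * (FreeGroup.lift c3 Ww)⁻¹ = c3 (0 : ZMod p) ^ ςw
  hςt : ςt * ςt = 1
  hςw : ςw * ςw = 1
  hρ : ρ = 1 ∨ ρ = -1
  hε : ε = ρ * ςw
  hpm : p ≤ m
  hmp : m < 2 * p
  hodd : Odd p

theorem lift_mem {ι : Type*} {f : ι → G} {H : Subgroup G} (h : ∀ i, f i ∈ H) (W : FreeGroup ι) :
    FreeGroup.lift f W ∈ H :=
  FreeGroup.range_lift_le (by rintro _ ⟨i, rfl⟩; exact h i) ⟨W, rfl⟩

theorem conj_zpow' (g x : G) (n : ℤ) : g * x ^ n * g⁻¹ = (g * x * g⁻¹) ^ n := (conj_zpow).symm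

theorem conj_pow' (g x : G) (n : ℕ) : g * x ^ n * g⁻¹ = (g * x * g⁻¹) ^ n := (conj_pow).symm

theorem sq_comm {x y : G} (h : (x * y) ^ 2 = 1) : (y * x) ^ 2 = 1 := by
  have : (y * x) ^ 2 = x⁻¹ * (x * y) ^ 2 * x := by rw [pow_two, pow_two]; group
  rw [this, h]; group

theorem sq_inv {x y : G} (h : (x⁻¹ * y⁻¹) ^ 2 = 1) : (x * y) ^ 2 = 1 := by
  have h2 : (x⁻¹ * y⁻¹) = (y * x)⁻¹ := by group
  rw [h2, inv_pow, inv_eq_one] at h
  exact sq_comm h

theorem sq_sign {x y : G} {e : ℤ} (he : e = 1 ∨ e = -1) (h : (x ^ e * y ^ e) ^ 2 = 1) : (x * y) ^ 2 = 1 := by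
  rcases he with rfl | rfl
  · simpa using h
  · apply sq_inv
    simpa using h

theorem sq_sign' {x y : G} {e : ℤ} (he : e = 1 ∨ e = -1) (h : (x * y) ^ 2 = 1) : (x ^ e * y ^ e) ^ 2 = 1 := by
  rcases he with rfl | rfl
  · simpa using h
  · have h2 := sq_inv (x := x⁻¹) (y := y⁻¹) (by simpa using h)
    simpa using h2

theorem sign_mul {e : ℤ} (h : e * e = 1) : e = 1 ∨ e = -1 := Int.isUnit_iff.1 (IsUnit.of_mul_eq_one e h)

theorem zpow_sign {e : ℤ} (h : e * e = 1) (x : G) : (x ^ e) ^ e = x := by rw [← zpow_mul, h, zpow_one]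

section main
variable [Fact p.Prime] {Wb Wt Ww : FreeGroup (ZMod p)} {u m : ℕ} {r : ZMod p} {ρ ε ςt ςw : ℤ} {a x k : G}

theorem F_zero (a x : G) : F p a x 0 = x := by simp [F]

theorem F_one (a x : G) : F p a x 1 = a * x * a⁻¹ := by
  have : (1 : ZMod p).val = 1 := ZMod.val_one p
  rw [F, this, pow_one]

omit [Fact p.Prime] in
/-- first consequences: `a ^ p = 1` -/
theorem a_pow (h : Rels Wb Wt Ww u ρ ε a x k) (hW : WordProp Wb Wt Ww u m r ρ ε ςt ςw) : a ^ p = 1 := by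
  set z := a ^ p with hz
  have hza : z * a * z⁻¹ = a := by rw [hz]; group
  have hzx : z * x * z⁻¹ = x := by rw [hz, ← h.r1]; group
  have hF : ∀ j, F p a x j ∈ Subgroup.centralizer {z} := by
    have ha : a ∈ Subgroup.centralizer {z} := Subgroup.mem_centralizer_singleton_iff.2 (by
      rw [mul_inv_eq_iff_eq_mul] at hza; exact hza.symm)
    have hx : x ∈ Subgroup.centralizer {z} := Subgroup.mem_centralizer_singleton_iff.2 (by
      rw [mul_inv_eq_iff_eq_mul] at hzx; exact hzx.symm)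
    intro j
    exact mul_mem (mul_mem (pow_mem ha _) hx) (inv_mem (pow_mem ha _))
  have hbz : bb Ww Wb a x k * z * (bb Ww Wb a x k)⁻¹ = z := by
    rcases hW.hρ with h1 | h1
    · have hd := h.r7
      rw [if_pos h1] at hd
      have hb : bb Ww Wb a x k ∈ Subgroup.centralizer {z} := by
        rw [bb, hd, one_mul]; exact lift_mem hF _
      rw [Subgroup.mem_centralizer_singleton_iff] at hb
      rw [hb]; group
    · have h3 := h.r3
      rw [h1, neg_neg, zpow_one] at h3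
      rw [hz, ← h.r1, conj_pow', h3]
  have h2 : (bb Ww Wb a x k * a ^ u * (bb Ww Wb a x k)⁻¹) ^ p = (a ^ (u - 1)) ^ p := by rw [h.r2]
  have e1 : ∀ v : ℕ, (a ^ v) ^ p = z ^ v := by intro v; rw [hz, ← pow_mul, ← pow_mul, mul_comm]
  rw [← conj_pow', e1, e1, conj_pow', hbz] at h2
  have h3 : u = (u - 1) + 1 := by have := hW.hu1; omega
  rw [h3, pow_succ, Nat.add_sub_cancel] at h2
  exact mul_eq_left.1 h2

variable (p) in
/-- powers of `a` indexed by `ZMod p` -/
def A (a : G) (j : ZMod p) : G := a ^ j.val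

theorem A_natCast (ha : a ^ p = 1) (n : ℕ) : A p a (n : ZMod p) = a ^ n := by
  rw [A, ZMod.val_natCast, ← pow_eq_pow_mod n ha]

theorem A_add (ha : a ^ p = 1) (i j : ZMod p) : A p a (i + j) = A p a i * A p a j := by
  have h1 : i + j = ((i.val + j.val : ℕ) : ZMod p) := by rw [Nat.cast_add, ZMod.natCast_zmod_val, ZMod.natCast_zmod_val]
  rw [h1, A_natCast ha, pow_add]; rfl

theorem A_mul_nat (ha : a ^ p = 1) (i : ZMod p) (n : ℕ) : A p a (i * n) = A p a i ^ n := by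
  have h1 : i * n = ((i.val * n : ℕ) : ZMod p) := by rw [Nat.cast_mul, ZMod.natCast_zmod_val]
  rw [h1, A_natCast ha, pow_mul]; rfl

omit [Fact p.Prime] in
theorem F_eq (a x : G) (j : ZMod p) : F p a x j = A p a j * x * (A p a j)⁻¹ := rfl

theorem A_F (ha : a ^ p = 1) (x : G) (i j : ZMod p) : A p a i * F p a x j * (A p a i)⁻¹ = F p a x (i + j) := by
  rw [F_eq, F_eq, A_add ha]; group

theorem b_A (h : Rels Wb Wt Ww u ρ ε a x k) (hW : WordProp Wb Wt Ww u m r ρ ε ςt ςw) (j : ZMod p) :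
    bb Ww Wb a x k * A p a j * (bb Ww Wb a x k)⁻¹ = A p a (r * j) := by
  have ha := a_pow h hW
  have h1 : A p a (u : ZMod p) = a ^ u := A_natCast ha u
  have h2 : a ^ (u - 1) = A p a (r * u) := by
    rw [← A_natCast ha, Nat.cast_sub hW.hu1, Nat.cast_one]
    congr 1
    linear_combination hW.hur
  have h3 : j = u * (((1 - r) * j).val : ZMod p) := by
    rw [ZMod.natCast_zmod_val, ← mul_assoc, hW.hur, one_mul]
  have h4 := h.r2
  rw [← h1, h2] at h4
  rw [h3, A_mul_nat ha, conj_pow', h4, ← A_mul_nat ha, mul_assoc]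

theorem b_F (h : Rels Wb Wt Ww u ρ ε a x k) (hW : WordProp Wb Wt Ww u m r ρ ε ςt ςw) (j : ZMod p) :
    bb Ww Wb a x k * F p a x j * (bb Ww Wb a x k)⁻¹ = F p a x (r * j) ^ (-ρ) := by
  rw [F_eq, F_eq, ← conj_zpow', ← h.r3, ← b_A h hW]
  group

theorem rel_F (h : Rels Wb Wt Ww u ρ ε a x k) (hW : WordProp Wb Wt Ww u m r ρ ε ςt ςw) : Rel (F p a x) where
  cube i := by
    rw [F_eq, ← conj_pow', h.r1, a_pow h hW]; group
  sq i j hij := by
    have ha := a_pow h hW
    have hsgn : -ρ = 1 ∨ -ρ = -1 := by rcases hW.hρ with h1 | h1 <;> rw [h1] <;> simp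
    have key : ∀ n : ℕ, (F p a x 0 * F p a x (r ^ n)) ^ 2 = 1 := by
      intro n
      induction n with
      | zero => rw [pow_zero, F_zero, F_one]; exact h.r4
      | succ n ih =>
        have h1 : bb Ww Wb a x k * (F p a x 0 * F p a x (r ^ n)) ^ 2 * (bb Ww Wb a x k)⁻¹ =
            bb Ww Wb a x k * 1 * (bb Ww Wb a x k)⁻¹ := by rw [ih]
        rw [conj_pow', mul_one, mul_inv_cancel] at h1
        have h2 : bb Ww Wb a x k * (F p a x 0 * F p a x (r ^ n)) * (bb Ww Wb a x k)⁻¹ =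
            F p a x 0 ^ (-ρ) * F p a x (r ^ (n + 1)) ^ (-ρ) := by
          have e0 := b_F h hW 0
          rw [mul_zero] at e0
          rw [pow_succ', ← b_F h hW, ← e0]
          group
        rw [h2] at h1
        exact sq_sign hsgn h1
    obtain ⟨n, hn⟩ := hW.hr (j - i) (sub_ne_zero.2 hij.symm)
    have h1 : A p a i * (F p a x 0 * F p a x (r ^ n)) ^ 2 * (A p a i)⁻¹ = A p a i * 1 * (A p a i)⁻¹ := by rw [key n]
    rw [conj_pow', mul_one, mul_inv_cancel] at h1
    have h2 : A p a i * (F p a x 0 * F p a x (r ^ n)) * (A p a i)⁻¹ = F p a x i * F p a x j := by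
      have e0 := A_F ha x i 0
      have e1 := A_F ha x i (j - i)
      rw [add_zero] at e0
      rw [add_sub_cancel] at e1
      rw [← e0, ← e1, hn]
      group
    rwa [h2] at h1

theorem tau_F (h : Rels Wb Wt Ww u ρ ε a x k) (hW : WordProp Wb Wt Ww u m r ρ ε ςt ςw) (j : ℕ) (hj : j + 2 ≤ p - 1) :
    tt Wt a x * F p a x (j : ZMod p) * (tt Wt a x)⁻¹ = F p a x ((j + 1 : ℕ) : ZMod p) ^ ςt := by
  have := transfer_eq (rel_F h hW) (W := Wt * FreeGroup.of (j : ZMod p) * Wt⁻¹) (W' := FreeGroup.of ((j + 1 : ℕ) : ZMod p) ^ ςt) (by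
    rw [map_mul, map_mul, map_inv, map_zpow, FreeGroup.lift_apply_of, FreeGroup.lift_apply_of]
    exact hW.ht j hj)
  rwa [map_mul, map_mul, map_inv, map_zpow, FreeGroup.lift_apply_of, FreeGroup.lift_apply_of] at this

theorem w_F (h : Rels Wb Wt Ww u ρ ε a x k) (hW : WordProp Wb Wt Ww u m r ρ ε ςt ςw) :
    FreeGroup.lift (F p a x) Ww * F p a x ((m - p : ℕ) : ZMod p) * (FreeGroup.lift (F p a x) Ww)⁻¹ = x ^ ςw := by
  have := transfer_eq (rel_F h hW) (W := Ww * FreeGroup.of ((m - p : ℕ) : ZMod p) * Ww⁻¹) (W' := FreeGroup.of (0 : ZMod p) ^ ςw) (by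
    rw [map_mul, map_mul, map_inv, map_zpow, FreeGroup.lift_apply_of, FreeGroup.lift_apply_of]
    exact hW.hw)
  rwa [map_mul, map_mul, map_inv, map_zpow, FreeGroup.lift_apply_of, FreeGroup.lift_apply_of, F_zero] at this

theorem wb_F (h : Rels Wb Wt Ww u ρ ε a x k) (hW : WordProp Wb Wt Ww u m r ρ ε ςt ςw) :
    FreeGroup.lift (F p a x) Wb * x * (FreeGroup.lift (F p a x) Wb)⁻¹ = x⁻¹ := by
  have := transfer_eq (rel_F h hW) (W := Wb * FreeGroup.of (0 : ZMod p) * Wb⁻¹) (W' := (FreeGroup.of (0 : ZMod p))⁻¹) (by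
    rw [map_mul, map_mul, map_inv, map_inv, FreeGroup.lift_apply_of]
    have := hW.hb 0
    rwa [mul_zero] at this)
  rwa [map_mul, map_mul, map_inv, map_inv, FreeGroup.lift_apply_of, F_zero] at this

omit [Fact p.Prime] in
theorem eps_sq (hW : WordProp Wb Wt Ww u m r ρ ε ςt ςw) : ε * ε = 1 := by
  have h1 : ρ * ρ = 1 := by rcases hW.hρ with h | h <;> rw [h] <;> norm_num
  rw [hW.hε]
  linear_combination h1 * ςw * ςw + hW.hςw

theorem k_F (h : Rels Wb Wt Ww u ρ ε a x k) (hW : WordProp Wb Wt Ww u m r ρ ε ςt ςw) (j : ℕ) (hj : j + 1 ≤ p - 1) :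
    k * F p a x (j : ZMod p) * k⁻¹ = F p a x (j : ZMod p) ^ ε := by
  induction j with
  | zero => rw [Nat.cast_zero, F_zero]; exact h.r5
  | succ j ih =>
    have ih := ih (by omega)
    have h1 := tau_F h hW j (by omega)
    have h2 : F p a x ((j + 1 : ℕ) : ZMod p) = (tt Wt a x * F p a x (j : ZMod p) * (tt Wt a x)⁻¹) ^ ςt := by
      rw [h1, zpow_sign hW.hςt]
    have h3 : k * (tt Wt a x * F p a x (j : ZMod p) * (tt Wt a x)⁻¹) * k⁻¹ =
        (tt Wt a x * F p a x (j : ZMod p) * (tt Wt a x)⁻¹) ^ ε := by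
      calc k * (tt Wt a x * F p a x (j : ZMod p) * (tt Wt a x)⁻¹) * k⁻¹ =
          (k * tt Wt a x * k⁻¹) * (k * F p a x (j : ZMod p) * k⁻¹) * (k * tt Wt a x * k⁻¹)⁻¹ := by group
        _ = _ := by rw [h.r6, ih, conj_zpow']
    rw [h2, conj_zpow', h3, ← zpow_mul, ← zpow_mul, mul_comm]

/-- the long sequence -/
def Y (ε : ℤ) (a x k : G) (i : ℕ) : G := (a * k) ^ i * x ^ (ε ^ i) * ((a * k) ^ i)⁻¹

theorem Y_zero (ε : ℤ) (a x k : G) : Y ε a x k 0 = x := by simp [Y]

theorem Y_add (ε : ℤ) (a x k : G) (i n : ℕ) : Y ε a x k (i + n) = (a * k) ^ i * (Y ε a x k n) ^ (ε ^ i) * ((a * k) ^ i)⁻¹ := by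
  unfold Y
  rw [← conj_zpow' ((a * k) ^ n), ← zpow_mul, ← pow_add, pow_add (a * k), add_comm n i]
  simp only [mul_assoc, mul_inv_rev]

theorem Y_succ (ε : ℤ) (a x k : G) (i : ℕ) : Y ε a x k (i + 1) = (a * k) * (Y ε a x k i) ^ ε * (a * k)⁻¹ := by
  rw [add_comm, Y_add, pow_one, pow_one]

theorem pow_signs {e : ℤ} (h : e * e = 1) (n : ℕ) : e ^ n = 1 ∨ e ^ n = -1 := by
  rcases sign_mul h with rfl | rfl
  · left; exact one_pow n
  · exact neg_one_pow_eq_or ℤ n

theorem pow_even {e : ℤ} (h : e * e = 1) {n : ℕ} (hn : Even n) : e ^ n = 1 := by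
  obtain ⟨t, rfl⟩ := hn
  rw [pow_add, ← mul_pow, h, one_pow]

theorem Y_F (h : Rels Wb Wt Ww u ρ ε a x k) (hW : WordProp Wb Wt Ww u m r ρ ε ςt ςw) (j : ℕ) (hj : j ≤ p - 1) :
    Y ε a x k j = F p a x (j : ZMod p) := by
  have he := eps_sq hW
  induction j with
  | zero => rw [Y_zero, Nat.cast_zero, F_zero]
  | succ j ih =>
    have ih := ih (by omega)
    have ha := a_pow h hW
    have h1 : F p a x ((j + 1 : ℕ) : ZMod p) = a * F p a x (j : ZMod p) * a⁻¹ := by
      have := A_F ha x 1 (j : ZMod p)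
      rw [show (1 : ZMod p) = ((1 : ℕ) : ZMod p) by simp, A_natCast ha, pow_one] at this
      rw [this, Nat.cast_add, add_comm]
    have h2 := k_F h hW j (by omega)
    rw [Y_succ, ih, h1]
    calc a * k * F p a x (j : ZMod p) ^ ε * (a * k)⁻¹ = a * (k * F p a x (j : ZMod p) ^ ε * k⁻¹) * a⁻¹ := by
          simp only [mul_assoc, mul_inv_rev]
      _ = _ := by rw [conj_zpow', h2, zpow_sign he]

/-- `δ` acts on the sequence as a sign -/
theorem del_Y (h : Rels Wb Wt Ww u ρ ε a x k) (hW : WordProp Wb Wt Ww u m r ρ ε ςt ςw) (i : ℕ) :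
    del Ww a x k * Y ε a x k i * (del Ww a x k)⁻¹ = Y ε a x k i ^ ρ := by
  have he := eps_sq hW
  rcases hW.hρ with h1 | h1
  · have hd := h.r7
    rw [if_pos h1] at hd
    rw [hd, h1]; group
  · have hd := h.r7
    rw [if_neg (by rw [h1]; norm_num)] at hd
    rw [h1]
    induction i with
    | zero =>
      rw [Y_zero]
      have h3 := h.r3
      rw [h1, neg_neg, zpow_one] at h3
      have h4 := wb_F h hW
      rw [bb] at h3
      set w := FreeGroup.lift (F p a x) Wb with hw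
      have h5 : w⁻¹ * x⁻¹ * w = x := by rw [← h4]; group
      have h6 : del Ww a x k * x⁻¹ * (del Ww a x k)⁻¹ = x := by
        calc del Ww a x k * x⁻¹ * (del Ww a x k)⁻¹ = (del Ww a x k * w) * (w⁻¹ * x⁻¹ * w) * (del Ww a x k * w)⁻¹ := by group
          _ = x := by rw [h5, h3]
      calc del Ww a x k * x * (del Ww a x k)⁻¹ = (del Ww a x k * x⁻¹ * (del Ww a x k)⁻¹)⁻¹ := by group
        _ = x ^ (-1 : ℤ) := by rw [h6]; group
    | succ i ih =>
      rw [Y_succ]
      set d := del Ww a x k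
      set g := a * k
      set y := Y ε a x k i
      have h5 : d⁻¹ * (g * y ^ ε * g⁻¹) * d = (g * y ^ ε * g⁻¹)⁻¹ := by
        rw [← hd]
        calc g * d * g⁻¹ * (g * y ^ ε * g⁻¹) * d = g * (d * y ^ ε * d⁻¹) * (d * g⁻¹) * d := by group
          _ = g * (d * y * d⁻¹) ^ ε * g⁻¹ * (g * d * g⁻¹ * d) := by rw [← conj_zpow' d]; group
          _ = g * (y ^ (-1 : ℤ)) ^ ε * g⁻¹ * (d⁻¹ * d) := by rw [ih, hd]
          _ = _ := by group
      calc d * (g * y ^ ε * g⁻¹) * d⁻¹ = d * (g * y ^ ε * g⁻¹)⁻¹⁻¹ * d⁻¹ := by rw [inv_inv]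
        _ = d * (d⁻¹ * (g * y ^ ε * g⁻¹) * d)⁻¹ * d⁻¹ := by rw [h5]
        _ = (g * y ^ ε * g⁻¹) ^ (-1 : ℤ) := by group

omit [Fact p.Prime] in
theorem Y_add_even (hW : WordProp Wb Wt Ww u m r ρ ε ςt ςw) {i : ℕ} (hi : Even i) (n : ℕ) :
    (a * k) ^ i * Y ε a x k n * ((a * k) ^ i)⁻¹ = Y ε a x k (i + n) := by
  rw [Y_add, pow_even (eps_sq hW) hi, zpow_one]

/-- periodicity -/
theorem Y_m (h : Rels Wb Wt Ww u ρ ε a x k) (hW : WordProp Wb Wt Ww u m r ρ ε ςt ςw) : Y ε a x k m = x := by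
  have he := eps_sq hW
  have hp2 : 2 ≤ p := (Fact.out : p.Prime).two_le
  have hpm := hW.hpm
  have hmp := hW.hmp
  have hev : Even (p - 1) := by
    obtain ⟨t, ht⟩ := hW.hodd
    exact ⟨t, by omega⟩
  have h1 := w_F h hW
  rw [← Y_F h hW (m - p) (by omega)] at h1
  set wh := FreeGroup.lift (F p a x) Ww with hwh
  have h2 : ww Ww a x k * Y ε a x k (m - 1) * (ww Ww a x k)⁻¹ = Y ε a x k (p - 1) ^ ςw := by
    have e1 : Y ε a x k (m - 1) = (a * k) ^ (p - 1) * Y ε a x k (m - p) * ((a * k) ^ (p - 1))⁻¹ := by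
      rw [Y_add_even hW hev]; congr 1; omega
    have e2 : Y ε a x k (p - 1) = (a * k) ^ (p - 1) * x * ((a * k) ^ (p - 1))⁻¹ := by
      have := Y_add_even (a := a) (x := x) (k := k) hW hev 0
      rw [Y_zero, add_zero] at this
      exact this.symm
    rw [e1, e2, ← conj_zpow', ← h1, ww, ← hwh]
    group
  have h3 : k * Y ε a x k (m - 1) * k⁻¹ = Y ε a x k (p - 1) ^ ε := by
    have hk : k = del Ww a x k * ww Ww a x k := by rw [del]; group
    calc k * Y ε a x k (m - 1) * k⁻¹ = (del Ww a x k * ww Ww a x k) * Y ε a x k (m - 1) * (del Ww a x k * ww Ww a x k)⁻¹ := by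
          rw [← hk]
      _ = del Ww a x k * (ww Ww a x k * Y ε a x k (m - 1) * (ww Ww a x k)⁻¹) * (del Ww a x k)⁻¹ := by group
      _ = (del Ww a x k * Y ε a x k (p - 1) * (del Ww a x k)⁻¹) ^ ςw := by rw [h2, conj_zpow']
      _ = _ := by rw [del_Y h hW, ← zpow_mul, hW.hε]
  have h4 : a * Y ε a x k (p - 1) * a⁻¹ = x := by
    have ha := a_pow h hW
    rw [Y_F h hW (p - 1) le_rfl]
    have := A_F ha x 1 ((p - 1 : ℕ) : ZMod p)
    rw [show (1 : ZMod p) = ((1 : ℕ) : ZMod p) by simp, A_natCast ha, pow_one, ← Nat.cast_add] at this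
    rw [this, show 1 + (p - 1) = p by omega, ZMod.natCast_self, F_zero]
  have hm : m = (m - 1) + 1 := by omega
  rw [hm, Y_succ]
  calc a * k * Y ε a x k (m - 1) ^ ε * (a * k)⁻¹ = a * (k * Y ε a x k (m - 1) ^ ε * k⁻¹) * a⁻¹ := by
        simp only [mul_assoc, mul_inv_rev]
    _ = a * ((k * Y ε a x k (m - 1) * k⁻¹) ^ ε) * a⁻¹ := by rw [conj_zpow' k]
    _ = x := by rw [h3, zpow_sign he, h4]

theorem Y_add_m (h : Rels Wb Wt Ww u ρ ε a x k) (hW : WordProp Wb Wt Ww u m r ρ ε ςt ςw) (i : ℕ) :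
    Y ε a x k (i + m) = Y ε a x k i := by
  rw [Y_add, Y_m h hW]; rfl

theorem Y_mod (h : Rels Wb Wt Ww u ρ ε a x k) (hW : WordProp Wb Wt Ww u m r ρ ε ςt ςw) (i : ℕ) :
    Y ε a x k i = Y ε a x k (i % m) := by
  conv_lhs => rw [← Nat.mod_add_div i m]
  generalize i / m = t
  induction t with
  | zero => rw [mul_zero, add_zero]
  | succ t ih => rw [mul_add, mul_one, ← add_assoc, Y_add_m h hW, ih]

/-- conjugating a Carmichael relation -/
theorem Y_pair (h : Rels Wb Wt Ww u ρ ε a x k) (hW : WordProp Wb Wt Ww u m r ρ ε ςt ςw) (i d : ℕ) (h1 : 1 ≤ d) (h2 : d ≤ p - 1) :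
    (Y ε a x k i * Y ε a x k (i + d)) ^ 2 = 1 := by
  have he := eps_sq hW
  have hp2 : 2 ≤ p := (Fact.out : p.Prime).two_le
  have e0 : Y ε a x k i = (a * k) ^ i * (Y ε a x k 0) ^ (ε ^ i) * ((a * k) ^ i)⁻¹ := by rw [← Y_add, add_zero]
  rw [Y_add ε a x k i d, e0]
  have h3 : (Y ε a x k 0 * Y ε a x k d) ^ 2 = 1 := by
    rw [Y_F h hW 0 (by omega), Y_F h hW d h2]
    apply (rel_F h hW).sq
    intro h4
    have h5 := congrArg ZMod.val h4
    rw [ZMod.val_natCast, ZMod.val_natCast, Nat.zero_mod, Nat.mod_eq_of_lt (by omega)] at h5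
    omega
  have h4 := sq_sign' (pow_signs he i) h3
  have h5 : (a * k) ^ i * Y ε a x k 0 ^ ε ^ i * ((a * k) ^ i)⁻¹ * ((a * k) ^ i * Y ε a x k d ^ ε ^ i * ((a * k) ^ i)⁻¹) =
      (a * k) ^ i * (Y ε a x k 0 ^ ε ^ i * Y ε a x k d ^ ε ^ i) * ((a * k) ^ i)⁻¹ := by group
  rw [h5, ← conj_pow', h4]; group

theorem rel_Y (h : Rels Wb Wt Ww u ρ ε a x k) (hW : WordProp Wb Wt Ww u m r ρ ε ςt ςw) :
    Rel (fun i : Fin m => Y ε a x k i) where
  cube i := by
    have := (rel_F h hW).cube 0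
    rw [F_zero] at this
    have h3 : ∀ e : ℤ, (x ^ e) ^ 3 = 1 := by
      intro e
      rw [← zpow_natCast, ← zpow_mul, mul_comm, zpow_mul, zpow_natCast, this, one_zpow]
    rw [Y, ← conj_pow', h3]; group
  sq i j hij := by
    have hpm := hW.hpm
    have hmp := hW.hmp
    have key : ∀ i j : Fin m, i < j → (Y ε a x k i * Y ε a x k j) ^ 2 = 1 := by
      intro i j hij
      have hi := i.2
      have hj := j.2
      have hlt : (i : ℕ) < j := hij
      by_cases hd : (j : ℕ) - i ≤ p - 1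
      · have := Y_pair h hW i (j - i) (by omega) hd
        rwa [show (i : ℕ) + (j - i) = j by omega] at this
      · have := Y_pair h hW j (i + m - j) (by omega) (by omega)
        rw [show (j : ℕ) + (i + m - j) = i + m by omega, Y_add_m h hW] at this
        exact sq_comm this
    rcases lt_or_gt_of_ne hij with h1 | h1
    · exact key i j h1
    · exact sq_comm (key j i h1)

/-- the subgroup generated by the long sequence -/
def RR (ε : ℤ) (m : ℕ) (a x k : G) : Subgroup G := Subgroup.closure (Set.range (fun i : Fin m => Y ε a x k i))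

theorem Y_mem (h : Rels Wb Wt Ww u ρ ε a x k) (hW : WordProp Wb Wt Ww u m r ρ ε ςt ςw) (i : ℕ) :
    Y ε a x k i ∈ RR ε m a x k := by
  have hp2 : 2 ≤ p := (Fact.out : p.Prime).two_le
  have hpm := hW.hpm
  rw [Y_mod h hW]
  exact Subgroup.subset_closure ⟨⟨i % m, Nat.mod_lt _ (by omega)⟩, rfl⟩

theorem mem_norm (h : Rels Wb Wt Ww u ρ ε a x k) (hW : WordProp Wb Wt Ww u m r ρ ε ςt ςw) (g : G)
    (h1 : ∀ i, g * Y ε a x k i * g⁻¹ ∈ RR ε m a x k) : g ∈ Subgroup.normalizer (RR ε m a x k : Set G) := by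
  obtain ⟨hfin, -⟩ := bound _ (rel_Y h hW)
  have h2 : (RR ε m a x k).map (MulAut.conj g).toMonoidHom ≤ RR ε m a x k := by
    rw [Subgroup.map_le_iff_le_comap, RR, Subgroup.closure_le]
    rintro _ ⟨i, rfl⟩
    exact h1 i
  have hfin' : Finite (RR ε m a x k) := hfin
  have h3 : (RR ε m a x k).map (MulAut.conj g).toMonoidHom = RR ε m a x k := by
    apply Subgroup.eq_of_le_of_card_ge h2
    exact (Subgroup.card_map_of_injective (MulAut.conj g).injective).ge
  rw [Subgroup.mem_normalizer_iff]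
  intro y
  constructor
  · intro hy
    rw [← h3]
    exact ⟨y, hy, rfl⟩
  · intro hy
    have hy' : g * y * g⁻¹ ∈ (RR ε m a x k).map (MulAut.conj g).toMonoidHom := by rw [h3]; exact hy
    obtain ⟨y', hy'', e⟩ := hy'
    have : y' = y := (MulAut.conj g).injective e
    rw [← this]; exact hy''

theorem g_norm (h : Rels Wb Wt Ww u ρ ε a x k) (hW : WordProp Wb Wt Ww u m r ρ ε ςt ςw) :
    a * k ∈ Subgroup.normalizer (RR ε m a x k : Set G) := by
  apply mem_norm h hW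
  intro i
  have h1 : a * k * Y ε a x k i * (a * k)⁻¹ = Y ε a x k (i + 1) ^ ε := by
    rw [Y_succ, ← conj_zpow', zpow_sign (eps_sq hW)]
  rw [h1]
  exact zpow_mem (Y_mem h hW _) _

theorem lift_F_mem (h : Rels Wb Wt Ww u ρ ε a x k) (hW : WordProp Wb Wt Ww u m r ρ ε ςt ςw) (W : FreeGroup (ZMod p)) :
    FreeGroup.lift (F p a x) W ∈ RR ε m a x k := by
  apply lift_mem
  intro j
  have h1 : j.val ≤ p - 1 := by have := ZMod.val_lt j; omega
  have := Y_F h hW j.val h1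
  rw [ZMod.natCast_zmod_val] at this
  rw [← this]
  exact Y_mem h hW _

theorem w_mem (h : Rels Wb Wt Ww u ρ ε a x k) (hW : WordProp Wb Wt Ww u m r ρ ε ςt ςw) :
    ww Ww a x k ∈ RR ε m a x k := by
  have h1 : (a * k) ^ (p - 1) ∈ Subgroup.normalizer (RR ε m a x k : Set G) := pow_mem (g_norm h hW) _
  exact (Subgroup.mem_normalizer_iff.1 h1 _).1 (lift_F_mem h hW Ww)

theorem normal (h : Rels Wb Wt Ww u ρ ε a x k) (hW : WordProp Wb Wt Ww u m r ρ ε ςt ςw)
    (hgen : Subgroup.closure {a, x, k} = ⊤) : (RR ε m a x k).Normal := by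
  have hx : x ∈ RR ε m a x k := by have := Y_mem h hW 0; rwa [Y_zero] at this
  have hg := g_norm h hW
  have hd : del Ww a x k ∈ Subgroup.normalizer (RR ε m a x k : Set G) := by
    apply mem_norm h hW
    intro i
    rw [del_Y h hW]
    exact zpow_mem (Y_mem h hW _) _
  have hw := Subgroup.le_normalizer (w_mem h hW)
  have hk : k ∈ Subgroup.normalizer (RR ε m a x k : Set G) := by
    have : del Ww a x k * ww Ww a x k = k := by rw [del]; group
    have h2 := mul_mem hd hw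
    rwa [this] at h2
  have ha : a ∈ Subgroup.normalizer (RR ε m a x k : Set G) := by
    have : (a * k) * k⁻¹ = a := by group
    have h2 := mul_mem hg (inv_mem hk)
    rwa [this] at h2
  rw [← Subgroup.normalizer_eq_top_iff, eq_top_iff, ← hgen, Subgroup.closure_le]
  rintro y (rfl | rfl | rfl)
  · exact ha
  · exact Subgroup.le_normalizer hx
  · exact hk

/-- the upper bound -/
theorem card_le (h : Rels Wb Wt Ww u ρ ε a x k) (hW : WordProp Wb Wt Ww u m r ρ ε ςt ςw)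
    (hgen : Subgroup.closure {a, x, k} = ⊤) :
    Finite G ∧ (ρ = 1 → 2 * Nat.card G ≤ (m + 2).factorial) ∧ (ρ = -1 → Nat.card G ≤ (m + 2).factorial) := by
  have hN := normal h hW hgen
  obtain ⟨hfin, hcard⟩ := bound _ (rel_Y h hW)
  have hfin' : Finite (RR ε m a x k) := hfin
  have hcard' : 2 * Nat.card (RR ε m a x k) ≤ (m + 2).factorial := by
    rw [Nat.card_eq_fintype_card (α := Fin m), Fintype.card_fin] at hcard
    exact hcard
  set R := RR ε m a x k with hR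
  let π := QuotientGroup.mk' R
  have h1 : ∀ {y : G}, y ∈ R → π y = 1 := fun {y} hy => (QuotientGroup.eq_one_iff y).2 hy
  have hx : π x = 1 := h1 (by have := Y_mem h hW 0; rwa [Y_zero] at this)
  have hw : π (ww Ww a x k) = 1 := h1 (w_mem h hW)
  have hd : π (del Ww a x k) = π k := by rw [del, map_mul, map_inv, hw, inv_one, mul_one]
  have hb : π (bb Ww Wb a x k) = π k := by rw [bb, map_mul, hd, h1 (lift_F_mem h hW Wb), mul_one]
  have r1 : π a ^ p = 1 := by
    have := congrArg π h.r1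
    rw [map_pow, map_pow, hx, one_pow] at this
    exact this.symm
  have r2 : π k * π a ^ u * (π k)⁻¹ = π a ^ (u - 1) := by
    have := congrArg π h.r2
    rwa [map_mul, map_mul, map_inv, map_pow, map_pow, hb] at this
  -- `k` commutes with `a` and `k ^ 2 = 1`
  have h2 : π k * π k = 1 ∧ π a * π k * (π a)⁻¹ = π k ∧ (ρ = 1 → π k = 1) := by
    rcases hW.hρ with h3 | h3
    · have hk : π k = 1 := by
        have := h.r7
        rw [if_pos h3] at this
        rw [← hd, this, map_one]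
      rw [hk]
      exact ⟨one_mul 1, by group, fun _ => rfl⟩
    · have h4 := h.r7
      rw [if_neg (by rw [h3]; norm_num)] at h4
      have h5 : π a * π k * (π a)⁻¹ = (π k)⁻¹ := by
        have := congrArg π h4
        rw [map_mul, map_mul, map_inv, map_inv, hd, map_mul] at this
        rw [← this]; group
      have h6 : ∀ n : ℕ, Odd n → π a ^ n * π k * (π a ^ n)⁻¹ = (π k)⁻¹ := by
        rintro n ⟨t, rfl⟩
        induction t with
        | zero => simpa using h5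
        | succ t ih =>
          have e : π a ^ (2 * (t + 1) + 1) = π a * π a * π a ^ (2 * t + 1) := by group
          rw [e]
          calc π a * π a * π a ^ (2 * t + 1) * π k * (π a * π a * π a ^ (2 * t + 1))⁻¹ =
              π a * (π a * (π a ^ (2 * t + 1) * π k * (π a ^ (2 * t + 1))⁻¹) * (π a)⁻¹) * (π a)⁻¹ := by group
            _ = π a * (π a * π k * (π a)⁻¹)⁻¹ * (π a)⁻¹ := by rw [ih]; group
            _ = (π k)⁻¹ := by rw [h5, inv_inv, h5]
      have h7 := h6 p hW.hodd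
      rw [r1, one_mul, inv_one, mul_one] at h7
      refine ⟨?_, by rw [h5, ← h7], fun h8 => ?_⟩
      · nth_rewrite 1 [h7]; group
      · rw [h3] at h8; norm_num at h8
  obtain ⟨hkk, hak, hk1⟩ := h2
  have hka : π k * π a * (π k)⁻¹ = π a := by
    rw [mul_inv_eq_iff_eq_mul] at hak ⊢
    exact hak.symm
  have ha : π a = 1 := by
    rw [conj_pow', hka] at r2
    have h3 : u = (u - 1) + 1 := by have := hW.hu1; omega
    rw [h3, pow_succ, Nat.add_sub_cancel] at r2
    exact mul_eq_left.1 r2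
  have hQ : (⊤ : Subgroup (G ⧸ R)) ≤ Subgroup.zpowers (π k) := by
    rw [← (MonoidHom.range_eq_top (f := π)).2 (QuotientGroup.mk'_surjective R), MonoidHom.range_eq_map, ← hgen,
      MonoidHom.map_closure, Subgroup.closure_le]
    rintro _ ⟨y, (rfl | rfl | rfl), rfl⟩
    · rw [ha]; exact one_mem _
    · rw [hx]; exact one_mem _
    · exact Subgroup.mem_zpowers _
  have hfk : IsOfFinOrder (π k) := isOfFinOrder_iff_pow_eq_one.2 ⟨2, by norm_num, by rw [pow_two, hkk]⟩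
  have hfz : Finite (Subgroup.zpowers (π k)) := finite_zpowers.2 hfk
  have htop : Subgroup.zpowers (π k) = ⊤ := top_le_iff.1 hQ
  have hfQ : Finite (G ⧸ R) := by
    have : Finite (⊤ : Subgroup (G ⧸ R)) := by rw [← htop]; exact hfz
    exact Finite.of_equiv _ Subgroup.topEquiv.toEquiv
  have hcQ : Nat.card (G ⧸ R) = orderOf (π k) := by
    rw [← Nat.card_zpowers, htop]
    exact (Nat.card_congr Subgroup.topEquiv.toEquiv).symm
  have hG : Finite G := Finite.of_subgroup_quotient R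
  have hprod : Nat.card G = Nat.card (G ⧸ R) * Nat.card R := Subgroup.card_eq_card_quotient_mul_card_subgroup R
  refine ⟨hG, fun h3 => ?_, fun h3 => ?_⟩
  · rw [hprod, hcQ, hk1 h3, orderOf_one, one_mul]
    exact hcard'
  · have : orderOf (π k) ≤ 2 := orderOf_le_of_pow_eq_one (by norm_num) (by rw [pow_two, hkk])
    rw [hprod, hcQ]
    exact le_trans (Nat.mul_le_mul_right _ this) hcard'

end main

end H43.AltRel
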