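import Cfsg.Agent.Lib.H43.AltFin

/-!
Presentations of the small symmetric and alternating groups.
-/
set_option autoImplicit false

namespace H43.AltSmall

open Equiv H43.Carm H43.AltRel H43.AltVer H43.Tietze H43.AltMain H43.AltFin

/-- order bound for an extension by an involution -/
theorem card_ext {G : Type*} [Group G] {ι : Type*} [Finite ι] {y : ι → G} (hy : Rel y) {x t : G}
    (hgen : Subgroup.closure {x, t} = ⊤) (ht : t * t = 1) (hx : x ∈ Subgroup.closure (Set.range y))
    (hty : ∀ i, t * y i * t⁻¹ ∈ Subgroup.closure (Set.range y)) :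
    Finite G ∧ Nat.card G ≤ (Nat.card ι + 2).factorial := by
  obtain ⟨hfin, hcard⟩ := bound y hy
  set N := Subgroup.closure (Set.range y) with hN
  have h2 : N.map (MulAut.conj t).toMonoidHom ≤ N := by
    rw [Subgroup.map_le_iff_le_comap, hN, Subgroup.closure_le]
    rintro _ ⟨i, rfl⟩
    exact hty i
  have h3 : N.map (MulAut.conj t).toMonoidHom = N := by
    apply Subgroup.eq_of_le_of_card_ge h2
    exact (Subgroup.card_map_of_injective (MulAut.conj t).injective).ge
  have htn : t ∈ Subgroup.normalizer (N : Set G) := by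
    rw [Subgroup.mem_normalizer_iff]
    intro y
    constructor
    · intro hy
      rw [← h3]
      exact ⟨y, hy, rfl⟩
    · intro hy
      have hy' : t * y * t⁻¹ ∈ N.map (MulAut.conj t).toMonoidHom := by rw [h3]; exact hy
      obtain ⟨y', hy'', e⟩ := hy'
      have : y' = y := (MulAut.conj t).injective e
      rw [← this]; exact hy''
  have hnorm : N.Normal := by
    rw [← Subgroup.normalizer_eq_top_iff, eq_top_iff, ← hgen, Subgroup.closure_le]
    rintro z (rfl | rfl)
    · exact Subgroup.le_normalizer hx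
    · exact htn
  let π := QuotientGroup.mk' N
  have hQ : (⊤ : Subgroup (G ⧸ N)) ≤ Subgroup.zpowers (π t) := by
    rw [← (MonoidHom.range_eq_top (f := π)).2 (QuotientGroup.mk'_surjective N), MonoidHom.range_eq_map, ← hgen,
      MonoidHom.map_closure, Subgroup.closure_le]
    rintro _ ⟨y, (rfl | rfl), rfl⟩
    · have : π y = 1 := (QuotientGroup.eq_one_iff y).2 hx
      rw [this]; exact one_mem _
    · exact Subgroup.mem_zpowers _
  have hkk : π t * π t = 1 := by rw [← map_mul, ht, map_one]
  have hfk : IsOfFinOrder (π t) := isOfFinOrder_iff_pow_eq_one.2 ⟨2, by norm_num, by rw [pow_two, hkk]⟩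
  have hfz : Finite (Subgroup.zpowers (π t)) := finite_zpowers.2 hfk
  have htop : Subgroup.zpowers (π t) = ⊤ := top_le_iff.1 hQ
  have hfQ : Finite (G ⧸ N) := by
    have : Finite (⊤ : Subgroup (G ⧸ N)) := by rw [← htop]; exact hfz
    exact Finite.of_equiv _ Subgroup.topEquiv.toEquiv
  have hcQ : Nat.card (G ⧸ N) = orderOf (π t) := by
    rw [← Nat.card_zpowers, htop]
    exact (Nat.card_congr Subgroup.topEquiv.toEquiv).symm
  have hG : Finite G := Finite.of_subgroup_quotient N
  have hprod : Nat.card G = Nat.card (G ⧸ N) * Nat.card N := Subgroup.card_eq_card_quotient_mul_card_subgroup N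
  refine ⟨hG, ?_⟩
  have : orderOf (π t) ≤ 2 := orderOf_le_of_pow_eq_one (by norm_num) (by rw [pow_two, hkk])
  rw [hprod, hcQ]
  exact le_trans (Nat.mul_le_mul_right _ this) hcard

theorem pg_closure (R : Set (FreeGroup (Fin 2))) :
    Subgroup.closure {(PresentedGroup.of 0 : PresentedGroup R), PresentedGroup.of 1} = ⊤ := by
  rw [eq_top_iff, ← PresentedGroup.closure_range_of R, Subgroup.closure_le]
  rintro _ ⟨i, rfl⟩
  apply Subgroup.subset_closure
  fin_cases i <;> simp

theorem pg_lift {R : Set (FreeGroup (Fin 2))} {r : FreeGroup (Fin 2)} (hr : r ∈ R) :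
    FreeGroup.lift (fun i => (PresentedGroup.of i : PresentedGroup R)) r = 1 := by
  have hl : FreeGroup.lift (fun i => (PresentedGroup.of i : PresentedGroup R)) = PresentedGroup.mk R := by
    apply FreeGroup.ext_hom
    intro i
    rw [FreeGroup.lift_apply_of]; rfl
  rw [hl]
  exact PresentedGroup.one_of_mem hr

/-- conclusion in the required form -/
def Two (Γ : Type*) [Group Γ] : Prop := ∃ rels : Finset (FreeGroup (Fin 2)), rels.card ≤ 8 ∧
    Nonempty (PresentedGroup (↑rels : Set (FreeGroup (Fin 2))) ≃* Γ)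

theorem Two.map {Γ Δ : Type*} [Group Γ] [Group Δ] (h : Two Γ) (e : Γ ≃* Δ) : Two Δ := by
  obtain ⟨rels, h1, ⟨f⟩⟩ := h
  exact ⟨rels, h1, ⟨f.trans e⟩⟩

theorem two_of {Γ : Type*} [Group Γ] [Finite Γ] (w : Fin 2 → Γ) (R : Fin 3 → FreeGroup (Fin 2))
    (hgen : Subgroup.closure (Set.range w) = ⊤) (hrel : ∀ i, FreeGroup.lift w (R i) = 1)
    (hbound : ∀ (P : Type) [Group P] (x y : P), Subgroup.closure {x, y} = ⊤ → (∀ i, FreeGroup.lift ![x, y] (R i) = 1) →
      Finite P ∧ Nat.card P ≤ Nat.card Γ) : Two Γ := by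
  classical
  refine ⟨Finset.univ.image R, le_trans (card_image_le 3 R) (by norm_num), ?_⟩
  rw [Finset.coe_image, Finset.coe_univ, Set.image_univ]
  have hb := hbound (PresentedGroup (Set.range R)) (PresentedGroup.of 0) (PresentedGroup.of 1) (pg_closure _) (by
    intro i
    have := pg_lift (R := Set.range R) ⟨i, rfl⟩
    have e : (fun i => (PresentedGroup.of i : PresentedGroup (Set.range R))) =
        ![(PresentedGroup.of 0 : PresentedGroup (Set.range R)), PresentedGroup.of 1] := by
      funext i; fin_cases i <;> rfl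
    rwa [e] at this)
  have hP : Pres w (Set.range R) := pres_of_card hgen (by rintro _ ⟨i, rfl⟩; exact hrel i) hb.1 hb.2
  obtain ⟨e, -⟩ := hP.iso
  exact ⟨e⟩

theorem two_triv {Γ : Type*} [Group Γ] [Finite Γ] [Subsingleton Γ] : Two Γ := by
  apply two_of (fun _ => 1) ![FreeGroup.of 0, FreeGroup.of 1, 1]
  · exact Subsingleton.elim _ _
  · intro i; exact Subsingleton.elim _ _
  · intro P _ x y hg hr
    have h0 := hr 0
    have h1 := hr 1
    change FreeGroup.lift ![x, y] (FreeGroup.of 0) = 1 at h0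
    change FreeGroup.lift ![x, y] (FreeGroup.of 1) = 1 at h1
    rw [FreeGroup.lift_apply_of] at h0 h1
    change x = 1 at h0
    change y = 1 at h1
    rw [h0, h1] at hg
    have hb : (⊥ : Subgroup P) = ⊤ := by
      rw [← hg, Set.pair_eq_singleton]
      exact Subgroup.closure_singleton_one.symm
    have hs : Subsingleton P := ⟨fun a b => by
      have ha : a ∈ (⊥ : Subgroup P) := by rw [hb]; trivial
      have hb' : b ∈ (⊥ : Subgroup P) := by rw [hb]; trivial
      rw [Subgroup.mem_bot.1 ha, Subgroup.mem_bot.1 hb']⟩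
    exact ⟨inferInstance, by rw [Nat.card_of_subsingleton (1 : P), Nat.card_of_subsingleton (1 : Γ)]⟩

theorem card_sym (m : ℕ) : Nat.card (Perm (Fin m ⊕ Fin 2)) = (m + 2).factorial := by
  rw [Nat.card_perm, Nat.card_sum, Nat.card_eq_fintype_card (α := Fin m), Nat.card_eq_fintype_card (α := Fin 2), Fintype.card_fin,
    Fintype.card_fin]

theorem top_of_odd {m : ℕ} {H : Subgroup (Perm (Fin m ⊕ Fin 2))} (hc : ∀ i : Fin m, c3 i ∈ H) {t : Perm (Fin m ⊕ Fin 2)}
    (ht : Perm.sign t = -1) (htH : t ∈ H) : H = ⊤ := by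
  have hA : alternatingGroup (Fin m ⊕ Fin 2) ≤ H := by
    rw [← KK_eq, KK, Subgroup.closure_le]
    rintro _ ⟨i, rfl⟩
    exact hc i
  rw [eq_top_iff]
  rintro y -
  rcases Int.units_eq_one_or (Perm.sign y) with h | h
  · exact hA (Perm.mem_alternatingGroup.2 h)
  · have h2 : y * t ∈ H := by
      apply hA
      rw [Perm.mem_alternatingGroup, map_mul, h, ht]; rfl
    have := mul_mem h2 (inv_mem htH)
    rwa [mul_inv_cancel_right] at this

/-- `S_2` -/
theorem two_sym0 : Two (Perm (Fin 0 ⊕ Fin 2)) := by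
  apply two_of ![1, dd (Fin 0)] ![FreeGroup.of 0, FreeGroup.of 1 * FreeGroup.of 1, 1]
  · rw [closure_range_two]
    exact top_of_odd (fun i => i.elim0) sign_dd (Subgroup.subset_closure (by simp))
  · intro i
    fin_cases i
    · change FreeGroup.lift _ (FreeGroup.of 0) = 1
      rw [FreeGroup.lift_apply_of]; rfl
    · change FreeGroup.lift _ (FreeGroup.of 1 * FreeGroup.of 1) = 1
      rw [map_mul, FreeGroup.lift_apply_of]
      exact dd_mul_dd
    · exact map_one _
  · intro P _ x y hg hr
    have h0 := hr 0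
    have h1 := hr 1
    change FreeGroup.lift ![x, y] (FreeGroup.of 0) = 1 at h0
    change FreeGroup.lift ![x, y] (FreeGroup.of 1 * FreeGroup.of 1) = 1 at h1
    rw [map_mul] at h1
    rw [FreeGroup.lift_apply_of] at h0 h1
    change x = 1 at h0
    change y * y = 1 at h1
    have hrel : Rel (fun i : Fin 0 => (i.elim0 : P)) := ⟨fun i => i.elim0, fun i => i.elim0⟩
    have := card_ext hrel hg h1 (by rw [h0]; exact one_mem _) (fun i => i.elim0)
    rw [card_sym]
    rwa [Nat.card_eq_fintype_card (α := Fin 0), Fintype.card_fin] at this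

/-- `S_3` -/
theorem two_sym1 : Two (Perm (Fin 1 ⊕ Fin 2)) := by
  apply two_of ![c3 0, dd (Fin 1)] ![FreeGroup.of 0 ^ 3, FreeGroup.of 1 * FreeGroup.of 1,
    FreeGroup.of 1 * FreeGroup.of 0 * (FreeGroup.of 1)⁻¹ * FreeGroup.of 0]
  · rw [closure_range_two]
    refine top_of_odd (fun i => ?_) sign_dd (Subgroup.subset_closure (by simp))
    rw [Subsingleton.elim i 0]
    exact Subgroup.subset_closure (by simp)
  · intro i
    fin_cases i
    · change FreeGroup.lift _ (FreeGroup.of 0 ^ 3) = 1
      rw [map_pow, FreeGroup.lift_apply_of]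
      exact rel_c3.cube 0
    · change FreeGroup.lift _ (FreeGroup.of 1 * FreeGroup.of 1) = 1
      rw [map_mul, FreeGroup.lift_apply_of]
      exact dd_mul_dd
    · change FreeGroup.lift _ (FreeGroup.of 1 * FreeGroup.of 0 * (FreeGroup.of 1)⁻¹ * FreeGroup.of 0) = 1
      rw [map_mul, map_mul, map_mul, map_inv, FreeGroup.lift_apply_of, FreeGroup.lift_apply_of]
      change dd (Fin 1) * c3 0 * (dd (Fin 1))⁻¹ * c3 0 = 1
      rw [dd_c3, inv_mul_cancel]
  · intro P _ x y hg hr
    have h0 := hr 0
    have h1 := hr 1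
    have h2 := hr 2
    change FreeGroup.lift ![x, y] (FreeGroup.of 0 ^ 3) = 1 at h0
    change FreeGroup.lift ![x, y] (FreeGroup.of 1 * FreeGroup.of 1) = 1 at h1
    change FreeGroup.lift ![x, y] (FreeGroup.of 1 * FreeGroup.of 0 * (FreeGroup.of 1)⁻¹ * FreeGroup.of 0) = 1 at h2
    rw [map_pow, FreeGroup.lift_apply_of] at h0
    rw [map_mul, FreeGroup.lift_apply_of] at h1
    rw [map_mul, map_mul, map_mul, map_inv, FreeGroup.lift_apply_of, FreeGroup.lift_apply_of] at h2
    change x ^ 3 = 1 at h0
    change y * y = 1 at h1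
    change y * x * y⁻¹ * x = 1 at h2
    have hrel : Rel (fun _ : Fin 1 => x) := ⟨fun _ => h0, fun i j hij => absurd (Subsingleton.elim i j) hij⟩
    have hx : x ∈ Subgroup.closure (Set.range (fun _ : Fin 1 => x)) := Subgroup.subset_closure ⟨0, rfl⟩
    have := card_ext hrel hg h1 hx (fun i => by
      rw [eq_inv_of_mul_eq_one_left h2]; exact inv_mem hx)
    rw [card_sym]
    rwa [Nat.card_eq_fintype_card (α := Fin 1), Fintype.card_fin] at this

/-- the transposition `(0, 1)` -/
def t01 : Perm (Fin 2 ⊕ Fin 2) := Perm.sumCongr (swap 0 1) 1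

theorem t01_c3 : t01 * c3 0 * t01⁻¹ = c3 1 := by
  have := conj_c3 (swap (0 : Fin 2) 1) 1 0
  rw [swap_apply_left, Units.val_one, zpow_one] at this
  exact this

/-- `S_4` -/
theorem two_sym2 : Two (Perm (Fin 2 ⊕ Fin 2)) := by
  apply two_of ![c3 0, t01] ![FreeGroup.of 0 ^ 3, FreeGroup.of 1 * FreeGroup.of 1,
    (FreeGroup.of 0 * (FreeGroup.of 1 * FreeGroup.of 0 * (FreeGroup.of 1)⁻¹)) ^ 2]
  · rw [closure_range_two]
    have h0 : c3 0 ∈ Subgroup.closure {c3 0, t01} := Subgroup.subset_closure (by simp)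
    have h1 : t01 ∈ Subgroup.closure {c3 0, t01} := Subgroup.subset_closure (by simp)
    refine top_of_odd (fun i => ?_) (t := t01) ?_ h1
    · fin_cases i
      · exact h0
      · change c3 1 ∈ _
        rw [← t01_c3]
        exact mul_mem (mul_mem h1 h0) (inv_mem h1)
    · rw [t01, Perm.sign_sumCongr, Perm.sign_one, mul_one, Perm.sign_swap (by decide)]
  · intro i
    fin_cases i
    · change FreeGroup.lift _ (FreeGroup.of 0 ^ 3) = 1
      rw [map_pow, FreeGroup.lift_apply_of]
      exact rel_c3.cube 0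
    · change FreeGroup.lift _ (FreeGroup.of 1 * FreeGroup.of 1) = 1
      rw [map_mul, FreeGroup.lift_apply_of]
      change t01 * t01 = 1
      rw [t01, Perm.sumCongr_mul, swap_mul_self, one_mul, Perm.sumCongr_one]
    · change FreeGroup.lift _ ((FreeGroup.of 0 * (FreeGroup.of 1 * FreeGroup.of 0 * (FreeGroup.of 1)⁻¹)) ^ 2) = 1
      rw [map_pow, map_mul, map_mul, map_mul, map_inv, FreeGroup.lift_apply_of, FreeGroup.lift_apply_of]
      change (c3 0 * (t01 * c3 0 * t01⁻¹)) ^ 2 = 1
      rw [t01_c3]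
      exact rel_c3.sq 0 1 (by decide)
  · intro P _ x y hg hr
    have h0 := hr 0
    have h1 := hr 1
    have h2 := hr 2
    change FreeGroup.lift ![x, y] (FreeGroup.of 0 ^ 3) = 1 at h0
    change FreeGroup.lift ![x, y] (FreeGroup.of 1 * FreeGroup.of 1) = 1 at h1
    change FreeGroup.lift ![x, y] ((FreeGroup.of 0 * (FreeGroup.of 1 * FreeGroup.of 0 * (FreeGroup.of 1)⁻¹)) ^ 2) = 1 at h2
    rw [map_pow, FreeGroup.lift_apply_of] at h0
    rw [map_mul, FreeGroup.lift_apply_of] at h1
    rw [map_pow, map_mul, map_mul, map_mul, map_inv, FreeGroup.lift_apply_of, FreeGroup.lift_apply_of] at h2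
    change x ^ 3 = 1 at h0
    change y * y = 1 at h1
    change (x * (y * x * y⁻¹)) ^ 2 = 1 at h2
    have hrel : Rel ![x, y * x * y⁻¹] := by
      refine ⟨?_, ?_⟩
      · intro i
        fin_cases i
        · exact h0
        · change (y * x * y⁻¹) ^ 3 = 1
          rw [← conj_pow', h0]; group
      · intro i j hij
        fin_cases i <;> fin_cases j
        · exact absurd rfl hij
        · exact h2
        · exact sq_comm h2
        · exact absurd rfl hij
    have hx : x ∈ Subgroup.closure (Set.range ![x, y * x * y⁻¹]) := Subgroup.subset_closure ⟨0, rfl⟩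
    have hyx : y * x * y⁻¹ ∈ Subgroup.closure (Set.range ![x, y * x * y⁻¹]) := Subgroup.subset_closure ⟨1, rfl⟩
    have := card_ext hrel hg h1 hx (fun i => by
      fin_cases i
      · exact hyx
      · change y * (y * x * y⁻¹) * y⁻¹ ∈ _
        have : y * (y * x * y⁻¹) * y⁻¹ = x := by
          calc y * (y * x * y⁻¹) * y⁻¹ = (y * y) * x * (y * y)⁻¹ := by group
            _ = x := by rw [h1]; group
        rw [this]; exact hx)
    rw [card_sym]
    rwa [Nat.card_eq_fintype_card (α := Fin 2), Fintype.card_fin] at this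

theorem card_alt (m : ℕ) : 2 * Nat.card (alternatingGroup (Fin m ⊕ Fin 2)) = (m + 2).factorial := by
  have : Nontrivial (Fin m ⊕ Fin 2) := ⟨Sum.inr 0, Sum.inr 1, by simp⟩
  rw [two_mul_nat_card_alternatingGroup, card_sym]

/-- generator of the alternating group -/
def ca {m : ℕ} (i : Fin m) : alternatingGroup (Fin m ⊕ Fin 2) := ⟨c3 i, Perm.mem_alternatingGroup.2 (sign_c3 i)⟩

theorem ca_top {m : ℕ} {H : Subgroup (alternatingGroup (Fin m ⊕ Fin 2))} (h : ∀ i, ca i ∈ H) : H = ⊤ := by
  rw [eq_top_iff]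
  rintro y -
  have hle : alternatingGroup (Fin m ⊕ Fin 2) ≤ H.map (alternatingGroup _).subtype := by
    refine le_of_eq_of_le KK_eq.symm ?_
    rw [KK, Subgroup.closure_le]
    rintro _ ⟨i, rfl⟩
    exact ⟨ca i, h i, rfl⟩
  obtain ⟨z, hz, hzy⟩ := hle y.2
  have : z = y := Subtype.ext hzy
  rw [← this]; exact hz

/-- `A_3` -/
theorem two_alt1 : Two (alternatingGroup (Fin 1 ⊕ Fin 2)) := by
  apply two_of ![ca 0, 1] ![FreeGroup.of 0 ^ 3, FreeGroup.of 1, 1]
  · rw [closure_range_two]
    refine ca_top (fun i => ?_)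
    rw [Subsingleton.elim i 0]
    exact Subgroup.subset_closure (by simp)
  · intro i
    fin_cases i
    · change FreeGroup.lift _ (FreeGroup.of 0 ^ 3) = 1
      rw [map_pow, FreeGroup.lift_apply_of]
      exact Subtype.ext (rel_c3.cube 0)
    · change FreeGroup.lift _ (FreeGroup.of 1) = 1
      rw [FreeGroup.lift_apply_of]; rfl
    · exact map_one _
  · intro P _ x y hg hr
    have h0 := hr 0
    have h1 := hr 1
    change FreeGroup.lift ![x, y] (FreeGroup.of 0 ^ 3) = 1 at h0
    change FreeGroup.lift ![x, y] (FreeGroup.of 1) = 1 at h1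
    rw [map_pow, FreeGroup.lift_apply_of] at h0
    rw [FreeGroup.lift_apply_of] at h1
    change x ^ 3 = 1 at h0
    change y = 1 at h1
    have hrel : Rel (fun _ : Fin 1 => x) := ⟨fun _ => h0, fun i j hij => absurd (Subsingleton.elim i j) hij⟩
    obtain ⟨hfin, hcard⟩ := bound _ hrel
    have htop : Subgroup.closure (Set.range (fun _ : Fin 1 => x)) = ⊤ := by
      rw [eq_top_iff, ← hg, Subgroup.closure_le]
      rintro z (rfl | rfl)
      · exact Subgroup.subset_closure ⟨0, rfl⟩
      · rw [h1]; exact one_mem _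
    rw [htop] at hfin hcard
    have hP : Finite P := Finite.of_equiv _ Subgroup.topEquiv.toEquiv
    rw [Nat.card_congr Subgroup.topEquiv.toEquiv, Nat.card_eq_fintype_card (α := Fin 1), Fintype.card_fin] at hcard
    have := card_alt 1
    exact ⟨hP, by omega⟩

/-- `A_4` -/
theorem two_alt2 : Two (alternatingGroup (Fin 2 ⊕ Fin 2)) := by
  apply two_of ![ca 0, ca 1] ![FreeGroup.of 0 ^ 3, FreeGroup.of 1 ^ 3, (FreeGroup.of 0 * FreeGroup.of 1) ^ 2]
  · rw [closure_range_two]
    refine ca_top (fun i => ?_)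
    fin_cases i
    · exact Subgroup.subset_closure (by simp)
    · exact Subgroup.subset_closure (by simp)
  · intro i
    fin_cases i
    · change FreeGroup.lift _ (FreeGroup.of 0 ^ 3) = 1
      rw [map_pow, FreeGroup.lift_apply_of]
      exact Subtype.ext (rel_c3.cube 0)
    · change FreeGroup.lift _ (FreeGroup.of 1 ^ 3) = 1
      rw [map_pow, FreeGroup.lift_apply_of]
      exact Subtype.ext (rel_c3.cube 1)
    · change FreeGroup.lift _ ((FreeGroup.of 0 * FreeGroup.of 1) ^ 2) = 1
      rw [map_pow, map_mul, FreeGroup.lift_apply_of, FreeGroup.lift_apply_of]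
      exact Subtype.ext (rel_c3.sq 0 1 (by decide))
  · intro P _ x y hg hr
    have h0 := hr 0
    have h1 := hr 1
    have h2 := hr 2
    change FreeGroup.lift ![x, y] (FreeGroup.of 0 ^ 3) = 1 at h0
    change FreeGroup.lift ![x, y] (FreeGroup.of 1 ^ 3) = 1 at h1
    change FreeGroup.lift ![x, y] ((FreeGroup.of 0 * FreeGroup.of 1) ^ 2) = 1 at h2
    rw [map_pow, FreeGroup.lift_apply_of] at h0 h1
    rw [map_pow, map_mul, FreeGroup.lift_apply_of, FreeGroup.lift_apply_of] at h2
    change x ^ 3 = 1 at h0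
    change y ^ 3 = 1 at h1
    change (x * y) ^ 2 = 1 at h2
    have hrel : Rel ![x, y] := by
      refine ⟨?_, ?_⟩
      · intro i
        fin_cases i
        · exact h0
        · exact h1
      · intro i j hij
        fin_cases i <;> fin_cases j
        · exact absurd rfl hij
        · exact h2
        · exact sq_comm h2
        · exact absurd rfl hij
    obtain ⟨hfin, hcard⟩ := bound _ hrel
    have htop : Subgroup.closure (Set.range ![x, y]) = ⊤ := by rw [closure_range_two, hg]
    rw [htop] at hfin hcard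
    have hP : Finite P := Finite.of_equiv _ Subgroup.topEquiv.toEquiv
    rw [Nat.card_congr Subgroup.topEquiv.toEquiv, Nat.card_eq_fintype_card (α := Fin 2), Fintype.card_fin] at hcard
    have := card_alt 2
    exact ⟨hP, by omega⟩

theorem two_sym (n : ℕ) : Two (Perm (Fin n)) := by
  rcases Nat.lt_or_ge n 5 with h | h
  · interval_cases n
    · exact two_triv
    · exact two_triv
    · exact two_sym0.map (Equiv.permCongrHom (Fintype.equivFinOfCardEq (by simp)))
    · exact two_sym1.map (Equiv.permCongrHom (Fintype.equivFinOfCardEq (by simp)))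
    · exact two_sym2.map (Equiv.permCongrHom (Fintype.equivFinOfCardEq (by simp)))
  · obtain ⟨rels, h1, h2⟩ := (good_sym h).two
    exact ⟨rels, le_trans h1 (by norm_num), h2⟩

theorem two_alt (n : ℕ) : Two (alternatingGroup (Fin n)) := by
  rcases Nat.lt_or_ge n 5 with h | h
  · interval_cases n
    · exact two_triv
    · exact two_triv
    · have : Subsingleton (alternatingGroup (Fin 2)) := by
        have h1 := card_alternatingGroup (α := Fin 2)
        rw [Fintype.card_fin] at h1
        exact Fintype.card_le_one_iff_subsingleton.1 (by rw [h1]; decide)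
      exact two_triv
    · exact two_alt1.map (Equiv.altCongrHom (Fintype.equivFinOfCardEq (by simp)))
    · exact two_alt2.map (Equiv.altCongrHom (Fintype.equivFinOfCardEq (by simp)))
  · obtain ⟨rels, h1, h2⟩ := (good_alt h).two
    exact ⟨rels, le_trans h1 (by norm_num), h2⟩

end H43.AltSmall
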