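import Cfsg.Agent.Lib.H43.Tietze

/-!
Tools for presentations: extension, padding, reindexing, quotients.
-/
set_option autoImplicit false

namespace H43.Tietze

universe u

section
variable {ι : Type*} {Γ : Type*} [Group Γ] {v : ι → Γ} {R : Set (FreeGroup ι)}

/-- universal property -/
theorem Pres.lift_hom (h : Pres v R) {G : Type*} [Group G] (w : ι → G) (hw : ∀ r ∈ R, FreeGroup.lift w r = 1) :
    ∃ f : Γ →* G, ∀ i, f (v i) = w i := by
  obtain ⟨e, he⟩ := h.iso
  refine ⟨(PresentedGroup.toGroup hw).comp e.symm.toMonoidHom, fun i => ?_⟩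
  rw [← he i]
  change PresentedGroup.toGroup hw (e.symm (e _)) = _
  rw [e.symm_apply_apply]
  exact PresentedGroup.toGroup.of hw

/-- criterion: an inverse homomorphism -/
theorem pres_of_hom (hgen : Subgroup.closure (Set.range v) = ⊤) (hrel : ∀ r ∈ R, FreeGroup.lift v r = 1)
    (f : Γ →* PresentedGroup R) (hf : ∀ i, f (v i) = PresentedGroup.of i) : Pres v R := by
  refine ⟨hgen, hrel, fun r hr => ?_⟩
  have h1 : f.comp (FreeGroup.lift v) = PresentedGroup.mk R := by
    apply FreeGroup.ext_hom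
    intro i
    rw [MonoidHom.comp_apply, FreeGroup.lift_apply_of, hf]; rfl
  have h2 := DFunLike.congr_fun h1 r
  rw [MonoidHom.comp_apply, hr, map_one] at h2
  exact (QuotientGroup.eq_one_iff r).1 h2.symm

theorem mk_eq_lift (R : Set (FreeGroup ι)) (r : FreeGroup ι) :
    FreeGroup.lift (fun i => (PresentedGroup.of i : PresentedGroup R)) r = PresentedGroup.mk R r := by
  have hl : FreeGroup.lift (fun i => (PresentedGroup.of i : PresentedGroup R)) = PresentedGroup.mk R := by
    apply FreeGroup.ext_hom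
    intro i
    rw [FreeGroup.lift_apply_of]; rfl
  rw [hl]
end

open Monoid

/-- extending a presentation of a subgroup -/
theorem Pres.extend {ι κ J : Type} {A Γ : Type*} [Group A] [Group Γ] {v : ι → A} {R : Set (FreeGroup ι)} (hA : Pres v R)
    (β : A →* Γ) (y : κ → Γ) (r : J → Coprod A (FreeGroup κ))
    (hgen : Subgroup.closure (Set.range β ∪ Set.range y) = ⊤)
    (hsat : ∀ j, Coprod.lift β (FreeGroup.lift y) (r j) = 1)
    (hcons : ∀ (G : Type) [Group G] (α : A →* G) (z : κ → G), (∀ j, Coprod.lift α (FreeGroup.lift z) (r j) = 1) →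
      ∃ f : Γ →* G, (∀ a, f (β a) = α a) ∧ ∀ k, f (y k) = z k) :
    ∃ W : J → FreeGroup (ι ⊕ κ), Pres (Sum.elim (fun i => β (v i)) y)
      (FreeGroup.map Sum.inl '' R ∪ Set.range W) := by
  let q : FreeGroup (ι ⊕ κ) →* Coprod A (FreeGroup κ) :=
    FreeGroup.lift (Sum.elim (fun i => Coprod.inl (v i)) (fun k => Coprod.inr (FreeGroup.of k)))
  have hq : Function.Surjective q := by
    rw [← MonoidHom.range_eq_top, FreeGroup.range_lift_eq_closure, eq_top_iff]
    set K := Subgroup.closure (Set.range (Sum.elim (fun i => (Coprod.inl (v i) : Coprod A (FreeGroup κ)))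
      (fun k => Coprod.inr (FreeGroup.of k)))) with hK
    have h1 : ∀ a : A, (Coprod.inl a : Coprod A (FreeGroup κ)) ∈ K := by
      intro a
      have : (⊤ : Subgroup A) ≤ K.comap (Coprod.inl : A →* Coprod A (FreeGroup κ)) := by
        rw [← hA.gen, Subgroup.closure_le]
        rintro _ ⟨i, rfl⟩
        exact Subgroup.subset_closure ⟨Sum.inl i, rfl⟩
      exact this (Subgroup.mem_top a)
    have h2 : ∀ a : FreeGroup κ, (Coprod.inr a : Coprod A (FreeGroup κ)) ∈ K := by
      intro a
      have : (⊤ : Subgroup (FreeGroup κ)) ≤ K.comap (Coprod.inr : FreeGroup κ →* Coprod A (FreeGroup κ)) := by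
        rw [← FreeGroup.closure_range_of, Subgroup.closure_le]
        rintro _ ⟨i, rfl⟩
        exact Subgroup.subset_closure ⟨Sum.inr i, rfl⟩
      exact this (Subgroup.mem_top a)
    rintro x -
    induction x using Coprod.induction_on with
    | inl a => exact h1 a
    | inr a => exact h2 a
    | mul x y hx hy => exact mul_mem hx hy
  choose W hW using fun j => hq (r j)
  refine ⟨W, ?_⟩
  have hev : ∀ {G : Type _} [Group G] (α : A →* G) (z : κ → G) (w : FreeGroup (ι ⊕ κ)),
      FreeGroup.lift (Sum.elim (fun i => α (v i)) z) w = Coprod.lift α (FreeGroup.lift z) (q w) := by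
    intro G _ α z w
    have : FreeGroup.lift (Sum.elim (fun i => α (v i)) z) = (Coprod.lift α (FreeGroup.lift z)).comp q := by
      apply FreeGroup.ext_hom
      rintro (i | k)
      · simp [q]
      · simp [q]
    rw [this]; rfl
  have hrel : ∀ s ∈ (FreeGroup.map Sum.inl '' R ∪ Set.range W : Set (FreeGroup (ι ⊕ κ))),
      FreeGroup.lift (Sum.elim (fun i => β (v i)) y) s = 1 := by
    rintro s (⟨s, hs, rfl⟩ | ⟨j, rfl⟩)
    · have : FreeGroup.lift (Sum.elim (fun i => β (v i)) y) (FreeGroup.map Sum.inl s) = β (FreeGroup.lift v s) := by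
        have : (FreeGroup.lift (Sum.elim (fun i => β (v i)) y)).comp (FreeGroup.map Sum.inl) = β.comp (FreeGroup.lift v) := by
          apply FreeGroup.ext_hom
          intro i
          simp
        exact DFunLike.congr_fun this s
      rw [this, hA.rel s hs, map_one]
    · have h1 := hsat j
      rw [← hW j] at h1
      have : FreeGroup.lift (Sum.elim (fun i => β (v i)) y) (W j) = Coprod.lift β (FreeGroup.lift y) (q (W j)) := by
        have : FreeGroup.lift (Sum.elim (fun i => β (v i)) y) = (Coprod.lift β (FreeGroup.lift y)).comp q := by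
          apply FreeGroup.ext_hom
          rintro (i | k)
          · simp [q]
          · simp [q]
        rw [this]; rfl
      rw [this, h1]
  set S : Set (FreeGroup (ι ⊕ κ)) := FreeGroup.map Sum.inl '' R ∪ Set.range W with hS
  let P := PresentedGroup S
  obtain ⟨α, hα⟩ := hA.lift_hom (G := P) (fun i => PresentedGroup.of (Sum.inl i)) (by
    intro s hs
    have h1 : FreeGroup.lift (fun i => (PresentedGroup.of (Sum.inl i) : P)) s = PresentedGroup.mk S (FreeGroup.map Sum.inl s) := by
      have : FreeGroup.lift (fun i => (PresentedGroup.of (Sum.inl i) : P)) = (PresentedGroup.mk S).comp (FreeGroup.map Sum.inl) := by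
        apply FreeGroup.ext_hom
        intro i
        rw [FreeGroup.lift_apply_of, MonoidHom.comp_apply, FreeGroup.map.of]; rfl
      rw [this]; rfl
    rw [h1]
    exact PresentedGroup.one_of_mem (Or.inl ⟨s, hs, rfl⟩))
  let z : κ → P := fun k => PresentedGroup.of (Sum.inr k)
  have hev2 : ∀ w : FreeGroup (ι ⊕ κ), Coprod.lift α (FreeGroup.lift z) (q w) = PresentedGroup.mk S w := by
    intro w
    rw [← hev α z w, ← mk_eq_lift]
    congr 2
    funext i
    rcases i with i | k
    · exact hα i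
    · rfl
  obtain ⟨f, hf1, hf2⟩ := hcons P α z (by
    intro j
    rw [← hW j, hev2]
    exact PresentedGroup.one_of_mem (Or.inr ⟨j, rfl⟩))
  apply pres_of_hom _ hrel f
  · rintro (i | k)
    · exact (hf1 (v i)).trans (hα i)
    · exact hf2 k
  · rw [eq_top_iff, ← hgen, Subgroup.closure_le]
    rintro _ (⟨a, rfl⟩ | ⟨k, rfl⟩)
    · have : (⊤ : Subgroup A) ≤ (Subgroup.closure (Set.range (Sum.elim (fun i => β (v i)) y))).comap β := by
        rw [← hA.gen, Subgroup.closure_le]
        rintro _ ⟨i, rfl⟩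
        exact Subgroup.subset_closure ⟨Sum.inl i, rfl⟩
      exact this (Subgroup.mem_top a)
    · exact Subgroup.subset_closure ⟨Sum.inr k, rfl⟩

/-- adding trivial generators -/
theorem Pres.pad {ι κ : Type*} {Γ : Type*} [Group Γ] {v : ι → Γ} {R : Set (FreeGroup ι)} (h : Pres v R) :
    Pres (Sum.elim v (fun _ : κ => (1 : Γ))) (FreeGroup.map Sum.inl '' R ∪ Set.range (fun k : κ => FreeGroup.of (Sum.inr k))) := by
  set S : Set (FreeGroup (ι ⊕ κ)) := FreeGroup.map Sum.inl '' R ∪ Set.range (fun k : κ => FreeGroup.of (Sum.inr k)) with hS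
  obtain ⟨f, hf⟩ := h.lift_hom (G := PresentedGroup S) (fun i => PresentedGroup.of (Sum.inl i)) (by
    intro s hs
    have h1 : FreeGroup.lift (fun i => (PresentedGroup.of (Sum.inl i) : PresentedGroup S)) s =
        PresentedGroup.mk S (FreeGroup.map Sum.inl s) := by
      have : FreeGroup.lift (fun i => (PresentedGroup.of (Sum.inl i) : PresentedGroup S)) =
          (PresentedGroup.mk S).comp (FreeGroup.map Sum.inl) := by
        apply FreeGroup.ext_hom
        intro i
        rw [FreeGroup.lift_apply_of, MonoidHom.comp_apply, FreeGroup.map.of]; rfl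
      rw [this]; rfl
    rw [h1]
    exact PresentedGroup.one_of_mem (Or.inl ⟨s, hs, rfl⟩))
  apply pres_of_hom _ _ f
  · rintro (i | k)
    · exact hf i
    · change f 1 = _
      rw [map_one]
      exact (PresentedGroup.one_of_mem (rels := S) (Or.inr ⟨k, rfl⟩)).symm
  · rw [eq_top_iff, ← h.gen, Subgroup.closure_le]
    rintro _ ⟨i, rfl⟩
    exact Subgroup.subset_closure ⟨Sum.inl i, rfl⟩
  · rintro s (⟨s, hs, rfl⟩ | ⟨k, rfl⟩)
    · have : (FreeGroup.lift (Sum.elim v (fun _ : κ => (1 : Γ)))).comp (FreeGroup.map Sum.inl) = FreeGroup.lift v := by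
        apply FreeGroup.ext_hom
        intro i
        simp
      have h2 := DFunLike.congr_fun this s
      rw [MonoidHom.comp_apply] at h2
      rw [h2, h.rel s hs]
    · simp

/-- reindexing -/
theorem Pres.reindex {ι κ : Type*} {Γ : Type*} [Group Γ] {v : ι → Γ} {R : Set (FreeGroup ι)} (h : Pres v R) (e : ι ≃ κ) :
    Pres (fun k => v (e.symm k)) (FreeGroup.map e '' R) := by
  set S : Set (FreeGroup κ) := FreeGroup.map e '' R with hS
  obtain ⟨f, hf⟩ := h.lift_hom (G := PresentedGroup S) (fun i => PresentedGroup.of (e i)) (by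
    intro s hs
    have h1 : FreeGroup.lift (fun i => (PresentedGroup.of (e i) : PresentedGroup S)) s =
        PresentedGroup.mk S (FreeGroup.map e s) := by
      have : FreeGroup.lift (fun i => (PresentedGroup.of (e i) : PresentedGroup S)) =
          (PresentedGroup.mk S).comp (FreeGroup.map e) := by
        apply FreeGroup.ext_hom
        intro i
        rw [FreeGroup.lift_apply_of, MonoidHom.comp_apply, FreeGroup.map.of]; rfl
      rw [this]; rfl
    rw [h1]
    exact PresentedGroup.one_of_mem ⟨s, hs, rfl⟩)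
  apply pres_of_hom _ _ f
  · intro k
    rw [hf, e.apply_symm_apply]
  · rw [← h.gen]
    congr 1
    ext x
    constructor
    · rintro ⟨k, rfl⟩; exact ⟨_, rfl⟩
    · rintro ⟨i, rfl⟩; exact ⟨e i, by dsimp only; rw [e.symm_apply_apply]⟩
  · rintro s ⟨s, hs, rfl⟩
    have : (FreeGroup.lift (fun k => v (e.symm k))).comp (FreeGroup.map e) = FreeGroup.lift v := by
      apply FreeGroup.ext_hom
      intro i
      simp
    have h2 := DFunLike.congr_fun this s
    rw [MonoidHom.comp_apply] at h2
    rw [h2, h.rel s hs]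

/-- quotient by a cyclic normal subgroup -/
theorem Pres.quot {ι : Type*} {Γ : Type*} [Group Γ] {v : ι → Γ} {R : Set (FreeGroup ι)} (h : Pres v R)
    (N : Subgroup Γ) [N.Normal] (z : Γ) (hz : N = Subgroup.zpowers z) :
    ∃ W : FreeGroup ι, Pres (fun i => (v i : Γ ⧸ N)) (R ∪ {W}) := by
  obtain ⟨W, hW⟩ := exists_word_of_gen h.gen z
  have hl : ∀ r : FreeGroup ι, FreeGroup.lift (fun i => (v i : Γ ⧸ N)) r = QuotientGroup.mk' N (FreeGroup.lift v r) := by
    intro r
    have : FreeGroup.lift (fun i => (v i : Γ ⧸ N)) = (QuotientGroup.mk' N).comp (FreeGroup.lift v) := by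
      apply FreeGroup.ext_hom
      intro i
      simp
    rw [this]; rfl
  refine ⟨W, ?_, ?_, ?_⟩
  · rw [← FreeGroup.range_lift_eq_closure, MonoidHom.range_eq_top]
    intro x
    obtain ⟨g, rfl⟩ := QuotientGroup.mk'_surjective N x
    obtain ⟨w, rfl⟩ := exists_word_of_gen h.gen g
    exact ⟨w, hl w⟩
  · rintro r (hr | rfl)
    · rw [hl, h.rel r hr, map_one]
    · rw [hl, hW]
      exact (QuotientGroup.eq_one_iff z).2 (by rw [hz]; exact Subgroup.mem_zpowers z)
  · intro r hr
    rw [hl] at hr
    have h1 : FreeGroup.lift v r ∈ N := (QuotientGroup.eq_one_iff _).1 hr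
    rw [hz] at h1
    obtain ⟨k, hk⟩ := h1
    dsimp only at hk
    have h2 : FreeGroup.lift v (r * (W ^ k)⁻¹) = 1 := by
      rw [map_mul, map_inv, map_zpow, hW, hk, mul_inv_cancel]
    have h3 := h.ker _ h2
    have h4 : r * (W ^ k)⁻¹ ∈ Subgroup.normalClosure (R ∪ {W}) := Subgroup.normalClosure_mono Set.subset_union_left h3
    have h50 : W ∈ Subgroup.normalClosure (R ∪ {W}) := Subgroup.subset_normalClosure (Or.inr (Set.mem_singleton W))
    have h5 : W ^ k ∈ Subgroup.normalClosure (R ∪ {W}) := Subgroup.zpow_mem _ h50 k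
    have := mul_mem h4 h5
    rwa [inv_mul_cancel_right] at this

/-- the count version -/
def HasPres (Γ : Type*) [Group Γ] (m k : ℕ) : Prop :=
  ∃ rels : Finset (FreeGroup (Fin m)), rels.card ≤ k ∧ Nonempty (PresentedGroup (↑rels : Set (FreeGroup (Fin m))) ≃* Γ)

theorem ncard_range_le {J : Type*} [Finite J] {α : Type*} (W : J → α) : (Set.range W).ncard ≤ Nat.card J := by
  rw [← Set.image_univ]
  calc _ ≤ (Set.univ : Set J).ncard := Set.ncard_image_le Set.finite_univ
    _ = Nat.card J := Set.ncard_univ J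

theorem Pres.hasPres {ι : Type*} {Γ : Type*} [Group Γ] {v : ι → Γ} {R : Set (FreeGroup ι)} (h : Pres v R) {m k : ℕ}
    (e : ι ≃ Fin m) (hf : R.Finite) (hk : R.ncard ≤ k) : HasPres Γ m k := by
  have h1 := h.reindex e
  have hf1 : (FreeGroup.map e '' R).Finite := hf.image _
  refine ⟨hf1.toFinset, ?_, ?_⟩
  · rw [← Set.ncard_eq_toFinset_card _ hf1]
    exact le_trans (Set.ncard_image_le hf) hk
  · rw [Set.Finite.coe_toFinset]
    obtain ⟨f, -⟩ := h1.iso
    exact ⟨f⟩

theorem HasPres.exists {Γ : Type*} [Group Γ] {m k : ℕ} (h : HasPres Γ m k) :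
    ∃ (v : Fin m → Γ) (R : Set (FreeGroup (Fin m))), R.Finite ∧ R.ncard ≤ k ∧ Pres v R := by
  obtain ⟨rels, h1, ⟨e⟩⟩ := h
  exact ⟨_, _, rels.finite_toSet, by rw [Set.ncard_coe_finset]; exact h1, pres_of_iso e⟩

theorem HasPres.map {Γ Δ : Type*} [Group Γ] [Group Δ] {m k : ℕ} (h : HasPres Γ m k) (e : Γ ≃* Δ) : HasPres Δ m k := by
  obtain ⟨rels, h1, ⟨f⟩⟩ := h
  exact ⟨rels, h1, ⟨f.trans e⟩⟩

theorem HasPres.mono {Γ : Type*} [Group Γ] {m k k' : ℕ} (h : HasPres Γ m k) (hk : k ≤ k') : HasPres Γ m k' := by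
  obtain ⟨rels, h1, h2⟩ := h
  exact ⟨rels, h1.trans hk, h2⟩

theorem HasPres.pad {Γ : Type*} [Group Γ] {m k : ℕ} (h : HasPres Γ m k) (j : ℕ) : HasPres Γ (m + j) (k + j) := by
  obtain ⟨v, R, hf, hk, hP⟩ := h.exists
  have h1 := hP.pad (κ := Fin j)
  apply h1.hasPres finSumFinEquiv ((hf.image _).union (Set.finite_range _))
  calc _ ≤ _ := Set.ncard_union_le _ _
    _ ≤ k + j := by
      apply Nat.add_le_add (le_trans (Set.ncard_image_le hf) hk)
      have := ncard_range_le (fun k : Fin j => (FreeGroup.of (Sum.inr k) : FreeGroup (Fin m ⊕ Fin j)))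
      rwa [Nat.card_eq_fintype_card, Fintype.card_fin] at this

/-- any generating family: `+ m'` relators -/
theorem HasPres.change {Γ : Type*} [Group Γ] {m k : ℕ} (h : HasPres Γ m k) {m' : ℕ} (w : Fin m' → Γ)
    (hw : Subgroup.closure (Set.range w) = ⊤) : HasPres Γ m' (k + m') := by
  obtain ⟨v, R, hf, hk, hP⟩ := h.exists
  choose V hV using fun i => exists_word_of_gen hw (v i)
  choose U hU using fun j => exists_word_of_gen hP.gen (w j)
  let S : Set (FreeGroup (Fin m')) := (FreeGroup.lift V '' R) ∪ Set.range (fun j => (FreeGroup.of j)⁻¹ * FreeGroup.lift V (U j))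
  have h1 : Pres w S := by
    apply hP.change w V hV U hU S
    · rintro s (⟨r, hr, rfl⟩ | ⟨j, rfl⟩)
      · rw [lift_lift]
        have : (fun i => FreeGroup.lift w (V i)) = v := funext hV
        rw [this, hP.rel r hr]
      · rw [map_mul, map_inv, lift_lift]
        have : (fun i => FreeGroup.lift w (V i)) = v := funext hV
        rw [this, hU, FreeGroup.lift_apply_of, inv_mul_cancel]
    · intro r hr
      exact Subgroup.subset_normalClosure (Or.inl ⟨r, hr, rfl⟩)
    · intro j
      exact Subgroup.subset_normalClosure (Or.inr ⟨j, rfl⟩)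
  apply h1.hasPres (Equiv.refl _) ((hf.image _).union (Set.finite_range _))
  calc _ ≤ _ := Set.ncard_union_le _ _
    _ ≤ k + m' := by
      apply Nat.add_le_add (le_trans (Set.ncard_image_le hf) hk)
      have := ncard_range_le (fun j => (FreeGroup.of j)⁻¹ * FreeGroup.lift V (U j))
      rwa [Nat.card_eq_fintype_card, Fintype.card_fin] at this

theorem HasPres.quot {Γ : Type*} [Group Γ] {m k : ℕ} (h : HasPres Γ m k) (N : Subgroup Γ) [N.Normal] (z : Γ)
    (hz : N = Subgroup.zpowers z) : HasPres (Γ ⧸ N) m (k + 1) := by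
  obtain ⟨v, R, hf, hk, hP⟩ := h.exists
  obtain ⟨W, hW⟩ := hP.quot N z hz
  apply hW.hasPres (Equiv.refl _) (hf.union (Set.finite_singleton _))
  calc _ ≤ _ := Set.ncard_union_le _ _
    _ ≤ k + 1 := Nat.add_le_add hk (by rw [Set.ncard_singleton])

end H43.Tietze
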