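import Cfsg.Agent.Lib.H43.AltSmall
import Cfsg.Agent.Lib.H43.PresTools
import Cfsg.Agent.Lib.H60.Tri235

/-!
Transitivity of alternating groups; two-generation of pointwise stabilisers; small presentations.
-/
set_option autoImplicit false

namespace H43.AltTrans

open Equiv H43.Tietze

variable {n : ℕ}

theorem perm_vec {r : ℕ} (x y : Fin r → Fin n) (hx : Function.Injective x) (hy : Function.Injective y) :
    ∃ π : Perm (Fin n), ∀ a, π (x a) = y a := by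
  have h := Equiv.Perm.isMultiplyPretransitive (Fin n) r
  obtain ⟨g, hg⟩ := h.exists_smul_eq ⟨x, hx⟩ ⟨y, hy⟩
  refine ⟨g, fun a => ?_⟩
  exact congrArg (fun f : Fin r ↪ Fin n => f a) hg

theorem vec4_inj {i j k l : Fin n} (h1 : i ≠ j) (h2 : i ≠ k) (h3 : i ≠ l) (h4 : j ≠ k) (h5 : j ≠ l) (h6 : k ≠ l) :
    Function.Injective ![i, j, k, l] := by
  intro a b h
  fin_cases a <;> fin_cases b <;> simp_all

theorem vec5_inj {i j k l m : Fin n} (h1 : i ≠ j) (h2 : i ≠ k) (h3 : i ≠ l) (h4 : j ≠ k) (h5 : j ≠ l) (h6 : k ≠ l)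
    (h7 : i ≠ m) (h8 : j ≠ m) (h9 : k ≠ m) (h10 : l ≠ m) : Function.Injective ![i, j, k, l, m] := by
  intro a b h
  fin_cases a <;> fin_cases b <;> simp_all

/-- base points -/
def o (hn : 4 ≤ n) (a : Fin 4) : Fin n := Fin.castLE hn a

theorem o_inj (hn : 4 ≤ n) : Function.Injective (o hn) := Fin.castLE_injective hn

theorem o_ne (hn : 4 ≤ n) {a b : Fin 4} (h : a ≠ b) : o hn a ≠ o hn b := fun e => h (o_inj hn e)

theorem perm4 (hn : 4 ≤ n) {i j k l : Fin n} (h1 : i ≠ j) (h2 : i ≠ k) (h3 : i ≠ l) (h4 : j ≠ k) (h5 : j ≠ l)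
    (h6 : k ≠ l) : ∃ π : Perm (Fin n), π (o hn 0) = i ∧ π (o hn 1) = j ∧ π (o hn 2) = k ∧ π (o hn 3) = l := by
  obtain ⟨π, hπ⟩ := perm_vec (o hn) ![i, j, k, l] (o_inj hn) (vec4_inj h1 h2 h3 h4 h5 h6)
  exact ⟨π, hπ 0, hπ 1, hπ 2, hπ 3⟩

/-- even or odd with the last two exchanged -/
theorem alt4 (hn : 4 ≤ n) {i j k l : Fin n} (h1 : i ≠ j) (h2 : i ≠ k) (h3 : i ≠ l) (h4 : j ≠ k) (h5 : j ≠ l)
    (h6 : k ≠ l) : ∃ σ : alternatingGroup (Fin n), (σ : Perm (Fin n)) (o hn 0) = i ∧ (σ : Perm (Fin n)) (o hn 1) = j ∧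
      (((σ : Perm (Fin n)) (o hn 2) = k ∧ (σ : Perm (Fin n)) (o hn 3) = l) ∨
        ((σ : Perm (Fin n)) (o hn 2) = l ∧ (σ : Perm (Fin n)) (o hn 3) = k)) := by
  obtain ⟨π, p0, p1, p2, p3⟩ := perm4 hn h1 h2 h3 h4 h5 h6
  rcases Int.units_eq_one_or (Perm.sign π) with h | h
  · exact ⟨⟨π, Perm.mem_alternatingGroup.2 h⟩, p0, p1, Or.inl ⟨p2, p3⟩⟩
  · refine ⟨⟨π * swap (o hn 2) (o hn 3), ?_⟩, ?_, ?_, Or.inr ⟨?_, ?_⟩⟩
    · rw [Perm.mem_alternatingGroup, map_mul, h, Perm.sign_swap (o_ne hn (by decide))]; rfl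
    · change π (swap (o hn 2) (o hn 3) (o hn 0)) = i
      rw [swap_apply_of_ne_of_ne (o_ne hn (by decide)) (o_ne hn (by decide)), p0]
    · change π (swap (o hn 2) (o hn 3) (o hn 1)) = j
      rw [swap_apply_of_ne_of_ne (o_ne hn (by decide)) (o_ne hn (by decide)), p1]
    · change π (swap (o hn 2) (o hn 3) (o hn 2)) = l
      rw [swap_apply_left, p3]
    · change π (swap (o hn 2) (o hn 3) (o hn 3)) = k
      rw [swap_apply_right, p2]

/-- even or odd with the first two exchanged -/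
theorem alt4' (hn : 4 ≤ n) {i j k l : Fin n} (h1 : i ≠ j) (h2 : i ≠ k) (h3 : i ≠ l) (h4 : j ≠ k) (h5 : j ≠ l)
    (h6 : k ≠ l) : ∃ σ : alternatingGroup (Fin n), (σ : Perm (Fin n)) (o hn 2) = k ∧ (σ : Perm (Fin n)) (o hn 3) = l ∧
      (((σ : Perm (Fin n)) (o hn 0) = i ∧ (σ : Perm (Fin n)) (o hn 1) = j) ∨
        ((σ : Perm (Fin n)) (o hn 0) = j ∧ (σ : Perm (Fin n)) (o hn 1) = i)) := by
  obtain ⟨π, p0, p1, p2, p3⟩ := perm4 hn h1 h2 h3 h4 h5 h6
  rcases Int.units_eq_one_or (Perm.sign π) with h | h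
  · exact ⟨⟨π, Perm.mem_alternatingGroup.2 h⟩, p2, p3, Or.inl ⟨p0, p1⟩⟩
  · refine ⟨⟨π * swap (o hn 0) (o hn 1), ?_⟩, ?_, ?_, Or.inr ⟨?_, ?_⟩⟩
    · rw [Perm.mem_alternatingGroup, map_mul, h, Perm.sign_swap (o_ne hn (by decide))]; rfl
    · change π (swap (o hn 0) (o hn 1) (o hn 2)) = k
      rw [swap_apply_of_ne_of_ne (o_ne hn (by decide)) (o_ne hn (by decide)), p2]
    · change π (swap (o hn 0) (o hn 1) (o hn 3)) = l
      rw [swap_apply_of_ne_of_ne (o_ne hn (by decide)) (o_ne hn (by decide)), p3]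
    · change π (swap (o hn 0) (o hn 1) (o hn 0)) = j
      rw [swap_apply_left, p1]
    · change π (swap (o hn 0) (o hn 1) (o hn 1)) = i
      rw [swap_apply_right, p0]

/-- a fifth point -/
def o4 (hn : 5 ≤ n) : Fin n := Fin.castLE hn 4

theorem o4_ne (hn : 5 ≤ n) (a : Fin 4) : o (by omega : 4 ≤ n) a ≠ o4 hn := by
  intro e
  have := congrArg Fin.val e
  simp [o, o4] at this
  omega

/-- transitivity on triples, exact, for `n ≥ 5` -/
theorem alt3 (hn : 5 ≤ n) {i j k : Fin n} (h1 : i ≠ j) (h2 : i ≠ k) (h4 : j ≠ k) :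
    ∃ σ : alternatingGroup (Fin n), (σ : Perm (Fin n)) (o (by omega) 0) = i ∧ (σ : Perm (Fin n)) (o (by omega) 1) = j ∧
      (σ : Perm (Fin n)) (o (by omega) 2) = k := by
  have hn4 : 4 ≤ n := by omega
  obtain ⟨π, hπ⟩ := perm_vec (fun a : Fin 3 => o hn4 (Fin.castSucc a)) ![i, j, k]
    (fun a b h => Fin.castSucc_injective _ (o_inj hn4 h)) (by
      intro a b h
      fin_cases a <;> fin_cases b <;> simp_all)
  have p0 : π (o hn4 0) = i := hπ 0
  have p1 : π (o hn4 1) = j := hπ 1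
  have p2 : π (o hn4 2) = k := hπ 2
  rcases Int.units_eq_one_or (Perm.sign π) with h | h
  · exact ⟨⟨π, Perm.mem_alternatingGroup.2 h⟩, p0, p1, p2⟩
  · refine ⟨⟨π * swap (o hn4 3) (o4 hn), ?_⟩, ?_, ?_, ?_⟩
    · rw [Perm.mem_alternatingGroup, map_mul, h, Perm.sign_swap (o4_ne hn 3)]; rfl
    · change π (swap (o hn4 3) (o4 hn) (o hn4 0)) = i
      rw [swap_apply_of_ne_of_ne (o_ne hn4 (by decide)) (o4_ne hn 0), p0]
    · change π (swap (o hn4 3) (o4 hn) (o hn4 1)) = j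
      rw [swap_apply_of_ne_of_ne (o_ne hn4 (by decide)) (o4_ne hn 1), p1]
    · change π (swap (o hn4 3) (o4 hn) (o hn4 2)) = k
      rw [swap_apply_of_ne_of_ne (o_ne hn4 (by decide)) (o4_ne hn 2), p2]

/-- quadruples for `n ≥ 5` : either exact, or with the third, resp. the fourth, replaced by any fifth point -/
theorem alt5 (hn : 5 ≤ n) {i j k l m : Fin n} (h1 : i ≠ j) (h2 : i ≠ k) (h3 : i ≠ l) (h4 : j ≠ k) (h5 : j ≠ l)
    (h6 : k ≠ l) (h7 : i ≠ m) (h8 : j ≠ m) (h9 : k ≠ m) (h10 : l ≠ m) :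
    (∃ σ : alternatingGroup (Fin n), (σ : Perm (Fin n)) (o (by omega) 0) = i ∧ (σ : Perm (Fin n)) (o (by omega) 1) = j ∧
      (σ : Perm (Fin n)) (o (by omega) 2) = k ∧ (σ : Perm (Fin n)) (o (by omega) 3) = l) ∨
    ((∃ σ : alternatingGroup (Fin n), (σ : Perm (Fin n)) (o (by omega) 0) = i ∧ (σ : Perm (Fin n)) (o (by omega) 1) = j ∧
      (σ : Perm (Fin n)) (o (by omega) 2) = k ∧ (σ : Perm (Fin n)) (o (by omega) 3) = m) ∧
     (∃ σ : alternatingGroup (Fin n), (σ : Perm (Fin n)) (o (by omega) 0) = i ∧ (σ : Perm (Fin n)) (o (by omega) 1) = j ∧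
      (σ : Perm (Fin n)) (o (by omega) 2) = m ∧ (σ : Perm (Fin n)) (o (by omega) 3) = l)) := by
  have hn4 : 4 ≤ n := by omega
  obtain ⟨π, hπ⟩ := perm_vec (Fin.castLE hn) ![i, j, k, l, m] (Fin.castLE_injective hn)
    (vec5_inj h1 h2 h3 h4 h5 h6 h7 h8 h9 h10)
  have p0 : π (o hn4 0) = i := hπ 0
  have p1 : π (o hn4 1) = j := hπ 1
  have p2 : π (o hn4 2) = k := hπ 2
  have p3 : π (o hn4 3) = l := hπ 3
  have p4 : π (o4 hn) = m := hπ 4
  rcases Int.units_eq_one_or (Perm.sign π) with h | h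
  · exact Or.inl ⟨⟨π, Perm.mem_alternatingGroup.2 h⟩, p0, p1, p2, p3⟩
  · right
    constructor
    · refine ⟨⟨π * swap (o hn4 3) (o4 hn), ?_⟩, ?_, ?_, ?_, ?_⟩
      · rw [Perm.mem_alternatingGroup, map_mul, h, Perm.sign_swap (o4_ne hn 3)]; rfl
      · change π (swap (o hn4 3) (o4 hn) (o hn4 0)) = i
        rw [swap_apply_of_ne_of_ne (o_ne hn4 (by decide)) (o4_ne hn 0), p0]
      · change π (swap (o hn4 3) (o4 hn) (o hn4 1)) = j
        rw [swap_apply_of_ne_of_ne (o_ne hn4 (by decide)) (o4_ne hn 1), p1]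
      · change π (swap (o hn4 3) (o4 hn) (o hn4 2)) = k
        rw [swap_apply_of_ne_of_ne (o_ne hn4 (by decide)) (o4_ne hn 2), p2]
      · change π (swap (o hn4 3) (o4 hn) (o hn4 3)) = m
        rw [swap_apply_left, p4]
    · refine ⟨⟨π * swap (o hn4 2) (o4 hn), ?_⟩, ?_, ?_, ?_, ?_⟩
      · rw [Perm.mem_alternatingGroup, map_mul, h, Perm.sign_swap (o4_ne hn 2)]; rfl
      · change π (swap (o hn4 2) (o4 hn) (o hn4 0)) = i
        rw [swap_apply_of_ne_of_ne (o_ne hn4 (by decide)) (o4_ne hn 0), p0]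
      · change π (swap (o hn4 2) (o4 hn) (o hn4 1)) = j
        rw [swap_apply_of_ne_of_ne (o_ne hn4 (by decide)) (o4_ne hn 1), p1]
      · change π (swap (o hn4 2) (o4 hn) (o hn4 2)) = m
        rw [swap_apply_left, p4]
      · change π (swap (o hn4 2) (o4 hn) (o hn4 3)) = l
        rw [swap_apply_of_ne_of_ne (o_ne hn4 (by decide)) (o4_ne hn 3), p3]

/-- alternating groups are two-generated -/
theorem gen2 (α : Type) [Fintype α] [DecidableEq α] :
    ∃ a b : alternatingGroup α, Subgroup.closure {a, b} = ⊤ := by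
  have h : HasPres (alternatingGroup (Fin (Fintype.card α))) 2 8 := H43.AltSmall.two_alt _
  have h' : HasPres (alternatingGroup α) 2 8 := h.map (Equiv.altCongrHom (Fintype.equivFin α).symm)
  obtain ⟨v, R, -, -, hP⟩ := h'.exists
  refine ⟨v 0, v 1, ?_⟩
  rw [← hP.gen]
  congr 1
  ext x
  constructor
  · rintro (rfl | rfl)
    · exact ⟨0, rfl⟩
    · exact ⟨1, rfl⟩
  · rintro ⟨i, rfl⟩
    fin_cases i
    · left; rfl
    · right; rfl

/-- two-generation of the pointwise stabiliser of two points -/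
theorem stab_gen2 (hn : 4 ≤ n) : ∃ a b : alternatingGroup (Fin n),
    ((a : Perm (Fin n)) (o hn 0) = o hn 0 ∧ (a : Perm (Fin n)) (o hn 1) = o hn 1) ∧
    ((b : Perm (Fin n)) (o hn 0) = o hn 0 ∧ (b : Perm (Fin n)) (o hn 1) = o hn 1) ∧
    ∀ σ : alternatingGroup (Fin n), (σ : Perm (Fin n)) (o hn 0) = o hn 0 → (σ : Perm (Fin n)) (o hn 1) = o hn 1 →
      σ ∈ Subgroup.closure {a, b} := by
  let q : Fin n → Prop := fun k => k ≠ o hn 0 ∧ k ≠ o hn 1
  let j : alternatingGroup {k // q k} →* alternatingGroup (Fin n) :=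
    { toFun := fun τ => ⟨Perm.ofSubtype (τ : Perm {k // q k}), by
        rw [Perm.mem_alternatingGroup, Perm.sign_ofSubtype]; exact Perm.mem_alternatingGroup.1 τ.2⟩
      map_one' := Subtype.ext (map_one _)
      map_mul' := fun _ _ => Subtype.ext (map_mul _ _ _) }
  have hj : ∀ τ : alternatingGroup {k // q k}, ((j τ : alternatingGroup (Fin n)) : Perm (Fin n)) (o hn 0) = o hn 0 ∧
      ((j τ : alternatingGroup (Fin n)) : Perm (Fin n)) (o hn 1) = o hn 1 := by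
    intro τ
    constructor
    · exact Perm.ofSubtype_apply_of_not_mem _ (fun h => h.1 rfl)
    · exact Perm.ofSubtype_apply_of_not_mem _ (fun h => h.2 rfl)
  obtain ⟨a, b, hab⟩ := gen2 {k // q k}
  refine ⟨j a, j b, hj a, hj b, ?_⟩
  intro σ h0 h1
  have hq : ∀ x, q x ↔ q ((σ : Perm (Fin n)) x) := by
    intro x
    have e0 : ∀ y, (σ : Perm (Fin n)) y = o hn 0 ↔ y = o hn 0 := fun y => by
      constructor
      · intro h; apply (σ : Perm (Fin n)).injective; rw [h, h0]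
      · rintro rfl; exact h0
    have e1 : ∀ y, (σ : Perm (Fin n)) y = o hn 1 ↔ y = o hn 1 := fun y => by
      constructor
      · intro h; apply (σ : Perm (Fin n)).injective; rw [h, h1]
      · rintro rfl; exact h1
    change (x ≠ _ ∧ x ≠ _) ↔ (_ ≠ _ ∧ _ ≠ _)
    rw [Ne, Ne, Ne, Ne, e0, e1]
  let τ : Perm {k // q k} := Perm.subtypePerm (σ : Perm (Fin n)) (fun x => (hq x).symm)
  have hτ : Perm.ofSubtype τ = (σ : Perm (Fin n)) := by
    apply Perm.ofSubtype_subtypePerm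
    intro x hx
    by_contra hc
    have : x = o hn 0 ∨ x = o hn 1 := by
      by_contra h; push Not at h; exact hc ⟨h.1, h.2⟩
    rcases this with rfl | rfl
    · exact hx h0
    · exact hx h1
  have hτe : Perm.sign τ = 1 := by
    rw [← Perm.sign_ofSubtype, hτ]; exact Perm.mem_alternatingGroup.1 σ.2
  have hσ : σ = j ⟨τ, Perm.mem_alternatingGroup.2 hτe⟩ := Subtype.ext hτ.symm
  have hmem : (⟨τ, Perm.mem_alternatingGroup.2 hτe⟩ : alternatingGroup {k // q k}) ∈ Subgroup.closure {a, b} := by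
    rw [hab]; trivial
  rw [hσ]
  have : Subgroup.closure {j a, j b} = (Subgroup.closure {a, b}).map j := by
    rw [MonoidHom.map_closure, Set.image_pair]
  rw [this]
  exact ⟨_, hmem, rfl⟩

end H43.AltTrans
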