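import Cfsg.Agent.Lib.H43.AltRel

/-!
The permutations satisfying the seven relations.
-/
set_option autoImplicit false

namespace H43.AltVer

open Equiv H43.Carm H43.AltRel

section general
variable {ι κ : Type*} [DecidableEq ι] [DecidableEq κ]

theorem conj_c3 (π : Perm ι) (e : ℤˣ) (j : ι) :
    Perm.sumCongr π (sw2 e) * c3 j * (Perm.sumCongr π (sw2 e))⁻¹ = c3 (π j) ^ (e : ℤ) := by
  have h1 : Perm.sumCongr π (1 : Perm (Fin 2)) * c3 j * (Perm.sumCongr π (1 : Perm (Fin 2)))⁻¹ = c3 (π j) := by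
    rw [mul_inv_eq_iff_eq_mul]
    ext y
    simp only [Perm.mul_apply]
    rcases y with l | l
    · by_cases h : l = j
      · subst h
        simp
      · have : π l ≠ π j := fun e => h (π.injective e)
        simp [c3_ne h, c3_ne this]
    · fin_cases l <;> simp
  have h2 : Perm.sumCongr π (sw2 e) = Perm.sumCongr 1 (sw2 e) * Perm.sumCongr π (1 : Perm (Fin 2)) := by
    rw [Perm.sumCongr_mul, one_mul, mul_one]
  rw [h2, mul_inv_rev]
  have h3 : Perm.sumCongr 1 (sw2 e) * Perm.sumCongr π (1 : Perm (Fin 2)) * c3 j * ((Perm.sumCongr π (1 : Perm (Fin 2)))⁻¹ * (Perm.sumCongr 1 (sw2 e))⁻¹) =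
      Perm.sumCongr 1 (sw2 e) * (Perm.sumCongr π (1 : Perm (Fin 2)) * c3 j * (Perm.sumCongr π (1 : Perm (Fin 2)))⁻¹) * (Perm.sumCongr 1 (sw2 e))⁻¹ := by
    simp only [mul_assoc]
  rw [h3, h1]
  rcases Int.units_eq_one_or e with rfl | rfl
  · have : sw2 1 = 1 := rfl
    rw [this, Perm.sumCongr_one, one_mul, inv_one, mul_one, Units.val_one, zpow_one]
  · have : sw2 (-1) = swap 0 1 := rfl
    rw [this]
    change dd ι * c3 (π j) * (dd ι)⁻¹ = _
    rw [dd_c3]
    simp

variable [Fintype ι]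

/-- the even permutation attached to a permutation -/
def th (π : Perm ι) : Perm (ι ⊕ Fin 2) := Perm.sumCongr π (sw2 (Perm.sign π))

theorem sign_th (π : Perm ι) : Perm.sign (th π) = 1 := by
  rw [th, Perm.sign_sumCongr, sign_sw2]
  exact Int.units_mul_self _

/-- embedding of permutation groups -/
noncomputable def em (e : ι ↪ κ) : Perm (ι ⊕ Fin 2) →* Perm (κ ⊕ Fin 2) :=
  Perm.viaEmbeddingHom (e.sumMap (Function.Embedding.refl (Fin 2)))

omit [DecidableEq ι] [DecidableEq κ] [Fintype ι] in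
theorem em_inl (e : ι ↪ κ) (g : Perm (ι ⊕ Fin 2)) (i : ι) :
    em e g (Sum.inl (e i)) = Sum.map e id (g (Sum.inl i)) :=
  Perm.viaEmbedding_apply g (e.sumMap (Function.Embedding.refl (Fin 2))) (Sum.inl i)

omit [DecidableEq ι] [DecidableEq κ] [Fintype ι] in
theorem em_inr (e : ι ↪ κ) (g : Perm (ι ⊕ Fin 2)) (i : Fin 2) :
    em e g (Sum.inr i) = Sum.map e id (g (Sum.inr i)) :=
  Perm.viaEmbedding_apply g (e.sumMap (Function.Embedding.refl (Fin 2))) (Sum.inr i)

omit [DecidableEq ι] [DecidableEq κ] [Fintype ι] in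
theorem em_not (e : ι ↪ κ) (g : Perm (ι ⊕ Fin 2)) (j : κ) (hj : ∀ i, e i ≠ j) :
    em e g (Sum.inl j) = Sum.inl j := by
  apply Perm.viaEmbedding_apply_of_notMem
  rintro ⟨y, hy⟩
  rcases y with y | y
  · exact hj y (Sum.inl_injective hy)
  · exact absurd hy (by simp [Function.Embedding.sumMap])

omit [Fintype ι] in
theorem em_c3 (e : ι ↪ κ) (i : ι) : em e (c3 i) = c3 (e i) := by
  ext y
  rcases y with j | j
  · by_cases h : ∃ l, e l = j
    · obtain ⟨l, rfl⟩ := h
      rw [em_inl]
      by_cases h2 : l = i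
      · subst h2; simp
      · rw [c3_ne h2, c3_ne (fun e' => h2 (e.injective e'))]; rfl
    · push Not at h
      rw [em_not e _ _ h, c3_ne (fun e' => h i e'.symm)]
  · rw [em_inr]
    fin_cases j
    · simp
    · simp

/-- embedding on the permutations themselves -/
noncomputable def em' (e : ι ↪ κ) : Perm ι →* Perm κ := Perm.viaEmbeddingHom e

omit [DecidableEq ι] [DecidableEq κ] [Fintype ι] in
theorem em'_apply (e : ι ↪ κ) (g : Perm ι) (i : ι) : em' e g (e i) = e (g i) := Perm.viaEmbedding_apply g e i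

omit [DecidableEq ι] [DecidableEq κ] [Fintype ι] in
theorem em'_not (e : ι ↪ κ) (g : Perm ι) (j : κ) (hj : ∀ i, e i ≠ j) : em' e g j = j := by
  apply Perm.viaEmbedding_apply_of_notMem
  rintro ⟨y, hy⟩
  exact hj y hy

omit [DecidableEq ι] [DecidableEq κ] [Fintype ι] in
theorem em_sumCongr (e : ι ↪ κ) (π : Perm ι) (s : Perm (Fin 2)) :
    em e (Perm.sumCongr π s) = Perm.sumCongr (em' e π) s := by
  ext y
  rcases y with j | j
  · by_cases h : ∃ l, e l = j
    · obtain ⟨l, rfl⟩ := h
      rw [em_inl]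
      change Sum.inl (e (π l)) = Sum.inl (em' e π (e l))
      rw [em'_apply]
    · push Not at h
      rw [em_not e _ _ h]
      change Sum.inl j = Sum.inl (em' e π j)
      rw [em'_not e π j h]
  · rw [em_inr]; rfl

omit [Fintype ι] in
theorem lift_em (e : ι ↪ κ) (W : FreeGroup ι) :
    FreeGroup.lift (fun i => c3 (e i) : ι → Perm (κ ⊕ Fin 2)) W = em e (FreeGroup.lift c3 W) := by
  have : FreeGroup.lift (fun i => c3 (e i) : ι → Perm (κ ⊕ Fin 2)) = (em e).comp (FreeGroup.lift c3) := by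
    apply FreeGroup.ext_hom
    intro i
    rw [FreeGroup.lift_apply_of, MonoidHom.comp_apply, FreeGroup.lift_apply_of, em_c3]
  rw [this]; rfl

end general

section cyc

def cf (l j : ℕ) : ℕ := if j < l then j + 1 else if j = l then 0 else j
def ci (l j : ℕ) : ℕ := if j = 0 then l else if j ≤ l then j - 1 else j

theorem ci_cf (l j : ℕ) : ci l (cf l j) = j := by
  rcases lt_trichotomy j l with h | h | h
  · have : cf l j = j + 1 := if_pos h
    rw [this, ci, if_neg (by omega), if_pos (by omega)]; omega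
  · have : cf l j = 0 := by rw [cf, if_neg (by omega), if_pos h]
    rw [this, ci]; split_ifs <;> omega
  · have : cf l j = j := by rw [cf, if_neg (by omega), if_neg (by omega)]
    rw [this, ci]; split_ifs <;> omega

theorem cf_ci (l j : ℕ) : cf l (ci l j) = j := by
  rcases Nat.eq_zero_or_pos j with h | h
  · have : ci l j = l := if_pos h
    rw [this, cf]; split_ifs <;> omega
  · by_cases h2 : j ≤ l
    · have : ci l j = j - 1 := by rw [ci, if_neg (by omega), if_pos h2]
      rw [this, cf]; split_ifs <;> omega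
    · have : ci l j = j := by rw [ci, if_neg (by omega), if_neg (by omega)]
      rw [this, cf]; split_ifs <;> omega

theorem cf_lt {n l j : ℕ} (hl : l < n) (hj : j < n) : cf l j < n := by
  unfold cf; split_ifs <;> omega

theorem ci_lt {n l j : ℕ} (hl : l < n) (hj : j < n) : ci l j < n := by
  unfold ci; split_ifs <;> omega

/-- the cycle `0 → 1 → ... → l → 0` on `ZMod n` -/
def cyc (n l : ℕ) [NeZero n] (hl : l < n) : Perm (ZMod n) where
  toFun z := (cf l z.val : ZMod n)
  invFun z := (ci l z.val : ZMod n)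
  left_inv z := by
    dsimp only
    rw [ZMod.val_natCast, Nat.mod_eq_of_lt (cf_lt hl (ZMod.val_lt z)), ci_cf, ZMod.natCast_zmod_val]
  right_inv z := by
    dsimp only
    rw [ZMod.val_natCast, Nat.mod_eq_of_lt (ci_lt hl (ZMod.val_lt z)), cf_ci, ZMod.natCast_zmod_val]

variable {n l : ℕ} [NeZero n] {hl : l < n}

theorem cyc_natCast {j : ℕ} (hj : j < n) : cyc n l hl (j : ZMod n) = (cf l j : ZMod n) := by
  change ((cf l (j : ZMod n).val : ℕ) : ZMod n) = _
  rw [ZMod.val_natCast, Nat.mod_eq_of_lt hj]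

theorem cyc_lt {j : ℕ} (hj : j < l) : cyc n l hl (j : ZMod n) = ((j + 1 : ℕ) : ZMod n) := by
  rw [cyc_natCast (by omega), cf, if_pos hj]

theorem cyc_eq : cyc n l hl (l : ZMod n) = 0 := by
  rw [cyc_natCast hl, cf, if_neg (lt_irrefl l), if_pos rfl, Nat.cast_zero]

theorem cyc_gt {j : ℕ} (hj : l < j) (hn : j < n) : cyc n l hl (j : ZMod n) = (j : ZMod n) := by
  rw [cyc_natCast hn, cf, if_neg (by omega), if_neg (by omega)]

end cyc

/-- sign of multiplication by a primitive root -/
theorem sign_mul_root {p : ℕ} [Fact p.Prime] (hodd : Odd p) {r : ZMod p} (hr0 : r ≠ 0)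
    (hr : ∀ d : ZMod p, d ≠ 0 → ∃ n : ℕ, d = r ^ n) : Perm.sign (Equiv.mulLeft₀ r hr0) = -1 := by
  have hp2 : 2 < p := by
    have := (Fact.out : p.Prime).two_le
    rcases hodd with ⟨t, ht⟩
    omega
  have hr1 : r ≠ 1 := by
    rintro rfl
    have h2 : ∀ d : ZMod p, d ≠ 0 → d = 1 := by
      intro d hd
      obtain ⟨n, hn⟩ := hr d hd
      rw [hn, one_pow]
    have h3 : (2 : ZMod p) ≠ 0 := by
      intro h
      have h4 : ((2 : ℕ) : ZMod p) = 0 := by exact_mod_cast h
      rw [ZMod.natCast_eq_zero_iff] at h4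
      have := Nat.le_of_dvd (by norm_num) h4
      omega
    have h4 := h2 2 h3
    have h5 : (1 : ZMod p) = 0 := by linear_combination h4
    exact one_ne_zero h5
  have hcoe : ∀ y, Equiv.mulLeft₀ r hr0 y = r * y := fun _ => rfl
  have hpow : ∀ n : ℕ, ((Equiv.mulLeft₀ r hr0) ^ n) 1 = r ^ n := by
    intro n
    induction n with
    | zero => simp
    | succ n ih => rw [pow_succ', Perm.mul_apply, ih, pow_succ']; rfl
  have hc : (Equiv.mulLeft₀ r hr0).IsCycle := by
    refine ⟨1, ?_, ?_⟩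
    · rw [hcoe]; simpa using hr1
    · intro y hy
      have hy0 : y ≠ 0 := by
        rintro rfl
        apply hy
        rw [hcoe]; simp
      obtain ⟨n, hn⟩ := hr y hy0
      refine ⟨n, ?_⟩
      rw [zpow_natCast, hpow, hn]
  rw [hc.sign]
  have hs : (Equiv.mulLeft₀ r hr0).support = Finset.univ.erase 0 := by
    ext y
    rw [Perm.mem_support, hcoe, Finset.mem_erase]
    constructor
    · intro h
      refine ⟨?_, Finset.mem_univ _⟩
      rintro rfl
      apply h; simp
    · rintro ⟨h, -⟩ h2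
      have h3 : (r - 1) * y = 0 := by linear_combination h2
      rcases mul_eq_zero.1 h3 with h4 | h4
      · exact hr1 (sub_eq_zero.1 h4)
      · exact h h4
  rw [hs, Finset.card_erase_of_mem (Finset.mem_univ _), Finset.card_univ, ZMod.card]
  have : Even (p - 1) := by
    obtain ⟨t, ht⟩ := hodd
    exact ⟨t, by omega⟩
  rw [this.neg_one_pow]

end H43.AltVer
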