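import Cfsg.Agent.Lib.H43.AltVer

/-!
The permutations satisfying the seven relations, part 2.
-/
set_option autoImplicit false

namespace H43.AltVer

open Equiv H43.Carm H43.AltRel

variable {p m : ℕ} [Fact p.Prime] [NeZero m]

/-- embedding of `ZMod p` -/
def eb (hpm : p ≤ m) : ZMod p ↪ ZMod m where
  toFun z := (z.val : ZMod m)
  inj' z w h := by
    have hz := ZMod.val_lt z
    have hw := ZMod.val_lt w
    have h1 := congrArg ZMod.val h
    dsimp only at h1
    rw [ZMod.val_natCast, ZMod.val_natCast, Nat.mod_eq_of_lt (by omega), Nat.mod_eq_of_lt (by omega)] at h1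
    exact ZMod.val_injective p h1

omit [NeZero m] in
theorem eb_natCast (hpm : p ≤ m) {j : ℕ} (hj : j < p) : eb hpm (j : ZMod p) = (j : ZMod m) := by
  change (((j : ZMod p).val : ℕ) : ZMod m) = _
  rw [ZMod.val_natCast, Nat.mod_eq_of_lt hj]

omit [NeZero m] in
theorem em'_cyc (hpm : p ≤ m) {l : ℕ} (hl : l < p) {j : ℕ} (hj : j < m) :
    em' (eb hpm) (cyc p l hl) (j : ZMod m) = (cf l j : ZMod m) := by
  by_cases h : j < p
  · rw [← eb_natCast hpm h, em'_apply, cyc_natCast h, eb_natCast hpm (cf_lt hl h)]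
  · rw [em'_not]
    · rw [cf, if_neg (by omega), if_neg (by omega)]
    · intro z hz
      have h1 := congrArg ZMod.val hz
      change ((z.val : ℕ) : ZMod m).val = _ at h1
      have := ZMod.val_lt z
      rw [ZMod.val_natCast, ZMod.val_natCast, Nat.mod_eq_of_lt (by omega), Nat.mod_eq_of_lt hj] at h1
      omega

/-- rotation -/
def rot (n : ℕ) : Perm (ZMod n) := Equiv.addRight 1

theorem rot_pow (n : ℕ) (t : ℕ) (z : ZMod n) : (rot n ^ t) z = z + t := by
  induction t with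
  | zero => simp
  | succ t ih =>
    rw [pow_succ', Perm.mul_apply, ih]
    change z + t + 1 = _
    push_cast; ring

theorem rot_eq (hp : 0 < p) : rot p = cyc p (p - 1) (by omega) := by
  ext1 z
  obtain ⟨j, hj, rfl⟩ : ∃ j < p, (j : ZMod p) = z := ⟨z.val, ZMod.val_lt z, ZMod.natCast_zmod_val z⟩
  rw [cyc_natCast hj]
  change (j : ZMod p) + 1 = _
  rw [cf]
  split_ifs with h1 h2
  · push_cast; rfl
  · have : (((j + 1 : ℕ)) : ZMod p) = 0 := by rw [h2, Nat.sub_add_cancel hp, ZMod.natCast_self]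
    rw [Nat.cast_zero, ← this]; push_cast; rfl
  · omega

/-- the elements -/
noncomputable def pa (hpm : p ≤ m) : Perm (ZMod m ⊕ Fin 2) := em (eb hpm) (Perm.sumCongr (rot p) 1)
def pg (m : ℕ) (e : ℤˣ) : Perm (ZMod m ⊕ Fin 2) := Perm.sumCongr (rot m) (sw2 e)
noncomputable def pk (hpm : p ≤ m) (e : ℤˣ) : Perm (ZMod m ⊕ Fin 2) := (pa hpm)⁻¹ * pg m e
def px (m : ℕ) : Perm (ZMod m ⊕ Fin 2) := c3 0

theorem sumCongr_pow {α β : Type*} (π : Perm α) (s : Perm β) (n : ℕ) :
    Perm.sumCongr π s ^ n = Perm.sumCongr (π ^ n) (s ^ n) := by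
  induction n with
  | zero => rw [pow_zero, pow_zero, pow_zero, Perm.sumCongr_one]
  | succ n ih => rw [pow_succ, pow_succ, pow_succ, ih, Perm.sumCongr_mul]

omit [Fact p.Prime] in
theorem px_eq [Fact p.Prime] (hpm : p ≤ m) : px m = em (eb hpm) (c3 0) := by
  rw [em_c3]
  have : eb hpm 0 = 0 := by
    have := eb_natCast hpm (j := 0) (Fact.out : p.Prime).pos
    rwa [Nat.cast_zero, Nat.cast_zero] at this
  rw [this]; rfl

theorem F_val (hpm : p ≤ m) (j : ZMod p) : F p (pa hpm) (px m) j = c3 (eb hpm j) := by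
  rw [F, px_eq hpm, pa, ← map_pow, ← map_mul, ← map_inv, ← map_mul, sumCongr_pow, one_pow]
  have h1 : (1 : Perm (Fin 2)) = sw2 1 := rfl
  rw [h1, conj_c3, rot_pow, zero_add, ZMod.natCast_zmod_val, Units.val_one, zpow_one, em_c3]

theorem lift_val (hpm : p ≤ m) (W : FreeGroup (ZMod p)) :
    FreeGroup.lift (F p (pa hpm) (px m)) W = em (eb hpm) (FreeGroup.lift c3 W) := by
  rw [← lift_em]
  congr 2
  funext j
  exact F_val hpm j

/-- all the choices -/
structure Choice (p m : ℕ) [Fact p.Prime] [NeZero m] where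
  hpm : p ≤ m
  hmp : m < 2 * p
  hodd : Odd p
  r : ZMod p
  hr0 : r ≠ 0
  hr : ∀ d : ZMod p, d ≠ 0 → ∃ n : ℕ, d = r ^ n
  u : ℕ
  hu1 : 1 ≤ u
  hur : (u : ZMod p) * (1 - r) = 1
  Wb : FreeGroup (ZMod p)
  Wt : FreeGroup (ZMod p)
  Ww : FreeGroup (ZMod p)
  hWb : FreeGroup.lift c3 Wb = th (Equiv.mulLeft₀ r hr0)
  hWt : FreeGroup.lift c3 Wt = th (cyc p (p - 2) (by have := (Fact.out : p.Prime).pos; omega))
  hWw : FreeGroup.lift c3 Ww = th (cyc p (m - p) (by have := (Fact.out : p.Prime).pos; omega))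

theorem exists_choice (hpm : p ≤ m) (hmp : m < 2 * p) (hodd : Odd p) : Nonempty (Choice p m) := by
  have hpp : p.Prime := Fact.out
  have hp2 : 2 < p := by
    have := hpp.two_le
    obtain ⟨t, ht⟩ := hodd
    omega
  obtain ⟨g, hg⟩ := IsCyclic.exists_monoid_generator (α := (ZMod p)ˣ)
  have hr : ∀ d : ZMod p, d ≠ 0 → ∃ n : ℕ, d = (g : ZMod p) ^ n := by
    intro d hd
    obtain ⟨n, hn⟩ := hg (Units.mk0 d hd)
    refine ⟨n, ?_⟩
    have := congrArg Units.val hn
    simp only [Units.val_pow_eq_pow_val, Units.val_mk0] at this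
    exact this.symm
  have hg1 : (g : ZMod p) ≠ 1 := by
    intro h
    have h3 : (2 : ZMod p) ≠ 0 := by
      intro h
      have h4 : ((2 : ℕ) : ZMod p) = 0 := by exact_mod_cast h
      rw [ZMod.natCast_eq_zero_iff] at h4
      have := Nat.le_of_dvd (by norm_num) h4
      omega
    obtain ⟨n, hn⟩ := hr 2 h3
    rw [h, one_pow] at hn
    have h5 : (1 : ZMod p) = 0 := by linear_combination hn
    exact one_ne_zero h5
  have h1g : (1 : ZMod p) - g ≠ 0 := sub_ne_zero.2 hg1.symm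
  obtain ⟨Wb, hWb⟩ := exists_word (sign_th (Equiv.mulLeft₀ (g : ZMod p) g.ne_zero))
  obtain ⟨Wt, hWt⟩ := exists_word (sign_th (cyc p (p - 2) (by omega)))
  obtain ⟨Ww, hWw⟩ := exists_word (sign_th (cyc p (m - p) (by omega)))
  refine ⟨⟨hpm, hmp, hodd, g, g.ne_zero, hr, ((1 - (g : ZMod p))⁻¹).val, ?_, ?_, Wb, Wt, Ww, hWb, hWt, hWw⟩⟩
  · have h2 : (1 - (g : ZMod p))⁻¹ ≠ 0 := inv_ne_zero h1g
    have h3 : ((1 - (g : ZMod p))⁻¹).val ≠ 0 := by
      intro h
      exact h2 ((ZMod.val_eq_zero _).1 h)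
    omega
  · rw [ZMod.natCast_zmod_val, inv_mul_cancel₀ h1g]

/-- signs -/
def Choice.sw (C : Choice p m) : ℤˣ := Perm.sign (cyc p (m - p) (by have := (Fact.out : p.Prime).pos; have := C.hmp; omega))
def Choice.st (_ : Choice p m) : ℤˣ := Perm.sign (cyc p (p - 2) (by have := (Fact.out : p.Prime).pos; omega))

theorem Choice.wordProp (C : Choice p m) (ρ : ℤˣ) : WordProp C.Wb C.Wt C.Ww C.u m C.r (ρ : ℤ) ((ρ * C.sw : ℤˣ) : ℤ) (C.st : ℤ) (C.sw : ℤ) where
  hu1 := C.hu1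
  hur := C.hur
  hr := C.hr
  hb j := by
    rw [C.hWb, th, conj_c3, sign_mul_root C.hodd C.hr0 C.hr]
    simp
  ht j hj := by
    rw [C.hWt, th, conj_c3, cyc_lt (by omega)]; rfl
  hw := by
    rw [C.hWw, th, conj_c3, cyc_eq]; rfl
  hςt := by rw [← Units.val_mul, Int.units_mul_self, Units.val_one]
  hςw := by rw [← Units.val_mul, Int.units_mul_self, Units.val_one]
  hρ := by rcases Int.units_eq_one_or ρ with h | h <;> rw [h] <;> simp
  hε := by rw [Units.val_mul]
  hpm := C.hpm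
  hmp := C.hmp
  hodd := C.hodd

theorem cf_of_lt {l j : ℕ} (h : j < l) : cf l j = j + 1 := if_pos h
theorem cf_self (l : ℕ) : cf l l = 0 := by rw [cf, if_neg (lt_irrefl l), if_pos rfl]
theorem cf_of_gt {l j : ℕ} (h : l < j) : cf l j = j := by rw [cf, if_neg (by omega), if_neg (by omega)]

/-- key identity -/
theorem key (C : Choice p m) : rot m * rot m ^ (p - 1) = em' (eb C.hpm) (rot p) * rot m ^ (p - 1) *
    em' (eb C.hpm) (cyc p (m - p) (by have := (Fact.out : p.Prime).pos; have := C.hmp; omega)) := by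
  have hp0 : 0 < p := (Fact.out : p.Prime).pos
  have hpm := C.hpm
  have hmp := C.hmp
  ext1 z
  obtain ⟨j, hj, rfl⟩ : ∃ j < m, (j : ZMod m) = z := ⟨z.val, ZMod.val_lt z, ZMod.natCast_zmod_val z⟩
  rw [Perm.mul_apply, Perm.mul_apply, Perm.mul_apply, rot_pow, em'_cyc hpm _ hj, rot_pow, rot_eq hp0]
  have h1 : rot m ((j : ZMod m) + ((p - 1 : ℕ) : ZMod m)) = ((j + p : ℕ) : ZMod m) := by
    change (j : ZMod m) + ((p - 1 : ℕ) : ZMod m) + 1 = _
    rw [Nat.cast_sub hp0]; push_cast; ring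
  rw [h1, ← Nat.cast_add]
  rcases lt_trichotomy j (m - p) with h | h | h
  · rw [cf_of_lt h, em'_cyc hpm _ (by omega), cf_of_gt (by omega)]
    congr 1; omega
  · rw [h, cf_self, zero_add, em'_cyc hpm _ (by omega), cf_self, Nat.sub_add_cancel hpm]
    simp
  · rw [cf_of_gt h]
    have h2 : ((j + (p - 1) : ℕ) : ZMod m) = ((j + p - 1 - m : ℕ) : ZMod m) := by
      have : j + (p - 1) = (j + p - 1 - m) + m := by omega
      rw [this, Nat.cast_add, ZMod.natCast_self, add_zero]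
    rw [h2, em'_cyc hpm _ (by omega), cf_of_lt (by omega)]
    obtain ⟨t, ht⟩ : ∃ t, t = j + p - 1 - m := ⟨_, rfl⟩
    have : j + p = t + 1 + m := by omega
    rw [← ht, this, Nat.cast_add _ m, ZMod.natCast_self, add_zero]

theorem rot_pow_self (n : ℕ) : rot n ^ n = 1 := by
  ext1 z
  rw [rot_pow, ZMod.natCast_self, add_zero]; rfl

theorem sw2_comm (u v : ℤˣ) : sw2 u * sw2 v = sw2 v * sw2 u := by rw [← sw2_mul, ← sw2_mul, mul_comm]

theorem sw2_pow_even (e : ℤˣ) {n : ℕ} (hn : Even n) : sw2 e ^ n = 1 := by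
  obtain ⟨t, rfl⟩ := hn
  rw [pow_add, ← (Commute.refl (sw2 e)).mul_pow, sw2_sq, one_pow]

theorem even_sub (C : Choice p m) : Even (p - 1) := by
  obtain ⟨t, ht⟩ := C.hodd
  exact ⟨t, by omega⟩

/-- value of the twisting element -/
theorem del_val (C : Choice p m) (ρ : ℤˣ) :
    del C.Ww (pa C.hpm) (px m) (pk C.hpm (ρ * C.sw)) = Perm.sumCongr 1 (sw2 ρ) := by
  have hg : pa C.hpm * pk C.hpm (ρ * C.sw) = pg m (ρ * C.sw) := by rw [pk]; group
  have h1 : pk C.hpm (ρ * C.sw) = Perm.sumCongr 1 (sw2 ρ) * ww C.Ww (pa C.hpm) (px m) (pk C.hpm (ρ * C.sw)) := by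
    rw [ww, hg, lift_val, C.hWw, th, em_sumCongr, pk, pa, em_sumCongr, pg]
    rw [inv_mul_eq_iff_eq_mul]
    rw [← mul_assoc, ← mul_assoc, eq_mul_inv_iff_mul_eq, sumCongr_pow, Perm.sumCongr_mul, Perm.sumCongr_mul, ← mul_assoc,
      Perm.sumCongr_mul, Perm.sumCongr_mul]
    congr 1
    · rw [mul_one, key C]
    · rw [sw2_pow_even _ (even_sub C), mul_one, one_mul, mul_one, sw2_mul]; rfl
  rw [del]
  nth_rewrite 1 [h1]
  rw [mul_inv_cancel_right]

theorem sw2_inv (u : ℤˣ) : (sw2 u)⁻¹ = sw2 u := inv_eq_of_mul_eq_one_left (sw2_sq u)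

theorem bb_val (C : Choice p m) (ρ : ℤˣ) :
    bb C.Ww C.Wb (pa C.hpm) (px m) (pk C.hpm (ρ * C.sw)) =
      em (eb C.hpm) (Perm.sumCongr (Equiv.mulLeft₀ C.r C.hr0) (sw2 (-ρ))) := by
  have h1 : (Perm.sumCongr 1 (sw2 ρ) : Perm (ZMod m ⊕ Fin 2)) = em (eb C.hpm) (Perm.sumCongr 1 (sw2 ρ)) := by
    rw [em_sumCongr, map_one]
  rw [bb, del_val, lift_val, C.hWb, th, sign_mul_root C.hodd C.hr0 C.hr, h1, ← map_mul, Perm.sumCongr_mul, one_mul,
    ← sw2_mul]
  congr 3
  simp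

omit [NeZero m] in
theorem conj_em (hpm : p ≤ m) (g h : Perm (ZMod p ⊕ Fin 2)) : em (eb hpm) g * em (eb hpm) h * (em (eb hpm) g)⁻¹ =
    em (eb hpm) (g * h * g⁻¹) := by rw [map_mul, map_mul, map_inv]

theorem tt_val (C : Choice p m) : tt C.Wt (pa C.hpm) (px m) =
    Perm.sumCongr (em' (eb C.hpm) (cyc p (p - 2) (by have := (Fact.out : p.Prime).pos; omega))) (sw2 C.st) := by
  rw [tt, lift_val, C.hWt, th, em_sumCongr]; rfl

/-- action of `k` on the first points -/
theorem kap (C : Choice p m) {j : ℕ} (hj : j < p - 1) :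
    ((em' (eb C.hpm) (rot p))⁻¹ * rot m) (j : ZMod m) = (j : ZMod m) := by
  have hp0 : 0 < p := (Fact.out : p.Prime).pos
  have hpm := C.hpm
  rw [Perm.mul_apply, Perm.inv_eq_iff_eq, rot_eq hp0, em'_cyc hpm _ (by omega), cf_of_lt hj]
  change (j : ZMod m) + 1 = _
  push_cast; rfl

theorem kap' (C : Choice p m) {j : ℕ} (hj : p - 1 ≤ j) (hjm : j < m) :
    ∃ i : ℕ, p - 1 ≤ i ∧ i < m ∧ ((em' (eb C.hpm) (rot p))⁻¹ * rot m) (j : ZMod m) = (i : ZMod m) := by
  have hp0 : 0 < p := (Fact.out : p.Prime).pos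
  have hpm := C.hpm
  rcases Nat.lt_or_ge (j + 1) m with h | h
  · refine ⟨j + 1, by omega, h, ?_⟩
    rw [Perm.mul_apply, Perm.inv_eq_iff_eq, rot_eq hp0, em'_cyc hpm _ h, cf_of_gt (by omega)]
    change (j : ZMod m) + 1 = _
    push_cast; rfl
  · refine ⟨p - 1, le_rfl, by omega, ?_⟩
    rw [Perm.mul_apply, Perm.inv_eq_iff_eq, rot_eq hp0, em'_cyc hpm _ (by omega), cf_self]
    change (j : ZMod m) + 1 = _
    have : j + 1 = m := by omega
    have h3 : ((j + 1 : ℕ) : ZMod m) = 0 := by rw [this, ZMod.natCast_self]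
    rw [Nat.cast_zero, ← h3]
    push_cast; rfl

theorem rels (C : Choice p m) (ρ : ℤˣ) : Rels C.Wb C.Wt C.Ww C.u (ρ : ℤ) ((ρ * C.sw : ℤˣ) : ℤ)
    (pa C.hpm) (px m) (pk C.hpm (ρ * C.sw)) where
  r1 := by
    have h1 : pa C.hpm ^ p = 1 := by
      rw [pa, ← map_pow, sumCongr_pow, one_pow, rot_pow_self, Perm.sumCongr_one, map_one]
    rw [h1, px, rel_c3.cube]
  r2 := by
    rw [bb_val, pa, ← map_pow, ← map_pow, conj_em, sumCongr_pow, sumCongr_pow, one_pow, one_pow, Perm.sumCongr_inv,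
      Perm.sumCongr_mul, Perm.sumCongr_mul, mul_one, mul_inv_cancel]
    congr 2
    rw [mul_inv_eq_iff_eq_mul]
    ext1 z
    rw [Perm.mul_apply, Perm.mul_apply, rot_pow, rot_pow]
    change C.r * (z + C.u) = C.r * z + ((C.u - 1 : ℕ) : ZMod p)
    rw [Nat.cast_sub C.hu1, Nat.cast_one]
    linear_combination -C.hur
  r3 := by
    rw [bb_val, px_eq C.hpm, conj_em, conj_c3]
    have : (Equiv.mulLeft₀ C.r C.hr0) 0 = 0 := by change C.r * 0 = 0; exact mul_zero _
    rw [this, ← map_zpow]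
    simp
  r4 := by
    have h0 := F_val C.hpm (0 : ZMod p)
    have h1 := F_val C.hpm (1 : ZMod p)
    rw [F_zero] at h0
    rw [F_one] at h1
    rw [h0, ← h0, h1, h0]
    apply rel_c3.sq
    intro h
    exact zero_ne_one ((eb C.hpm).injective h)
  r5 := by
    have hp0 : 0 < p := (Fact.out : p.Prime).pos
    have hp2 : 2 ≤ p := (Fact.out : p.Prime).two_le
    rw [pk, pa, pg, em_sumCongr, Perm.sumCongr_inv, Perm.sumCongr_mul, inv_one, one_mul, px, conj_c3]
    congr 2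
    have := kap C (j := 0) (by omega)
    rwa [Nat.cast_zero] at this
  r6 := by
    have hp2 : 2 ≤ p := (Fact.out : p.Prime).two_le
    have hpm := C.hpm
    rw [tt_val, pk, pa, pg, em_sumCongr, Perm.sumCongr_inv, Perm.sumCongr_mul, inv_one, one_mul, Perm.sumCongr_inv,
      Perm.sumCongr_mul, Perm.sumCongr_mul]
    congr 1
    · rw [mul_inv_eq_iff_eq_mul]
      ext1 z
      obtain ⟨j, hj, rfl⟩ : ∃ j < m, (j : ZMod m) = z := ⟨z.val, ZMod.val_lt z, ZMod.natCast_zmod_val z⟩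
      rw [Perm.mul_apply, Perm.mul_apply _ _ (j : ZMod m), em'_cyc hpm _ hj]
      rcases Nat.lt_or_ge j (p - 1) with h | h
      · have h1 : cf (p - 2) j < p - 1 := cf_lt (by omega) h
        rw [kap C h1, kap C h, em'_cyc hpm _ hj]
      · rw [cf_of_gt (by omega)]
        obtain ⟨i, hi1, hi2, hi3⟩ := kap' C h hj
        rw [hi3, em'_cyc hpm _ hi2, cf_of_gt (by omega)]
    · rw [sw2_comm, mul_inv_cancel_right]
  r7 := by
    have hg : pa C.hpm * pk C.hpm (ρ * C.sw) = pg m (ρ * C.sw) := by rw [pk]; group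
    rw [del_val, hg]
    split_ifs with h
    · have : ρ = 1 := Units.ext h
      rw [this]
      exact Perm.sumCongr_one
    · rw [pg, Perm.sumCongr_inv, Perm.sumCongr_mul, Perm.sumCongr_mul, Perm.sumCongr_inv, mul_one, mul_inv_cancel, inv_one,
        sw2_comm, mul_inv_cancel_right, sw2_inv]

/-- the generated groups -/
theorem pg_pow_px (m : ℕ) (e : ℤˣ) (n : ℕ) : pg m e ^ n * px m * (pg m e ^ n)⁻¹ = c3 (n : ZMod m) ^ ((e ^ n : ℤˣ) : ℤ) := by
  have h1 : sw2 e ^ n = sw2 (e ^ n) := by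
    induction n with
    | zero => rw [pow_zero, pow_zero]; rfl
    | succ n ih => rw [pow_succ, ih, pow_succ, sw2_mul]
  rw [pg, sumCongr_pow, h1, px, conj_c3, rot_pow, zero_add]

theorem KK_le (m : ℕ) [NeZero m] (e : ℤˣ) {H : Subgroup (Perm (ZMod m ⊕ Fin 2))} (hx : px m ∈ H) (hg : pg m e ∈ H) :
    alternatingGroup (ZMod m ⊕ Fin 2) ≤ H := by
  rw [← KK_eq, KK, Subgroup.closure_le]
  rintro _ ⟨z, rfl⟩
  have h1 := pg_pow_px m e z.val
  rw [ZMod.natCast_zmod_val] at h1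
  have h2 : c3 z ^ ((e ^ z.val : ℤˣ) : ℤ) ∈ H := by
    rw [← h1]
    exact mul_mem (mul_mem (pow_mem hg _) hx) (inv_mem (pow_mem hg _))
  rcases Int.units_eq_one_or (e ^ z.val) with h3 | h3
  · rw [h3, Units.val_one, zpow_one] at h2; exact h2
  · rw [h3] at h2
    have := inv_mem h2
    simpa using this

theorem sign_pa (C : Choice p m) : Perm.sign (pa C.hpm : Perm (ZMod m ⊕ Fin 2)) = 1 := by
  have h1 : (pa C.hpm : Perm (ZMod m ⊕ Fin 2)) ^ p = 1 := by
    rw [pa, ← map_pow, sumCongr_pow, one_pow, rot_pow_self, Perm.sumCongr_one, map_one]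
  have h2 := congrArg Perm.sign h1
  rw [map_pow, map_one] at h2
  rcases Int.units_eq_one_or (Perm.sign (pa C.hpm : Perm (ZMod m ⊕ Fin 2))) with h3 | h3
  · exact h3
  · rw [h3, C.hodd.neg_one_pow] at h2
    exact absurd h2 (by decide)

theorem sign_px (m : ℕ) [NeZero m] : Perm.sign (px m) = 1 := sign_c3 0

theorem sign_em (hpm : p ≤ m) {g : Perm (ZMod p ⊕ Fin 2)} (hg : Perm.sign g = 1) : Perm.sign (em (eb hpm) g) = 1 := by
  obtain ⟨W, rfl⟩ := exists_word hg
  rw [← lift_em, ← Perm.mem_alternatingGroup]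
  apply lift_mem
  intro i
  exact Perm.mem_alternatingGroup.2 (sign_c3 _)

theorem sign_pk (C : Choice p m) (ρ : ℤˣ) : Perm.sign (pk C.hpm (ρ * C.sw)) = ρ := by
  have h1 := del_val C ρ
  rw [del, mul_inv_eq_iff_eq_mul] at h1
  rw [h1, map_mul, Perm.sign_sumCongr, Perm.sign_one, one_mul, sign_sw2, ww, map_mul, map_mul, map_inv, lift_val,
    sign_em C.hpm]
  · simp
  · rw [C.hWw]; exact sign_th _

theorem pg_eq (C : Choice p m) (e : ℤˣ) : pa C.hpm * pk C.hpm e = pg m e := by rw [pk]; group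

/-- even case: generation -/
theorem gen_even (C : Choice p m) : Subgroup.closure {px m, pg m C.sw} = alternatingGroup (ZMod m ⊕ Fin 2) := by
  apply le_antisymm
  · rw [Subgroup.closure_le]
    rintro y (rfl | rfl)
    · exact Perm.mem_alternatingGroup.2 (sign_px m)
    · refine Perm.mem_alternatingGroup.2 ?_
      rw [← pg_eq C, map_mul, sign_pa C]
      have := sign_pk C 1
      rw [one_mul] at this
      rw [this, one_mul]
  · exact KK_le m C.sw (Subgroup.subset_closure (by simp)) (Subgroup.subset_closure (by simp))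

theorem gen_odd (C : Choice p m) : Subgroup.closure {px m, pg m (-C.sw)} = ⊤ := by
  have hA := KK_le m (-C.sw) (H := Subgroup.closure {px m, pg m (-C.sw)}) (Subgroup.subset_closure (by simp))
    (Subgroup.subset_closure (by simp))
  have hs : Perm.sign (pg m (-C.sw)) = -1 := by
    rw [← pg_eq C, map_mul, sign_pa C, one_mul]
    have := sign_pk C (-1)
    rwa [neg_one_mul] at this
  have hg : pg m (-C.sw) ∈ Subgroup.closure {px m, pg m (-C.sw)} := Subgroup.subset_closure (by simp)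
  rw [eq_top_iff]
  rintro y -
  rcases Int.units_eq_one_or (Perm.sign y) with h | h
  · exact hA (Perm.mem_alternatingGroup.2 h)
  · have h2 : y * pg m (-C.sw) ∈ Subgroup.closure {px m, pg m (-C.sw)} := by
      apply hA
      rw [Perm.mem_alternatingGroup, map_mul, h, hs]; rfl
    have := mul_mem h2 (inv_mem hg)
    rwa [mul_inv_cancel_right] at this

end H43.AltVer
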