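import Mathlib
import Cfsg.Agent.Lib.H60.AltPres
import Cfsg.Agent.Lib.H43.Tietze

/-!
Bounded presentations of Borel subgroups: order bounds.
-/
set_option autoImplicit false

namespace H43.Borel

variable {G : Type*} [Group G]

/-- transfer of identities when a generated group is not too large -/
theorem transfer_of_card {ι : Type*} {Γ : Type*} [Group Γ] (v : ι → G) (w : ι → Γ)
    (hfin : Finite (Subgroup.closure (Set.range (fun i => (v i, w i)))))
    (hcard : Nat.card (Subgroup.closure (Set.range (fun i => (v i, w i)))) ≤ Nat.card (Subgroup.closure (Set.range w)))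
    {W : FreeGroup ι} (hW : FreeGroup.lift w W = 1) : FreeGroup.lift v W = 1 := by
  set K := Subgroup.closure (Set.range (fun i => (v i, w i))) with hK
  let π : K →* Γ := (MonoidHom.snd G Γ).comp K.subtype
  have hπ : Subgroup.closure (Set.range w) ≤ π.range := by
    rw [Subgroup.closure_le]
    rintro _ ⟨i, rfl⟩
    exact ⟨⟨(v i, w i), Subgroup.subset_closure ⟨i, rfl⟩⟩, rfl⟩
  have hker : π.ker = ⊥ := by
    rw [← Subgroup.card_eq_one]
    have h1 : Nat.card π.ker * Nat.card π.range = Nat.card K := by
      rw [← Subgroup.index_ker, Subgroup.card_mul_index]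
    have hfr : Finite π.range := Finite.of_surjective π.rangeRestrict π.rangeRestrict_surjective
    have h2 : Nat.card (Subgroup.closure (Set.range w)) ≤ Nat.card π.range := Nat.card_mono (Set.toFinite _) hπ
    have h5 : 0 < Nat.card π.ker := Nat.card_pos
    have h6 : 0 < Nat.card π.range := Nat.card_pos
    have h7 : Nat.card π.ker * Nat.card π.range ≤ 1 * Nat.card π.range := by rw [h1, one_mul]; omega
    have h8 := Nat.le_of_mul_le_mul_right h7 h6
    omega
  have hmem : (FreeGroup.lift v W, FreeGroup.lift w W) ∈ K := by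
    have e : FreeGroup.lift (fun i => (v i, w i)) W = (FreeGroup.lift v W, FreeGroup.lift w W) := by
      have : FreeGroup.lift (fun i => (v i, w i)) = (FreeGroup.lift v).prod (FreeGroup.lift w) := by
        apply FreeGroup.ext_hom
        intro i
        rw [FreeGroup.lift_apply_of, MonoidHom.prod_apply, FreeGroup.lift_apply_of, FreeGroup.lift_apply_of]
      rw [this]; rfl
    rw [← e, hK, ← FreeGroup.range_lift_eq_closure]
    exact ⟨W, rfl⟩
  have h8 : (⟨_, hmem⟩ : K) ∈ π.ker := by
    rw [MonoidHom.mem_ker]; exact hW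
  rw [hker, Subgroup.mem_bot] at h8
  exact congrArg (fun y : K => (y : G × Γ).1) h8

/-- a finite subgroup mapped into itself by conjugation is normalised -/
theorem mem_normalizer_of_le {N : Subgroup G} [Finite N] {t : G} (h : ∀ y ∈ N, t * y * t⁻¹ ∈ N) :
    t ∈ Subgroup.normalizer (N : Set G) := by
  have h2 : N.map (MulAut.conj t).toMonoidHom ≤ N := by
    rintro _ ⟨y, hy, rfl⟩
    exact h y hy
  have h3 : N.map (MulAut.conj t).toMonoidHom = N := by
    apply Subgroup.eq_of_le_of_card_ge h2
    exact (Subgroup.card_map_of_injective (MulAut.conj t).injective).ge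
  rw [Subgroup.mem_normalizer_iff]
  intro y
  constructor
  · exact h y
  · intro hy
    have hy' : t * y * t⁻¹ ∈ N.map (MulAut.conj t).toMonoidHom := by rw [h3]; exact hy
    obtain ⟨y', hy'', e⟩ := hy'
    have : y' = y := (MulAut.conj t).injective e
    rw [← this]; exact hy''

theorem conj_closure_le {S : Set G} {N : Subgroup G} {t : G} (h : ∀ y ∈ S, t * y * t⁻¹ ∈ N) :
    ∀ y ∈ Subgroup.closure S, t * y * t⁻¹ ∈ N := by
  have : Subgroup.closure S ≤ N.comap (MulAut.conj t).toMonoidHom := by
    rw [Subgroup.closure_le]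
    exact h
  exact this

/-- extension by a cyclic group -/
theorem card_ext_cyclic {V : Subgroup G} [Finite V] {h : G} {N : ℕ} (hN : 0 < N) (hh : h ^ N = 1)
    (hV : ∀ y ∈ V, h * y * h⁻¹ ∈ V) {K : Subgroup G} (hK : K = V ⊔ Subgroup.zpowers h) :
    Finite K ∧ Nat.card K ≤ Nat.card V * N := by
  have hn := mem_normalizer_of_le hV
  have hcl : K = Subgroup.closure ((V : Set G) ∪ {h}) := by
    rw [hK, Subgroup.closure_union, Subgroup.closure_eq, Subgroup.zpowers_eq_closure]
  have key := H60.AltPres.card_le_of_cosets V ((V : Set G) ∪ {h}) inferInstance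
    (Set.range (fun i : Fin N => ((h ^ (i : ℕ) : G) : G ⧸ V))) (Set.finite_range _) ⟨⟨0, hN⟩, by simp⟩ (by
      have hpow : ∀ i : ℕ, ((h ^ i : G) : G ⧸ V) ∈ Set.range (fun i : Fin N => ((h ^ (i : ℕ) : G) : G ⧸ V)) := by
        intro i
        refine ⟨⟨i % N, Nat.mod_lt _ hN⟩, ?_⟩
        dsimp only
        rw [← pow_eq_pow_mod i hh]
      rintro g (hg | hg) _ ⟨i, rfl⟩
      · dsimp only
        rw [MulAction.Quotient.smul_coe, smul_eq_mul]
        have : ((g * h ^ (i : ℕ) : G) : G ⧸ V) = ((h ^ (i : ℕ) : G) : G ⧸ V) := by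
          rw [QuotientGroup.eq]
          have h1 : (h ^ (i : ℕ))⁻¹ ∈ Subgroup.normalizer (V : Set G) := inv_mem (pow_mem hn _)
          have h2 := (Subgroup.mem_normalizer_iff.1 h1 g⁻¹).1 (inv_mem hg)
          rw [inv_inv] at h2
          rwa [mul_inv_rev]
        rw [this]; exact hpow _
      · rw [Set.mem_singleton_iff] at hg
        subst hg
        dsimp only
        rw [MulAction.Quotient.smul_coe, smul_eq_mul, ← pow_succ']
        exact hpow _)
  rw [← hcl] at key
  refine ⟨key.1, le_trans key.2 ?_⟩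
  rw [mul_comm]
  apply Nat.mul_le_mul_left
  rw [← Set.image_univ]
  calc _ ≤ _ := Set.ncard_image_le Set.finite_univ
    _ = N := by rw [Set.ncard_univ, Nat.card_eq_fintype_card, Fintype.card_fin]

/-- commuting elements of exponent `p` -/
theorem card_abelian (p : ℕ) (hp : 0 < p) (e : ℕ) (v : ℕ → G) (hc : ∀ i < e, ∀ j < e, Commute (v i) (v j))
    (hv : ∀ i < e, v i ^ p = 1) : Finite (Subgroup.closure (v '' {i | i < e})) ∧
      Nat.card (Subgroup.closure (v '' {i | i < e})) ≤ p ^ e := by
  induction e with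
  | zero =>
    have : v '' {i | i < 0} = ∅ := by simp
    rw [this, Subgroup.closure_empty]
    exact ⟨inferInstance, by simp⟩
  | succ e ih =>
    obtain ⟨h1, h2⟩ := ih (fun i hi j hj => hc i (by omega) j (by omega)) (fun i hi => hv i (by omega))
    have hset : v '' {i | i < e + 1} = v '' {i | i < e} ∪ {v e} := by
      ext y
      constructor
      · rintro ⟨i, hi, rfl⟩
        rcases Nat.lt_or_ge i e with h | h
        · exact Or.inl ⟨i, h, rfl⟩
        · right
          have hi' : i < e + 1 := hi
          rw [Set.mem_singleton_iff, show i = e by omega]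
      · rintro (⟨i, hi, rfl⟩ | hy)
        · have hi' : i < e := hi
          exact ⟨i, show i < e + 1 by omega, rfl⟩
        · exact ⟨e, show e < e + 1 by omega, (Set.mem_singleton_iff.1 hy).symm⟩
    have hcl : Subgroup.closure (v '' {i | i < e + 1}) = Subgroup.closure (v '' {i | i < e}) ⊔ Subgroup.zpowers (v e) := by
      rw [hset, Subgroup.closure_union, Subgroup.zpowers_eq_closure]
    have := card_ext_cyclic (V := Subgroup.closure (v '' {i | i < e})) (h := v e) hp (hv e (by omega)) (by
      apply conj_closure_le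
      rintro _ ⟨i, hi, rfl⟩
      have hi' : i < e := hi
      have : v e * v i * (v e)⁻¹ = v i := by
        rw [(hc e (by omega) i (by omega)).eq, mul_inv_cancel_right]
      rw [this]
      exact Subgroup.subset_closure ⟨i, hi, rfl⟩) hcl
    refine ⟨this.1, le_trans this.2 ?_⟩
    rw [pow_succ]
    exact Nat.mul_le_mul_right _ h2

/-- the conjugates -/
def cu (u x : G) (j : ℕ) : G := x ^ j * u * (x ^ j)⁻¹

theorem cu_zero (u x : G) : cu u x 0 = u := by simp [cu]
theorem cu_one (u x : G) : cu u x 1 = x * u * x⁻¹ := by simp [cu]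

theorem cu_succ (u x : G) (j : ℕ) : x * cu u x j * x⁻¹ = cu u x (j + 1) := by
  unfold cu; rw [pow_succ']; group

theorem cu_add (u x : G) (i j : ℕ) : x ^ i * cu u x j * (x ^ i)⁻¹ = cu u x (i + j) := by
  unfold cu; rw [pow_add]; group

theorem cu_comm_of {u x : G} {j : ℕ} (h : Commute u (cu u x j)) (i : ℕ) : Commute (cu u x i) (cu u x (i + j)) := by
  rw [← cu_add]
  have h1 : cu u x i = (MulAut.conj (x ^ i)) u := rfl
  have h2 : x ^ i * cu u x j * (x ^ i)⁻¹ = (MulAut.conj (x ^ i)) (cu u x j) := rfl
  rw [h1, h2]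
  exact h.map _

/-- the key trick: `[u, u^x] = 1`, `u^y = u u^x` and `[x, y] = 1` make all conjugates commute -/
theorem all_commute {u x y : G} (hxy : Commute x y) (h1 : Commute u (cu u x 1)) (hy : y * u * y⁻¹ = u * cu u x 1) (j : ℕ) :
    Commute u (cu u x j) := by
  have hyj : ∀ j, y * cu u x j * y⁻¹ = cu u x j * cu u x (j + 1) := by
    intro j
    have e1 : y * x ^ j = x ^ j * y := (hxy.symm.pow_right j).eq
    have e2 : (x ^ j)⁻¹ * y⁻¹ = y⁻¹ * (x ^ j)⁻¹ := by rw [← mul_inv_rev, e1, mul_inv_rev]
    calc y * cu u x j * y⁻¹ = (y * x ^ j) * u * ((x ^ j)⁻¹ * y⁻¹) := by unfold cu; group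
      _ = x ^ j * (y * u * y⁻¹) * (x ^ j)⁻¹ := by rw [e1, e2]; group
      _ = (x ^ j * u * (x ^ j)⁻¹) * (x ^ j * cu u x 1 * (x ^ j)⁻¹) := by rw [hy]; group
      _ = _ := by rw [cu_add]; rfl
  induction j using Nat.strong_induction_on with
  | _ j ih =>
    rcases Nat.eq_zero_or_pos j with rfl | hj
    · rw [cu_zero]
    · rcases Nat.eq_or_lt_of_le hj with hj1 | hj1
      · rw [← hj1]; exact h1
      · obtain ⟨i, rfl⟩ : ∃ i, j = i + 2 := ⟨j - 2, by omega⟩
        -- conjugate `[u, u_{i+1}] = 1` by `y`
        have h2 := ih (i + 1) (by omega)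
        have h3 : Commute (u * cu u x 1) (cu u x (i + 1) * cu u x (i + 2)) := by
          have := h2.map (MulAut.conj y)
          change Commute (y * u * y⁻¹) (y * cu u x (i + 1) * y⁻¹) at this
          rwa [hyj, hy] at this
        have h4 : Commute (cu u x 1) (cu u x (i + 1)) := by
          have := cu_comm_of (ih i (by omega)) 1
          rwa [add_comm 1 i] at this
        have h5 : Commute (u * cu u x 1) (cu u x (i + 1)) := h2.mul_left h4
        have h6 : Commute (u * cu u x 1) (cu u x (i + 2)) := by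
          have := (h5.inv_right).mul_right h3
          rwa [inv_mul_cancel_left] at this
        have h7 : Commute (cu u x 1) (cu u x (i + 2)) := by
          have := cu_comm_of h2 1
          rwa [show 1 + (i + 1) = i + 2 by omega] at this
        have := h6.mul_left h7.inv_left
        rwa [mul_inv_cancel_right] at this

/-- bound for the Borel subgroup -/
theorem card_borel {u h x : G} {p e N : ℕ} (hp : 0 < p) (he : 0 < e) (hN : 0 < N) (hx : x ∈ Subgroup.zpowers h)
    (hc : ∀ j < e, Commute u (cu u x j)) (hu : u ^ p = 1)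
    (he' : cu u x e ∈ Subgroup.closure (cu u x '' {i | i < e}))
    (hh : h * u * h⁻¹ ∈ Subgroup.closure (cu u x '' {i | i < e})) (hhN : h ^ N = 1) :
    Finite (Subgroup.closure {u, h}) ∧ Nat.card (Subgroup.closure {u, h}) ≤ p ^ e * N := by
  set V := Subgroup.closure (cu u x '' {i | i < e}) with hV
  have hcomm : ∀ i < e, ∀ j < e, Commute (cu u x i) (cu u x j) := by
    intro i hi j hj
    rcases le_total i j with h1 | h1
    · have := cu_comm_of (hc (j - i) (by omega)) i
      rwa [show i + (j - i) = j by omega] at this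
    · have := cu_comm_of (hc (i - j) (by omega)) j
      rw [show j + (i - j) = i by omega] at this
      exact this.symm
  have hpow : ∀ i < e, cu u x i ^ p = 1 := by
    intro i _
    unfold cu
    rw [conj_pow, hu]; group
  obtain ⟨hfin, hcard⟩ := card_abelian p hp e (cu u x) hcomm hpow
  have hfin' : Finite V := hfin
  have hxV : ∀ y ∈ V, x * y * x⁻¹ ∈ V := by
    apply conj_closure_le
    rintro _ ⟨i, hi, rfl⟩
    rw [cu_succ]
    have hi' : i < e := hi
    rcases Nat.lt_or_ge (i + 1) e with h1 | h1
    · exact Subgroup.subset_closure ⟨i + 1, h1, rfl⟩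
    · rw [show i + 1 = e by omega]; exact he'
  have hxn := mem_normalizer_of_le hxV
  have hhx : Commute h x := by
    obtain ⟨k, rfl⟩ := hx
    exact (Commute.refl h).zpow_right k
  have hhV : ∀ y ∈ V, h * y * h⁻¹ ∈ V := by
    apply conj_closure_le
    rintro _ ⟨i, hi, rfl⟩
    have e1 : h * x ^ i = x ^ i * h := (hhx.pow_right i).eq
    have e2 : (x ^ i)⁻¹ * h⁻¹ = h⁻¹ * (x ^ i)⁻¹ := by rw [← mul_inv_rev, e1, mul_inv_rev]
    have e3 : h * cu u x i * h⁻¹ = x ^ i * (h * u * h⁻¹) * (x ^ i)⁻¹ := by
      calc h * cu u x i * h⁻¹ = (h * x ^ i) * u * ((x ^ i)⁻¹ * h⁻¹) := by unfold cu; group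
        _ = _ := by rw [e1, e2]; group
    rw [e3]
    exact (Subgroup.mem_normalizer_iff.1 (pow_mem hxn i) _).1 hh
  have huV : u ∈ V := Subgroup.subset_closure ⟨0, he, cu_zero u x⟩
  have hK : Subgroup.closure {u, h} = V ⊔ Subgroup.zpowers h := by
    apply le_antisymm
    · rw [Subgroup.closure_le]
      rintro y (rfl | rfl)
      · exact Subgroup.mem_sup_left huV
      · exact Subgroup.mem_sup_right (Subgroup.mem_zpowers _)
    · apply sup_le
      · rw [hV, Subgroup.closure_le]
        rintro _ ⟨i, -, rfl⟩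
        have hu' : u ∈ Subgroup.closure {u, h} := Subgroup.subset_closure (by simp)
        have hh' : h ∈ Subgroup.closure {u, h} := Subgroup.subset_closure (by simp)
        have hx' : x ∈ Subgroup.closure {u, h} := by
          obtain ⟨k, rfl⟩ := hx
          exact zpow_mem hh' k
        exact mul_mem (mul_mem (pow_mem hx' _) hu') (inv_mem (pow_mem hx' _))
      · rw [Subgroup.zpowers_le]
        exact Subgroup.subset_closure (by simp)
  have := card_ext_cyclic hN hhN hhV hK
  exact ⟨this.1, le_trans this.2 (Nat.mul_le_mul_right _ hcard)⟩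

end H43.Borel
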