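import Mathlib
import Cfsg.Agent.Lib.H60.AltPres

/-!
Carmichael's presentation of the alternating group:
`x i ^ 3 = 1`, `(x i * x j) ^ 2 = 1` for `i ≠ j`, where `x i` is the cycle `(i, α, β)`.
-/
set_option autoImplicit false

namespace H43.Carm

open Equiv

/-- Carmichael's relations -/
structure Rel {G : Type*} [Group G] {ι : Type*} (x : ι → G) : Prop where
  cube : ∀ i, x i ^ 3 = 1
  sq : ∀ i j, i ≠ j → (x i * x j) ^ 2 = 1

section
variable {G : Type*} [Group G] {ι : Type*} {x : ι → G}

theorem Rel.map {H : Type*} [Group H] (h : Rel x) (f : G →* H) : Rel (fun i => f (x i)) where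
  cube _ := by rw [← map_pow, h.cube, map_one]
  sq i j hij := by rw [← map_mul, ← map_pow, h.sq i j hij, map_one]

theorem Rel.comp {κ : Type*} (h : Rel x) (f : κ → ι) (hf : Function.Injective f) : Rel (fun i => x (f i)) where
  cube i := h.cube _
  sq i j hij := h.sq _ _ (fun e => hij (hf e))

theorem Rel.prod {H : Type*} [Group H] {y : ι → H} (h : Rel x) (h' : Rel y) : Rel (fun i => (x i, y i)) where
  cube i := by rw [Prod.pow_mk, h.cube, h'.cube]; rfl
  sq i j hij := by rw [Prod.mk_mul_mk, Prod.pow_mk, h.sq i j hij, h'.sq i j hij]; rfl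

/-- the closure of Carmichael generators is small -/
theorem bound_fin {m : ℕ} (x : Fin m → G) (h : Rel x) :
    Finite (Subgroup.closure (Set.range x)) ∧ 2 * Nat.card (Subgroup.closure (Set.range x)) ≤ (m + 2).factorial := by
  induction m with
  | zero =>
    have : Set.range x = ∅ := Set.range_eq_empty x
    rw [this, Subgroup.closure_empty]
    exact ⟨inferInstance, by simp⟩
  | succ m ih =>
    obtain ⟨hfin, hcard⟩ := ih (fun i => x i.castSucc) (h.comp _ (Fin.castSucc_injective m))
    set H := Subgroup.closure (Set.range (fun i : Fin m => x i.castSucc)) with hH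
    have hxH : ∀ i : Fin m, x i.castSucc ∈ H := fun i => Subgroup.subset_closure ⟨i, rfl⟩
    set t := x (Fin.last m) with ht
    -- basic consequences
    have e3 : ∀ i, x i * x i * x i = 1 := fun i => by have := h.cube i; rwa [pow_succ, pow_two] at this
    have einv : ∀ i, (x i)⁻¹ = x i * x i := fun i => inv_eq_of_mul_eq_one_left (e3 i)
    have e4 : ∀ i j, i ≠ j → x i * x j = (x j)⁻¹ * (x i)⁻¹ := by
      intro i j hij
      have := h.sq i j hij
      rw [pow_two] at this
      rw [← mul_inv_rev]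
      exact eq_inv_of_mul_eq_one_left this
    set S : Set (G ⧸ H) := {((1 : G) : G ⧸ H), ((t : G) : G ⧸ H), ((t⁻¹ : G) : G ⧸ H)} ∪
      Set.range (fun j : Fin m => ((x j.castSucc * t⁻¹ : G) : G ⧸ H)) with hS
    have hSfin : S.Finite := (Set.toFinite _).union (Set.finite_range _)
    have hSc : S.ncard ≤ m + 3 := by
      calc S.ncard ≤ _ + _ := Set.ncard_union_le _ _
        _ ≤ 3 + m := by
          apply Nat.add_le_add
          · calc _ ≤ _ := Set.ncard_insert_le _ _
              _ ≤ 3 := by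
                have := Set.ncard_insert_le ((t : G) : G ⧸ H) {((t⁻¹ : G) : G ⧸ H)}
                rw [Set.ncard_singleton] at this
                omega
          · rw [← Set.image_univ]
            calc _ ≤ _ := Set.ncard_image_le Set.finite_univ
              _ = m := by rw [Set.ncard_univ, Nat.card_eq_fintype_card, Fintype.card_fin]
        _ = m + 3 := by ring
    have m1 : ((1 : G) : G ⧸ H) ∈ S := Or.inl (Or.inl rfl)
    have m2 : ((t : G) : G ⧸ H) ∈ S := Or.inl (Or.inr (Or.inl rfl))
    have m3 : ((t⁻¹ : G) : G ⧸ H) ∈ S := Or.inl (Or.inr (Or.inr rfl))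
    have m4 : ∀ j : Fin m, ((x j.castSucc * t⁻¹ : G) : G ⧸ H) ∈ S := fun j => Or.inr ⟨j, rfl⟩
    have hco : ∀ (a : G) (b : G), b ∈ H → ((a * b : G) : G ⧸ H) = ((a : G) : G ⧸ H) := by
      intro a b hb
      rw [QuotientGroup.eq]
      have : (a * b)⁻¹ * a = b⁻¹ := by group
      rw [this]; exact H.inv_mem hb
    have hne : ∀ i : Fin m, i.castSucc ≠ Fin.last m := fun i => (Fin.castSucc_lt_last i).ne
    have e5 : ∀ i : Fin m, ((x i.castSucc * t : G) : G ⧸ H) = ((t⁻¹ : G) : G ⧸ H) := by
      intro i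
      rw [e4 _ _ (hne i)]
      exact hco _ _ (H.inv_mem (hxH i))
    have e6 : ∀ i : Fin m, (((x i.castSucc)⁻¹ * t : G) : G ⧸ H) = ((x i.castSucc * t⁻¹ : G) : G ⧸ H) := by
      intro i
      have : (x i.castSucc)⁻¹ * t = x i.castSucc * (t⁻¹ * (x i.castSucc)⁻¹) := by
        rw [← e4 _ _ (hne i), ← mul_assoc, einv i.castSucc]
      rw [this, ← mul_assoc]
      exact hco _ _ (H.inv_mem (hxH i))
    have key := H60.AltPres.card_le_of_cosets H (Set.range x) hfin S hSfin m1 (by
      rintro _ ⟨i, rfl⟩ s hs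
      rcases hs with (rfl | rfl | rfl) | ⟨j, rfl⟩
      · rw [MulAction.Quotient.smul_coe, smul_eq_mul, mul_one]
        refine Fin.lastCases ?_ (fun i => ?_) i
        · exact m2
        · rw [← one_mul (x i.castSucc), hco _ _ (hxH i)]; exact m1
      · rw [MulAction.Quotient.smul_coe, smul_eq_mul]
        refine Fin.lastCases ?_ (fun i => ?_) i
        · rw [← ht, ← einv (Fin.last m)]; exact m3
        · rw [e5]; exact m3
      · rw [MulAction.Quotient.smul_coe, smul_eq_mul]
        refine Fin.lastCases ?_ (fun i => ?_) i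
        · rw [← ht, mul_inv_cancel]; exact m1
        · exact m4 i
      · dsimp only
        rw [MulAction.Quotient.smul_coe, smul_eq_mul]
        refine Fin.lastCases ?_ (fun i => ?_) i
        · have : t * (x j.castSucc * t⁻¹) = (x j.castSucc)⁻¹ * t := by
            rw [← mul_assoc, ht, e4 _ _ (hne j).symm, mul_assoc, ← mul_inv_rev, ← einv, ← ht, inv_inv]
          rw [this, e6]; exact m4 j
        · by_cases hij : i = j
          · subst hij
            have : x i.castSucc * (x i.castSucc * t⁻¹) = t * x i.castSucc := by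
              rw [← mul_assoc, ← einv, ht, e4 _ _ (hne i).symm]
            rw [this, hco _ _ (hxH i)]; exact m2
          · have hij' : i.castSucc ≠ j.castSucc := fun e => hij (Fin.castSucc_injective m e)
            have : x i.castSucc * (x j.castSucc * t⁻¹) = (x j.castSucc)⁻¹ * t * x i.castSucc := by
              rw [← mul_assoc, e4 _ _ hij', mul_assoc, mul_assoc]
              congr 1
              rw [ht, e4 _ _ (hne i).symm]
            rw [this, hco _ _ (hxH i), e6]; exact m4 j)
    refine ⟨key.1, ?_⟩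
    have h2 := key.2
    calc 2 * Nat.card (Subgroup.closure (Set.range x)) ≤ 2 * (S.ncard * Nat.card H) := Nat.mul_le_mul_left 2 h2
      _ ≤ 2 * ((m + 3) * Nat.card H) := Nat.mul_le_mul_left 2 (Nat.mul_le_mul_right _ hSc)
      _ = (m + 3) * (2 * Nat.card H) := by ring
      _ ≤ (m + 3) * (m + 2).factorial := Nat.mul_le_mul_left _ hcard
      _ = (m + 1 + 2).factorial := (Nat.factorial_succ (m + 2)).symm

theorem bound [Finite ι] (x : ι → G) (h : Rel x) :
    Finite (Subgroup.closure (Set.range x)) ∧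
      2 * Nat.card (Subgroup.closure (Set.range x)) ≤ (Nat.card ι + 2).factorial := by
  let e := (Finite.equivFin ι)
  have h1 := bound_fin (fun i => x (e.symm i)) (h.comp _ e.symm.injective)
  have h2 : Set.range (fun i => x (e.symm i)) = Set.range x := e.symm.surjective.range_comp x
  rwa [h2] at h1

end

section Perm
variable {ι : Type*} [DecidableEq ι]

/-- the cycle `(i, α, β)` -/
def c3 (i : ι) : Perm (ι ⊕ Fin 2) := swap (Sum.inl i) (Sum.inr 0) * swap (Sum.inr 0) (Sum.inr 1)

@[simp] theorem c3_self (i : ι) : c3 i (Sum.inl i) = Sum.inr 0 := by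
  have h : swap (Sum.inr 0 : ι ⊕ Fin 2) (Sum.inr 1) (Sum.inl i) = Sum.inl i := swap_apply_of_ne_of_ne (by simp) (by simp)
  rw [c3, Perm.mul_apply, h, swap_apply_left]
@[simp] theorem c3_zero (i : ι) : c3 i (Sum.inr 0) = Sum.inr 1 := by
  have h : swap (Sum.inl i : ι ⊕ Fin 2) (Sum.inr 0) (Sum.inr 1) = Sum.inr 1 := swap_apply_of_ne_of_ne (by simp) (by simp)
  rw [c3, Perm.mul_apply, swap_apply_left, h]
@[simp] theorem c3_one (i : ι) : c3 i (Sum.inr 1) = Sum.inl i := by
  rw [c3, Perm.mul_apply, swap_apply_right, swap_apply_right]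
theorem c3_ne {i j : ι} (h : j ≠ i) : c3 i (Sum.inl j) = Sum.inl j := by
  have h1 : swap (Sum.inr 0 : ι ⊕ Fin 2) (Sum.inr 1) (Sum.inl j) = Sum.inl j := swap_apply_of_ne_of_ne (by simp) (by simp)
  have h2 : swap (Sum.inl i : ι ⊕ Fin 2) (Sum.inr 0) (Sum.inl j) = Sum.inl j := swap_apply_of_ne_of_ne (by simpa using h) (by simp)
  rw [c3, Perm.mul_apply, h1, h2]

theorem c3_apply (i : ι) (y : ι ⊕ Fin 2) : c3 i y = if y = Sum.inl i then Sum.inr 0 else
    if y = Sum.inr 0 then Sum.inr 1 else if y = Sum.inr 1 then Sum.inl i else y := by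
  rcases y with j | j
  · by_cases h : j = i
    · subst h; simp
    · rw [c3_ne h]; simp [h]
  · fin_cases j
    · simp
    · simp

theorem rel_c3 : Rel (c3 : ι → Perm (ι ⊕ Fin 2)) where
  cube i := by
    ext y
    rw [pow_succ, pow_two, Perm.mul_apply, Perm.mul_apply, Perm.one_apply]
    rcases y with j | j
    · by_cases h : j = i
      · subst h; simp
      · simp [c3_ne h]
    · fin_cases j <;> simp
  sq i j hij := by
    ext y
    rw [pow_two, Perm.mul_apply, Perm.mul_apply, Perm.mul_apply, Perm.one_apply]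
    rcases y with l | l
    · by_cases h : l = j
      · subst h
        simp [c3_ne hij.symm]
      · by_cases h' : l = i
        · subst h'; simp [c3_ne h]
        · simp [c3_ne h, c3_ne h']
    · fin_cases l
      · simp [c3_ne hij]
      · simp [c3_ne hij.symm]

/-- the involution of `Fin 2` attached to a sign -/
def sw2 (u : ℤˣ) : Perm (Fin 2) := if u = 1 then 1 else swap 0 1

theorem sw2_mul (u v : ℤˣ) : sw2 (u * v) = sw2 u * sw2 v := by
  rcases Int.units_eq_one_or u with rfl | rfl <;> rcases Int.units_eq_one_or v with rfl | rfl <;> decide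

theorem sw2_sq (u : ℤˣ) : sw2 u * sw2 u = 1 := by
  rcases Int.units_eq_one_or u with rfl | rfl <;> decide

theorem sign_sw2 (u : ℤˣ) : Perm.sign (sw2 u) = u := by
  rcases Int.units_eq_one_or u with rfl | rfl <;> decide

/-- the involution `(α, β)` -/
def dd (ι : Type*) : Perm (ι ⊕ Fin 2) := Perm.sumCongr 1 (swap 0 1)

omit [DecidableEq ι] in
@[simp] theorem dd_inl (i : ι) : dd ι (Sum.inl i) = Sum.inl i := rfl
omit [DecidableEq ι] in
@[simp] theorem dd_zero : dd ι (Sum.inr 0) = Sum.inr 1 := rfl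
omit [DecidableEq ι] in
@[simp] theorem dd_one : dd ι (Sum.inr 1) = Sum.inr 0 := rfl

omit [DecidableEq ι] in
theorem dd_mul_dd : dd ι * dd ι = 1 := by
  ext y
  rcases y with j | j
  · rfl
  · fin_cases j <;> rfl

omit [DecidableEq ι] in
theorem dd_inv : (dd ι)⁻¹ = dd ι := inv_eq_of_mul_eq_one_left dd_mul_dd

theorem c3_inv (i : ι) : (c3 i)⁻¹ = dd ι * c3 i * dd ι := by
  symm
  rw [eq_inv_iff_mul_eq_one]
  ext y
  simp only [Perm.mul_apply, Perm.one_apply]
  rcases y with j | j
  · by_cases h : j = i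
    · subst h; simp
    · simp [c3_ne h]
  · fin_cases j <;> simp

theorem dd_c3 (i : ι) : dd ι * c3 i * (dd ι)⁻¹ = (c3 i)⁻¹ := by rw [dd_inv, c3_inv]

/-- the subgroup generated by Carmichael cycles -/
def KK (ι : Type*) [DecidableEq ι] : Subgroup (Perm (ι ⊕ Fin 2)) := Subgroup.closure (Set.range c3)

theorem c3_mem (i : ι) : c3 i ∈ KK ι := Subgroup.subset_closure ⟨i, rfl⟩

theorem dd_conj {g : Perm (ι ⊕ Fin 2)} (hg : g ∈ KK ι) : dd ι * g * dd ι ∈ KK ι := by
  have h : KK ι ≤ (KK ι).comap (MulAut.conj (dd ι)).toMonoidHom := by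
    rw [KK, Subgroup.closure_le]
    rintro _ ⟨i, rfl⟩
    change dd ι * c3 i * (dd ι)⁻¹ ∈ KK ι
    rw [dd_c3]
    exact (KK ι).inv_mem (c3_mem i)
  have := h hg
  change dd ι * g * (dd ι)⁻¹ ∈ KK ι at this
  rwa [dd_inv] at this

theorem swap_inl_dd {i j : ι} (h : i ≠ j) : swap (Sum.inl i) (Sum.inl j) * dd ι = c3 i * (c3 j)⁻¹ * c3 i := by
  have hji := h.symm
  rw [c3_inv]
  ext y
  simp only [Perm.mul_apply]
  rcases y with l | l
  · by_cases h1 : l = i
    · subst h1
      simp [c3_ne hji]
    · by_cases h2 : l = j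
      · subst h2
        simp [c3_ne h1]
      · have h3 : swap (Sum.inl i : ι ⊕ Fin 2) (Sum.inl j) (Sum.inl l) = Sum.inl l :=
          swap_apply_of_ne_of_ne (by simpa using h1) (by simpa using h2)
        simp [c3_ne h1, c3_ne h2, h3]
  · have h3 : ∀ t : Fin 2, swap (Sum.inl i : ι ⊕ Fin 2) (Sum.inl j) (Sum.inr t) = Sum.inr t := fun t =>
      swap_apply_of_ne_of_ne (by simp) (by simp)
    fin_cases l
    · simp [h3]
    · simp [c3_ne h, h3]

theorem swap_dd_mem (x y : ι ⊕ Fin 2) (h : x ≠ y) : swap x y * dd ι ∈ KK ι := by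
  have h01 : ∀ i : ι, swap (Sum.inl i) (Sum.inr 0) * dd ι = c3 i := by
    intro i
    have : dd ι = swap (Sum.inr 0) (Sum.inr 1) := by
      ext y
      rcases y with l | l
      · rw [swap_apply_of_ne_of_ne (by simp) (by simp)]; rfl
      · fin_cases l
        · simp
        · simp
    rw [this]; rfl
  have h02 : ∀ i : ι, swap (Sum.inl i) (Sum.inr 1) * dd ι ∈ KK ι := by
    intro i
    have e : swap (Sum.inl i) (Sum.inr 1) = dd ι * swap (Sum.inl i) (Sum.inr 0) * dd ι := by
      have h := Equiv.mul_swap_eq_swap_mul (dd ι) (Sum.inl i : ι ⊕ Fin 2) (Sum.inr 0)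
      rw [h, mul_assoc, dd_mul_dd, mul_one, dd_inl, dd_zero]
    rw [e, mul_assoc (dd ι), h01]
    exact dd_conj (c3_mem i)
  have h03 : swap (Sum.inr 0 : ι ⊕ Fin 2) (Sum.inr 1) * dd ι = 1 := by
    have : dd ι = swap (Sum.inr 0) (Sum.inr 1) := by
      ext y
      rcases y with l | l
      · rw [swap_apply_of_ne_of_ne (by simp) (by simp)]; rfl
      · fin_cases l
        · simp
        · simp
    rw [this, swap_mul_self]
  rcases x with i | i <;> rcases y with j | j
  · rw [swap_inl_dd (by rintro rfl; exact h rfl)]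
    exact (KK ι).mul_mem ((KK ι).mul_mem (c3_mem i) ((KK ι).inv_mem (c3_mem j))) (c3_mem i)
  · fin_cases j
    · change swap (Sum.inl i) (Sum.inr 0) * dd ι ∈ KK ι
      rw [h01]; exact c3_mem i
    · exact h02 i
  · rw [swap_comm]
    fin_cases i
    · change swap (Sum.inl j) (Sum.inr 0) * dd ι ∈ KK ι
      rw [h01]; exact c3_mem j
    · exact h02 j
  · fin_cases i <;> fin_cases j
    · exact absurd rfl h
    · change swap (Sum.inr 0 : ι ⊕ Fin 2) (Sum.inr 1) * dd ι ∈ KK ι
      rw [h03]; exact (KK ι).one_mem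
    · rw [swap_comm]
      change swap (Sum.inr 0 : ι ⊕ Fin 2) (Sum.inr 1) * dd ι ∈ KK ι
      rw [h03]; exact (KK ι).one_mem
    · exact absurd rfl h

theorem mem_or [Finite ι] (g : Perm (ι ⊕ Fin 2)) : g ∈ KK ι ∨ g * dd ι ∈ KK ι := by
  induction g using Equiv.Perm.swap_induction_on with
  | one => exact Or.inl (KK ι).one_mem
  | swap_mul f x y hxy hf =>
    have hs := swap_dd_mem x y hxy
    rcases hf with hf | hf
    · right
      have e : swap x y * f * dd ι = (swap x y * dd ι) * (dd ι * f * dd ι) := by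
        calc swap x y * f * dd ι = swap x y * (dd ι * dd ι) * f * dd ι := by rw [dd_mul_dd, mul_one]
          _ = _ := by simp only [mul_assoc]
      rw [e]
      exact (KK ι).mul_mem hs (dd_conj hf)
    · left
      have e : swap x y * f = (swap x y * dd ι) * (dd ι * (f * dd ι) * dd ι) := by
        calc swap x y * f = swap x y * (dd ι * dd ι) * f * (dd ι * dd ι) := by rw [dd_mul_dd, mul_one, mul_one]
          _ = _ := by simp only [mul_assoc]
      rw [e]
      exact (KK ι).mul_mem hs (dd_conj hf)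

variable [Fintype ι]

theorem sign_c3 (i : ι) : Perm.sign (c3 i) = 1 := by
  rw [c3, Perm.sign_mul, Perm.sign_swap (by simp), Perm.sign_swap (by simp)]
  rfl

theorem sign_dd : Perm.sign (dd ι) = -1 := by
  rw [dd, Perm.sign_sumCongr, Perm.sign_one, one_mul, Perm.sign_swap (by decide)]

theorem KK_eq : KK ι = alternatingGroup (ι ⊕ Fin 2) := by
  apply le_antisymm
  · rw [KK, Subgroup.closure_le]
    rintro _ ⟨i, rfl⟩
    exact Perm.mem_alternatingGroup.2 (sign_c3 i)
  · intro g hg
    rw [Perm.mem_alternatingGroup] at hg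
    rcases mem_or g with h | h
    · exact h
    · exfalso
      have h2 : Perm.sign (g * dd ι) = 1 := by
        have : KK ι ≤ alternatingGroup (ι ⊕ Fin 2) := by
          rw [KK, Subgroup.closure_le]
          rintro _ ⟨i, rfl⟩
          exact Perm.mem_alternatingGroup.2 (sign_c3 i)
        exact Perm.mem_alternatingGroup.1 (this h)
      rw [Perm.sign_mul, hg, sign_dd] at h2
      exact absurd h2 (by decide)

theorem card_KK : 2 * Nat.card (KK ι) = (Nat.card ι + 2).factorial := by
  have : Nontrivial (ι ⊕ Fin 2) := ⟨Sum.inr 0, Sum.inr 1, by simp⟩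
  rw [KK_eq, two_mul_nat_card_alternatingGroup, Nat.card_perm, Nat.card_sum, Nat.card_eq_fintype_card (α := Fin 2),
    Fintype.card_fin]

theorem exists_word {g : Perm (ι ⊕ Fin 2)} (hg : Perm.sign g = 1) : ∃ W : FreeGroup ι, FreeGroup.lift c3 W = g := by
  have h : g ∈ KK ι := by rw [KK_eq]; exact Perm.mem_alternatingGroup.2 hg
  rw [KK, ← FreeGroup.range_lift_eq_closure] at h
  exact h

/-- Carmichael's theorem: identities between the cycles hold in every group satisfying the relations. -/
theorem transfer {G : Type*} [Group G] {x : ι → G} (h : Rel x) {W : FreeGroup ι} (hW : FreeGroup.lift c3 W = 1) :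
    FreeGroup.lift x W = 1 := by
  have hr := h.prod rel_c3
  obtain ⟨hfin, hcard⟩ := bound _ hr
  set K := Subgroup.closure (Set.range (fun i => (x i, (c3 i : Perm (ι ⊕ Fin 2))))) with hK
  let π : K →* Perm (ι ⊕ Fin 2) := (MonoidHom.snd G _).comp K.subtype
  have hπ : KK ι ≤ π.range := by
    rw [KK, Subgroup.closure_le]
    rintro _ ⟨i, rfl⟩
    exact ⟨⟨(x i, c3 i), Subgroup.subset_closure ⟨i, rfl⟩⟩, rfl⟩
  have hker : π.ker = ⊥ := by
    rw [← Subgroup.card_eq_one]
    have h1 : Nat.card π.ker * Nat.card π.range = Nat.card K := by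
      rw [← Subgroup.index_ker, Subgroup.card_mul_index]
    have h2 : Nat.card (KK ι) ≤ Nat.card π.range := Nat.card_mono (Set.toFinite _) hπ
    have h3 := card_KK (ι := ι)
    have h4 : 0 < Nat.card (KK ι) := Nat.card_pos
    have h5 : 0 < Nat.card π.ker := Nat.card_pos
    by_contra hne
    have h6 : 2 ≤ Nat.card π.ker := by omega
    have h7 : 2 * Nat.card (KK ι) ≤ Nat.card K := by
      rw [← h1]; exact Nat.mul_le_mul h6 h2
    omega
  have hmem : (FreeGroup.lift x W, FreeGroup.lift c3 W) ∈ K := by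
    have e : FreeGroup.lift (fun i => (x i, (c3 i : Perm (ι ⊕ Fin 2)))) W = (FreeGroup.lift x W, FreeGroup.lift c3 W) := by
      have : FreeGroup.lift (fun i => (x i, (c3 i : Perm (ι ⊕ Fin 2)))) = (FreeGroup.lift x).prod (FreeGroup.lift c3) := by
        apply FreeGroup.ext_hom
        intro i
        rw [FreeGroup.lift_apply_of, MonoidHom.prod_apply, FreeGroup.lift_apply_of, FreeGroup.lift_apply_of]
      rw [this]; rfl
    rw [← e, hK, ← FreeGroup.range_lift_eq_closure]
    exact ⟨W, rfl⟩
  have h8 : (⟨_, hmem⟩ : K) ∈ π.ker := by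
    rw [MonoidHom.mem_ker]; exact hW
  rw [hker, Subgroup.mem_bot] at h8
  exact congrArg (fun y : K => (y : G × Perm (ι ⊕ Fin 2)).1) h8

theorem transfer_eq {G : Type*} [Group G] {x : ι → G} (h : Rel x) {W W' : FreeGroup ι}
    (hW : FreeGroup.lift c3 W = FreeGroup.lift c3 W') : FreeGroup.lift x W = FreeGroup.lift x W' := by
  have := transfer h (W := W * W'⁻¹) (by rw [map_mul, map_inv, hW, mul_inv_cancel])
  rwa [map_mul, map_inv, mul_inv_eq_one] at this

end Perm

end H43.Carm
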