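import Cfsg.Agent.Lib.H43.SLTarget

/-!
Bounded presentations of `SL_n`, `n ≥ 4`.
-/
set_option autoImplicit false

namespace H43.SLRels

open Equiv Matrix H43.Borel H43.SL2R H43.FieldStr H43.SteinHom H43.SDM H43.AltTrans H43.SLPerm H43.Tietze

section
variable {n : ℕ} {F : Type*} [Field F] [Fintype F] {p : ℕ} [Fact p.Prime] [Algebra (ZMod p) F] {G : Type*} [Group G]

theorem c0_apply (hn : 4 ≤ n) : (c0 hn : Perm (Fin n)) (o hn 0) = o hn 1 ∧ (c0 hn : Perm (Fin n)) (o hn 1) = o hn 2 ∧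
    (c0 hn : Perm (Fin n)) (o hn 2) = o hn 0 ∧ ∀ l, l ≠ o hn 0 → l ≠ o hn 1 → l ≠ o hn 2 → (c0 hn : Perm (Fin n)) l = l := by
  have n01 : o hn 0 ≠ o hn 1 := o_ne hn (by decide)
  have n02 : o hn 0 ≠ o hn 2 := o_ne hn (by decide)
  have n12 : o hn 1 ≠ o hn 2 := o_ne hn (by decide)
  refine ⟨?_, ?_, ?_, ?_⟩
  · change swap (o hn 0) (o hn 1) (swap (o hn 1) (o hn 2) (o hn 0)) = _
    rw [swap_apply_of_ne_of_ne n01 n02, swap_apply_left]
  · change swap (o hn 0) (o hn 1) (swap (o hn 1) (o hn 2) (o hn 1)) = _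
    rw [swap_apply_left, swap_apply_of_ne_of_ne n02.symm n12.symm]
  · change swap (o hn 0) (o hn 1) (swap (o hn 1) (o hn 2) (o hn 2)) = _
    rw [swap_apply_right, swap_apply_right]
  · intro l h0 h1 h2
    change swap (o hn 0) (o hn 1) (swap (o hn 1) (o hn 2) l) = l
    rw [swap_apply_of_ne_of_ne h1 h2, swap_apply_of_ne_of_ne h0 h1]

theorem c0_three (hn : 4 ≤ n) : (c0 hn : Perm (Fin n)).IsThreeCycle := by
  have n01 : o hn 0 ≠ o hn 1 := o_ne hn (by decide)
  have n02 : o hn 0 ≠ o hn 2 := o_ne hn (by decide)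
  have n12 : o hn 1 ≠ o hn 2 := o_ne hn (by decide)
  change (swap (o hn 0) (o hn 1) * swap (o hn 1) (o hn 2)).IsThreeCycle
  rw [swap_comm (o hn 0) (o hn 1)]
  exact Perm.isThreeCycle_swap_mul_swap_same n01.symm n12 n02

/-- subgroups containing the even conjugates of `c0` -/
theorem top_of_conj (hn : 4 ≤ n) {E : Subgroup (alternatingGroup (Fin n))} (hE : ∀ σ, σ * c0 hn * σ⁻¹ ∈ E) : E = ⊤ := by
  have h1 : alternatingGroup (Fin n) ≤ E.map (alternatingGroup (Fin n)).subtype := by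
    refine le_of_eq_of_le Perm.closure_three_cycles_eq_alternating.symm ?_
    rw [Subgroup.closure_le]
    intro g hg
    have hconj : IsConj (c0 hn : Perm (Fin n)) g := by
      rw [Perm.isConj_iff_cycleType_eq]
      exact (c0_three hn).trans (Eq.symm hg)
    obtain ⟨π, hπ⟩ := isConj_iff.1 hconj
    have n01 : o hn 0 ≠ o hn 1 := o_ne hn (by decide)
    rcases Int.units_eq_one_or (Perm.sign π) with h | h
    · exact ⟨_, hE ⟨π, Perm.mem_alternatingGroup.2 h⟩, hπ⟩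
    · have hs : Perm.sign (π * swap (o hn 0) (o hn 1)) = 1 := by
        rw [map_mul, h, Perm.sign_swap n01]; rfl
      have h2 := hE ⟨π * swap (o hn 0) (o hn 1), Perm.mem_alternatingGroup.2 hs⟩
      refine ⟨_, inv_mem h2, ?_⟩
      change (π * swap (o hn 0) (o hn 1) * (swap (o hn 0) (o hn 1) * swap (o hn 1) (o hn 2)) *
        (π * swap (o hn 0) (o hn 1))⁻¹)⁻¹ = g
      rw [← hπ]
      change _ = π * (swap (o hn 0) (o hn 1) * swap (o hn 1) (o hn 2)) * π⁻¹
      have e1 : (swap (o hn 0) (o hn 1))⁻¹ = swap (o hn 0) (o hn 1) := swap_inv _ _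
      have e2 : (swap (o hn 1) (o hn 2))⁻¹ = swap (o hn 1) (o hn 2) := swap_inv _ _
      have e3 : swap (o hn 0) (o hn 1) * swap (o hn 0) (o hn 1) = 1 := swap_mul_self _ _
      simp only [_root_.mul_inv_rev, inv_inv, e1, e2]
      calc _ = π * swap (o hn 0) (o hn 1) * swap (o hn 1) (o hn 2) * (swap (o hn 0) (o hn 1) * swap (o hn 0) (o hn 1)) * π⁻¹ := by
            simp only [mul_assoc]
        _ = _ := by rw [e3]; simp only [mul_assoc, one_mul]
  rw [eq_top_iff]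
  rintro σ -
  obtain ⟨τ, hτ, hτσ⟩ := h1 σ.2
  have : τ = σ := Subtype.ext hτσ
  rw [← this]; exact hτ

theorem hom_of_full {hn : 4 ≤ n} {s : Fin n → Fin n → alternatingGroup (Fin n)} (hs : GoodS hn s) {ζ : Fˣ}
    (hζ : ∀ t : Fˣ, t ∈ Subgroup.zpowers ζ) (pb : PowerBasis (ZMod p) F) (hpb : pb.gen = ζ) {c : ℕ → ℕ}
    (hc : pb.gen ^ pb.dim = ∑ j ∈ Finset.range pb.dim, (c j : F) * pb.gen ^ j)
    {α : alternatingGroup (Fin n) →* G} {u h : G}
    (hu : ∀ ρ : alternatingGroup (Fin n), (ρ : Perm (Fin n)) (o hn 0) = o hn 0 → (ρ : Perm (Fin n)) (o hn 1) = o hn 1 →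
      Commute (α ρ) u)
    (hh : ∀ ρ : alternatingGroup (Fin n), (ρ : Perm (Fin n)) (o hn 0) = o hn 0 → (ρ : Perm (Fin n)) (o hn 1) = o hn 1 →
      Commute (α ρ) h)
    (R : RR hn s p pb.dim c α u h) (hF : Full (cj α s u) (cj α s h) p pb.dim c) :
    ∃ f : SpecialLinearGroup (Fin n) F →* G, (∀ σ, f (P σ) = α σ) ∧
      f (Tr (o hn 0) (o hn 1) (o_ne hn (by decide)) 1) = u ∧ f (Hd (o hn 0) (o hn 1) ζ) = h := by
  have n01 : o hn 0 ≠ o hn 1 := o_ne hn (by decide)
  have n02 : o hn 0 ≠ o hn 2 := o_ne hn (by decide)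
  have n12 : o hn 1 ≠ o hn 2 := o_ne hn (by decide)
  obtain ⟨f, f1, f2, f3⟩ := machine hn hF.sd hζ pb hpb hc hF.up hF.mp
  have hcu : cj α s u (o hn 0) (o hn 1) = u := by
    obtain ⟨h0, h1⟩ := hs _ _ n01
    unfold cj
    rw [(hu _ h0 h1).eq, mul_inv_cancel_right]
  have hch : cj α s h (o hn 0) (o hn 1) = h := by
    obtain ⟨h0, h1⟩ := hs _ _ n01
    unfold cj
    rw [(hh _ h0 h1).eq, mul_inv_cancel_right]
  have fn : ∀ {i j : Fin n} (hij : i ≠ j), f (nn i j hij (-1)) = (cj α s u i j)⁻¹ * cj α s u j i * (cj α s u i j)⁻¹ := by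
    intro i j hij
    rw [nn_neg_one, map_mul, map_mul, map_inv, f1, f1]
  refine ⟨f, ?_, ?_, ?_⟩
  · -- permutation matrices
    let E : Subgroup (alternatingGroup (Fin n)) := (f.comp P).eqLocus α
    have hE : E = ⊤ := by
      apply top_of_conj hn
      intro σ
      change f (P (σ * c0 hn * σ⁻¹)) = α (σ * c0 hn * σ⁻¹)
      obtain ⟨c1, c2, c3, c4⟩ := c0_apply hn
      have m01 : (σ : Perm (Fin n)) (o hn 0) ≠ (σ : Perm (Fin n)) (o hn 1) := fun e => n01 ((σ : Perm (Fin n)).injective e)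
      have m02 : (σ : Perm (Fin n)) (o hn 0) ≠ (σ : Perm (Fin n)) (o hn 2) := fun e => n02 ((σ : Perm (Fin n)).injective e)
      have m12 : (σ : Perm (Fin n)) (o hn 1) ≠ (σ : Perm (Fin n)) (o hn 2) := fun e => n12 ((σ : Perm (Fin n)).injective e)
      have hap : ∀ a, ((σ * c0 hn * σ⁻¹ : alternatingGroup (Fin n)) : Perm (Fin n)) ((σ : Perm (Fin n)) a) =
          (σ : Perm (Fin n)) ((c0 hn : Perm (Fin n)) a) := by
        intro a
        change (σ : Perm (Fin n)) ((c0 hn : Perm (Fin n)) ((σ : Perm (Fin n))⁻¹ ((σ : Perm (Fin n)) a))) = _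
        rw [pa]
      rw [P_word (σ * c0 hn * σ⁻¹) m01 m12 m02 (by rw [hap, c1]) (by rw [hap, c2]) (by rw [hap, c3]) (by
        intro l h0 h1 h2
        obtain ⟨l, rfl⟩ := (σ : Perm (Fin n)).surjective l
        rw [hap, c4 l (fun e => h0 (by rw [e])) (fun e => h1 (by rw [e])) (fun e => h2 (by rw [e]))])]
      rw [map_mul f, fn m01, fn m12, map_mul, map_mul, R.r11, map_inv α σ]
      rw [← equi hn hs hu σ n01, ← equi hn hs hu σ n01.symm, ← equi hn hs hu σ n12, ← equi hn hs hu σ n12.symm]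
      group
    intro σ
    have : σ ∈ E := by rw [hE]; trivial
    exact this
  · rw [f1, hcu]
  · have e1 := f2 (o hn 0) (o hn 1) (o hn 2) n01 n12 n02
    have e2 := f3 (o hn 1) (o hn 0) (o hn 2) n01.symm n02 n12
    have e3 : f (nn (o hn 0) (o hn 1) n01 ζ) = (cj α s h (o hn 0) (o hn 2) * cj α s u (o hn 0) (o hn 1) * (cj α s h (o hn 0) (o hn 2))⁻¹) *
      ((cj α s h (o hn 1) (o hn 2))⁻¹ * cj α s u (o hn 1) (o hn 0) * cj α s h (o hn 1) (o hn 2))⁻¹ *
      (cj α s h (o hn 0) (o hn 2) * cj α s u (o hn 0) (o hn 1) * (cj α s h (o hn 0) (o hn 2))⁻¹) := by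
      unfold nn
      rw [Tr_neg, map_mul, map_mul, map_inv, e1, Units.val_inv_eq_inv_val, e2]
    rw [Hd_word _ _ n01, map_mul, e3, fn n01, ← R.r10, hch]

end


open Monoid

/-- the relator list -/
noncomputable def relators {n : ℕ} (hn : 4 ≤ n) (s : Fin n → Fin n → alternatingGroup (Fin n)) (p e : ℕ) (c : ℕ → ℕ) {J : Type}
    (XL XR : ∀ {G : Type} [Group G], (alternatingGroup (Fin n) →* G) → G → G → J → G) :
    Fin 12 ⊕ J → Coprod (alternatingGroup (Fin n)) (FreeGroup (Fin 2)) :=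
  Sum.elim (fun i => relL hn s p e Coprod.inl (Coprod.inr (FreeGroup.of 0)) (Coprod.inr (FreeGroup.of 1)) i *
      (relR hn s e c Coprod.inl (Coprod.inr (FreeGroup.of 0)) (Coprod.inr (FreeGroup.of 1)) i)⁻¹)
    (fun i => XL Coprod.inl (Coprod.inr (FreeGroup.of 0)) (Coprod.inr (FreeGroup.of 1)) i *
      (XR Coprod.inl (Coprod.inr (FreeGroup.of 0)) (Coprod.inr (FreeGroup.of 1)) i)⁻¹)

section
variable {n : ℕ} {F : Type*} [Field F] [Fintype F]

omit [Fintype F] in
theorem Tr_congr {i j i' j' : Fin n} (hi : i = i') (hj : j = j') (h : i ≠ j) (h' : i' ≠ j') (a : F) :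
    Tr i j h a = Tr i' j' h' a := by subst hi hj; rfl

theorem stab_of (hn : 4 ≤ n) {G : Type*} [Group G] {α : alternatingGroup (Fin n) →* G} {u : G}
    {a b : alternatingGroup (Fin n)}
    (hab : ∀ σ : alternatingGroup (Fin n), (σ : Perm (Fin n)) (o hn 0) = o hn 0 → (σ : Perm (Fin n)) (o hn 1) = o hn 1 →
      σ ∈ Subgroup.closure {a, b}) (ha : Commute (α a) u) (hb : Commute (α b) u) :
    ∀ ρ : alternatingGroup (Fin n), (ρ : Perm (Fin n)) (o hn 0) = o hn 0 → (ρ : Perm (Fin n)) (o hn 1) = o hn 1 →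
      Commute (α ρ) u := by
  intro ρ h0 h1
  have h2 := hab ρ h0 h1
  have h3 : Subgroup.closure {a, b} ≤ (Subgroup.centralizer {u}).comap α := by
    rw [Subgroup.closure_le]
    rintro _ (rfl | rfl)
    · exact Subgroup.mem_centralizer_singleton_iff.2 ha
    · exact Subgroup.mem_centralizer_singleton_iff.2 hb
  exact Subgroup.mem_centralizer_singleton_iff.1 (h3 h2)

theorem exists_field_data {ζ : Fˣ} (hζ : ∀ t : Fˣ, t ∈ Subgroup.zpowers ζ) {p : ℕ} [Fact p.Prime] [Algebra (ZMod p) F] :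
    ∃ pb : PowerBasis (ZMod p) F, pb.gen = ζ := by
  apply exists_pb
  rw [eq_top_iff]
  rintro a -
  by_cases ha : a = 0
  · rw [ha]; exact Subalgebra.zero_mem _
  · obtain ⟨i, hi⟩ := exists_nat_pow hζ ha
    rw [← hi]
    exact Subalgebra.pow_mem _ (Algebra.subset_adjoin (Set.mem_singleton _)) i

variable (F)

theorem pres_big (hn : 5 ≤ n) {m k : ℕ} (hA : HasPres (alternatingGroup (Fin n)) m k) :
    HasPres (SpecialLinearGroup (Fin n) F) (m + 2) (k + 16) := by
  have hn4 : 4 ≤ n := by omega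
  obtain ⟨p, hpF⟩ := CharP.exists F
  have hp : p.Prime := (CharP.char_is_prime_or_zero F p).resolve_right (CharP.char_ne_zero_of_finite F p)
  have : Fact p.Prime := ⟨hp⟩
  let _ := ZMod.algebra F p
  obtain ⟨ζ, hζ⟩ : ∃ ζ : Fˣ, ∀ t : Fˣ, t ∈ Subgroup.zpowers ζ := IsCyclic.exists_generator
  obtain ⟨pb, hpb⟩ := exists_field_data hζ (p := p)
  obtain ⟨c, hc⟩ := coeffs pb (pb.gen ^ pb.dim)
  obtain ⟨s, hs⟩ := exists_goodS hn4
  obtain ⟨a, b, ha, hb, hab⟩ := stab_gen2 hn4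
  obtain ⟨v, R, hRf, hRk, hP⟩ := hA.exists
  let y : Fin 2 → SpecialLinearGroup (Fin n) F :=
    ![Tr (o hn4 0) (o hn4 1) (o_ne hn4 (by decide)) 1, Hd (o hn4 0) (o hn4 1) ζ]
  let r : Fin 12 ⊕ Fin 4 → Coprod (alternatingGroup (Fin n)) (FreeGroup (Fin 2)) :=
    Sum.elim (fun i => relL hn4 s p pb.dim Coprod.inl (Coprod.inr (FreeGroup.of 0)) (Coprod.inr (FreeGroup.of 1)) i *
        (relR hn4 s pb.dim c Coprod.inl (Coprod.inr (FreeGroup.of 0)) (Coprod.inr (FreeGroup.of 1)) i)⁻¹)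
      (fun i => relL5 a b Coprod.inl (Coprod.inr (FreeGroup.of 0)) (Coprod.inr (FreeGroup.of 1)) i *
        (relR5 a b Coprod.inl (Coprod.inr (FreeGroup.of 0)) (Coprod.inr (FreeGroup.of 1)) i)⁻¹)
  have hev : ∀ {G : Type _} [Group G] (α : alternatingGroup (Fin n) →* G) (z : Fin 2 → G),
      (∀ j, Coprod.lift α (FreeGroup.lift z) (r j) = 1) ↔
        RR hn4 s p pb.dim c α (z 0) (z 1) ∧ ∀ i, relL5 a b α (z 0) (z 1) i = relR5 a b α (z 0) (z 1) i := by
    intro G _ α z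
    have e1 : (Coprod.lift α (FreeGroup.lift z)).comp Coprod.inl = α := Coprod.lift_comp_inl _ _
    have e2 : Coprod.lift α (FreeGroup.lift z) (Coprod.inr (FreeGroup.of 0)) = z 0 := by simp
    have e3 : Coprod.lift α (FreeGroup.lift z) (Coprod.inr (FreeGroup.of 1)) = z 1 := by simp
    rw [← RR_iff, Sum.forall]
    apply and_congr
    · apply forall_congr'
      intro i
      change Coprod.lift α (FreeGroup.lift z) (_ * _⁻¹) = 1 ↔ _
      rw [map_mul, map_inv, mul_inv_eq_one, map_relL, map_relR, e1, e2, e3]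
    · apply forall_congr'
      intro i
      change Coprod.lift α (FreeGroup.lift z) (_ * _⁻¹) = 1 ↔ _
      rw [map_mul, map_inv, mul_inv_eq_one, map_relL5, map_relR5, e1, e2, e3]
  obtain ⟨W, hW⟩ := hP.extend P y r (gen_target hn4 hs hζ) (by
    have h1 : RR hn4 s p pb.dim c (P (F := F)) (y 0) (y 1) := RR_target hn4 hs ζ (by rw [← hpb]; exact hc)
    have fix : ∀ g : alternatingGroup (Fin n), (g : Perm (Fin n)) (o hn4 0) = o hn4 0 →
        (g : Perm (Fin n)) (o hn4 1) = o hn4 1 → P g * y 0 = y 0 * P g ∧ P g * y 1 = y 1 * P g := by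
      intro g h0 h1
      constructor
      · have := P_tr (F := F) g (o_ne hn4 (by decide) : o hn4 0 ≠ o hn4 1) 1
        rw [mul_inv_eq_iff_eq_mul, Tr_congr h0 h1 _ (o_ne hn4 (by decide))] at this
        exact this
      · have := P_Hd (F := F) g (o hn4 0) (o hn4 1) ζ
        rw [mul_inv_eq_iff_eq_mul, h0, h1] at this
        exact this
    have h2 : ∀ i, relL5 a b (P (F := F)) (y 0) (y 1) i = relR5 a b P (y 0) (y 1) i := by
      intro i
      fin_cases i
      · exact (fix a ha.1 ha.2).1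
      · exact (fix b hb.1 hb.2).1
      · exact (fix a ha.1 ha.2).2
      · exact (fix b hb.1 hb.2).2
    have e1 : (Coprod.lift (P (F := F)) (FreeGroup.lift y)).comp Coprod.inl = P := Coprod.lift_comp_inl _ _
    have e2 : Coprod.lift (P (F := F)) (FreeGroup.lift y) (Coprod.inr (FreeGroup.of 0)) = y 0 := by simp
    have e3 : Coprod.lift (P (F := F)) (FreeGroup.lift y) (Coprod.inr (FreeGroup.of 1)) = y 1 := by simp
    rintro (i | i)
    · change Coprod.lift P (FreeGroup.lift y) (_ * _⁻¹) = 1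
      rw [map_mul, map_inv, mul_inv_eq_one, map_relL, map_relR, e1, e2, e3]
      exact (RR_iff hn4 s p pb.dim c _ _ _).2 h1 i
    · change Coprod.lift P (FreeGroup.lift y) (_ * _⁻¹) = 1
      rw [map_mul, map_inv, mul_inv_eq_one, map_relL5, map_relR5, e1, e2, e3]
      exact h2 i) (by
    intro G _ α z hz
    obtain ⟨h1, h2⟩ := (hev α z).1 hz
    have hu := stab_of hn4 hab (α := α) (u := z 0) (h2 0) (h2 1)
    have hh := stab_of hn4 hab (α := α) (u := z 1) (h2 2) (h2 3)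
    obtain ⟨f, f1, f2, f3⟩ := hom_of_full hs hζ pb hpb hc hu hh h1 (full5 hs hu hh h1 hn)
    refine ⟨f, f1, fun k => ?_⟩
    fin_cases k
    · exact f2
    · exact f3)
  apply hW.hasPres finSumFinEquiv ((hRf.image _).union (Set.finite_range _))
  calc _ ≤ _ := Set.ncard_union_le _ _
    _ ≤ k + 16 := by
      apply Nat.add_le_add (le_trans (Set.ncard_image_le hRf) hRk)
      have := ncard_range_le W
      simpa using this

end

end H43.SLRels
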