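import Cfsg.Agent.Lib.H43.Fin3
import Cfsg.Agent.Lib.H43.SLMain

/-!
Field structure on the root subgroups from the short relations for `SL_3`.
-/
set_option autoImplicit false

namespace H43.Rel3

open Matrix Equiv H43.Borel H43.SL2R H43.FieldStr H43.SteinHom H43.SDM H43.SLPerm H43.Hom3

variable {G : Type*} [Group G] {u h n c : G} {M : ℕ} {F : Type*} [Field F] [Fintype F] {p : ℕ} [Fact p.Prime]
  [Algebra (ZMod p) F]

/-- the generic relations -/
structure RB (u h n c : G) (M p e : ℕ) (cf df : ℕ → ℕ) : Prop where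
  r3 : R3 u h n c M
  rd : u ^ p = 1
  e1 : cu u (kk h c ^ 3) e = wd cf e (kk h c ^ 3) u
  e2 : kk h c * u * (kk h c)⁻¹ = wd df e (kk h c ^ 3) u
  rl : u * (c * u * c⁻¹) = (c⁻¹ * (n * u⁻¹ * n⁻¹) * c) * (c * u * c⁻¹) * u
  rm : Commute u (c⁻¹ * (n * u⁻¹ * n⁻¹) * c)
  rn : Commute (c⁻¹ * (n * u⁻¹ * n⁻¹) * c) (c * u * c⁻¹)

theorem cu_three (j : ℕ) : cu u (kk h c ^ 3) j = A u h c (3 * (j : ℤ)) := by
  unfold A cz cu
  rw [← pow_mul]
  have : kk h c ^ (3 * (j : ℤ)) = kk h c ^ (3 * j) := by rw [← zpow_natCast]; push_cast; rfl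
  rw [this]

theorem homB {ζ : Fˣ} (hζ : ∀ t : Fˣ, t ∈ Subgroup.zpowers ζ) (hM : (ζ : F) ^ M = -1) (pb : PowerBasis (ZMod p) F)
    (hpb : pb.gen = (ζ : F) ^ 3) {cf df : ℕ → ℕ}
    (hc : pb.gen ^ pb.dim = ∑ j ∈ Finset.range pb.dim, (cf j : F) * pb.gen ^ j)
    (hd : (ζ : F) = ∑ j ∈ Finset.range pb.dim, (df j : F) * pb.gen ^ j)
    (R : RB u h n c M p pb.dim cf df) :
    ∃ f : SpecialLinearGroup (Fin 3) F →* G, f (Tr 0 1 (by decide) 1) = u ∧ f (Hd 0 1 ζ) = h ∧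
      f (nn 0 1 (by decide) (-1)) = n ∧ f (P s3) = c := by
  have R0 := R.r3
  have a0 : A u h c 0 = u := cz_zero _ _
  have x12 : X12 u h c 0 = c * u * c⁻¹ := by unfold X12; rw [a0]
  have x02 : X02 u h n c 0 = c⁻¹ * (n * u⁻¹ * n⁻¹) * c := by unfold X02 D; rw [a0]
  have hB0 : A u h c 0 * X12 u h c 0 = X02 u h n c 0 * X12 u h c 0 * A u h c 0 := by rw [a0, x12, x02]; exact R.rl
  have hR0 : Commute (A u h c 0) (X02 u h n c 0) := by rw [a0, x02]; exact R.rm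
  have hC0 : Commute (X02 u h n c 0) (X12 u h c 0) := by rw [x02, x12]; exact R.rn
  obtain ⟨θ, h1, hadd, hx, hpw⟩ := field_structure pb (u := u) (x := kk h c ^ 3) hc (by
    intro i _ j _
    rw [cu_three, cu_three]
    exact selfcomm R0 hB0 hR0 hC0 i j) R.rd R.e1
  have hkζ : kk h c * u * (kk h c)⁻¹ = θ (ζ : F) := by
    rw [R.e2, hd]
    exact (theta_wd hadd (fun j _ => hpw j) df).symm
  have hk : ∀ a, kk h c * θ a * (kk h c)⁻¹ = θ (ζ * a) := fun a =>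
    act_of pb hadd h1 hx ((Commute.refl _).pow_left 3) hkζ a
  have hA' := fun m : ℕ => theta_A (F := F) (ζ := ζ) h1 hk m
  have hX' := fun m : ℕ => theta_X02 (F := F) (ζ := ζ) (n := n) h1 hk hadd m
  have exi : ∀ a : F, a = 0 ∨ ∃ m : ℕ, a = (ζ : F) ^ m := by
    intro a
    by_cases ha : a = 0
    · exact Or.inl ha
    · obtain ⟨m, hm⟩ := H43.SLRels.exists_nat_pow hζ ha
      exact Or.inr ⟨m, hm.symm⟩
  have h0 : θ 0 = 1 := theta_zero hadd
  let E' : F → G := fun a => c⁻¹ * (n * θ (-a) * n⁻¹) * c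
  have hE'add : ∀ a b, E' (a + b) = E' a * E' b := by
    intro a b
    change c⁻¹ * (n * θ (-(a + b)) * n⁻¹) * c = (c⁻¹ * (n * θ (-a) * n⁻¹) * c) * (c⁻¹ * (n * θ (-b) * n⁻¹) * c)
    rw [neg_add, hadd]; group
  have hE'0 : E' 0 = 1 := theta_zero hE'add
  -- rows
  have row : ∀ a b, Commute (θ a) (E' b) := by
    intro a b
    rcases exi b with rfl | ⟨m, rfl⟩
    · rw [hE'0]; exact Commute.one_right _
    · have hz : ((ζ : F) ^ (2 * m)) ≠ 0 := pow_ne_zero _ ζ.ne_zero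
      have key := pb_ind pb (P := fun a => Commute (θ ((ζ : F) ^ (2 * m) * a)) (E' ((ζ : F) ^ m))) (by
        rw [mul_zero, h0]; exact Commute.one_left _) (by
        intro a b ha hb
        rw [mul_add, hadd]; exact ha.mul_left hb) (by
        intro j _
        rw [hpb, ← pow_mul, ← pow_add, hA']
        change Commute _ (c⁻¹ * (n * θ (-(ζ : F) ^ m) * n⁻¹) * c)
        rw [hX']
        exact Rowm R0 hR0 _ _ ((m : ℤ) + j) (by push_cast; ring)) (((ζ : F) ^ (2 * m))⁻¹ * a)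
      rwa [mul_inv_cancel_left₀ hz] at key
  apply hom3 R0 h1 hadd hk hζ hM
  intro a b
  change θ a * (c * θ b * c⁻¹) = E' (a * b) * (c * θ b * c⁻¹) * θ a
  rcases exi b with rfl | ⟨m, rfl⟩
  · rw [mul_zero, hE'0, h0]; group
  · have hz : ((ζ : F) ^ m) ≠ 0 := pow_ne_zero _ ζ.ne_zero
    have key := pb_ind pb (P := fun a => θ ((ζ : F) ^ m * a) * (c * θ ((ζ : F) ^ m) * c⁻¹) =
        E' ((ζ : F) ^ m * a * (ζ : F) ^ m) * (c * θ ((ζ : F) ^ m) * c⁻¹) * θ ((ζ : F) ^ m * a)) (by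
      rw [mul_zero, zero_mul, hE'0, h0]; group) (by
      intro a b ha hb
      rw [mul_add, hadd, add_mul, hE'add, theta_comm hE'add]
      have hr := (row ((ζ : F) ^ m * a) ((ζ : F) ^ m * b * (ζ : F) ^ m)).eq
      calc θ ((ζ : F) ^ m * a) * θ ((ζ : F) ^ m * b) * (c * θ ((ζ : F) ^ m) * c⁻¹) =
            θ ((ζ : F) ^ m * a) * (θ ((ζ : F) ^ m * b) * (c * θ ((ζ : F) ^ m) * c⁻¹)) := by group
        _ = (θ ((ζ : F) ^ m * a) * E' ((ζ : F) ^ m * b * (ζ : F) ^ m)) * (c * θ ((ζ : F) ^ m) * c⁻¹) *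
              θ ((ζ : F) ^ m * b) := by rw [hb]; group
        _ = E' ((ζ : F) ^ m * b * (ζ : F) ^ m) * (θ ((ζ : F) ^ m * a) * (c * θ ((ζ : F) ^ m) * c⁻¹)) *
              θ ((ζ : F) ^ m * b) := by rw [hr]; group
        _ = _ := by rw [ha]; group) (by
      intro j _
      have e3 : (ζ : F) ^ m * pb.gen ^ j = (ζ : F) ^ (m + 3 * j) := by rw [hpb, ← pow_mul, ← pow_add]
      rw [e3, ← pow_add, hA', hA']
      change _ = (c⁻¹ * (n * θ (-(ζ : F) ^ (m + 3 * j + m)) * n⁻¹) * c) * _ * _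
      rw [hX']
      have := Bplus R0 hB0 ((m : ℤ) + 3 * j) m j (by ring)
      unfold X12 at this
      push_cast
      exact this) (((ζ : F) ^ m)⁻¹ * a)
    rwa [mul_inv_cancel_left₀ hz] at key

/-- the relations for the field of four elements -/
structure RC (u h n c : G) : Prop where
  r3 : R3 u h n c 0
  rd : u ^ 2 = 1
  re : kk h c ^ 2 * u * (kk h c ^ 2)⁻¹ = u * (kk h c * u * (kk h c)⁻¹)
  l0 : u * (c * u * c⁻¹) = (c⁻¹ * (n * u⁻¹ * n⁻¹) * c) * (c * u * c⁻¹) * u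
  l1 : u * (c * (kk h c * u * (kk h c)⁻¹) * c⁻¹) =
    (c⁻¹ * (n * (kk h c * u * (kk h c)⁻¹)⁻¹ * n⁻¹) * c) * (c * (kk h c * u * (kk h c)⁻¹) * c⁻¹) * u
  l2 : u * (c * (kk h c ^ 2 * u * (kk h c ^ 2)⁻¹) * c⁻¹) =
    (c⁻¹ * (n * (kk h c ^ 2 * u * (kk h c ^ 2)⁻¹)⁻¹ * n⁻¹) * c) * (c * (kk h c ^ 2 * u * (kk h c ^ 2)⁻¹) * c⁻¹) * u

theorem homC {ζ : Fˣ} (hζ : ∀ t : Fˣ, t ∈ Subgroup.zpowers ζ) [Algebra (ZMod 2) F] (h4 : Fintype.card F = 4)
    (R : RC u h n c) :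
    ∃ f : SpecialLinearGroup (Fin 3) F →* G, f (Tr 0 1 (by decide) 1) = u ∧ f (Hd 0 1 ζ) = h ∧
      f (nn 0 1 (by decide) (-1)) = n ∧ f (P s3) = c := by
  have hf2 : Fact (Nat.Prime 2) := ⟨Nat.prime_two⟩
  obtain ⟨pb, hpb⟩ := H43.SLRels.exists_field_data hζ (p := 2)
  have hdim : pb.dim = 2 := by
    have h1 := Module.card_eq_pow_finrank (K := ZMod 2) (V := F)
    rw [pb.finrank, ZMod.card, h4] at h1
    have : (2 : ℕ) ^ 2 = 2 ^ pb.dim := by rw [← h1]; norm_num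
    exact (Nat.pow_right_injective (le_refl 2) this).symm
  have hchar : CharP F 2 := charP_of_injective_algebraMap (algebraMap (ZMod 2) F).injective 2
  have h20 : (2 : F) = 0 := by exact_mod_cast CharP.cast_eq_zero F 2
  have hζ2 : (ζ : F) ^ 2 = 1 + ζ := by
    have hord : orderOf ζ = 3 := by
      rw [orderOf_eq_card_of_forall_mem_zpowers hζ, Nat.card_units, Nat.card_eq_fintype_card, h4]
    have e1 : (ζ : F) ^ 3 = 1 := by
      have := pow_orderOf_eq_one ζ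
      rw [hord] at this
      rw [← Units.val_pow_eq_pow_val, this]; rfl
    have e2 : (ζ : F) ≠ 1 := by
      intro h
      have : ζ = 1 := Units.ext h
      rw [this, orderOf_one] at hord
      omega
    have e3 : ((ζ : F) - 1) * ((ζ : F) ^ 2 + ζ + 1) = 0 := by linear_combination e1
    have e4 := (mul_eq_zero.1 e3).resolve_left (sub_ne_zero.2 e2)
    linear_combination e4 - (ζ : F) * h20 - h20
  have R0 := R.r3
  have a0 : A u h c 0 = u := cz_zero _ _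
  have a1 : A u h c 1 = kk h c * u * (kk h c)⁻¹ := by unfold A cz; rw [zpow_one]
  have a2 : A u h c 2 = kk h c ^ 2 * u * (kk h c ^ 2)⁻¹ := by
    unfold A cz
    have : kk h c ^ (2 : ℤ) = kk h c ^ 2 := by rw [← zpow_natCast]; rfl
    rw [this]
  have hL : ∀ m0 : ℤ, m0 = 0 ∨ m0 = 1 ∨ m0 = 2 →
      A u h c 0 * X12 u h c m0 = X02 u h n c m0 * X12 u h c m0 * A u h c 0 := by
    rintro m0 (rfl | rfl | rfl)
    · unfold X12 X02 D; rw [a0]; exact R.l0
    · unfold X12 X02 D; rw [a0, a1]; exact R.l1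
    · unfold X12 X02 D; rw [a0, a2]; exact R.l2
  have hu' : u⁻¹ = u := inv_eq_of_mul_eq_one_left (by rw [← sq]; exact R.rd)
  have hcomm1 : Commute (cu u (kk h c) 0) (cu u (kk h c) 1) := by
    rw [cu_zero, cu_one]
    have e1 : (u * (kk h c * u * (kk h c)⁻¹)) * (u * (kk h c * u * (kk h c)⁻¹)) = 1 := by
      rw [← R.re]
      calc _ = kk h c ^ 2 * u ^ 2 * (kk h c ^ 2)⁻¹ := by rw [sq u]; group
        _ = 1 := by rw [R.rd]; group
    have e2 : (kk h c * u * (kk h c)⁻¹)⁻¹ = kk h c * u * (kk h c)⁻¹ := by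
      rw [_root_.mul_inv_rev, _root_.mul_inv_rev, inv_inv, hu']; group
    have e3 := eq_inv_of_mul_eq_one_left e1
    rw [_root_.mul_inv_rev, e2, hu'] at e3
    exact e3
  obtain ⟨θ, h1, hadd, hx, hpw⟩ := field_structure pb (u := u) (x := kk h c) (c := fun _ => 1) (by
    rw [hdim, Finset.sum_range_succ, Finset.sum_range_one, hpb, hζ2]; push_cast; ring) (by
    rw [hdim]
    intro i hi j hj
    have hi' : i = 0 ∨ i = 1 := by omega
    have hj' : j = 0 ∨ j = 1 := by omega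
    rcases hi' with rfl | rfl <;> rcases hj' with rfl | rfl
    · exact Commute.refl _
    · exact hcomm1
    · exact hcomm1.symm
    · exact Commute.refl _) R.rd (by
    rw [hdim]
    have : wd (fun _ => 1) 2 (kk h c) u = u * (kk h c * u * (kk h c)⁻¹) := by
      unfold wd
      simp [List.range_succ]
    rw [this, ← R.re]; rfl)
  rw [hpb] at hx
  have hM : (ζ : F) ^ 0 = -1 := by rw [pow_zero]; linear_combination h20
  have hA' := fun m : ℕ => theta_A (F := F) (ζ := ζ) h1 hx m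
  have hX' := fun m : ℕ => theta_X02 (F := F) (ζ := ζ) (n := n) h1 hx hadd m
  have h0 : θ 0 = 1 := theta_zero hadd
  apply hom3 R0 h1 hadd hx hζ hM
  intro a b
  by_cases ha : a = 0
  · rw [ha, zero_mul, neg_zero, h0]; group
  by_cases hb : b = 0
  · rw [hb, mul_zero, neg_zero, h0]; group
  obtain ⟨m, rfl⟩ := H43.SLRels.exists_nat_pow hζ ha
  obtain ⟨m', rfl⟩ := H43.SLRels.exists_nat_pow hζ hb
  have hr : ∃ r m0 : ℤ, (m0 = 0 ∨ m0 = 1 ∨ m0 = 2) ∧ (m : ℤ) - m' = 3 * r - m0 := by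
    refine ⟨((m : ℤ) - m' + ((m' : ℤ) - m) % 3) / 3, ((m' : ℤ) - m) % 3, by omega, by omega⟩
  obtain ⟨r, m0, hm0, hr⟩ := hr
  have := Bplus R0 (hL m0 hm0) m m' r hr
  rw [← pow_add, hX', hA', hA']
  unfold X12 at this
  push_cast
  exact this

end H43.Rel3
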