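import Mathlib

/-!
Generation of finite fields by squares and by special elements.
-/
set_option autoImplicit false

namespace H43.FieldGen

variable {F : Type*} [Field F] [Fintype F] {p : ℕ} [Fact p.Prime] [CharP F p]

omit [CharP F p] in
theorem exists_coeffs [Algebra (ZMod p) F] {x : F} (hx : Algebra.adjoin (ZMod p) {x} = ⊤) :
    ∃ e : ℕ, 0 < e ∧ Fintype.card F = p ^ e ∧ ∀ a : F, ∃ d : ℕ → ℕ, a = ∑ j ∈ Finset.range e, (d j : F) * x ^ j := by
  have hint : IsIntegral (ZMod p) x := Algebra.IsIntegral.isIntegral x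
  let pb0 := Algebra.adjoin.powerBasis hint
  let eq : Algebra.adjoin (ZMod p) {x} ≃ₐ[ZMod p] F := (Subalgebra.equivOfEq _ _ hx).trans Subalgebra.topEquiv
  let pb := pb0.map eq
  have hgen : pb.gen = x := by
    change eq pb0.gen = x
    have : pb0.gen = ⟨x, Algebra.subset_adjoin (Set.mem_singleton x)⟩ := Algebra.adjoin.powerBasis_gen hint
    rw [this]; rfl
  refine ⟨pb.dim, pb.dim_pos, ?_, fun a => ?_⟩
  · have h1 := Module.card_eq_pow_finrank (K := ZMod p) (V := F)
    rw [pb.finrank, ZMod.card] at h1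
    exact h1
  · refine ⟨fun j => if h : j < pb.dim then (pb.basis.repr a ⟨j, h⟩).val else 0, ?_⟩
    rw [Finset.sum_range]
    conv_lhs => rw [← pb.basis.sum_repr a]
    apply Finset.sum_congr rfl
    intro i _
    dsimp only
    rw [dif_pos i.2, pb.basis_eq_pow, hgen, Algebra.smul_def]
    congr 1
    have : (algebraMap (ZMod p) F) (pb.basis.repr a i) = (((pb.basis.repr a i).val : ℕ) : F) := by
      rw [← map_natCast (algebraMap (ZMod p) F), ZMod.natCast_zmod_val]
    exact this

/-- squares generate -/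
theorem top_of_squares {S : AddSubgroup F} (h : ∀ t : F, t ^ 2 ∈ S)   :
    ∀ a, a ∈ S := by
  intro a
  by_cases h2 : (2 : F) = 0
  · have : CharP F 2 := CharTwo.of_one_ne_zero_of_two_eq_zero one_ne_zero h2
    obtain ⟨t, ht⟩ := FiniteField.isSquare_of_char_two (ringChar.eq F 2 ▸ rfl : ringChar F = 2) a
    rw [ht, ← sq]; exact h t
  · have h1 : a = (a / 4 + 1) ^ 2 - (a / 4 - 1) ^ 2 := by
      have : (4 : F) ≠ 0 := by
        have : (4 : F) = 2 * 2 := by norm_num
        rw [this]; exact mul_ne_zero h2 h2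
      field_simp
      ring
    rw [h1]
    exact S.sub_mem (h _) (h _)

omit [CharP F p] in
/-- the square of a generator generates the field -/
theorem adjoin_sq [Algebra (ZMod p) F] {ζ : Fˣ} (hζ : ∀ t : Fˣ, t ∈ Subgroup.zpowers ζ) :
    Algebra.adjoin (ZMod p) {(ζ : F) ^ 2} = ⊤ := by
  rw [eq_top_iff]
  rintro a -
  set A := Algebra.adjoin (ZMod p) {(ζ : F) ^ 2}
  apply top_of_squares (S := A.toSubring.toAddSubgroup) _ a
  · intro t
    by_cases ht : t = 0
    · rw [ht, zero_pow two_ne_zero]; exact A.zero_mem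
    · have h1 : Units.mk0 t ht ∈ Submonoid.powers ζ := by
        rw [mem_powers_iff_mem_zpowers]; exact hζ _
      obtain ⟨n, hn⟩ := h1
      have h2 : t = (ζ : F) ^ n := by
        have := congrArg Units.val hn
        simp only [Units.val_pow_eq_pow_val, Units.val_mk0] at this
        exact this.symm
      have h3 : t ^ 2 = ((ζ : F) ^ 2) ^ n := by rw [h2]; ring
      rw [h3]
      exact A.pow_mem (Algebra.subset_adjoin (Set.mem_singleton _)) n

/-- special generator: `x = ((ζ - ζ⁻¹)/2)²` -/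
theorem adjoin_special [Algebra (ZMod p) F] {ζ : Fˣ} (hζ : ∀ t : Fˣ, t ∈ Subgroup.zpowers ζ) (h2 : (2 : F) ≠ 0)
    (h9 : Fintype.card F ≠ 9) : Algebra.adjoin (ZMod p) {(((ζ : F) - (ζ : F)⁻¹) / 2) ^ 2} = ⊤ := by
  set x : F := (((ζ : F) - (ζ : F)⁻¹) / 2) ^ 2 with hx
  set E := IntermediateField.adjoin (ZMod p) {x} with hE
  have hEA : E.toSubalgebra = Algebra.adjoin (ZMod p) {x} :=
    IntermediateField.adjoin_simple_toSubalgebra_of_isAlgebraic (Algebra.IsAlgebraic.isAlgebraic x)
  have hfE : Fintype E := Fintype.ofFinite E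
  set r := Fintype.card E with hr
  have hcF : Fintype.card F = r ^ Module.finrank E F := Module.card_eq_pow_finrank
  have hcE : r = p ^ Module.finrank (ZMod p) E := by
    have h1 := Module.card_eq_pow_finrank (K := ZMod p) (V := E)
    rwa [ZMod.card] at h1
  have hpow : ∀ z ∈ E, z ^ r = z := by
    intro z hz
    have := FiniteField.pow_card (⟨z, hz⟩ : E)
    exact congrArg Subtype.val this
  have hxE : x ∈ E := IntermediateField.mem_adjoin_simple_self _ x
  have hζ0 : (ζ : F) ≠ 0 := ζ.ne_zero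
  set s : F := (ζ : F) ^ 2 with hs
  have hs0 : s ≠ 0 := pow_ne_zero 2 hζ0
  have hsE : s + s⁻¹ ∈ E := by
    have : s + s⁻¹ = 4 * x + 2 := by
      rw [hs, hx]
      have h4 : (4 : F) = 2 * 2 := by norm_num
      field_simp
      ring
    rw [this]
    exact E.add_mem (E.mul_mem (ofNat_mem E 4) hxE) (ofNat_mem E 2)
  have h1 : s ^ r + (s⁻¹) ^ r = s + s⁻¹ := by
    have h3 := hpow _ hsE
    rw [hcE, add_pow_char_pow] at h3
    rw [hcE]; exact h3
  have h3 : (s ^ (r + 1) - 1) * (s ^ r - s) = 0 := by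
    have h4 : (s ^ r + (s⁻¹) ^ r) * (s ^ r * s) = (s + s⁻¹) * (s ^ r * s) := by rw [h1]
    have h5 : (s⁻¹) ^ r * s ^ r = 1 := by rw [← mul_pow, inv_mul_cancel₀ hs0, one_pow]
    have h6 : s⁻¹ * s = 1 := inv_mul_cancel₀ hs0
    rw [pow_succ]
    linear_combination h4 - s * h5 + s ^ r * h6
  have hord : orderOf ζ = Fintype.card F - 1 := by
    rw [orderOf_eq_card_of_forall_mem_zpowers hζ, Nat.card_units, Nat.card_eq_fintype_card]
  have hr2 : 2 ≤ r := Fintype.one_lt_card
  have hq : Odd (Fintype.card F) := by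
    rw [← Nat.not_even_iff_odd]
    intro hev
    have h4 : ((Fintype.card F : ℕ) : F) = 0 := FiniteField.cast_card_eq_zero F
    have hp2 : p = 2 := by
      have h5 : p ∣ Fintype.card F := (CharP.cast_eq_zero_iff F p _).1 h4
      have h6 : 2 ∣ p ^ (Module.finrank (ZMod p) E * Module.finrank E F) := by
        rw [pow_mul, ← hcE, ← hcF]; exact hev.two_dvd
      have h7 := (Nat.prime_two).dvd_of_dvd_pow h6
      exact ((Nat.prime_dvd_prime_iff_eq Nat.prime_two (Fact.out : p.Prime)).1 h7).symm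
    apply h2
    subst hp2
    exact_mod_cast CharP.cast_eq_zero F 2
  have hle : Fintype.card F ≤ 2 * r + 3 := by
    rcases mul_eq_zero.1 h3 with h4 | h4
    · have h5 : ζ ^ (2 * (r + 1)) = 1 := by
        apply Units.ext
        rw [Units.val_pow_eq_pow_val, pow_mul, Units.val_one]
        exact sub_eq_zero.1 h4
      have h6 := Nat.le_of_dvd (by omega) (orderOf_dvd_of_pow_eq_one h5)
      rw [hord] at h6
      omega
    · have h5 : ζ ^ (2 * (r - 1)) = 1 := by
        apply Units.ext
        rw [Units.val_pow_eq_pow_val, pow_mul, Units.val_one]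
        have h6 : s ^ (r - 1) * s = 1 * s := by
          rw [← pow_succ, Nat.sub_add_cancel (by omega), one_mul]; exact sub_eq_zero.1 h4
        exact mul_right_cancel₀ hs0 h6
      have h6 := Nat.le_of_dvd (by omega) (orderOf_dvd_of_pow_eq_one h5)
      rw [hord] at h6
      omega
  have hfin : Module.finrank E F = 1 := by
    have h0 : 0 < Module.finrank E F := Module.finrank_pos
    by_contra hne
    have h4 : 2 ≤ Module.finrank E F := by omega
    have h5 : r ^ 2 ≤ Fintype.card F := by
      rw [hcF]; exact Nat.pow_le_pow_right (by omega) h4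
    have h6 : r ≤ 3 := by nlinarith
    have h7 : r ≠ 2 := by
      intro h8
      rw [hcF, h8] at hq
      exact absurd hq (Nat.not_odd_iff_even.2 ((Nat.even_pow).2 ⟨even_two, h0.ne'⟩))
    have h8 : r = 3 := by omega
    rw [h8] at h5 hle
    apply h9; omega
  have hbt : E = ⊤ := by
    rw [← IntermediateField.finrank_eq_one_iff_eq_top]
    exact hfin
  rw [← hEA, hbt, IntermediateField.top_toSubalgebra]

end H43.FieldGen
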