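import Cfsg.Agent.Lib.H43.SL2Words

/-!
Field structures on abelian groups generated by conjugates of one element.
-/
set_option autoImplicit false

namespace H43.FieldStr

open H43.Borel H43.SL2R

variable {F : Type*} [Field F] [Fintype F] {p : ℕ} [Fact p.Prime]

section
variable [Algebra (ZMod p) F]

omit [Fintype F] in
theorem coeffs (pb : PowerBasis (ZMod p) F) (a : F) :
    ∃ d : ℕ → ℕ, a = ∑ j ∈ Finset.range pb.dim, (d j : F) * pb.gen ^ j := by
  refine ⟨fun j => if h : j < pb.dim then (pb.basis.repr a ⟨j, h⟩).val else 0, ?_⟩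
  rw [Finset.sum_range]
  conv_lhs => rw [← pb.basis.sum_repr a]
  apply Finset.sum_congr rfl
  intro i _
  dsimp only
  rw [dif_pos i.2, pb.basis_eq_pow, Algebra.smul_def]
  congr 1
  have : (algebraMap (ZMod p) F) (pb.basis.repr a i) = (((pb.basis.repr a i).val : ℕ) : F) := by
    rw [← map_natCast (algebraMap (ZMod p) F), ZMod.natCast_zmod_val]
  exact this

/-- a power basis with prescribed generator -/
theorem exists_pb {x : F} (hx : Algebra.adjoin (ZMod p) {x} = ⊤) : ∃ pb : PowerBasis (ZMod p) F, pb.gen = x := by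
  have hint : IsIntegral (ZMod p) x := Algebra.IsIntegral.isIntegral x
  let pb0 := Algebra.adjoin.powerBasis hint
  let eq : Algebra.adjoin (ZMod p) {x} ≃ₐ[ZMod p] F := (Subalgebra.equivOfEq _ _ hx).trans Subalgebra.topEquiv
  refine ⟨pb0.map eq, ?_⟩
  change eq pb0.gen = x
  have : pb0.gen = ⟨x, Algebra.subset_adjoin (Set.mem_singleton x)⟩ := Algebra.adjoin.powerBasis_gen hint
  rw [this]; rfl

omit [Fintype F] in
/-- additive induction over the power basis -/
theorem pb_ind (pb : PowerBasis (ZMod p) F) {P : F → Prop} (h0 : P 0) (ha : ∀ a b, P a → P b → P (a + b))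
    (hg : ∀ j < pb.dim, P (pb.gen ^ j)) (a : F) : P a := by
  have hn : ∀ (k : ℕ) (b : F), P b → P ((k : F) * b) := by
    intro k b hb
    induction k with
    | zero => rw [Nat.cast_zero, zero_mul]; exact h0
    | succ k ih =>
      have : ((k + 1 : ℕ) : F) * b = (k : F) * b + b := by push_cast; ring
      rw [this]; exact ha _ _ ih hb
  obtain ⟨d, rfl⟩ := coeffs pb a
  have : ∀ e ≤ pb.dim, P (∑ j ∈ Finset.range e, (d j : F) * pb.gen ^ j) := by
    intro e
    induction e with
    | zero => intro _; simpa using h0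
    | succ e ih =>
      intro he
      rw [Finset.sum_range_succ]
      exact ha _ _ (ih (by omega)) (hn _ _ (hg e (by omega)))
  exact this _ le_rfl

variable {G : Type*} [Group G]

omit [Fintype F] [Algebra (ZMod p) F] [Fact p.Prime] in
theorem theta_zero {θ : F → G} (hθ : ∀ a b, θ (a + b) = θ a * θ b) : θ 0 = 1 := by
  have := hθ 0 0
  rw [add_zero] at this
  exact mul_eq_left.1 this.symm

omit [Fintype F] [Algebra (ZMod p) F] [Fact p.Prime] in
theorem theta_neg {θ : F → G} (hθ : ∀ a b, θ (a + b) = θ a * θ b) (a : F) : θ (-a) = (θ a)⁻¹ := by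
  rw [eq_inv_iff_mul_eq_one, ← hθ, neg_add_cancel, theta_zero hθ]

omit [Fintype F] [Algebra (ZMod p) F] [Fact p.Prime] in
theorem theta_comm {θ : F → G} (hθ : ∀ a b, θ (a + b) = θ a * θ b) (a b : F) : Commute (θ a) (θ b) := by
  change θ a * θ b = θ b * θ a
  rw [← hθ, ← hθ, add_comm]

omit [Fintype F] [Algebra (ZMod p) F] [Fact p.Prime] in
theorem theta_pow {θ : F → G} (hθ : ∀ a b, θ (a + b) = θ a * θ b) (a : F) (k : ℕ) : θ a ^ k = θ ((k : F) * a) := by
  induction k with
  | zero => rw [pow_zero, Nat.cast_zero, zero_mul, theta_zero hθ]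
  | succ k ih => rw [pow_succ, ih, ← hθ]; congr 1; push_cast; ring

omit [Fintype F] [Algebra (ZMod p) F] [Fact p.Prime] in
theorem theta_wd {θ : F → G} (hθ : ∀ a b, θ (a + b) = θ a * θ b) {g : F} {u x : G} {e : ℕ}
    (h : ∀ j < e, θ (g ^ j) = cu u x j) (c : ℕ → ℕ) :
    θ (∑ j ∈ Finset.range e, (c j : F) * g ^ j) = wd c e x u := by
  have : ∀ e' ≤ e, θ (∑ j ∈ Finset.range e', (c j : F) * g ^ j) = wd c e' x u := by
    intro e'
    induction e' with
    | zero => intro _; simp [wd, theta_zero hθ]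
    | succ e' ih =>
      intro he
      rw [Finset.sum_range_succ, hθ, ih (by omega), ← theta_pow hθ, h e' (by omega)]
      unfold wd
      rw [List.range_succ, List.map_append, List.prod_append, List.map_singleton, List.prod_singleton]
      congr 1
      unfold cu
      rw [conj_pow]
  exact this e le_rfl

omit [Fintype F] in
theorem exists_theta0 {A : Type*} [AddCommGroup A] [Module (ZMod p) A] (pb : PowerBasis (ZMod p) F) (g : ℕ → A) :
    ∃ θ : F → A, (∀ a b, θ (a + b) = θ a + θ b) ∧ ∀ j < pb.dim, θ (pb.gen ^ j) = g j := by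
  let L : F →ₗ[ZMod p] A := pb.basis.constr (ZMod p) (fun i : Fin pb.dim => (g i))
  refine ⟨fun a => L a, ?_, ?_⟩
  · intro a b
    exact map_add L a b
  · intro j hj
    have h1 : L (pb.gen ^ j) = g j := by
      rw [← pb.basis_eq_pow ⟨j, hj⟩]
      exact pb.basis.constr_basis (ZMod p) _ _
    exact h1

omit [Fintype F] in
/-- an additive map with prescribed values on a power basis -/
theorem exists_theta {A : Type*} [CommGroup A] (pb : PowerBasis (ZMod p) F) (hA : ∀ a : A, a ^ p = 1) (g : ℕ → A) :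
    ∃ θ : F → A, (∀ a b, θ (a + b) = θ a * θ b) ∧ ∀ j < pb.dim, θ (pb.gen ^ j) = g j := by
  have hmod : ∀ w : Additive A, p • w = 0 := fun w => hA w.toMul
  let i1 : Module (ZMod p) (Additive A) := AddCommGroup.zmodModule hmod
  obtain ⟨θ, h1, h2⟩ := exists_theta0 (A := Additive A) pb (fun j => Additive.ofMul (g j))
  exact ⟨fun a => (θ a).toMul, fun a b => congrArg Additive.toMul (h1 a b), fun j hj => congrArg Additive.toMul (h2 j hj)⟩

omit [Fintype F] in
theorem field_structure (pb : PowerBasis (ZMod p) F) {u x : G} {c : ℕ → ℕ}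
    (hc : pb.gen ^ pb.dim = ∑ j ∈ Finset.range pb.dim, (c j : F) * pb.gen ^ j)
    (hcomm : ∀ i < pb.dim, ∀ j < pb.dim, Commute (cu u x i) (cu u x j))
    (hu : u ^ p = 1) (hmin : cu u x pb.dim = wd c pb.dim x u) :
    ∃ θ : F → G, θ 1 = u ∧ (∀ a b, θ (a + b) = θ a * θ b) ∧ (∀ a, x * θ a * x⁻¹ = θ (pb.gen * a)) ∧
      (∀ j, θ (pb.gen ^ j) = cu u x j) := by
  set V := Subgroup.closure (cu u x '' {i | i < pb.dim}) with hV
  have hcc : ∀ a ∈ cu u x '' {i | i < pb.dim}, ∀ b ∈ cu u x '' {i | i < pb.dim}, Commute a b := by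
    rintro _ ⟨i, hi, rfl⟩ _ ⟨j, hj, rfl⟩
    exact hcomm i hi j hj
  have hco := closure_comm (S := cu u x '' {i | i < pb.dim}) hcc
  have hVp : ∀ v ∈ V, v ^ p = 1 := by
    intro v hv
    induction hv using Subgroup.closure_induction with
    | mem v hv =>
      obtain ⟨i, _, rfl⟩ := hv
      unfold cu
      rw [conj_pow, hu]; group
    | one => exact one_pow _
    | mul v w hv hw h1 h2 => rw [(hco v hv w hw).mul_pow, h1, h2, one_mul]
    | inv v hv h1 => rw [inv_pow, h1, inv_one]
  let _ : CommGroup V := { (inferInstance : Group V) with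
    mul_comm := fun a b => Subtype.ext (hco a.1 a.2 b.1 b.2) }
  obtain ⟨θ', hθ', hg'⟩ := exists_theta (A := V) pb (fun a => Subtype.ext (by
    have := hVp a.1 a.2
    simpa using this)) (fun j => if h : j < pb.dim then ⟨cu u x j, Subgroup.subset_closure ⟨j, h, rfl⟩⟩ else 1)
  let θ : F → G := fun a => (θ' a : G)
  have hadd : ∀ a b, θ (a + b) = θ a * θ b := by
    intro a b
    change ((θ' (a + b) : V) : G) = _
    rw [hθ']; rfl
  have hlt : ∀ j < pb.dim, θ (pb.gen ^ j) = cu u x j := by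
    intro j hj
    change ((θ' (pb.gen ^ j) : V) : G) = _
    rw [hg' j hj, dif_pos hj]
  have hdim : θ (pb.gen ^ pb.dim) = cu u x pb.dim := by
    rw [hc, theta_wd hadd hlt, hmin]
  have hx : ∀ a, x * θ a * x⁻¹ = θ (pb.gen * a) := by
    intro a
    refine pb_ind pb (P := fun a => x * θ a * x⁻¹ = θ (pb.gen * a)) ?_ ?_ ?_ a
    · rw [mul_zero, theta_zero hadd]; group
    · intro a b h1 h2
      rw [mul_add, hadd, hadd, ← h1, ← h2]; group
    · intro j hj
      rw [hlt j hj, cu_succ, ← pow_succ']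
      rcases Nat.lt_or_ge (j + 1) pb.dim with h | h
      · rw [hlt _ h]
      · rw [show j + 1 = pb.dim by omega, hdim]
  refine ⟨θ, ?_, hadd, hx, ?_⟩
  · have := hlt 0 pb.dim_pos
    rwa [pow_zero, cu_zero] at this
  · intro j
    induction j with
    | zero => have := hlt 0 pb.dim_pos; exact this
    | succ j ih => rw [pow_succ', ← hx, ih, cu_succ]

omit [Fintype F] in
/-- the action of elements commuting with `x` -/
theorem act_of (pb : PowerBasis (ZMod p) F) {u x y : G} {θ : F → G} {b : F} (hadd : ∀ a b, θ (a + b) = θ a * θ b)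
    (h1 : θ 1 = u) (hx : ∀ a, x * θ a * x⁻¹ = θ (pb.gen * a)) (hxy : Commute x y) (hy : y * u * y⁻¹ = θ b) (a : F) :
    y * θ a * y⁻¹ = θ (b * a) := by
  have hxj : ∀ (j : ℕ) a, x ^ j * θ a * (x ^ j)⁻¹ = θ (pb.gen ^ j * a) := by
    intro j
    induction j with
    | zero => intro a; rw [pow_zero, pow_zero, one_mul, one_mul, inv_one, mul_one]
    | succ j ih =>
      intro a
      have : x ^ (j + 1) * θ a * (x ^ (j + 1))⁻¹ = x * (x ^ j * θ a * (x ^ j)⁻¹) * x⁻¹ := by rw [pow_succ']; group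
      rw [this, ih, hx, pow_succ', mul_assoc]
  refine pb_ind pb (P := fun a => y * θ a * y⁻¹ = θ (b * a)) ?_ ?_ ?_ a
  · rw [mul_zero, theta_zero hadd]; group
  · intro a b h1 h2
    rw [mul_add, hadd, hadd, ← h1, ← h2]; group
  · intro j _
    have h3 : θ (pb.gen ^ j) = x ^ j * u * (x ^ j)⁻¹ := by rw [← h1, hxj, mul_one]
    have e1 : y * x ^ j = x ^ j * y := (hxy.symm.pow_right j).eq
    have e2 : (x ^ j)⁻¹ * y⁻¹ = y⁻¹ * (x ^ j)⁻¹ := by rw [← mul_inv_rev, e1, mul_inv_rev]
    rw [h3]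
    calc y * (x ^ j * u * (x ^ j)⁻¹) * y⁻¹ = (y * x ^ j) * u * ((x ^ j)⁻¹ * y⁻¹) := by group
      _ = x ^ j * (y * u * y⁻¹) * (x ^ j)⁻¹ := by rw [e1, e2]; group
      _ = _ := by rw [hy, hxj, mul_comm]

omit [Fintype F] in
theorem comm_of (pb : PowerBasis (ZMod p) F) {s : G} {θ : F → G} (hadd : ∀ a b, θ (a + b) = θ a * θ b)
    (hs : ∀ j < pb.dim, Commute s (θ (pb.gen ^ j))) (a : F) : Commute s (θ a) := by
  refine pb_ind pb (P := fun a => Commute s (θ a)) ?_ ?_ ?_ a
  · rw [theta_zero hadd]; exact Commute.one_right _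
  · intro a b h1 h2; rw [hadd]; exact h1.mul_right h2
  · exact hs

end

end H43.FieldStr
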