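import Cfsg.Agent.Lib.H43.Rel3

/-!
Homomorphisms from `SL_3` from the short relations.
-/
set_option autoImplicit false

namespace H43.Rel3

open Matrix Equiv H43.Borel H43.SL2R H43.FieldStr H43.SteinHom H43.SDM H43.SLPerm H43.Hom3

variable {G : Type*} [Group G] {u h n c : G} {M : ℕ} {F : Type*} [Field F] [Fintype F]

/-- the three-cycle -/
def s3 : alternatingGroup (Fin 3) := ⟨swap 0 1 * swap 1 2, Perm.mem_alternatingGroup.2 (by decide)⟩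

theorem s3_apply : (s3 : Perm (Fin 3)) 0 = 1 ∧ (s3 : Perm (Fin 3)) 1 = 2 ∧ (s3 : Perm (Fin 3)) 2 = 0 ∧
    ∀ l : Fin 3, l ≠ 0 → l ≠ 1 → l ≠ 2 → (s3 : Perm (Fin 3)) l = l := by
  refine ⟨by decide, by decide, by decide, ?_⟩
  intro l h0 h1 h2
  fin_cases l
  · exact absurd rfl h0
  · exact absurd rfl h1
  · exact absurd rfl h2

section
variable (R : R3 u h n c M) {ζ : Fˣ} (hζ : ∀ t : Fˣ, t ∈ Subgroup.zpowers ζ) {θ : F → G} (h1 : θ 1 = u)
  (hadd : ∀ a b, θ (a + b) = θ a * θ b) (hk : ∀ a, kk h c * θ a * (kk h c)⁻¹ = θ (ζ * a))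
include h1 hk

omit [Fintype F] in
theorem theta_A (m : ℕ) : θ ((ζ : F) ^ m) = A u h c m := by
  induction m with
  | zero => rw [pow_zero, h1]; exact (cz_zero _ _).symm
  | succ m ih =>
    rw [pow_succ', ← hk, ih]
    unfold A
    rw [Nat.cast_succ, add_comm, cz_add]
    have : ∀ g : G, cz (kk h c) 1 g = kk h c * g * (kk h c)⁻¹ := by intro g; unfold cz; rw [zpow_one]
    rw [this]

/-- the opposite root -/
theorem theta_X02 (hadd : ∀ a b, θ (a + b) = θ a * θ b) (m : ℕ) :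
    c⁻¹ * (n * θ (-(ζ : F) ^ m) * n⁻¹) * c = X02 u h n c m := by
  rw [theta_neg hadd, theta_A h1 hk]; rfl

include R hadd

theorem hom3 (hζ : ∀ t : Fˣ, t ∈ Subgroup.zpowers ζ) (hM : (ζ : F) ^ M = -1)
    (hB : ∀ a b, θ a * (c * θ b * c⁻¹) = (c⁻¹ * (n * θ (-(a * b)) * n⁻¹) * c) * (c * θ b * c⁻¹) * θ a) :
    ∃ f : SpecialLinearGroup (Fin 3) F →* G, f (Tr 0 1 (by decide) 1) = u ∧ f (Hd 0 1 ζ) = h ∧
      f (nn 0 1 (by decide) (-1)) = n ∧ f (P s3) = c := by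
  have ccR := cc R
  have ccR' := ccinv R
  have exi : ∀ a : F, a = 0 ∨ ∃ m : ℕ, a = (ζ : F) ^ m := by
    intro a
    by_cases ha : a = 0
    · exact Or.inl ha
    · obtain ⟨m, hm⟩ := H43.SLRels.exists_nat_pow hζ ha
      exact Or.inr ⟨m, hm.symm⟩
  have h0 : θ 0 = 1 := theta_zero hadd
  let E' : F → G := fun a => c⁻¹ * (n * θ (-a) * n⁻¹) * c
  have hE' : ∀ m : ℕ, E' ((ζ : F) ^ m) = X02 u h n c m := fun m => theta_X02 h1 hk hadd m
  have hE'add : ∀ a b, E' (a + b) = E' a * E' b := by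
    intro a b
    change c⁻¹ * (n * θ (-(a + b)) * n⁻¹) * c = (c⁻¹ * (n * θ (-a) * n⁻¹) * c) * (c⁻¹ * (n * θ (-b) * n⁻¹) * c)
    rw [neg_add, hadd]; group
  have hX : ∀ a b, c * θ (a + b) * c⁻¹ = (c * θ a * c⁻¹) * (c * θ b * c⁻¹) := by
    intro a b; rw [hadd]; group
  have hB0 : ∀ a b, θ a * (c * θ b * c⁻¹) = E' (a * b) * (c * θ b * c⁻¹) * θ a := hB
  have row := row_of_B (X := fun b => c * θ b * c⁻¹) hadd hE'add hB0
  have col := col_of_B (E := θ) (X := fun b => c * θ b * c⁻¹) hX hE'add hB0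
  -- conjugation by `n`
  have n1 : ∀ b, n * (c * θ b * c⁻¹) * n⁻¹ = E' (-b) := by
    intro b
    rcases exi b with rfl | ⟨m, rfl⟩
    · rw [neg_zero, theta_zero hE'add, h0]; group
    · rw [theta_neg hE'add, hE', theta_A h1 hk]
      exact nX12 R m
  have n2 : ∀ a, n * E' a * n⁻¹ = c * θ a * c⁻¹ := by
    intro a
    rcases exi a with rfl | ⟨m, rfl⟩
    · rw [theta_zero hE'add, h0]; group
    · rw [hE', nX02 R]
      have e1 : A u h c (m - M) = (θ ((ζ : F) ^ m))⁻¹ := by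
        rw [← per R, show ((m : ℤ) - M + 2 * M) = ((m + M : ℕ) : ℤ) by push_cast; ring, ← theta_A h1 hk, pow_add, hM,
          mul_neg, mul_one, theta_neg hadd]
      unfold X12
      rw [e1]; group
  have hB' : ∀ a b, E' a * (c⁻¹ * E' b * c) = θ (a * b) * (c⁻¹ * E' b * c) * E' a := by
    intro a b
    have e := hB0 (-a) (-b)
    have e2 : (c⁻¹ * (n * θ (-a) * n⁻¹) * c) * (c⁻¹ * (n * (c * θ (-b) * c⁻¹) * n⁻¹) * c) =
        (c⁻¹ * (n * E' (-a * -b) * n⁻¹) * c) * (c⁻¹ * (n * (c * θ (-b) * c⁻¹) * n⁻¹) * c) *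
          (c⁻¹ * (n * θ (-a) * n⁻¹) * c) := by
      calc _ = c⁻¹ * (n * (θ (-a) * (c * θ (-b) * c⁻¹)) * n⁻¹) * c := by group
        _ = c⁻¹ * (n * (E' (-a * -b) * (c * θ (-b) * c⁻¹) * θ (-a)) * n⁻¹) * c := by rw [e]
        _ = _ := by group
    rw [n1, n2, neg_neg, neg_mul_neg] at e2
    have e3 : c⁻¹ * (c * θ (a * b) * c⁻¹) * c = θ (a * b) := by group
    rw [e3] at e2
    exact e2
  obtain ⟨f, f01, f02, f12, f10, f20, f21⟩ := hom_of_cyc R.rj hadd hE'add row col hB0 hB'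
  have q10 : ∀ t, f (Tr 1 0 (by decide) t) = n * θ (-t) * n⁻¹ := by
    intro t
    rw [f10]
    change c * (c⁻¹ * (n * θ (-t) * n⁻¹) * c) * c⁻¹ = _
    group
  have q21 : f (Tr 2 1 (by decide) 1) = c * (n * u⁻¹ * n⁻¹) * c⁻¹ := by
    rw [f21]
    change c⁻¹ * (c⁻¹ * (n * θ (-1) * n⁻¹) * c) * c = _
    rw [theta_neg hadd, h1]
    calc c⁻¹ * (c⁻¹ * (n * u⁻¹ * n⁻¹) * c) * c = (c⁻¹ * c⁻¹) * (n * u⁻¹ * n⁻¹) * (c * c) := by group
      _ = _ := by rw [ccR, ccR']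
  have fn : f (nn 0 1 (by decide) (-1)) = n := by
    rw [H43.SLRels.nn_neg_one, map_mul, map_mul, map_inv, f01, q10, theta_neg hadd, h1, R.rc]; group
  refine ⟨f, by rw [f01, h1], ?_, fn, ?_⟩
  · rw [Hd_word 0 1 (by decide), map_mul, fn]
    unfold nn
    rw [map_mul, map_mul, f01, q10, neg_neg]
    -- conjugate the relation `rc` by `k`
    have k3 : kk h c * n * (kk h c)⁻¹ = h * n := by
      have h2 := nkn' R
      have h3 : kk h c * n = n * (kk h c * h⁻¹) := by rw [← h2]; group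
      have h4 : kk h c * h⁻¹ * (kk h c)⁻¹ = h⁻¹ := by
        rw [(R.rg.symm.inv_right).eq, mul_inv_cancel_right]
      have h5 : n * h⁻¹ = h * n := by
        have h6 := R.rb
        have h7 : n * h⁻¹ * n⁻¹ = h := by
          calc n * h⁻¹ * n⁻¹ = (n * h * n⁻¹)⁻¹ := by group
            _ = _ := by rw [h6, inv_inv]
        calc n * h⁻¹ = (n * h⁻¹ * n⁻¹) * n := by group
          _ = _ := by rw [h7]
      calc kk h c * n * (kk h c)⁻¹ = n * (kk h c * h⁻¹ * (kk h c)⁻¹) := by rw [h3]; group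
        _ = _ := by rw [h4, h5]
    have hz : ((ζ⁻¹ : Fˣ) : F) = (ζ : F)⁻¹ := Units.val_inv_eq_inv_val ζ
    have hth : ∀ a, h * θ a * h⁻¹ = θ ((ζ : F) ^ 2 * a) := by
      intro a
      rcases exi a with rfl | ⟨m, rfl⟩
      · rw [mul_zero, h0]; group
      · have e5 := hA R 1 (m : ℤ)
        have e6 : cz h 1 (A u h c m) = h * A u h c m * h⁻¹ := by unfold cz; rw [zpow_one]
        rw [e6] at e5
        rw [theta_A h1 hk, e5, ← pow_add, theta_A h1 hk]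
        congr 1; push_cast; ring
    have k4 : n * θ (-(ζ : F)⁻¹) * n⁻¹ = θ ζ * (h * n) * θ ζ := by
      have e7 : kk h c * (n * u⁻¹ * n⁻¹) * (kk h c)⁻¹ = (kk h c * u * (kk h c)⁻¹) * (kk h c * n * (kk h c)⁻¹) *
          (kk h c * u * (kk h c)⁻¹) := by rw [R.rc]; group
      have e8 : kk h c * u * (kk h c)⁻¹ = θ ζ := by rw [← h1, hk, mul_one]
      rw [e8, k3] at e7
      rw [← e7]
      have e9 : kk h c * (n * u⁻¹ * n⁻¹) * (kk h c)⁻¹ = n * ((n⁻¹ * kk h c * n) * u⁻¹ * (n⁻¹ * kk h c * n)⁻¹) * n⁻¹ := by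
        group
      have e10 : h⁻¹ * θ (-1) * h = θ (-((ζ : F)⁻¹ ^ 2)) := by
        have := hth (-((ζ : F)⁻¹ ^ 2))
        have e11 : (ζ : F) ^ 2 * -((ζ : F)⁻¹ ^ 2) = -1 := by
          have : (ζ : F) * (ζ : F)⁻¹ = 1 := mul_inv_cancel₀ ζ.ne_zero
          linear_combination (-(ζ : F) * (ζ : F)⁻¹ - 1) * this
        rw [e11] at this
        rw [← this]; group
      have e12 : (kk h c * h⁻¹) * u⁻¹ * (kk h c * h⁻¹)⁻¹ = θ (-(ζ : F)⁻¹) := by
        calc (kk h c * h⁻¹) * u⁻¹ * (kk h c * h⁻¹)⁻¹ = kk h c * (h⁻¹ * θ (-1) * h) * (kk h c)⁻¹ := by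
              rw [theta_neg hadd, h1]; group
          _ = θ (ζ * (-((ζ : F)⁻¹ ^ 2))) := by rw [e10, hk]
          _ = _ := by
            congr 1
            have : (ζ : F) * (ζ : F)⁻¹ = 1 := mul_inv_cancel₀ ζ.ne_zero
            linear_combination (-(ζ : F)⁻¹) * this
      rw [e9, nkn' R, e12]
    rw [hz]
    have k5 : n * θ ((ζ : F)⁻¹) * n⁻¹ = (θ ζ)⁻¹ * (h * n)⁻¹ * (θ ζ)⁻¹ := by
      have e13 : θ ((ζ : F)⁻¹) = (θ (-(ζ : F)⁻¹))⁻¹ := by rw [theta_neg hadd, inv_inv]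
      calc n * θ ((ζ : F)⁻¹) * n⁻¹ = (n * θ (-(ζ : F)⁻¹) * n⁻¹)⁻¹ := by rw [e13]; group
        _ = _ := by rw [k4]; group
    rw [k5]
    calc θ ζ * ((θ ζ)⁻¹ * (h * n)⁻¹ * (θ ζ)⁻¹) * θ ζ * n = n⁻¹ * h⁻¹ * n := by group
      _ = (n⁻¹ * h * n)⁻¹ := by group
      _ = h := by rw [nhn' R, inv_inv]
  · obtain ⟨c1, c2, c3, c4⟩ := s3_apply
    rw [P_word s3 (by decide : (0 : Fin 3) ≠ 1) (by decide : (1 : Fin 3) ≠ 2) (by decide : (0 : Fin 3) ≠ 2) c1 c2 c3 c4,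
      map_mul, fn, H43.SLRels.nn_neg_one, map_mul, map_mul, map_inv, f12, q21, h1, R.rc]
    calc n * ((c * u * c⁻¹)⁻¹ * (c * (u * n * u) * c⁻¹) * (c * u * c⁻¹)⁻¹) = (n * c * n) * c⁻¹ := by group
      _ = c⁻¹ * c⁻¹ := by rw [ncn R]
      _ = c := ccR'

end

end H43.Rel3
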