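import Cfsg.Agent.Lib.H43.SLTarget

/-!
Homomorphisms from `SL_3`.
-/
set_option autoImplicit false

namespace H43.Hom3

open Matrix H43.Borel H43.SL2R H43.FieldStr H43.SteinHom H43.SDM H43.SLPerm

variable {F : Type*} [Field F] [Fintype F] {G : Type*} [Group G]

/-- Steinberg relations from a three-cycle -/
theorem hom_of_cyc {c : G} (hc : c * c * c = 1) {E E' : F → G}
    (ha : ∀ a b, E (a + b) = E a * E b) (ha' : ∀ a b, E' (a + b) = E' a * E' b)
    (row : ∀ a b, Commute (E a) (E' b)) (col : ∀ a b, Commute (E' a) (c * E b * c⁻¹))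
    (hB : ∀ a b, E a * (c * E b * c⁻¹) = E' (a * b) * (c * E b * c⁻¹) * E a)
    (hB' : ∀ a b, E' a * (c⁻¹ * E' b * c) = E (a * b) * (c⁻¹ * E' b * c) * E' a) :
    ∃ f : SpecialLinearGroup (Fin 3) F →* G, (∀ t, f (Tr 0 1 (by decide) t) = E t) ∧ (∀ t, f (Tr 0 2 (by decide) t) = E' t) ∧
      (∀ t, f (Tr 1 2 (by decide) t) = c * E t * c⁻¹) ∧ (∀ t, f (Tr 1 0 (by decide) t) = c * E' t * c⁻¹) ∧
      (∀ t, f (Tr 2 0 (by decide) t) = c⁻¹ * E t * c) ∧ (∀ t, f (Tr 2 1 (by decide) t) = c⁻¹ * E' t * c) := by
  have cc : c * c = c⁻¹ := eq_inv_of_mul_eq_one_left hc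
  have cc' : c⁻¹ * c⁻¹ = c := by rw [← cc]; calc c * c * (c * c) = c * c * c * c := by group
                                          _ = c := by rw [hc, one_mul]
  let φ : MulAut G := MulAut.conj c
  have p1 : ∀ x, φ x = c * x * c⁻¹ := fun x => rfl
  have p2 : ∀ x, φ (c * x * c⁻¹) = c⁻¹ * x * c := by
    intro x
    rw [p1]
    calc c * (c * x * c⁻¹) * c⁻¹ = (c * c) * x * (c * c)⁻¹ := by group
      _ = _ := by rw [cc, inv_inv]
  have p3 : ∀ x, φ (c⁻¹ * x * c) = x := by intro x; rw [p1]; group
  let th : Fin 3 → Fin 3 → F → G := fun i j a =>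
    ![![1, E a, E' a], ![c * E' a * c⁻¹, 1, c * E a * c⁻¹], ![c⁻¹ * E a * c, c⁻¹ * E' a * c, 1]] i j
  have e01 : ∀ a, th 0 1 a = E a := fun a => rfl
  have e02 : ∀ a, th 0 2 a = E' a := fun a => rfl
  have e10 : ∀ a, th 1 0 a = c * E' a * c⁻¹ := fun a => rfl
  have e12 : ∀ a, th 1 2 a = c * E a * c⁻¹ := fun a => rfl
  have e20 : ∀ a, th 2 0 a = c⁻¹ * E a * c := fun a => rfl
  have e21 : ∀ a, th 2 1 a = c⁻¹ * E' a * c := fun a => rfl
  have f01 : ∀ a, φ (th 0 1 a) = th 1 2 a := fun a => rfl
  have f12 : ∀ a, φ (th 1 2 a) = th 2 0 a := fun a => p2 _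
  have f20 : ∀ a, φ (th 2 0 a) = th 0 1 a := fun a => p3 _
  have f02 : ∀ a, φ (th 0 2 a) = th 1 0 a := fun a => rfl
  have f10 : ∀ a, φ (th 1 0 a) = th 2 1 a := fun a => p2 _
  have f21 : ∀ a, φ (th 2 1 a) = th 0 2 a := fun a => p3 _
  -- additivity
  have A01 : ∀ a b, th 0 1 (a + b) = th 0 1 a * th 0 1 b := ha
  have A02 : ∀ a b, th 0 2 (a + b) = th 0 2 a * th 0 2 b := ha'
  have A12 : ∀ a b, th 1 2 (a + b) = th 1 2 a * th 1 2 b := by intro a b; rw [← f01, A01, map_mul, f01, f01]
  have A20 : ∀ a b, th 2 0 (a + b) = th 2 0 a * th 2 0 b := by intro a b; rw [← f12, A12, map_mul, f12, f12]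
  have A10 : ∀ a b, th 1 0 (a + b) = th 1 0 a * th 1 0 b := by intro a b; rw [← f02, A02, map_mul, f02, f02]
  have A21 : ∀ a b, th 2 1 (a + b) = th 2 1 a * th 2 1 b := by intro a b; rw [← f10, A10, map_mul, f10, f10]
  have S01 := fun a b => theta_comm A01 a b
  have S02 := fun a b => theta_comm A02 a b
  have S12 := fun a b => theta_comm A12 a b
  have S20 := fun a b => theta_comm A20 a b
  have S10 := fun a b => theta_comm A10 a b
  have S21 := fun a b => theta_comm A21 a b
  have R0 : ∀ a b, Commute (th 0 1 a) (th 0 2 b) := row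
  have R1 : ∀ a b, Commute (th 1 2 a) (th 1 0 b) := by intro a b; have := (R0 a b).map φ; rwa [f01, f02] at this
  have R2 : ∀ a b, Commute (th 2 0 a) (th 2 1 b) := by intro a b; have := (R1 a b).map φ; rwa [f12, f10] at this
  have C2 : ∀ a b, Commute (th 0 2 a) (th 1 2 b) := col
  have C0 : ∀ a b, Commute (th 1 0 a) (th 2 0 b) := by intro a b; have := (C2 a b).map φ; rwa [f02, f12] at this
  have C1 : ∀ a b, Commute (th 2 1 a) (th 0 1 b) := by intro a b; have := (C0 a b).map φ; rwa [f10, f20] at this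
  have tr : ∀ {x y z : G}, x * y = z * y * x → x * y * x⁻¹ * y⁻¹ = z := by
    intro x y z h; rw [h]; group
  have B0 : ∀ a b, th 0 1 a * th 1 2 b = th 0 2 (a * b) * th 1 2 b * th 0 1 a := hB
  have B1 : ∀ a b, th 1 2 a * th 2 0 b = th 1 0 (a * b) * th 2 0 b * th 1 2 a := by
    intro a b; have := congrArg φ (B0 a b); rwa [map_mul, map_mul, map_mul, f01, f12, f02] at this
  have B2 : ∀ a b, th 2 0 a * th 0 1 b = th 2 1 (a * b) * th 0 1 b * th 2 0 a := by
    intro a b; have := congrArg φ (B1 a b); rwa [map_mul, map_mul, map_mul, f12, f20, f10] at this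
  have D0 : ∀ a b, th 0 2 a * th 2 1 b = th 0 1 (a * b) * th 2 1 b * th 0 2 a := hB'
  have D1 : ∀ a b, th 1 0 a * th 0 2 b = th 1 2 (a * b) * th 0 2 b * th 1 0 a := by
    intro a b; have := congrArg φ (D0 a b); rwa [map_mul, map_mul, map_mul, f02, f21, f01] at this
  have D2 : ∀ a b, th 2 1 a * th 1 0 b = th 2 0 (a * b) * th 1 0 b * th 2 1 a := by
    intro a b; have := congrArg φ (D1 a b); rwa [map_mul, map_mul, map_mul, f10, f02, f12] at this
  obtain ⟨f, hf⟩ := exists_hom (le_refl 3) th (by
    intro i j hij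
    fin_cases i <;> fin_cases j
    · exact absurd rfl hij
    · exact A01
    · exact A02
    · exact A10
    · exact absurd rfl hij
    · exact A12
    · exact A20
    · exact A21
    · exact absurd rfl hij) (by
    intro i j k l hij hkl hil hjk a b
    fin_cases i <;> fin_cases j <;> fin_cases k <;> fin_cases l <;>
      first
        | exact absurd rfl hij
        | exact absurd rfl hkl
        | exact absurd rfl hil
        | exact absurd rfl hjk
        | exact S01 a b
        | exact S02 a b
        | exact S12 a b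
        | exact S20 a b
        | exact S10 a b
        | exact S21 a b
        | exact R0 a b
        | exact R1 a b
        | exact R2 a b
        | exact C0 a b
        | exact C1 a b
        | exact C2 a b
        | exact (R0 b a).symm
        | exact (R1 b a).symm
        | exact (R2 b a).symm
        | exact (C0 b a).symm
        | exact (C1 b a).symm
        | exact (C2 b a).symm) (by
    intro i j k hij hjk hik a b
    fin_cases i <;> fin_cases j <;> fin_cases k <;>
      first
        | exact absurd rfl hij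
        | exact absurd rfl hjk
        | exact absurd rfl hik
        | exact tr (B0 a b)
        | exact tr (B1 a b)
        | exact tr (B2 a b)
        | exact tr (D0 a b)
        | exact tr (D1 a b)
        | exact tr (D2 a b))
  exact ⟨f, fun t => hf _ _ _ t, fun t => hf _ _ _ t, fun t => hf _ _ _ t, fun t => hf _ _ _ t, fun t => hf _ _ _ t,
    fun t => hf _ _ _ t⟩

omit [Fintype F] in
/-- row and column commutation from the commutator relation -/
theorem row_of_B {E E' X : F → G} (ha : ∀ a b, E (a + b) = E a * E b) (ha' : ∀ a b, E' (a + b) = E' a * E' b)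
    (hB : ∀ a b, E a * X b = E' (a * b) * X b * E a) : ∀ a b, Commute (E a) (E' b) := by
  intro a b
  have h1 := hB (a + b) 1
  rw [mul_one, ha, ha', theta_comm ha' a b] at h1
  have h2 : E b * X 1 = E' b * X 1 * E b := by have := hB b 1; rwa [mul_one] at this
  have h3 : E a * X 1 = E' a * X 1 * E a := by have := hB a 1; rwa [mul_one] at this
  have h4 : E a * E' b * (X 1 * E b) = E' b * E a * (X 1 * E b) := by
    calc E a * E' b * (X 1 * E b) = E a * (E' b * X 1 * E b) := by group
      _ = E a * E b * X 1 := by rw [← h2]; group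
      _ = E' b * (E' a * X 1 * E a) * E b := by rw [h1]; group
      _ = E' b * E a * (X 1 * E b) := by rw [← h3]; group
  exact mul_right_cancel h4

omit [Fintype F] in
theorem col_of_B {E E' X : F → G} (hX : ∀ a b, X (a + b) = X a * X b) (ha' : ∀ a b, E' (a + b) = E' a * E' b)
    (hB : ∀ a b, E a * X b = E' (a * b) * X b * E a) : ∀ a b, Commute (E' a) (X b) := by
  intro a b
  have h1 := hB 1 (a + b)
  rw [one_mul, hX, ha', theta_comm hX a b, theta_comm ha' a b] at h1
  have h2 : E 1 * X b = E' b * X b * E 1 := by have := hB 1 b; rwa [one_mul] at this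
  have h3 : E 1 * X a = E' a * X a * E 1 := by have := hB 1 a; rwa [one_mul] at this
  -- `E (X b X a) = E'b E'a X b X a E`; also `= (E' b X b E) X a = E' b X b E' a X a E`
  have h4 : E' b * (X b * E' a) * (X a * E 1) = E' b * (E' a * X b) * (X a * E 1) := by
    calc E' b * (X b * E' a) * (X a * E 1) = E' b * X b * (E' a * X a * E 1) := by group
      _ = (E' b * X b * E 1) * X a := by rw [← h3]; group
      _ = E 1 * (X b * X a) := by rw [← h2]; group
      _ = _ := by rw [h1]; group
  have h5 := mul_right_cancel h4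
  exact (mul_left_cancel h5).symm

end H43.Hom3
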