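import Cfsg.Agent.Lib.H43.LyData

set_option autoImplicit false
set_option maxRecDepth 100000

namespace H43.LyR

theorem k1 : chk [2, 2, 2, 2, 2] = true := by decide +kernel

theorem k11 : chk [17, 4, 18, 5] = true := by decide +kernel

theorem k19 : chk [17, 15, 13, 16, 14] = true := by decide +kernel

theorem k33 : chk [5, 13, 15, 15, 10, 2, 10] = true := by decide +kernel

theorem k38 : chk [6, 2, 7, 3] = true := by decide +kernel

theorem k54 : chk [1, 2, 1, 3, 3, 1, 4, 1, 3, 0, 7, 5, 1, 4, 2, 4, 0, 7, 9, 3, 1, 2, 0, 2, 2, 0, 2, 5, 3, 3, 5, 3, 7, 5, 2, 2, 7, 5, 3, 5, 9, 7, 3, 4, 1, 4, 0, 4, 6, 5, 5, 1, 2, 5, 2, 4, 1, 3, 3, 0, 8, 4, 2, 4, 6, 3, 3, 4, 6, 2, 4, 2, 2, 4, 3, 1, 3, 3, 1, 3, 0, 2, 8] = true := by decide +kernel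

theorem k64 : chk [9, 8] = true := by decide +kernel

theorem k70 : chk [16, 15] = true := by decide +kernel

end H43.LyR
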