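import Cfsg.Agent.Lib.H43.LyData

set_option autoImplicit false
set_option maxRecDepth 100000

namespace H43.LyR

theorem k7 : chk [3, 5, 2, 15] = true := by decide +kernel

theorem k17 : chk [17, 13, 11, 14, 12] = true := by decide +kernel

theorem k25 : chk [5, 5, 16, 13, 13, 2, 13, 3] = true := by decide +kernel

theorem k26 : chk [18, 2, 17, 3] = true := by decide +kernel

theorem k31 : chk [5, 13, 5, 15, 10, 17, 10] = true := by decide +kernel

theorem k39 : chk [1, 1, 1, 6, 0, 7] = true := by decide +kernel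

theorem k43 : chk [2, 2, 1, 5, 0, 3, 5, 3, 8, 11, 9] = true := by decide +kernel

theorem k48 : chk [3, 0, 2, 0, 0, 8, 3, 0, 2, 9] = true := by decide +kernel

theorem k52 : chk [8, 3, 3, 1, 3, 5, 3, 3, 4, 0, 5, 1, 7, 5, 0, 3, 5, 0, 7, 5, 1, 8, 3, 0, 2, 0, 3, 0, 5, 1, 3, 5, 2, 7, 5, 2, 1, 5, 3, 6, 1, 8, 7, 5, 2, 1, 5, 1, 7, 5] = true := by decide +kernel

theorem k59 : chk [2, 3] = true := by decide +kernel

theorem k63 : chk [6, 7] = true := by decide +kernel

theorem k69 : chk [13, 14] = true := by decide +kernel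

end H43.LyR
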