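import Cfsg.Agent.Lib.H43.LyData

set_option autoImplicit false
set_option maxRecDepth 100000

namespace H43.LyR

theorem k0 : chk [0, 0, 0, 0, 0, 0, 0, 0] = true := by decide +kernel

theorem k8 : chk [4, 11, 5, 12, 17] = true := by decide +kernel

theorem k12 : chk [17, 11, 18, 12] = true := by decide +kernel

theorem k15 : chk [17, 17, 13, 4, 14, 5] = true := by decide +kernel

theorem k20 : chk [4, 4, 0, 11, 1] = true := by decide +kernel

theorem k21 : chk [13, 13, 5, 16, 0, 13, 1] = true := by decide +kernel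

theorem k40 : chk [17, 6, 17, 6, 17, 6, 17, 6, 17, 6] = true := by decide +kernel

theorem k42 : chk [0, 2, 0, 3, 4, 2, 1, 4, 3, 1, 8, 4, 9] = true := by decide +kernel

theorem k50 : chk [1, 1, 8, 8] = true := by decide +kernel

theorem k53 : chk [4, 2, 4, 6, 3, 3, 4, 6, 3, 4, 2, 4, 0, 5, 2, 2, 1, 2, 2, 1, 2, 0, 8, 6, 8, 3, 0, 3, 3, 0, 3, 5, 3, 1, 2, 7, 5, 3, 1, 2, 7, 5, 1, 9, 7, 9] = true := by decide +kernel

theorem k65 : chk [8, 9] = true := by decide +kernel

theorem k71 : chk [15, 16] = true := by decide +kernel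

end H43.LyR
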