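import Cfsg.Agent.Lib.H43.LyData

set_option autoImplicit false
set_option maxRecDepth 100000

namespace H43.LyR

theorem k3 : chk [2, 0, 0, 3, 1, 1] = true := by decide +kernel

theorem k13 : chk [17, 13, 18, 14] = true := by decide +kernel

theorem k22 : chk [5, 11, 13, 16, 5, 16, 0, 15, 1] = true := by decide +kernel

theorem k23 : chk [18, 18, 0, 17, 1] = true := by decide +kernel

theorem k29 : chk [3, 3, 1, 12, 4, 15, 0, 10, 13, 10] = true := by decide +kernel

theorem k34 : chk [1, 1, 5, 18, 15, 10, 0, 3, 0, 2, 2, 0, 10] = true := by decide +kernel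

theorem k41 : chk [1, 1, 17, 6, 18, 6, 17, 6] = true := by decide +kernel

theorem k47 : chk [0, 0, 0, 8, 0, 9] = true := by decide +kernel

theorem k55 : chk [2, 1, 3, 1, 3, 4, 0, 4, 1, 4, 7, 5, 2, 4, 1, 5, 9, 3, 7, 9, 2, 4, 1, 2, 2, 5, 6, 5, 1, 4, 0, 5, 2, 2, 1, 3, 1, 2, 2, 8, 6, 2, 8] = true := by decide +kernel

theorem k56 : chk [1, 0] = true := by decide +kernel

theorem k60 : chk [5, 4] = true := by decide +kernel

theorem k66 : chk [12, 11] = true := by decide +kernel

theorem k72 : chk [18, 17] = true := by decide +kernel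

end H43.LyR
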