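import Cfsg.Agent.Lib.H43.LyData

set_option autoImplicit false
set_option maxRecDepth 100000

namespace H43.LyR

theorem k2 : chk [2, 0, 2, 0, 2, 0, 2, 0] = true := by decide +kernel

theorem k4 : chk [2, 0, 3, 1, 2, 0, 3, 1, 2, 0, 3, 1] = true := by decide +kernel

theorem k5 : chk [0, 5, 1, 11] = true := by decide +kernel

theorem k9 : chk [4, 4, 4, 4, 4] = true := by decide +kernel

theorem k14 : chk [17, 15, 18, 16] = true := by decide +kernel

theorem k16 : chk [18, 18, 15, 4, 16, 5] = true := by decide +kernel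

theorem k28 : chk [3, 14, 3, 4, 10, 4, 10] = true := by decide +kernel

theorem k44 : chk [0, 2, 0, 5, 1, 3, 1, 8, 13, 9] = true := by decide +kernel

theorem k46 : chk [3, 3, 0, 2, 5, 3, 1, 5, 2, 2, 4, 8, 17, 9] = true := by decide +kernel

theorem k49 : chk [1, 3, 3, 1, 2, 2, 0, 8, 3, 3, 0, 2, 2, 9] = true := by decide +kernel

theorem k51 : chk [0, 0, 8, 2, 2, 0, 3, 3, 8, 2, 2, 0, 3, 3, 8, 2, 2, 0, 3, 3] = true := by decide +kernel

theorem k57 : chk [0, 1] = true := by decide +kernel

theorem k61 : chk [4, 5] = true := by decide +kernel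

theorem k67 : chk [11, 12] = true := by decide +kernel

theorem k73 : chk [17, 18] = true := by decide +kernel

end H43.LyR
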