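import Cfsg.Agent.Lib.H43.LyData

set_option autoImplicit false
set_option maxRecDepth 100000

namespace H43.LyR

theorem k6 : chk [2, 5, 3, 13] = true := by decide +kernel

theorem k10 : chk [17, 17, 17, 17, 17] = true := by decide +kernel

theorem k18 : chk [15, 11, 16, 12] = true := by decide +kernel

theorem k24 : chk [12, 14, 15, 4, 15, 2, 11, 3] = true := by decide +kernel

theorem k27 : chk [2, 2, 0, 4, 1, 5, 0, 5, 1, 7, 5, 3, 1, 2, 7, 5, 7, 10] = true := by decide +kernel

theorem k30 : chk [3, 3, 13, 16, 10, 15, 10] = true := by decide +kernel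

theorem k32 : chk [1, 3, 3, 1, 2, 1, 5, 18, 15, 10, 0, 0, 10] = true := by decide +kernel

theorem k35 : chk [0, 0, 0, 13, 0, 16, 11, 10, 12, 10, 11, 10] = true := by decide +kernel

theorem k36 : chk [1, 3, 3, 0, 2, 4, 15, 17, 1, 10, 1, 10, 1, 11, 3, 10, 6] = true := by decide +kernel

theorem k37 : chk [1, 1, 1, 1, 6, 6] = true := by decide +kernel

theorem k45 : chk [2, 0, 3, 5, 2, 1, 3, 8, 15, 9] = true := by decide +kernel

theorem k58 : chk [3, 2] = true := by decide +kernel

theorem k62 : chk [7, 6] = true := by decide +kernel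

theorem k68 : chk [14, 13] = true := by decide +kernel

theorem k74 : chk [10, 10] = true := by decide +kernel

end H43.LyR
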