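import Cfsg.Agent.Lib.H43.LyD0
import Cfsg.Agent.Lib.H43.LyD1
import Cfsg.Agent.Lib.H43.LyD2
import Cfsg.Agent.Lib.H43.LyD3

/-! The 111-dimensional representation of the Lyons group over F5: running words. -/

set_option autoImplicit false
set_option maxRecDepth 100000

noncomputable section

namespace H43.LyR

/-- the combination function of a letter -/
def sel (c : Nat) (v : Nat) : Nat :=
  Nat.rec (motive := fun _ => Nat) (F0 v) (fun c1 _ => Nat.rec (motive := fun _ => Nat) (F1 v) (fun c2 _ => Nat.rec (motive := fun _ => Nat) (F2 v) (fun c3 _ => Nat.rec (motive := fun _ => Nat) (F3 v) (fun c4 _ => Nat.rec (motive := fun _ => Nat) (F4 v) (fun c5 _ => Nat.rec (motive := fun _ => Nat) (F5 v) (fun c6 _ => Nat.rec (motive := fun _ => Nat) (F6 v) (fun c7 _ => Nat.rec (motive := fun _ => Nat) (F7 v) (fun c8 _ => Nat.rec (motive := fun _ => Nat) (F8 v) (fun c9 _ => Nat.rec (motive := fun _ => Nat) (F9 v) (fun c10 _ => Nat.rec (motive := fun _ => Nat) (F10 v) (fun c11 _ => Nat.rec (motive := fun _ =>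 Nat) (F11 v) (fun c12 _ => Nat.rec (motive := fun _ => Nat) (F12 v) (fun c13 _ => Nat.rec (motive := fun _ => Nat) (F13 v) (fun c14 _ => Nat.rec (motive := fun _ => Nat) (F14 v) (fun c15 _ => Nat.rec (motive := fun _ => Nat) (F15 v) (fun c16 _ => Nat.rec (motive := fun _ => Nat) (F16 v) (fun c17 _ => Nat.rec (motive := fun _ => Nat) (F17 v) (fun _ _ => F18 v) c17) c16) c15) c14) c13) c12) c11) c10) c9) c8) c7) c6) c5) c4) c3) c2) c1) c

/-- reduction mod 5 of the sum, with check -/
def fin (s : Nat) : Nat :=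
  Nat.rec (motive := fun _ => Nat) 0
    (fun r _ => cond (Nat.beq (Nat.land (Nat.succ r) LOW) (Nat.succ r)) (Nat.succ r) 0)
    (Nat.sub s (Nat.mul 1407374883553280 (Nat.land (Nat.shiftRight (Nat.mul (Nat.shiftRight s 48) 3277) 14) MQ)))

/-- the step function of a letter -/
def stepF (c : Nat) (v : Nat) : Nat :=
  Nat.rec (motive := fun _ => Nat) 0 (fun s _ => fin (Nat.succ s)) (sel c v)

/-- run a word (first letter first), with forced evaluation -/
def run (w : List Nat) : Nat → Nat :=
  List.rec (motive := fun _ => Nat → Nat) (fun v => v)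
    (fun c _ ih v => Nat.rec (motive := fun _ => Nat) 0 (fun j _ => ih (Nat.succ j)) (stepF c v)) w

/-- the `i`-th start vector -/
def st (i : Nat) : Nat := Nat.add (Nat.pow 2 (Nat.mul 24 (Nat.succ (Nat.succ i)))) (Nat.mul (Nat.succ i) 2654435)

def chk (w : List Nat) : Bool :=
  Nat.rec (motive := fun _ => Bool) true
    (fun i acc => Bool.and (Nat.rec (motive := fun _ => Bool) false (fun j _ => Nat.beq (Nat.shiftRight (run w (Nat.succ j)) 48) (Nat.pow 2 (Nat.mul 24 i))) (st i)) acc) 111

end H43.LyR
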