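import Cfsg.Prelude.Def_Spor_Ly
import Mathlib

/-! Words of the presentation of the Lyons group in few letters. -/

set_option autoImplicit false
set_option maxRecDepth 100000

namespace H43.LyR

/-- the inverse letter -/
def inv : Nat → Nat
  | 0 => 1
  | 1 => 0
  | 2 => 3
  | 3 => 2
  | 4 => 5
  | 5 => 4
  | 6 => 7
  | 7 => 6
  | 8 => 9
  | 9 => 8
  | 10 => 10
  | 11 => 12
  | 12 => 11
  | 13 => 14
  | 14 => 13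
  | 15 => 16
  | 16 => 15
  | 17 => 18
  | 18 => 17
  | _ => 17

/-- free reduction -/
def push (c : Nat) : List Nat → List Nat
  | [] => [c]
  | d :: t => cond (Nat.beq (inv c) d) t (c :: d :: t)

def red : List Nat → List Nat
  | [] => []
  | c :: w => push c (red w)

open Cfsg.Spor.Ly in
/-- the word of a generator -/
def gw : Gen → List Nat
  | .a => [0]
  | .b => [2]
  | .c => [4]
  | .d => [6]
  | .z => [8]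
  | .e => [10]
  | .a1 => [0]
  | .a2 => [2, 0, 3]
  | .a3 => [2, 2, 0, 3, 3]
  | .a4 => [3, 3, 0, 2, 2]
  | .c1 => [4]
  | .c2 => [11]
  | .c3 => [13]
  | .c4 => [15]
  | .c5 => [17]
  | .u => [0, 0]
  | .x23 => [6]
  | .x24 => [7]
  | .x25 => [2, 2, 1, 3, 1, 2, 2, 5, 0, 4, 1, 5, 6, 5, 2, 2, 1, 4, 2]
  | .x29 => [0, 2, 1, 2, 2, 1, 2, 2, 5, 0, 4, 2, 4, 3, 6, 4, 3, 3, 6, 4, 2, 4]
  | .x47 => [5, 7, 1, 5, 1, 2, 5, 7]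
  | .x96 => [2, 6]
  | .x129 => [7, 3]
  | .x162 => [1, 3, 1, 2, 5, 3, 0, 5, 2, 0]
  | .x163 => [3, 3, 0, 4, 1, 2, 4, 2]
  | .x164 => [1, 3, 1, 4, 0, 2, 0]
  | .x165 => [3, 1, 2, 4, 3, 0, 2]
  | .x166 => [2, 2, 1, 3, 4, 2, 0, 4, 3, 3, 5]
  | .x167 => [1, 1, 1]
  | .x168 => [2, 1, 3, 1, 1]
  | .x169 => [0, 2, 2, 0, 3, 3, 1]
  | .x364 => [1, 6, 3, 5, 1, 2, 5, 7, 2, 5, 3, 1, 5, 0, 3, 0, 2, 0, 3]
  | .x365 => [0, 3, 3, 1, 4, 2, 5, 2, 1, 5, 5, 6, 4, 0, 4, 1, 4, 3, 7]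
  | .x366 => [2, 0, 3, 1, 3, 3, 1, 3, 4, 2, 2, 4, 2, 6, 4, 3, 3, 6, 4, 2, 4]
  | .x367 => [5, 3, 5, 7, 2, 2, 5, 7, 3, 5, 3, 3, 5, 2, 0, 2, 2, 0, 2, 1, 3]
  | .x368 => [1, 5, 7, 0, 5, 3, 0, 5, 7, 1, 5, 0, 4, 3, 3, 5, 3, 1, 3, 3]
  | .x369 => [1, 5, 7, 2, 1, 3, 5, 7, 2, 1, 3, 5, 3, 0, 3, 3, 0, 3]
  | .x370 => [7, 0, 4, 2, 4, 1, 5, 7, 0, 3, 1, 4, 1, 3, 3, 1, 2, 1]
  | .x371 => [5, 1, 4, 2, 5, 7, 4, 1, 4, 0, 4, 3, 1, 3, 1, 2]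

/-- the word of a signed generator -/
def code (p : Cfsg.Spor.Ly.Gen × Bool) : List Nat := cond p.2 (gw p.1) ((gw p.1).reverse.map inv)

/-- the word of a relator -/
def relw (r : FreeGroup Cfsg.Spor.Ly.Gen) : List Nat := red (r.toWord.flatMap code)

end H43.LyR
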