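import Cfsg.Agent.Lib.H43.LyT
import Cfsg.Agent.Lib.H43.LyW
import Cfsg.Agent.Lib.H43.LyC0
import Cfsg.Agent.Lib.H43.LyC1
import Cfsg.Agent.Lib.H43.LyC2
import Cfsg.Agent.Lib.H43.LyC3
import Cfsg.Agent.Lib.H43.LyC4
import Cfsg.Agent.Lib.H43.LyC5

/-! The 111-dimensional representation of the presented Lyons group over F5: the generator `a` is not trivial. -/

set_option autoImplicit false
set_option maxRecDepth 100000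

noncomputable section

namespace H43.LyR

theorem Tinv {c d : Nat} (h : chk [c, d] = true) (x : X) : T d (T c x) = x := by
  have h1 : Tw [c, d] x = x := by rw [chk_sound h]; rfl
  exact h1

def mkP (c d : Nat) (h1 : chk [c, d] = true) (h2 : chk [d, c] = true) : Equiv.Perm X where
  toFun := T c
  invFun := T d
  left_inv := Tinv h1
  right_inv := Tinv h2

def lS : Nat → Equiv.Perm X
  | 0 => mkP 0 1 k57 k56
  | 1 => (mkP 0 1 k57 k56)⁻¹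
  | 2 => mkP 2 3 k59 k58
  | 3 => (mkP 2 3 k59 k58)⁻¹
  | 4 => mkP 4 5 k61 k60
  | 5 => (mkP 4 5 k61 k60)⁻¹
  | 6 => mkP 6 7 k63 k62
  | 7 => (mkP 6 7 k63 k62)⁻¹
  | 8 => mkP 8 9 k65 k64
  | 9 => (mkP 8 9 k65 k64)⁻¹
  | 10 => mkP 10 10 k74 k74
  | 11 => mkP 11 12 k67 k66
  | 12 => (mkP 11 12 k67 k66)⁻¹
  | 13 => mkP 13 14 k69 k68
  | 14 => (mkP 13 14 k69 k68)⁻¹
  | 15 => mkP 15 16 k71 k70
  | 16 => (mkP 15 16 k71 k70)⁻¹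
  | 17 => mkP 17 18 k73 k72
  | _ => (mkP 17 18 k73 k72)⁻¹

theorem lS_apply : ∀ (c : Nat) (x : X), lS c x = T c x
  | 0, _ => rfl
  | 1, _ => rfl
  | 2, _ => rfl
  | 3, _ => rfl
  | 4, _ => rfl
  | 5, _ => rfl
  | 6, _ => rfl
  | 7, _ => rfl
  | 8, _ => rfl
  | 9, _ => rfl
  | 10, _ => rfl
  | 11, _ => rfl
  | 12, _ => rfl
  | 13, _ => rfl
  | 14, _ => rfl
  | 15, _ => rfl
  | 16, _ => rfl
  | 17, _ => rfl
  | _ + 18, _ => rfl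

theorem Tw_append (u w : List Nat) (x : X) : Tw (u ++ w) x = Tw w (Tw u x) := by
  induction u generalizing x with
  | nil => rfl
  | cons c u ih =>
    show Tw (u ++ w) (T c x) = Tw w (Tw u (T c x))
    exact ih (T c x)

theorem prod_apply : ∀ (w : List Nat) (x : X), (w.map lS).prod x = Tw w.reverse x
  | [], _ => rfl
  | c :: w, x => by
    rw [List.map_cons, List.prod_cons, Equiv.Perm.mul_apply, lS_apply, prod_apply w, List.reverse_cons, Tw_append]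
    rfl

theorem one {w : List Nat} (h : chk w.reverse = true) : (w.map lS).prod = 1 := by
  ext1 x
  rw [prod_apply, chk_sound h]
  rfl

theorem sq10 : lS 10 * lS 10 = 1 := by
  have := one (w := [10, 10]) k74
  simpa using this

theorem lS_inv : ∀ c, lS (inv c) = (lS c)⁻¹
  | 0 => rfl
  | 1 => (inv_inv _).symm
  | 2 => rfl
  | 3 => (inv_inv _).symm
  | 4 => rfl
  | 5 => (inv_inv _).symm
  | 6 => rfl
  | 7 => (inv_inv _).symm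
  | 8 => rfl
  | 9 => (inv_inv _).symm
  | 10 => eq_inv_of_mul_eq_one_left sq10
  | 11 => rfl
  | 12 => (inv_inv _).symm
  | 13 => rfl
  | 14 => (inv_inv _).symm
  | 15 => rfl
  | 16 => (inv_inv _).symm
  | 17 => rfl
  | 18 => (inv_inv _).symm
  | _ + 19 => (inv_inv _).symm

theorem push_prod (c : Nat) (w : List Nat) : ((push c w).map lS).prod = lS c * (w.map lS).prod := by
  cases w with
  | nil => rfl
  | cons d t =>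
    show ((cond (Nat.beq (inv c) d) t (c :: d :: t)).map lS).prod = _
    cases hb : Nat.beq (inv c) d with
    | false => rfl
    | true =>
      have h1 := Nat.eq_of_beq_eq_true hb
      show (t.map lS).prod = lS c * (lS d * (t.map lS).prod)
      rw [← h1, lS_inv, mul_inv_cancel_left]

theorem red_prod : ∀ w : List Nat, ((red w).map lS).prod = (w.map lS).prod
  | [] => rfl
  | c :: w => by
    show ((push c (red w)).map lS).prod = _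
    rw [push_prod, red_prod w, List.map_cons, List.prod_cons]

/-- the images of the generators -/
def f (g : Cfsg.Spor.Ly.Gen) : Equiv.Perm X := ((gw g).map lS).prod

theorem inv_word (w : List Nat) : ((w.reverse.map inv).map lS).prod = ((w.map lS).prod)⁻¹ := by
  rw [List.prod_inv_reverse, List.map_map, List.map_map, ← List.map_reverse]
  congr 1
  apply List.map_congr_left
  intro c _
  exact lS_inv c

theorem code_prod (p : Cfsg.Spor.Ly.Gen × Bool) : ((code p).map lS).prod = cond p.2 (f p.1) (f p.1)⁻¹ := by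
  obtain ⟨g, b⟩ := p
  cases b with
  | true => rfl
  | false => exact inv_word (gw g)

theorem flat_prod : ∀ L : List (Cfsg.Spor.Ly.Gen × Bool),
    ((L.flatMap code).map lS).prod = (L.map fun p => cond p.2 (f p.1) (f p.1)⁻¹).prod
  | [] => rfl
  | p :: L => by
    rw [List.flatMap_cons, List.map_append, List.prod_append, flat_prod L, code_prod, List.map_cons, List.prod_cons]

theorem lift_f (r : FreeGroup Cfsg.Spor.Ly.Gen) : FreeGroup.lift f r = ((relw r).map lS).prod := by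
  unfold relw
  rw [red_prod, flat_prod]
  conv_lhs => rw [← FreeGroup.mk_toWord (x := r)]
  rw [FreeGroup.lift_mk]

def rels : List (List Nat) := [[0, 0, 0, 0, 0, 0, 0, 0],
  [2, 2, 2, 2, 2],
  [0, 2, 0, 2, 0, 2, 0, 2],
  [1, 1, 3, 0, 0, 2],
  [1, 3, 0, 2, 1, 3, 0, 2, 1, 3, 0, 2],
  [],
  [11, 1, 5, 0],
  [13, 3, 5, 2],
  [15, 2, 5, 3],
  [17, 12, 5, 11, 4],
  [4, 4, 4, 4, 4],
  [17, 17, 17, 17, 17],
  [5, 18, 4, 17],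
  [12, 18, 11, 17],
  [14, 18, 13, 17],
  [16, 18, 15, 17],
  [5, 14, 4, 13, 17, 17],
  [5, 16, 4, 15, 18, 18],
  [12, 14, 11, 13, 17],
  [12, 16, 11, 15],
  [14, 16, 13, 15, 17],
  [1, 11, 0, 4, 4],
  [1, 13, 0, 16, 5, 13, 13],
  [1, 15, 0, 16, 5, 16, 13, 11, 5],
  [1, 17, 0, 18, 18],
  [3, 11, 2, 15, 4, 15, 14, 12],
  [3, 13, 2, 13, 13, 16, 5, 5],
  [3, 17, 2, 18],
  [10, 7, 5, 7, 2, 1, 3, 5, 7, 1, 5, 0, 5, 1, 4, 0, 2, 2],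
  [],
  [10, 4, 10, 4, 3, 14, 3],
  [10, 13, 10, 0, 15, 4, 12, 1, 3, 3],
  [10, 15, 10, 16, 13, 3, 3],
  [10, 17, 10, 15, 5, 13, 5],
  [10, 0, 0, 10, 15, 18, 5, 1, 2, 1, 3, 3, 1],
  [10, 2, 10, 15, 15, 13, 5],
  [10, 0, 2, 2, 0, 3, 0, 10, 15, 18, 5, 1, 1],
  [10, 11, 10, 12, 10, 11, 16, 0, 13, 0, 0, 0],
  [6, 10, 3, 11, 1, 10, 1, 10, 1, 17, 15, 4, 2, 0, 3, 3, 1],
  [6, 6, 1, 1, 1, 1],
  [3, 7, 2, 6],
  [7, 0, 6, 1, 1, 1],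
  [6, 17, 6, 17, 6, 17, 6, 17, 6, 17],
  [6, 17, 6, 18, 6, 17, 1, 1],
  [],
  [],
  [],
  [],
  [],
  [],
  [],
  [],
  [],
  [],
  [],
  [],
  [],
  [],
  [],
  [],
  [],
  [],
  [],
  [],
  [],
  [],
  [],
  [],
  [],
  [],
  [],
  [],
  [9, 4, 8, 1, 3, 4, 1, 2, 4, 3, 0, 2, 0],
  [9, 11, 8, 3, 5, 3, 0, 5, 1, 2, 2],
  [9, 13, 8, 1, 3, 1, 5, 0, 2, 0],
  [9, 15, 8, 3, 1, 2, 5, 3, 0, 2],
  [9, 17, 8, 4, 2, 2, 5, 1, 3, 5, 2, 0, 3, 3],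
  [9, 0, 8, 0, 0, 0],
  [9, 2, 0, 3, 8, 0, 0, 2, 0, 3],
  [9, 2, 2, 0, 3, 3, 8, 0, 2, 2, 1, 3, 3, 1],
  [8, 8, 1, 1],
  [3, 3, 0, 2, 2, 8, 3, 3, 0, 2, 2, 8, 3, 3, 0, 2, 2, 8, 0, 0],
  [5, 7, 1, 5, 1, 2, 5, 7, 8, 1, 6, 3, 5, 1, 2, 5, 7, 2, 5, 3, 1, 5, 0, 3, 0, 2, 0, 3, 8, 1, 5, 7, 0, 5, 3, 0, 5, 7, 1, 5, 0, 4, 3, 3, 5, 3, 1, 3, 3, 8],
  [9, 7, 9, 1, 5, 7, 2, 1, 3, 5, 7, 2, 1, 3, 5, 3, 0, 3, 3, 0, 3, 8, 6, 8, 0, 2, 1, 2, 2, 1, 2, 2, 5, 0, 4, 2, 4, 3, 6, 4, 3, 3, 6, 4, 2, 4],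
  [8, 2, 0, 3, 1, 3, 3, 1, 3, 4, 2, 2, 4, 2, 6, 4, 3, 3, 6, 4, 2, 4, 8, 0, 3, 3, 1, 4, 2, 5, 2, 1, 5, 5, 6, 4, 0, 4, 1, 4, 3, 7, 9, 5, 3, 5, 7, 2, 2, 5, 7, 3, 5, 3, 3, 5, 2, 0, 2, 2, 0, 2, 1, 3, 9, 7, 0, 4, 2, 4, 1, 5, 7, 0, 3, 1, 4, 1, 3, 3, 1, 2, 1],
  [8, 2, 6, 8, 2, 2, 1, 3, 1, 2, 2, 5, 0, 4, 1, 5, 6, 5, 2, 2, 1, 4, 2, 9, 7, 3, 9, 5, 1, 4, 2, 5, 7, 4, 1, 4, 0, 4, 3, 1, 3, 1, 2]]

theorem rels_eq : Cfsg.Spor.Ly.extra.map relw = rels := by decide +kernel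

theorem rels_one : ∀ w ∈ rels, (w.map lS).prod = 1 := by
  rw [← List.forall_iff_forall_mem]
  exact ⟨one (w := [0, 0, 0, 0, 0, 0, 0, 0]) k0,
    one (w := [2, 2, 2, 2, 2]) k1,
    one (w := [0, 2, 0, 2, 0, 2, 0, 2]) k2,
    one (w := [1, 1, 3, 0, 0, 2]) k3,
    one (w := [1, 3, 0, 2, 1, 3, 0, 2, 1, 3, 0, 2]) k4,
    rfl,
    one (w := [11, 1, 5, 0]) k5,
    one (w := [13, 3, 5, 2]) k6,
    one (w := [15, 2, 5, 3]) k7,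
    one (w := [17, 12, 5, 11, 4]) k8,
    one (w := [4, 4, 4, 4, 4]) k9,
    one (w := [17, 17, 17, 17, 17]) k10,
    one (w := [5, 18, 4, 17]) k11,
    one (w := [12, 18, 11, 17]) k12,
    one (w := [14, 18, 13, 17]) k13,
    one (w := [16, 18, 15, 17]) k14,
    one (w := [5, 14, 4, 13, 17, 17]) k15,
    one (w := [5, 16, 4, 15, 18, 18]) k16,
    one (w := [12, 14, 11, 13, 17]) k17,
    one (w := [12, 16, 11, 15]) k18,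
    one (w := [14, 16, 13, 15, 17]) k19,
    one (w := [1, 11, 0, 4, 4]) k20,
    one (w := [1, 13, 0, 16, 5, 13, 13]) k21,
    one (w := [1, 15, 0, 16, 5, 16, 13, 11, 5]) k22,
    one (w := [1, 17, 0, 18, 18]) k23,
    one (w := [3, 11, 2, 15, 4, 15, 14, 12]) k24,
    one (w := [3, 13, 2, 13, 13, 16, 5, 5]) k25,
    one (w := [3, 17, 2, 18]) k26,
    one (w := [10, 7, 5, 7, 2, 1, 3, 5, 7, 1, 5, 0, 5, 1, 4, 0, 2, 2]) k27,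
    rfl,
    one (w := [10, 4, 10, 4, 3, 14, 3]) k28,
    one (w := [10, 13, 10, 0, 15, 4, 12, 1, 3, 3]) k29,
    one (w := [10, 15, 10, 16, 13, 3, 3]) k30,
    one (w := [10, 17, 10, 15, 5, 13, 5]) k31,
    one (w := [10, 0, 0, 10, 15, 18, 5, 1, 2, 1, 3, 3, 1]) k32,
    one (w := [10, 2, 10, 15, 15, 13, 5]) k33,
    one (w := [10, 0, 2, 2, 0, 3, 0, 10, 15, 18, 5, 1, 1]) k34,
    one (w := [10, 11, 10, 12, 10, 11, 16, 0, 13, 0, 0, 0]) k35,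
    one (w := [6, 10, 3, 11, 1, 10, 1, 10, 1, 17, 15, 4, 2, 0, 3, 3, 1]) k36,
    one (w := [6, 6, 1, 1, 1, 1]) k37,
    one (w := [3, 7, 2, 6]) k38,
    one (w := [7, 0, 6, 1, 1, 1]) k39,
    one (w := [6, 17, 6, 17, 6, 17, 6, 17, 6, 17]) k40,
    one (w := [6, 17, 6, 18, 6, 17, 1, 1]) k41,
    rfl,
    rfl,
    rfl,
    rfl,
    rfl,
    rfl,
    rfl,
    rfl,
    rfl,
    rfl,
    rfl,
    rfl,
    rfl,
    rfl,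
    rfl,
    rfl,
    rfl,
    rfl,
    rfl,
    rfl,
    rfl,
    rfl,
    rfl,
    rfl,
    rfl,
    rfl,
    rfl,
    rfl,
    one (w := [9, 4, 8, 1, 3, 4, 1, 2, 4, 3, 0, 2, 0]) k42,
    one (w := [9, 11, 8, 3, 5, 3, 0, 5, 1, 2, 2]) k43,
    one (w := [9, 13, 8, 1, 3, 1, 5, 0, 2, 0]) k44,
    one (w := [9, 15, 8, 3, 1, 2, 5, 3, 0, 2]) k45,
    one (w := [9, 17, 8, 4, 2, 2, 5, 1, 3, 5, 2, 0, 3, 3]) k46,
    one (w := [9, 0, 8, 0, 0, 0]) k47,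
    one (w := [9, 2, 0, 3, 8, 0, 0, 2, 0, 3]) k48,
    one (w := [9, 2, 2, 0, 3, 3, 8, 0, 2, 2, 1, 3, 3, 1]) k49,
    one (w := [8, 8, 1, 1]) k50,
    one (w := [3, 3, 0, 2, 2, 8, 3, 3, 0, 2, 2, 8, 3, 3, 0, 2, 2, 8, 0, 0]) k51,
    one (w := [5, 7, 1, 5, 1, 2, 5, 7, 8, 1, 6, 3, 5, 1, 2, 5, 7, 2, 5, 3, 1, 5, 0, 3, 0, 2, 0, 3, 8, 1, 5, 7, 0, 5, 3, 0, 5, 7, 1, 5, 0, 4, 3, 3, 5, 3, 1, 3, 3, 8]) k52,
    one (w := [9, 7, 9, 1, 5, 7, 2, 1, 3, 5, 7, 2, 1, 3, 5, 3, 0, 3, 3, 0, 3, 8, 6, 8, 0, 2, 1, 2, 2, 1, 2, 2, 5, 0, 4, 2, 4, 3, 6, 4, 3, 3, 6, 4, 2, 4]) k53,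
    one (w := [8, 2, 0, 3, 1, 3, 3, 1, 3, 4, 2, 2, 4, 2, 6, 4, 3, 3, 6, 4, 2, 4, 8, 0, 3, 3, 1, 4, 2, 5, 2, 1, 5, 5, 6, 4, 0, 4, 1, 4, 3, 7, 9, 5, 3, 5, 7, 2, 2, 5, 7, 3, 5, 3, 3, 5, 2, 0, 2, 2, 0, 2, 1, 3, 9, 7, 0, 4, 2, 4, 1, 5, 7, 0, 3, 1, 4, 1, 3, 3, 1, 2, 1]) k54,
    one (w := [8, 2, 6, 8, 2, 2, 1, 3, 1, 2, 2, 5, 0, 4, 1, 5, 6, 5, 2, 2, 1, 4, 2, 9, 7, 3, 9, 5, 1, 4, 2, 5, 7, 4, 1, 4, 0, 4, 3, 1, 3, 1, 2]) k55⟩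

theorem not_cox : Cfsg.Spor.coxRelators Cfsg.Spor.Ly.edges = ∅ := by
  ext r
  simp [Cfsg.Spor.coxRelators, Cfsg.Spor.coxNodes, Cfsg.Spor.Ly.edges]

theorem rel_f : ∀ r ∈ Cfsg.Spor.coxRelators Cfsg.Spor.Ly.edges ∪ {r | r ∈ Cfsg.Spor.Ly.extra},
    FreeGroup.lift f r = 1 := by
  intro r hr
  rw [not_cox, Set.empty_union, Set.mem_ofPred_eq] at hr
  rw [lift_f]
  apply rels_one
  rw [← rels_eq]
  exact List.mem_map.2 ⟨r, hr, rfl⟩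

/-- the representation -/
def rho : Cfsg.Spor.Ly →* Equiv.Perm X := PresentedGroup.toGroup rel_f

theorem a_ne_one : (PresentedGroup.of Cfsg.Spor.Ly.Gen.a : Cfsg.Spor.Ly) ≠ 1 := by
  intro h
  have h1 : rho (PresentedGroup.of Cfsg.Spor.Ly.Gen.a) = 1 := by rw [h, map_one]
  have h2 : rho (PresentedGroup.of Cfsg.Spor.Ly.Gen.a) = f Cfsg.Spor.Ly.Gen.a := PresentedGroup.toGroup.of rel_f
  rw [h2] at h1
  have h3 : ((gw Cfsg.Spor.Ly.Gen.a).map lS).prod (dec (st 0)) = dec (st 0) :=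
    congrArg (fun g : Equiv.Perm X => g (dec (st 0))) h1
  rw [prod_apply] at h3
  have h4 : Tw [0] (dec (st 0)) = dec (st 0) := h3
  have h5 := (run_spec [0] (valid_st (by norm_num : 0 < 111)) (by decide +kernel)).2
  rw [h4] at h5
  have h6 : ((dig (run [0] (st 0)) (0 + 2) : ℕ) : ZMod 5) = ((dig (st 0) (0 + 2) : ℕ) : ZMod 5) :=
    congrFun h5 (0 : Fin 111)
  rw [ZMod.natCast_eq_natCast_iff] at h6
  revert h6
  unfold Nat.ModEq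
  decide +kernel

end H43.LyR
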