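import Cfsg.Agent.Lib.H43.LyB

/-! Semantics of packed vectors over F5. -/

set_option autoImplicit false
set_option maxRecDepth 100000

noncomputable section

namespace H43.LyR

/-- digit in base `b` -/
def dg (b N i : Nat) : Nat := N / b ^ i % b

theorem mod_add_lt {b : Nat} (M N : Nat) (h : ∀ i, dg b M i + dg b N i < b) :
    ∀ i, M % b ^ i + N % b ^ i < b ^ i
  | 0 => by simp [Nat.mod_one]
  | i + 1 => by
    have ih := mod_add_lt M N h i
    have h1 : M / b ^ i % b + N / b ^ i % b + 1 ≤ b := h i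
    rw [Nat.mod_pow_succ, Nat.mod_pow_succ]
    have h2 : b ^ i * (M / b ^ i % b + N / b ^ i % b + 1) ≤ b ^ i * b := Nat.mul_le_mul_left _ h1
    rw [pow_succ]
    nlinarith

theorem dg_add {b M N : Nat} (h : ∀ i, dg b M i + dg b N i < b) (i : Nat) :
    dg b (M + N) i = dg b M i + dg b N i := by
  have h1 := mod_add_lt M N h i
  have h2 : (M + N) / b ^ i = M / b ^ i + N / b ^ i := Nat.add_div_eq_of_add_mod_lt h1
  have h3 : (M / b ^ i + N / b ^ i) % b = M / b ^ i % b + N / b ^ i % b := by
    rw [Nat.add_mod]; exact Nat.mod_eq_of_lt (h i)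
  unfold dg
  rw [h2, h3]

theorem dg_zero (b i : Nat) : dg b 0 i = 0 := by
  unfold dg; rw [Nat.zero_div, Nat.zero_mod]

theorem dg_mul {b N : Nat} : ∀ (c : Nat), (∀ i, c * dg b N i < b) → ∀ i, dg b (c * N) i = c * dg b N i
  | 0, _, i => by rw [zero_mul, zero_mul, dg_zero]
  | c + 1, h, i => by
    have h1 : ∀ i, c * dg b N i < b := fun i => lt_of_le_of_lt (Nat.mul_le_mul_right _ (Nat.le_succ c)) (h i)
    have ih := dg_mul c h1
    rw [add_mul, one_mul, add_mul, one_mul, dg_add, ih]
    intro j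
    rw [ih, ← Nat.succ_mul]
    exact h j

abbrev dig (N i : Nat) : Nat := dg (2 ^ 24) N i

def Valid (N : Nat) : Prop := ∀ i, dig N (i + 2) < 8

/-- check of a mask -/
def chkM (M a t : Nat) : Bool :=
  (List.range 113).all fun i => Nat.blt i a || (List.range 24).all fun k => Nat.blt k t || !(Nat.testBit M (24 * i + k))

theorem mask_bit {M a t : Nat} (hM : chkM M a t = true) (hM2 : M < 2 ^ 2712) {N : Nat} (h : Nat.land N M = N) (i : Nat)
    (hai : a ≤ i) : dig N i < 2 ^ t := by
  apply Nat.lt_pow_two_of_testBit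
  intro k hk
  unfold dig dg
  rw [← pow_mul, Nat.testBit_mod_two_pow, Nat.testBit_div_two_pow]
  by_cases hk2 : k < 24
  · have h1 : M.testBit (24 * i + k) = false := by
      by_cases hi : i < 113
      · unfold chkM at hM
        rw [List.all_eq_true] at hM
        have h2 := hM i (List.mem_range.2 hi)
        have h2' : Nat.blt i a = false := by
          rw [Bool.eq_false_iff]
          intro h5
          have : i < a := by simpa using h5
          omega
        rw [h2', Bool.false_or, List.all_eq_true] at h2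
        have h3 := h2 k (List.mem_range.2 hk2)
        have h4 : Nat.blt k t = false := by
          rw [Bool.eq_false_iff]
          intro h5
          have : k < t := by simpa using h5
          omega
        rw [h4] at h3
        simpa using h3
      · apply Nat.testBit_lt_two_pow
        exact lt_of_lt_of_le hM2 (Nat.pow_le_pow_right (by norm_num) (by omega))
    have h2 : N.testBit (24 * i + k) = false := by
      have : (N &&& M).testBit (24 * i + k) = false := by
        rw [Nat.testBit_and, h1, Bool.and_false]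
      have h' : N &&& M = N := h
      rwa [h'] at this
    rw [show k + 24 * i = 24 * i + k from by ring, h2, Bool.and_false]
  · simp [hk2]

theorem valid_of_mask {N : Nat} (h : Nat.land N LOW = N) : Valid N := by
  intro i
  have := mask_bit (M := LOW) (a := 2) (t := 3) (by decide +kernel) (by decide +kernel) h (i + 2) (by omega)
  simpa using this

theorem valid_of_maskR {N : Nat} (h : Nat.land N LOR = N) : Valid N ∧ ∀ i, dig N i < 2 ^ 14 := by
  constructor
  · intro i
    have := mask_bit (M := LOR) (a := 2) (t := 3) (by decide +kernel) (by decide +kernel) h (i + 2) (by omega)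
    simpa using this
  · intro i
    exact mask_bit (M := LOR) (a := 0) (t := 14) (by decide +kernel) (by decide +kernel) h i (by omega)

/-- the vectors -/
abbrev X : Type := Fin 111 → ZMod 5

def dec (N : Nat) : X := fun i => ((dig N ((i : ℕ) + 2) : ℕ) : ZMod 5)

def idx (o : Nat) : Fin 111 := ⟨(o / 24 - 2) % 111, Nat.mod_lt _ (by norm_num)⟩

def TL : List (Nat × Nat) → (X →ₗ[ZMod 5] X)
  | [] => 0
  | p :: ps => (LinearMap.proj (idx p.1)).smulRight (dec p.2) + TL ps

theorem sel_dig {v : Nat} (hv : Valid v) {o : Nat} (ho : 24 * (o / 24) = o) (ho2 : 1 < o / 24) :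
    (v >>> o) &&& 7 = dig v (o / 24) := by
  have h1 := hv (o / 24 - 2)
  rw [Nat.sub_add_cancel ho2] at h1
  unfold dig dg at h1 ⊢
  rw [← pow_mul, ho] at h1 ⊢
  rw [Nat.shiftRight_eq_div_pow, show (7 : ℕ) = 2 ^ 3 - 1 from rfl, Nat.and_two_pow_sub_one_eq_mod]
  have h2 : v / 2 ^ o % 2 ^ 3 = v / 2 ^ o % 2 ^ 24 % 2 ^ 3 := by
    rw [Nat.mod_mod_of_dvd]
    exact pow_dvd_pow 2 (by norm_num)
  rw [h2]
  exact Nat.mod_eq_of_lt h1

theorem okp_spec {p : Nat × Nat} (h : okp p = true) :
    24 * (p.1 / 24) = p.1 ∧ p.1 / 24 < 113 ∧ 1 < p.1 / 24 ∧ Valid p.2 ∧ ∀ i, dig p.2 i < 2 ^ 14 := by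
  unfold okp at h
  rw [Bool.and_eq_true_iff, Bool.and_eq_true_iff, Bool.and_eq_true_iff] at h
  obtain ⟨h1, h2, h2', h3⟩ := h
  exact ⟨Nat.eq_of_beq_eq_true h1, Nat.le_of_ble_eq_true h2, Nat.le_of_ble_eq_true h2',
    valid_of_maskR (Nat.eq_of_beq_eq_true h3)⟩

theorem L_spec : ∀ ps : List (Nat × Nat), (∀ p ∈ ps, okp p = true) → ps.length ≤ 111 → ∀ v, Valid v →
    (∀ i, dig (L ps v) i ≤ 114681 * ps.length) ∧ dec (L ps v) = TL ps (dec v)
  | [], _, _, v, _ => by
    constructor
    · intro i
      show dig 0 i ≤ _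
      unfold dig; rw [dg_zero]; exact Nat.zero_le _
    · ext i
      show ((dig 0 ((i : ℕ) + 2) : ℕ) : ZMod 5) = 0
      unfold dig; rw [dg_zero]; simp
  | p :: ps, hp, hl, v, hv => by
    rw [List.length_cons] at hl
    obtain ⟨ih1, ih2⟩ := L_spec ps (fun q hq => hp q (List.mem_cons_of_mem _ hq)) (by omega) v hv
    obtain ⟨h1, h2, h2', -, h3⟩ := okp_spec (hp p List.mem_cons_self)
    have hd : (v >>> p.1) &&& 7 = dig v (p.1 / 24) := sel_dig hv h1 h2'
    have hd8 : dig v (p.1 / 24) < 8 := by
      have := hv (p.1 / 24 - 2)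
      rwa [Nat.sub_add_cancel h2'] at this
    have hL : L (p :: ps) v = dig v (p.1 / 24) * p.2 + L ps v := by
      show ((v >>> p.1) &&& 7) * p.2 + L ps v = _
      rw [hd]
    have hb : ∀ i, dig v (p.1 / 24) * dig p.2 i ≤ 114681 := by
      intro i
      have := h3 i
      calc dig v (p.1 / 24) * dig p.2 i ≤ 7 * 16383 := Nat.mul_le_mul (by omega) (by omega)
        _ = 114681 := by norm_num
    have hm : ∀ i, dig (dig v (p.1 / 24) * p.2) i = dig v (p.1 / 24) * dig p.2 i := by
      apply dg_mul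
      intro i
      exact lt_of_le_of_lt (hb i) (by norm_num)
    have hm' : ∀ i, dig (dig v (p.1 / 24) * p.2) i ≤ 114681 := by
      intro i
      rw [hm]
      exact hb i
    have ha : ∀ i, dig (dig v (p.1 / 24) * p.2 + L ps v) i = dig (dig v (p.1 / 24) * p.2) i + dig (L ps v) i := by
      apply dg_add
      intro i
      have h5 := hm' i
      have h6 := ih1 i
      have h7 : 114681 * ps.length ≤ 114681 * 110 := Nat.mul_le_mul_left _ (by omega)
      calc _ ≤ 114681 + 114681 * 110 := Nat.add_le_add h5 (le_trans h6 h7)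
        _ < 2 ^ 24 := by norm_num
    constructor
    · intro i
      rw [hL, ha, List.length_cons]
      have h5 := hm' i
      have h6 := ih1 i
      omega
    · ext i
      have h5 : dec (L (p :: ps) v) i =
          ((dig v (p.1 / 24) * dig p.2 ((i : ℕ) + 2) + dig (L ps v) ((i : ℕ) + 2) : ℕ) : ZMod 5) := by
        show ((dig (L (p :: ps) v) ((i : ℕ) + 2) : ℕ) : ZMod 5) = _
        rw [hL, ha, hm]
      rw [h5]
      have h6 : ((dig (L ps v) ((i : ℕ) + 2) : ℕ) : ZMod 5) = TL ps (dec v) i := congrFun ih2 i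
      push_cast
      rw [h6]
      have h7 : dec v (idx p.1) = ((dig v (p.1 / 24) : ℕ) : ZMod 5) := by
        show ((dig v (((idx p.1 : Fin 111) : ℕ) + 2) : ℕ) : ZMod 5) = _
        have : ((idx p.1 : Fin 111) : ℕ) = p.1 / 24 - 2 := Nat.mod_eq_of_lt (by omega)
        rw [this, Nat.sub_add_cancel h2']
      have h8 : TL (p :: ps) = (LinearMap.proj (idx p.1)).smulRight (dec p.2) + TL ps := rfl
      rw [h8]
      simp only [LinearMap.add_apply, LinearMap.smulRight_apply, LinearMap.proj_apply, Pi.add_apply, Pi.smul_apply,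
        smul_eq_mul, h7]
      rfl

/-- shifting by two places -/
theorem dig_shift (N i : Nat) : dig (2 ^ 48 * N) (i + 2) = dig N i := by
  unfold dig dg
  rw [← pow_mul, ← pow_mul, show 24 * (i + 2) = 48 + 24 * i from by ring, pow_add, Nat.mul_div_mul_left _ _ (by positivity)]

theorem dig_shift0 (N : Nat) : dig (2 ^ 48 * N) 0 = 0 := by
  unfold dig dg
  rw [pow_zero, Nat.div_one, show (2 : ℕ) ^ 48 * N = 2 ^ 24 * (2 ^ 24 * N) from by ring, Nat.mul_mod_right]

theorem dig_shift1 (N : Nat) : dig (2 ^ 48 * N) 1 = 0 := by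
  unfold dig dg
  rw [pow_one, show (2 : ℕ) ^ 48 * N = 2 ^ 24 * (2 ^ 24 * N) from by ring, Nat.mul_div_cancel_left _ (by positivity),
    Nat.mul_mod_right]

end H43.LyR
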