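import Cfsg.Agent.Lib.H43.LyS
import Cfsg.Agent.Lib.H43.LyData

/-! Running words over F5: soundness. -/

set_option autoImplicit false
set_option maxRecDepth 100000

noncomputable section

namespace H43.LyR

theorem MQ_bit {N : Nat} (h : Nat.land N MQ = N) (i : Nat) : dig N i < 2 ^ 10 :=
  mask_bit (M := MQ) (a := 0) (t := 10) (by decide +kernel) (by decide +kernel) h i (Nat.zero_le _)

theorem dig_hi (N k : Nat) : dig N (k + 2) = dig (N >>> 48) k := by
  unfold dig dg
  rw [Nat.shiftRight_eq_div_pow, Nat.div_div_eq_div_mul, ← pow_mul, ← pow_mul,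
    show 24 * (k + 2) = 48 + 24 * k from by ring, pow_add]

theorem fin_spec {s : Nat} (h : fin s ≠ 0) : Valid (fin s) ∧ dec (fin s) = dec s := by
  obtain ⟨q, hq⟩ : ∃ q, q = Nat.land (Nat.shiftRight (Nat.mul (Nat.shiftRight s 48) 3277) 14) MQ := ⟨_, rfl⟩
  have hqm : ∀ i, dig q i < 2 ^ 10 := by
    apply MQ_bit
    rw [hq]
    show (_ &&& MQ) &&& MQ = _ &&& MQ
    rw [Nat.and_assoc, Nat.and_self]
  have hf : fin s = Nat.rec (motive := fun _ => Nat) 0
      (fun r _ => cond (Nat.beq (Nat.land (Nat.succ r) LOW) (Nat.succ r)) (Nat.succ r) 0)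
      (Nat.sub s (Nat.mul 1407374883553280 q)) := by rw [hq]; rfl
  rw [hf] at h ⊢
  obtain ⟨r, hr⟩ : ∃ r, r = Nat.sub s (Nat.mul 1407374883553280 q) := ⟨_, rfl⟩
  rw [← hr] at h ⊢
  cases r with
  | zero => exact absurd rfl h
  | succ r =>
    have h1 : cond (Nat.beq (Nat.land (Nat.succ r) LOW) (Nat.succ r)) (Nat.succ r) 0 ≠ 0 := h
    show Valid (cond (Nat.beq (Nat.land (Nat.succ r) LOW) (Nat.succ r)) (Nat.succ r) 0) ∧
      dec (cond (Nat.beq (Nat.land (Nat.succ r) LOW) (Nat.succ r)) (Nat.succ r) 0) = dec s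
    cases hb : Nat.beq (Nat.land (Nat.succ r) LOW) (Nat.succ r) with
    | false => rw [hb] at h1; exact absurd rfl h1
    | true =>
      show Valid (Nat.succ r) ∧ dec (Nat.succ r) = dec s
      have h2 := Nat.eq_of_beq_eq_true hb
      have h3 := valid_of_mask h2
      refine ⟨h3, ?_⟩
      have h4 : s = (r + 1) + 2 ^ 48 * (5 * q) := by
        have h5 : r + 1 = s - 1407374883553280 * q := hr
        have h6 : 2 ^ 48 * (5 * q) = 1407374883553280 * q := by ring
        rw [h6]
        omega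
      have h5 : ∀ i, dig (5 * q) i = 5 * dig q i := by
        apply dg_mul
        intro i
        have h7 : dg (2 ^ 24) q i < 2 ^ 10 := hqm i
        omega
      have h6 : ∀ i, dig ((r + 1) + 2 ^ 48 * (5 * q)) i = dig (r + 1) i + dig (2 ^ 48 * (5 * q)) i := by
        apply dg_add
        intro i
        have hlt : dig (r + 1) i < 2 ^ 24 := Nat.mod_lt _ (by norm_num)
        match i with
        | 0 =>
          have h0 := dig_shift0 (5 * q)
          unfold dig at h0 hlt
          rw [h0]; exact hlt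
        | 1 =>
          have h0 := dig_shift1 (5 * q)
          unfold dig at h0 hlt
          rw [h0]; exact hlt
        | i + 2 =>
          have h7 := dig_shift (5 * q) i
          rw [h5] at h7
          have h8 := hqm i
          have h9 : dig (r + 1) (i + 2) < 8 := h3 i
          unfold dig at h7 h8 h9
          rw [h7]
          omega
      ext i
      show ((dig (r + 1) ((i : ℕ) + 2) : ℕ) : ZMod 5) = ((dig s ((i : ℕ) + 2) : ℕ) : ZMod 5)
      rw [h4, h6, dig_shift, h5]
      push_cast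
      rw [show (5 : ZMod 5) = 0 from by decide, zero_mul, add_zero]

/-- the rows of a letter -/
def rowsOf (c : Nat) : List (Nat × Nat) :=
  Nat.rec (motive := fun _ => List (Nat × Nat)) R0 (fun c1 _ => Nat.rec (motive := fun _ => List (Nat × Nat)) R1 (fun c2 _ => Nat.rec (motive := fun _ => List (Nat × Nat)) R2 (fun c3 _ => Nat.rec (motive := fun _ => List (Nat × Nat)) R3 (fun c4 _ => Nat.rec (motive := fun _ => List (Nat × Nat)) R4 (fun c5 _ => Nat.rec (motive := fun _ => List (Nat × Nat)) R5 (fun c6 _ => Nat.rec (motive := fun _ => List (Nat × Nat)) R6 (fun c7 _ => Nat.rec (motive := fun _ => List (Nat × Nat)) R7 (fun c8 _ => Nat.rec (motive := fun _ => List (Nat × Nat)) R8 (fun c9 _ => Nat.rec (motive := fun _ => List (Nat × Nat)) R9 (fun c10 _ => Nat.rec (motive := fun _ => List (Nat × Nat)) R10 (fun c11 _ => Nat.rec (motive := fun _ => List (Nat × Nat)) R11 (fun c12 _ => Nat.rec (motive := fun _ => List (Nat × Nat)) R12 (fun c13 _ => Nat.rec (motive := fun _ =>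 List (Nat × Nat)) R13 (fun c14 _ => Nat.rec (motive := fun _ => List (Nat × Nat)) R14 (fun c15 _ => Nat.rec (motive := fun _ => List (Nat × Nat)) R15 (fun c16 _ => Nat.rec (motive := fun _ => List (Nat × Nat)) R16 (fun c17 _ => Nat.rec (motive := fun _ => List (Nat × Nat)) R17 (fun _ _ => R18) c17) c16) c15) c14) c13) c12) c11) c10) c9) c8) c7) c6) c5) c4) c3) c2) c1) c

theorem sel_eq : ∀ (c v : Nat), sel c v = L (rowsOf c) v
  | 0, v => F0_eq v
  | 1, v => F1_eq v
  | 2, v => F2_eq v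
  | 3, v => F3_eq v
  | 4, v => F4_eq v
  | 5, v => F5_eq v
  | 6, v => F6_eq v
  | 7, v => F7_eq v
  | 8, v => F8_eq v
  | 9, v => F9_eq v
  | 10, v => F10_eq v
  | 11, v => F11_eq v
  | 12, v => F12_eq v
  | 13, v => F13_eq v
  | 14, v => F14_eq v
  | 15, v => F15_eq v
  | 16, v => F16_eq v
  | 17, v => F17_eq v
  | _ + 18, v => F18_eq v

theorem rows_ok : ∀ c : Nat, ((rowsOf c).all okp) = true
  | 0 => R0_ok
  | 1 => R1_ok
  | 2 => R2_ok
  | 3 => R3_ok
  | 4 => R4_ok
  | 5 => R5_ok
  | 6 => R6_ok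
  | 7 => R7_ok
  | 8 => R8_ok
  | 9 => R9_ok
  | 10 => R10_ok
  | 11 => R11_ok
  | 12 => R12_ok
  | 13 => R13_ok
  | 14 => R14_ok
  | 15 => R15_ok
  | 16 => R16_ok
  | 17 => R17_ok
  | _ + 18 => R18_ok

theorem rows_len : ∀ c : Nat, (rowsOf c).length = 111
  | 0 => R0_len
  | 1 => R1_len
  | 2 => R2_len
  | 3 => R3_len
  | 4 => R4_len
  | 5 => R5_len
  | 6 => R6_len
  | 7 => R7_len
  | 8 => R8_len
  | 9 => R9_len
  | 10 => R10_len
  | 11 => R11_len
  | 12 => R12_len
  | 13 => R13_len
  | 14 => R14_len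
  | 15 => R15_len
  | 16 => R16_len
  | 17 => R17_len
  | _ + 18 => R18_len

/-- the linear map of a letter -/
def T (c : Nat) : X →ₗ[ZMod 5] X := TL (rowsOf c)

theorem step_spec (c : Nat) {v : Nat} (hv : Valid v) (h : stepF c v ≠ 0) :
    Valid (stepF c v) ∧ dec (stepF c v) = T c (dec v) := by
  have hs : stepF c v = Nat.rec (motive := fun _ => Nat) 0 (fun s _ => fin (Nat.succ s)) (sel c v) := rfl
  have h1 := (L_spec (rowsOf c) (List.all_eq_true.1 (rows_ok c)) (le_of_eq (rows_len c)) v hv).2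
  rw [← sel_eq] at h1
  rw [hs] at h ⊢
  revert h h1
  generalize sel c v = s
  intro h h1
  cases s with
  | zero => exact absurd rfl h
  | succ s =>
    have h2 : fin (Nat.succ s) ≠ 0 := h
    show Valid (fin (Nat.succ s)) ∧ dec (fin (Nat.succ s)) = T c (dec v)
    obtain ⟨h3, h4⟩ := fin_spec h2
    exact ⟨h3, h4.trans h1⟩

/-- the linear map of a word (first letter first) -/
def Tw : List Nat → (X →ₗ[ZMod 5] X)
  | [] => LinearMap.id
  | c :: w => (Tw w).comp (T c)

theorem run_cons (c : Nat) (w : List Nat) (v : Nat) :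
    run (c :: w) v = Nat.rec (motive := fun _ => Nat) 0 (fun j _ => run w (Nat.succ j)) (stepF c v) := rfl

theorem run_spec : ∀ (w : List Nat) {v : Nat}, Valid v → run w v ≠ 0 →
    Valid (run w v) ∧ dec (run w v) = Tw w (dec v)
  | [], v, hv, _ => ⟨hv, rfl⟩
  | c :: w, v, hv, h => by
    rw [run_cons] at h ⊢
    have h1 := step_spec c hv
    revert h h1
    generalize stepF c v = s
    intro h h1
    cases s with
    | zero => exact absurd rfl h
    | succ s =>
      obtain ⟨h2, h3⟩ := h1 (Nat.succ_ne_zero s)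
      have h4 : run w (Nat.succ s) ≠ 0 := h
      obtain ⟨h5, h6⟩ := run_spec w h2 h4
      show Valid (run w (Nat.succ s)) ∧ dec (run w (Nat.succ s)) = Tw (c :: w) (dec v)
      refine ⟨h5, h6.trans ?_⟩
      rw [h3]
      rfl

theorem st_ne (i : Nat) : st i ≠ 0 := by
  have : 0 < (2 : ℕ) ^ (24 * (i + 2)) := by positivity
  have h : st i = 2 ^ (24 * (i + 2)) + (i + 1) * 2654435 := rfl
  omega

theorem chk_aux (st' : Nat → Nat) (hst : ∀ i, st' i ≠ 0) (w : List Nat) : ∀ n : Nat,
    (Nat.rec (motive := fun _ => Bool) true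
      (fun i acc => Bool.and (Nat.rec (motive := fun _ => Bool) false (fun j _ => Nat.beq (Nat.shiftRight (run w (Nat.succ j)) 48) (Nat.pow 2 (Nat.mul 24 i))) (st' i)) acc) n) = true →
    ∀ i < n, (run w (st' i)) >>> 48 = 2 ^ (24 * i) := by
  intro n
  induction n with
  | zero => intro _ i hi; omega
  | succ n ih =>
    intro h i hi
    have h' : Bool.and (Nat.rec (motive := fun _ => Bool) false (fun j _ => Nat.beq (Nat.shiftRight (run w (Nat.succ j)) 48) (Nat.pow 2 (Nat.mul 24 n))) (st' n))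
      (Nat.rec (motive := fun _ => Bool) true
        (fun i acc => Bool.and (Nat.rec (motive := fun _ => Bool) false (fun j _ => Nat.beq (Nat.shiftRight (run w (Nat.succ j)) 48) (Nat.pow 2 (Nat.mul 24 i))) (st' i)) acc) n) = true := h
    obtain ⟨h1, h2⟩ := (Bool.and_eq_true_iff).1 h'
    rcases Nat.lt_succ_iff_lt_or_eq.1 hi with hi | rfl
    · exact ih h2 i hi
    · obtain ⟨j, hj⟩ := Nat.exists_eq_succ_of_ne_zero (hst i)
      rw [hj] at h1
      have h3 := Nat.eq_of_beq_eq_true h1
      rw [hj]; exact h3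

theorem dig_pow (i k : Nat) : dig (2 ^ (24 * i)) k = if k = i then 1 else 0 := by
  unfold dig dg
  rw [← pow_mul]
  rcases lt_trichotomy k i with h | h | h
  · rw [if_neg (by omega), Nat.pow_div (by omega) (by norm_num)]
    obtain ⟨m, hm⟩ : ∃ m, 24 * i - 24 * k = 24 + m := ⟨24 * i - 24 * k - 24, by omega⟩
    rw [hm, pow_add, Nat.mul_mod_right]
  · subst h
    rw [if_pos rfl, Nat.div_self (by positivity)]
    norm_num
  · rw [if_neg (by omega), Nat.div_eq_of_lt (Nat.pow_lt_pow_right (by norm_num) (by omega))]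
    norm_num

theorem st_shift {i : Nat} (hi : i < 111) : (st i) >>> 48 = 2 ^ (24 * i) := by
  have h : st i = (i + 1) * 2654435 + 2 ^ 48 * 2 ^ (24 * i) := by
    have h1 : st i = 2 ^ (24 * (i + 2)) + (i + 1) * 2654435 := rfl
    rw [h1, show 24 * (i + 2) = 48 + 24 * i from by ring, pow_add]
    ring
  rw [h, Nat.shiftRight_eq_div_pow, Nat.add_mul_div_left _ _ (by positivity), Nat.div_eq_of_lt (by omega), zero_add]

theorem valid_st {i : Nat} (hi : i < 111) : Valid (st i) := by
  intro k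
  rw [dig_hi, st_shift hi, dig_pow]
  split_ifs <;> norm_num

theorem dec_of_shift {N : Nat} (i : Fin 111) (h : N >>> 48 = 2 ^ (24 * (i : ℕ))) : dec N = Pi.single i 1 := by
  ext k
  show ((dig N ((k : ℕ) + 2) : ℕ) : ZMod 5) = _
  rw [dig_hi, h, dig_pow, Pi.single_apply]
  by_cases h : k = i
  · rw [if_pos h, if_pos (by rw [h])]; simp
  · rw [if_neg h, if_neg (fun h' => h (Fin.ext h'))]; simp

theorem chk_sound {w : List Nat} (h : chk w = true) : Tw w = LinearMap.id := by
  apply (Pi.basisFun (ZMod 5) (Fin 111)).ext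
  intro i
  rw [Pi.basisFun_apply, LinearMap.id_apply]
  have h1 := chk_aux st st_ne w 111 h i i.2
  have h2 : run w (st i) ≠ 0 := by
    intro h0
    rw [h0] at h1
    have h2 : (0 : ℕ) = 2 ^ (24 * (i : ℕ)) := by rw [← h1]; simp
    have h3 : 0 < (2 : ℕ) ^ (24 * (i : ℕ)) := by positivity
    omega
  have h3 := (run_spec w (valid_st i.2) h2).2
  rw [dec_of_shift i h1, dec_of_shift i (st_shift i.2)] at h3
  exact h3.symm

end H43.LyR
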