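import Cfsg.Agent.Lib.H43.RegHess

/-!
Two regular unipotents generating `SL_n(q)`: the second one is `A w` with `A` a diagonal matrix plus a last column.
-/
set_option autoImplicit false

namespace H43.RegPair

open Matrix Cfsg.Geo H94.Transv H43.RegCrit H43.RegUni H43.RegLev H43.RegHess Polynomial
open scoped MatrixGroups

variable {F : Type*} [Field F] {n : ℕ}

/-- the last row of `1 + LL` -/
theorem last_row (hn : 2 ≤ n) (x : Fin n → F) :
    ((Pi.single (⟨n - 1, by omega⟩ : Fin n) 1 : Fin n → F) ᵥ* (1 + LL (fun _ => 1))) ⬝ᵥ x =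
      x ⟨n - 2, by omega⟩ + x ⟨n - 1, by omega⟩ := by
  rw [← Matrix.dotProduct_mulVec, single_dotProduct, one_mul, Matrix.add_mulVec, Matrix.one_mulVec, Pi.add_apply,
    LL_mulVec _ _ _ (by simp; omega), one_mul, add_comm]
  congr 2

theorem last_row_apply (hn : 2 ≤ n) (j : Fin n) :
    ((Pi.single (⟨n - 1, by omega⟩ : Fin n) 1 : Fin n → F) ᵥ* (1 + LL (fun _ => 1))) j =
      if (j : ℕ) + 2 < n then 0 else 1 := by
  have h := last_row hn (Pi.single j (1 : F))
  rw [dotProduct_single, mul_one] at h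
  rw [h, Pi.single_apply, Pi.single_apply]
  by_cases h1 : (j : ℕ) + 2 < n
  · rw [if_pos h1, if_neg, if_neg, add_zero]
    · intro e; rw [← e] at h1; simp at h1; omega
    · intro e; rw [← e] at h1; simp at h1
      omega
  · rw [if_neg h1]
    have := j.2
    by_cases h2 : (j : ℕ) = n - 2
    · rw [if_pos (Fin.ext h2.symm), if_neg, add_zero]
      intro e; rw [← e] at h2; simp at h2; omega
    · have h3 : (j : ℕ) = n - 1 := by omega
      rw [if_neg (fun e => h2 (by rw [← e])), if_pos (Fin.ext h3.symm), zero_add]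

theorem diag_hess {d : Fin n → F} (hd : ∀ i, d i ≠ 0) :
    Hess (Matrix.diagonal d * (1 + LL (fun _ => 1)) : Matrix (Fin n) (Fin n) F) := by
  have h := LL_hess (n := n) (fun _ => (1 : F)) (fun _ => one_ne_zero)
  constructor
  · intro i j hij
    rw [Matrix.diagonal_mul, h.zero i j hij, mul_zero]
  · intro i j hij
    rw [Matrix.diagonal_mul]
    exact mul_ne_zero (hd i) (h.ne i j hij)

theorem exists_y (hn : 3 ≤ n) (d : Fin n → F) (lam : F) (h0 : d ⟨0, by omega⟩ = lam) (hlast : d ⟨n - 1, by omega⟩ = lam)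
    (hd : ∀ i, d i ≠ 0) (hdet : ∏ i, d i = 1) (hl1 : lam ≠ 1) :
    ∃ y : Fin n → F, y ⟨n - 1, by omega⟩ = 0 ∧ y ⟨0, by omega⟩ ≠ 0 ∧
      Hess (Matrix.diagonal d * (1 + LL (fun _ => 1)) +
        vecMulVec y ((Pi.single (⟨n - 1, by omega⟩ : Fin n) 1 : Fin n → F) ᵥ* (1 + LL (fun _ => 1)))) ∧
      (Matrix.diagonal d * (1 + LL (fun _ => 1)) +
        vecMulVec y ((Pi.single (⟨n - 1, by omega⟩ : Fin n) 1 : Fin n → F) ᵥ* (1 + LL (fun _ => 1))) - 1) ^ n = 0 := by
  have hlam0 : lam ≠ 0 := by rw [← h0]; exact hd _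
  set W0 : Matrix (Fin n) (Fin n) F := 1 + LL (fun _ => 1) with hW0
  set e0 : Fin n → F := Pi.single (⟨0, by omega⟩ : Fin n) 1 with he0
  set en : Fin n → F := Pi.single (⟨n - 1, by omega⟩ : Fin n) 1 with hen
  set B : Matrix (Fin n) (Fin n) F := Matrix.diagonal d * W0 with hB
  set η : Fin n → F := en ᵥ* W0 with hη
  have hBH : Hess B := diag_hess hd
  have hNH : Hess (B - 1) := hBH.sub_one
  have henB : en ᵥ* B = lam • η := by
    rw [hB, ← Matrix.vecMul_vecMul, hη]
    have : en ᵥ* Matrix.diagonal d = lam • en := by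
      funext j
      rw [Matrix.vecMul_diagonal, Pi.smul_apply, hen, smul_eq_mul, Pi.single_apply]
      by_cases hj : j = ⟨n - 1, by omega⟩
      · rw [if_pos hj, hj, hlast, one_mul, mul_one]
      · rw [if_neg hj, zero_mul, mul_zero]
    rw [this, Matrix.smul_vecMul]
  have he0B : e0 ᵥ* B = lam • e0 := by
    funext j
    rw [he0, Matrix.single_one_vecMul, Matrix.row_apply, hB, Matrix.diagonal_mul, h0, Pi.smul_apply, smul_eq_mul]
    congr 1
    rw [hW0, Matrix.add_apply, LL, if_neg (by simp), add_zero, Matrix.one_apply, Pi.single_apply]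
    congr 1
    exact propext ⟨Eq.symm, Eq.symm⟩
  have hdetB : B.det = 1 := by
    rw [hB, Matrix.det_mul, Matrix.det_diagonal, hdet, one_mul, hW0, det_one_add_LL]
  -- Cayley-Hamilton
  set χ := B.charpoly with hχ
  set R : F[X] := (X - C 1) ^ n - χ with hR
  have hR0 : R.coeff 0 = 0 := by
    have h1 := Matrix.det_eq_sign_charpoly_coeff B
    rw [hdetB, Fintype.card_fin] at h1
    rw [hR, Polynomial.coeff_sub, sub_eq_zero]
    have h2 : ((X - C (1 : F)) ^ n).coeff 0 = (-1) ^ n := by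
      rw [Polynomial.coeff_zero_eq_eval_zero]; simp
    rw [h2]
    have h3 : ((-1 : F) ^ n) * ((-1) ^ n * χ.coeff 0) = χ.coeff 0 := by
      rw [← mul_assoc, ← mul_pow]; simp
    rw [← h3, ← h1, mul_one]
  have hRdeg : R.degree < n := by
    have hm1 : ((X - C (1 : F)) ^ n).Monic := (Polynomial.monic_X_sub_C 1).pow n
    have hm2 : χ.Monic := Matrix.charpoly_monic B
    have hd1 : ((X - C (1 : F)) ^ n).degree = (n : WithBot ℕ) := by
      rw [Polynomial.degree_pow, Polynomial.degree_X_sub_C]; simp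
    have hd2 : χ.degree = (n : WithBot ℕ) := by
      rw [hχ, Matrix.charpoly_degree_eq_dim, Fintype.card_fin]
    have := Polynomial.degree_sub_lt_left (hd1.trans hd2.symm) hm1.ne_zero (by rw [hm1.leadingCoeff, hm2.leadingCoeff])
    rwa [hd1] at this
  have hRnat : R.natDegree < n := by
    by_cases hR' : R = 0
    · rw [hR', Polynomial.natDegree_zero]; omega
    · exact (Polynomial.natDegree_lt_iff_degree_lt hR').2 hRdeg
  set Q := R.divX with hQ
  have hQdeg : Q.natDegree < n - 1 := by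
    rw [hQ, Polynomial.natDegree_divX_eq_natDegree_tsub_one]; omega
  have hRQ : R = X * Q := by
    have := Polynomial.X_mul_divX_add R
    rw [hR0, C_0, add_zero] at this
    exact this.symm
  have hBQ : B * aeval B Q = (B - 1) ^ n := by
    have h1 : aeval B R = (B - 1) ^ n := by
      rw [hR, map_sub, hχ, Matrix.aeval_self_charpoly, sub_zero, map_pow, map_sub, aeval_X, aeval_C, map_one]
    rw [← h1, hRQ, map_mul, aeval_X]
  set x : Fin n → F := aeval B Q *ᵥ e0 with hx
  have hBx : B *ᵥ x = (B - 1) ^ n *ᵥ e0 := by rw [hx, Matrix.mulVec_mulVec, hBQ]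
  have hxn : x ⟨n - 1, by omega⟩ = 0 := by
    rw [hx, Polynomial.aeval_eq_sum_range' hQdeg, Matrix.sum_mulVec, Finset.sum_apply]
    apply Finset.sum_eq_zero
    intro k hk
    rw [Matrix.smul_mulVec, Pi.smul_apply, (hBH.pow_vals (by omega) k).1, smul_zero]
    have := Finset.mem_range.1 hk
    change k < n - 1
    omega
  have hx0 : x ⟨0, by omega⟩ ≠ 0 := by
    have h1 : ∀ z : Fin n → F, (B *ᵥ z) ⟨0, by omega⟩ = lam * z ⟨0, by omega⟩ := by
      intro z
      have h2 : (B *ᵥ z) ⟨0, by omega⟩ = (e0 ᵥ* B) ⬝ᵥ z := by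
        rw [← Matrix.dotProduct_mulVec, he0, single_dotProduct, one_mul]
      rw [h2, he0B, smul_dotProduct, he0, single_dotProduct, one_mul, smul_eq_mul]
    have h3 : ∀ k : ℕ, ((B - 1) ^ k *ᵥ e0) ⟨0, by omega⟩ = (lam - 1) ^ k := by
      intro k
      induction k with
      | zero => rw [pow_zero, Matrix.one_mulVec, he0, Pi.single_eq_same, pow_zero]
      | succ k ih =>
        rw [_root_.pow_succ', ← Matrix.mulVec_mulVec, Matrix.sub_mulVec, Pi.sub_apply, h1, Matrix.one_mulVec, ih]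
        ring
    have h4 := h1 x
    rw [hBx, h3] at h4
    intro h5
    rw [h5, mul_zero] at h4
    exact pow_ne_zero n (sub_ne_zero.2 hl1) h4
  set c : F := ((B - 1) ^ (n - 2) *ᵥ e0) ⟨n - 2, by omega⟩ with hc
  have hc0 : c ≠ 0 := (hNH.pow_vals (by omega) (n - 2)).2 _ rfl
  have hηx : ∀ z : Fin n → F, η ⬝ᵥ z = z ⟨n - 2, by omega⟩ + z ⟨n - 1, by omega⟩ := fun z => last_row (by omega) z
  have hηlow : ∀ k : ℕ, k < n - 2 → η ⬝ᵥ ((B - 1) ^ k *ᵥ e0) = 0 := by
    intro k hk
    rw [hηx, (hNH.pow_vals (by omega) k).1 _ (by change k < n - 2; omega),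
      (hNH.pow_vals (by omega) k).1 _ (by change k < n - 1; omega), add_zero]
  have hηtop : η ⬝ᵥ ((B - 1) ^ (n - 2) *ᵥ e0) = c := by
    rw [hηx, (hNH.pow_vals (by omega) (n - 2)).1 ⟨n - 1, by omega⟩ (by change n - 2 < n - 1; omega), add_zero]
  have hn1 : n - 1 = (n - 2) + 1 := by omega
  have hn2 : n = (n - 1) + 1 := by omega
  have hBlast : ∀ z : Fin n → F, (B *ᵥ z) ⟨n - 1, by omega⟩ = lam * (η ⬝ᵥ z) := by
    intro z
    have h2 : (B *ᵥ z) ⟨n - 1, by omega⟩ = (en ᵥ* B) ⬝ᵥ z := by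
      rw [← Matrix.dotProduct_mulVec, hen, single_dotProduct, one_mul]
    rw [h2, henB, smul_dotProduct, smul_eq_mul]
  have htop : ((B - 1) ^ (n - 1) *ᵥ e0) ⟨n - 1, by omega⟩ = lam * c := by
    have e : (B - 1) ^ (n - 1) *ᵥ e0 = (B - 1) *ᵥ ((B - 1) ^ (n - 2) *ᵥ e0) := by
      rw [Matrix.mulVec_mulVec, ← _root_.pow_succ', ← hn1]
    rw [e, Matrix.sub_mulVec, Pi.sub_apply, hBlast, hηtop, Matrix.one_mulVec,
      (hNH.pow_vals (by omega) (n - 2)).1 ⟨n - 1, by omega⟩ (by change n - 2 < n - 1; omega), sub_zero]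
  -- the vector y
  set y : Fin n → F := (-c⁻¹) • x with hy
  have hcy : c • y = -x := by
    rw [hy, smul_smul, mul_neg, mul_inv_cancel₀ hc0, neg_one_smul]
  have hyn : y ⟨n - 1, by omega⟩ = 0 := by rw [hy, Pi.smul_apply, hxn, smul_zero]
  have hy0 : y ⟨0, by omega⟩ ≠ 0 := by
    rw [hy, Pi.smul_apply, smul_eq_mul]
    exact mul_ne_zero (neg_ne_zero.2 (inv_ne_zero hc0)) hx0
  set u : Matrix (Fin n) (Fin n) F := B + vecMulVec y η with hu
  have huH : Hess u := by
    have hηval : ∀ j : Fin n, η j = if (j : ℕ) + 2 < n then 0 else 1 := fun j => last_row_apply (by omega) j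
    constructor
    · intro i j hij
      have := i.2
      rw [hu, Matrix.add_apply, hBH.zero i j hij, vecMulVec_apply, hηval, if_pos (by omega), mul_zero, add_zero]
    · intro i j hij
      rw [hu, Matrix.add_apply, vecMulVec_apply, hηval]
      by_cases h1 : (j : ℕ) + 2 < n
      · rw [if_pos h1, mul_zero, add_zero]; exact hBH.ne i j hij
      · have h2 : i = ⟨n - 1, by omega⟩ := by
          apply Fin.ext
          have := i.2
          change (i : ℕ) = n - 1
          omega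
        rw [h2, hyn, zero_mul, add_zero, ← h2]
        exact hBH.ne i j hij
  have hstep : ∀ z : Fin n → F, (u - 1) *ᵥ z = (B - 1) *ᵥ z + (η ⬝ᵥ z) • y := by
    intro z
    rw [hu, add_sub_right_comm, Matrix.add_mulVec, vecMulVec_mulVec]
    congr 1
    funext i
    simp [mul_comm]
  have hlow : ∀ k : ℕ, k ≤ n - 2 → (u - 1) ^ k *ᵥ e0 = (B - 1) ^ k *ᵥ e0 := by
    intro k
    induction k with
    | zero => intro _; simp
    | succ k ih =>
      intro hk
      rw [_root_.pow_succ', ← Matrix.mulVec_mulVec, ih (by omega), hstep, hηlow k (by omega), zero_smul, add_zero,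
        Matrix.mulVec_mulVec, ← _root_.pow_succ']
  set z : Fin n → F := (B - 1) ^ (n - 1) *ᵥ e0 - x with hz
  have hz1 : (u - 1) ^ (n - 1) *ᵥ e0 = z := by
    have e1 : (u - 1) ^ (n - 1) = (u - 1) * (u - 1) ^ (n - 2) := by rw [← _root_.pow_succ', ← hn1]
    rw [e1, ← Matrix.mulVec_mulVec, hlow (n - 2) le_rfl, hstep, hηtop, Matrix.mulVec_mulVec, ← _root_.pow_succ',
      ← hn1, hcy, hz, ← sub_eq_add_neg]
  have hBz : B *ᵥ z = (B - 1) ^ (n - 1) *ᵥ e0 := by
    rw [hz, Matrix.mulVec_sub, hBx, Matrix.mulVec_mulVec, ← Matrix.sub_mulVec]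
    have e2 : (B - 1) ^ n = (B - 1) * (B - 1) ^ (n - 1) := by rw [← _root_.pow_succ', ← hn2]
    rw [e2, ← sub_mul, sub_sub_cancel, one_mul]
  have hηz : η ⬝ᵥ z = c := by
    have h1 := hBlast z
    rw [hBz, htop] at h1
    exact (mul_left_cancel₀ hlam0 h1).symm
  have hzero : (u - 1) ^ n *ᵥ e0 = 0 := by
    have e1 : (u - 1) ^ n = (u - 1) * (u - 1) ^ (n - 1) := by rw [← _root_.pow_succ', ← hn2]
    rw [e1, ← Matrix.mulVec_mulVec, hz1, hstep, hηz, hcy, Matrix.sub_mulVec, hBz, Matrix.one_mulVec, hz]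
    abel
  refine ⟨y, hyn, hy0, huH, ?_⟩
  have huH1 := huH.sub_one
  have hrow : ∀ i : Fin n, ((u - 1) ^ n) i = 0 := by
    intro i
    apply huH1.cyc (by omega)
    intro k _
    change ((u - 1) ^ n *ᵥ ((u - 1) ^ k *ᵥ e0)) i = 0
    rw [Matrix.mulVec_mulVec, ← _root_.pow_add, add_comm, _root_.pow_add, ← Matrix.mulVec_mulVec, hzero,
      Matrix.mulVec_zero]
    rfl
  funext i j
  rw [hrow i]; rfl

/-- powers of `D + y e_n^*` -/
theorem pow_A (hn : 3 ≤ n) (d : Fin n → F) (lam : F) (hlast : d ⟨n - 1, by omega⟩ = lam) (y : Fin n → F)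
    (hyn : y ⟨n - 1, by omega⟩ = 0) (k : ℕ) :
    (Matrix.diagonal d + vecMulVec y (Pi.single (⟨n - 1, by omega⟩ : Fin n) 1)) ^ k =
      Matrix.diagonal (fun i => d i ^ k) + vecMulVec (fun i => (∑ j ∈ Finset.range k, d i ^ j * lam ^ (k - 1 - j)) * y i)
        (Pi.single (⟨n - 1, by omega⟩ : Fin n) 1) := by
  induction k with
  | zero =>
    have h1 : (fun i : Fin n => d i ^ 0) = fun _ => 1 := by funext i; rw [pow_zero]
    have h2 : (fun i : Fin n => (∑ j ∈ Finset.range 0, d i ^ j * lam ^ (0 - 1 - j)) * y i) = 0 := by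
      funext i; simp
    rw [pow_zero, h1, h2, Matrix.diagonal_one, zero_vecMulVec, add_zero]
  | succ k ih =>
    rw [_root_.pow_succ, ih]
    ext i j
    rw [Matrix.add_mul, Matrix.add_apply, Matrix.diagonal_mul, Matrix.add_apply, Matrix.add_apply, Matrix.vecMulVec_mul,
      vecMulVec_apply, vecMulVec_apply, vecMulVec_apply, Matrix.vecMul_add, Pi.add_apply, Matrix.vecMul_diagonal,
      Matrix.vecMul_vecMulVec]
    have h3 : (Pi.single (⟨n - 1, by omega⟩ : Fin n) (1 : F)) ⬝ᵥ y = 0 := by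
      rw [single_dotProduct, one_mul, hyn]
    rw [h3, zero_smul, Pi.zero_apply, add_zero, Matrix.diagonal_apply, Matrix.diagonal_apply]
    have h4 : ∑ j ∈ Finset.range (k + 1), d i ^ j * lam ^ (k + 1 - 1 - j) =
        (∑ j ∈ Finset.range k, d i ^ j * lam ^ (k - 1 - j)) * lam + d i ^ k := by
      rw [Finset.sum_range_succ, Finset.sum_mul]
      congr 1
      · apply Finset.sum_congr rfl
        intro j hj
        have := Finset.mem_range.1 hj
        rw [mul_assoc, ← _root_.pow_succ]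
        congr 2
        omega
      · simp
    rw [h4, Pi.single_apply]
    by_cases hj : j = ⟨n - 1, by omega⟩
    · rw [if_pos hj, hj, hlast]
      split_ifs <;> ring
    · rw [if_neg hj]
      split_ifs <;> ring

theorem Cyc.up_iter {K : Subgroup (GL (Fin n) F)} {w : GL (Fin n) F} {v ψ : Fin n → F} (hc : Cyc w v ψ) (hw : w ∈ K)
    {a : F} (ha0 : a ≠ 0) (ha : HasT K v (a • ψ)) (e : ℕ) (he : e + 1 < n) :
    ∃ b : F, b ≠ 0 ∧ HasT K v (b • ps w ψ e) := by
  induction e with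
  | zero => exact ⟨a, ha0, by rw [ps_zero]; exact ha⟩
  | succ e ih =>
    obtain ⟨b, hb0, hb⟩ := ih (by omega)
    exact ⟨_, mul_ne_zero (mul_ne_zero hb0 hc.inv_ne) ha0, hc.up hw e (by omega) ha hb⟩

theorem gen [Fintype F] (hn : 3 ≤ n) (d : Fin n → F) (lam : F) (h0 : d ⟨0, by omega⟩ = lam)
    (hlast : d ⟨n - 1, by omega⟩ = lam) (hd : ∀ i, d i ≠ 0)
    (hne : ∀ i : Fin n, (i : ℕ) ≠ 0 → (i : ℕ) ≠ n - 1 → d i ≠ lam)
    (y : Fin n → F) (hyn : y ⟨n - 1, by omega⟩ = 0) (hy0 : y ⟨0, by omega⟩ ≠ 0)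
    (hμ : ∀ S : AddSubgroup F, (∀ s ∈ S, (d ⟨n - 2, by omega⟩ / lam) * s ∈ S) → ∀ x ∈ S, x ≠ 0 → ∀ a, a ∈ S)
    {K : Subgroup (GL (Fin n) F)} {A w : GL (Fin n) F}
    (hA : (A : Matrix (Fin n) (Fin n) F) = Matrix.diagonal d + vecMulVec y (Pi.single (⟨n - 1, by omega⟩ : Fin n) 1))
    (hw : (w : Matrix (Fin n) (Fin n) F) = 1 + LL (fun _ => 1)) (hAK : A ∈ K) (hwK : w ∈ K) :
    specialLinear (Fin n) F ≤ K := by
  have hlam0 : lam ≠ 0 := by rw [← h0]; exact hd _
  have hc : Cyc w (Pi.single (⟨0, by omega⟩ : Fin n) 1) (Pi.single (⟨n - 1, by omega⟩ : Fin n) 1) := by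
    apply Hess.toCyc _ (by omega)
    rw [hw]; exact LL_hess _ (fun _ => one_ne_zero)
  have hq1 : ∀ a : F, a ≠ 0 → a ^ (Fintype.card F - 1) = 1 := fun a ha => FiniteField.pow_card_sub_one_eq_one a ha
  have hqpos : 1 < Fintype.card F := Fintype.one_lt_card
  -- the first transvection
  have hT1 : HasT K (Pi.single (⟨0, by omega⟩ : Fin n) 1)
      ((-(lam⁻¹ * y ⟨0, by omega⟩)) • Pi.single (⟨n - 1, by omega⟩ : Fin n) 1) := by
    refine ⟨?_, A ^ (Fintype.card F - 1), K.pow_mem hAK _, ?_⟩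
    · rw [dotProduct_single, mul_one, Pi.smul_apply, Pi.single_apply, if_neg, smul_zero]
      rw [Fin.mk.injEq]; omega
    · rw [Units.val_pow_eq_pow_val, hA, pow_A hn d lam hlast y hyn, tm]
      congr 1
      · have : (fun i : Fin n => d i ^ (Fintype.card F - 1)) = fun _ => 1 := by
          funext i; exact hq1 _ (hd i)
        rw [this, Matrix.diagonal_one]
      · have : (fun i : Fin n => (∑ j ∈ Finset.range (Fintype.card F - 1), d i ^ j * lam ^ (Fintype.card F - 1 - 1 - j)) * y i) =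
            (-(lam⁻¹ * y ⟨0, by omega⟩)) • Pi.single (⟨0, by omega⟩ : Fin n) 1 := by
          funext i
          rw [Pi.smul_apply, Pi.single_apply]
          by_cases hi : i = ⟨0, by omega⟩
          · rw [if_pos hi, hi, h0]
            have h1 : ∑ j ∈ Finset.range (Fintype.card F - 1), lam ^ j * lam ^ (Fintype.card F - 1 - 1 - j) =
                ∑ j ∈ Finset.range (Fintype.card F - 1), lam ^ (Fintype.card F - 2) := by
              apply Finset.sum_congr rfl
              intro j hj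
              have := Finset.mem_range.1 hj
              rw [← _root_.pow_add]
              congr 1
              omega
            rw [h1, Finset.sum_const, Finset.card_range, nsmul_eq_mul, Nat.cast_sub (by omega), FiniteField.cast_card_eq_zero,
              Nat.cast_one, zero_sub]
            have h2 : lam ^ (Fintype.card F - 2) = lam⁻¹ := by
              have h3 := hq1 lam hlam0
              have h4 : Fintype.card F - 1 = (Fintype.card F - 2) + 1 := by omega
              rw [h4, _root_.pow_succ] at h3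
              exact eq_inv_of_mul_eq_one_left h3
            rw [h2, smul_eq_mul]
            ring
          · rw [if_neg hi, smul_zero]
            have hi0 : (i : ℕ) ≠ 0 := fun e => hi (Fin.ext e)
            by_cases hin : (i : ℕ) = n - 1
            · have : i = ⟨n - 1, by omega⟩ := Fin.ext hin
              rw [this, hyn, mul_zero]
            · have h5 : (∑ j ∈ Finset.range (Fintype.card F - 1), d i ^ j * lam ^ (Fintype.card F - 1 - 1 - j)) = 0 := by
                have h6 := (Commute.all (d i) lam).geom_sum₂_mul (Fintype.card F - 1)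
                rw [hq1 _ (hd i), hq1 _ hlam0, sub_self] at h6
                rcases mul_eq_zero.1 h6 with h7 | h7
                · exact h7
                · exact absurd (sub_eq_zero.1 h7) (hne i hi0 hin)
              rw [h5, zero_mul]
        rw [this, smul_vecMulVec, vecMulVec_smul]
  have ha0 : (-(lam⁻¹ * y ⟨0, by omega⟩)) ≠ 0 := neg_ne_zero.2 (mul_ne_zero (inv_ne_zero hlam0) hy0)
  obtain ⟨b1, hb10, hb1⟩ := Cyc.up_iter hc hwK ha0 hT1 1 (by omega)
  obtain ⟨b2, hb20, hb2⟩ := Cyc.up_iter hc hwK ha0 hT1 (n - 2) (by omega)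
  -- the additive subgroup S
  let S : AddSubgroup F :=
    { carrier := {a | ∃ b : F, HasT K (Pi.single (⟨0, by omega⟩ : Fin n) 1)
        (a • Pi.single (⟨n - 2, by omega⟩ : Fin n) 1 + b • Pi.single (⟨n - 1, by omega⟩ : Fin n) 1)}
      zero_mem' := ⟨0, by rw [zero_smul, zero_smul, add_zero]; exact HasT.zero_right _⟩
      add_mem' := by
        rintro a a' ⟨b, hb⟩ ⟨b', hb'⟩
        refine ⟨b + b', ?_⟩
        have := hb.add_right hb'
        convert this using 1
        rw [add_smul, add_smul]; abel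
      neg_mem' := by
        rintro a ⟨b, hb⟩
        refine ⟨-b, ?_⟩
        have := hb.neg_right
        convert this using 1
        rw [neg_smul, neg_smul]; abel }
  have hSmul : ∀ s ∈ S, (d ⟨n - 2, by omega⟩ / lam) * s ∈ S := by
    rintro s ⟨b, hb⟩
    have h1 := hb.conj (K.inv_mem hAK)
    rw [inv_inv] at h1
    have h2 : ((A⁻¹ : GL (Fin n) F) : Matrix (Fin n) (Fin n) F) *ᵥ (Pi.single (⟨0, by omega⟩ : Fin n) 1) =
        lam⁻¹ • Pi.single (⟨0, by omega⟩ : Fin n) 1 := by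
      have h3 : (A : Matrix (Fin n) (Fin n) F) *ᵥ (lam⁻¹ • Pi.single (⟨0, by omega⟩ : Fin n) 1) =
          Pi.single (⟨0, by omega⟩ : Fin n) 1 := by
        rw [hA, Matrix.add_mulVec, Matrix.mulVec_smul, Matrix.mulVec_smul, Matrix.vecMulVec_mulVec]
        have h4 : (Pi.single (⟨n - 1, by omega⟩ : Fin n) (1 : F)) ⬝ᵥ (Pi.single (⟨0, by omega⟩ : Fin n) (1 : F)) = 0 := by
          rw [dotProduct_single, mul_one, Pi.single_apply, if_neg]
          rw [Fin.mk.injEq]; omega
        rw [h4]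
        funext i
        rw [Pi.add_apply, Pi.smul_apply, Matrix.mulVec_diagonal, Pi.smul_apply, Pi.single_apply]
        by_cases hi : i = ⟨0, by omega⟩
        · rw [if_pos hi, hi, h0]; simp [hlam0]
        · rw [if_neg hi]; simp
      rw [← h3, Matrix.mulVec_mulVec, ← Units.val_mul, inv_mul_cancel, Units.val_one, Matrix.one_mulVec, h3]
    rw [h2, hasT_smul_iff (inv_ne_zero hlam0)] at h1
    refine ⟨lam⁻¹ * (s * y ⟨n - 2, by omega⟩) + b, ?_⟩
    convert h1 using 1
    rw [hA, Matrix.vecMul_add, Matrix.vecMul_vecMulVec]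
    have h5 : (s • Pi.single (⟨n - 2, by omega⟩ : Fin n) 1 + b • Pi.single (⟨n - 1, by omega⟩ : Fin n) 1 : Fin n → F) ⬝ᵥ y =
        s * y ⟨n - 2, by omega⟩ := by
      rw [add_dotProduct, smul_dotProduct, smul_dotProduct, single_dotProduct, single_dotProduct, hyn]
      simp
    rw [h5]
    funext j
    simp only [Pi.add_apply, Pi.smul_apply, Matrix.vecMul_diagonal, smul_eq_mul, Pi.single_apply]
    by_cases hj2 : j = ⟨n - 2, by omega⟩
    · have hj1 : j ≠ ⟨n - 1, by omega⟩ := by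
        rw [hj2, Ne, Fin.mk.injEq]; omega
      rw [if_pos hj2, if_neg hj1, hj2]
      field_simp
      ring
    · rw [if_neg hj2]
      by_cases hj1 : j = ⟨n - 1, by omega⟩
      · rw [if_pos hj1, hj1, hlast]
        field_simp
        ring
      · rw [if_neg hj1]; ring
  have hb1S : b1 ∈ S := by
    refine ⟨b1, ?_⟩
    convert hb1 using 1
    rw [ps, pow_one, hw]
    funext j
    rw [Pi.smul_apply, last_row_apply (by omega)]
    simp only [Pi.add_apply, Pi.smul_apply, smul_eq_mul, Pi.single_apply]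
    by_cases hj2 : j = ⟨n - 2, by omega⟩
    · have hj1 : j ≠ ⟨n - 1, by omega⟩ := by
        rw [hj2, Ne, Fin.mk.injEq]; omega
      have : ¬ ((j : ℕ) + 2 < n) := by rw [hj2]; simp; omega
      rw [if_pos hj2, if_neg hj1, if_neg this]; ring
    · have hj2' : (j : ℕ) ≠ n - 2 := fun e => hj2 (Fin.ext e)
      have hjn := j.2
      rw [if_neg hj2]
      by_cases hj1 : j = ⟨n - 1, by omega⟩
      · have : ¬ ((j : ℕ) + 2 < n) := by rw [hj1]; simp; omega
        rw [if_pos hj1, if_neg this]; ring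
      · have hj1' : (j : ℕ) ≠ n - 1 := fun e => hj1 (Fin.ext e)
        have : (j : ℕ) + 2 < n := by omega
        rw [if_neg hj1, if_pos this]; ring
  have hSall : ∀ a : F, a ∈ S := hμ S hSmul b1 hb1S hb10
  -- all multiples of the last functional
  apply hc.specialLinear_le hwK (by omega)
  have h6 := shift hwK hb2 ((n - 2 : ℕ) : ℤ)
  rw [zpow_natCast, Matrix.smul_vecMul, ps_vecMul w _ (n - 2) (-((n - 2 : ℕ) : ℤ)) 0 (by push_cast; ring), ps_zero] at h6
  have hWH : Hess (w : Matrix (Fin n) (Fin n) F) := by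
    rw [hw]; exact LL_hess _ (fun _ => one_ne_zero)
  set κ : F := (((w ^ (n - 2) : GL (Fin n) F) : Matrix (Fin n) (Fin n) F) *ᵥ (Pi.single (⟨0, by omega⟩ : Fin n) 1)) ⟨n - 2, by omega⟩ with hκ
  have hκ0 : κ ≠ 0 := by
    rw [hκ, Units.val_pow_eq_pow_val]
    exact (hWH.pow_vals (by omega) (n - 2)).2 _ rfl
  intro a
  obtain ⟨b, hb⟩ := hSall (a / (κ * b2))
  have h7 := h6.comm_right hb (by
    rw [smul_dotProduct, dotProduct_single, mul_one, Pi.single_apply, if_neg, smul_zero]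
    rw [Fin.mk.injEq]; omega)
  have h8 : ((a / (κ * b2)) • Pi.single (⟨n - 2, by omega⟩ : Fin n) 1 + b • Pi.single (⟨n - 1, by omega⟩ : Fin n) 1 : Fin n → F) ⬝ᵥ
      (((w ^ (n - 2) : GL (Fin n) F) : Matrix (Fin n) (Fin n) F) *ᵥ (Pi.single (⟨0, by omega⟩ : Fin n) 1)) = a / (κ * b2) * κ := by
    rw [add_dotProduct, smul_dotProduct, smul_dotProduct, single_dotProduct, single_dotProduct, ← hκ]
    have : (((w ^ (n - 2) : GL (Fin n) F) : Matrix (Fin n) (Fin n) F) *ᵥ (Pi.single (⟨0, by omega⟩ : Fin n) 1)) ⟨n - 1, by omega⟩ = 0 := by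
      rw [Units.val_pow_eq_pow_val]
      exact (hWH.pow_vals (by omega) (n - 2)).1 _ (by change n - 2 < n - 1; omega)
    rw [this]
    simp
  rw [h8, smul_smul] at h7
  convert h7 using 2
  field_simp

/-- the matrix `A` in SL -/
theorem det_A (hn : 3 ≤ n) (d : Fin n → F) (hdet : ∏ i, d i = 1) (y : Fin n → F) (hyn : y ⟨n - 1, by omega⟩ = 0) :
    (Matrix.diagonal d + vecMulVec y (Pi.single (⟨n - 1, by omega⟩ : Fin n) 1)).det = 1 := by
  rw [Matrix.det_of_isUpperTriangular, ← hdet]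
  · apply Finset.prod_congr rfl
    intro i _
    rw [Matrix.add_apply, Matrix.diagonal_apply_eq, vecMulVec_apply, Pi.single_apply]
    by_cases hi : i = ⟨n - 1, by omega⟩
    · rw [if_pos hi, hi, hyn]; simp
    · rw [if_neg hi]; simp
  · intro i j hij
    have hij' : (j : ℕ) < i := hij
    rw [Matrix.add_apply, Matrix.diagonal_apply_ne, vecMulVec_apply, Pi.single_apply, if_neg, mul_zero, add_zero]
    · intro e; rw [e] at hij'; simp at hij'; omega
    · intro e; rw [e] at hij'; omega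

/-- the pair -/
theorem exists_pair [Fintype F] (hn : 3 ≤ n) (d : Fin n → F) (lam : F) (h0 : d ⟨0, by omega⟩ = lam)
    (hlast : d ⟨n - 1, by omega⟩ = lam) (hd : ∀ i, d i ≠ 0) (hdet : ∏ i, d i = 1) (hl1 : lam ≠ 1)
    (hne : ∀ i : Fin n, (i : ℕ) ≠ 0 → (i : ℕ) ≠ n - 1 → d i ≠ lam)
    (hμ : ∀ S : AddSubgroup F, (∀ s ∈ S, (d ⟨n - 2, by omega⟩ / lam) * s ∈ S) → ∀ x ∈ S, x ≠ 0 → ∀ a, a ∈ S) :
    ∃ (u : Matrix.SpecialLinearGroup (Fin n) F) (y : Fin n → F), y ⟨n - 1, by omega⟩ = 0 ∧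
      (u : Matrix (Fin n) (Fin n) F) = Matrix.diagonal d * (1 + LL (fun _ => 1)) +
        vecMulVec y ((Pi.single (⟨n - 1, by omega⟩ : Fin n) 1 : Fin n → F) ᵥ* (1 + LL (fun _ => 1))) ∧
      Hess (u : Matrix (Fin n) (Fin n) F) ∧ ((u : Matrix (Fin n) (Fin n) F) - 1) ^ n = 0 ∧
      Subgroup.closure ({WS n F, u} : Set (Matrix.SpecialLinearGroup (Fin n) F)) = ⊤ := by
  obtain ⟨y, hyn, hy0, hH, hnil⟩ := exists_y hn d lam h0 hlast hd hdet hl1
  set A : Matrix.SpecialLinearGroup (Fin n) F := ⟨_, det_A hn d hdet y hyn⟩ with hA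
  have hAW : ((A * WS n F : Matrix.SpecialLinearGroup (Fin n) F) : Matrix (Fin n) (Fin n) F) =
      Matrix.diagonal d * (1 + LL (fun _ => 1)) +
        vecMulVec y ((Pi.single (⟨n - 1, by omega⟩ : Fin n) 1 : Fin n → F) ᵥ* (1 + LL (fun _ => 1))) := by
    rw [Matrix.SpecialLinearGroup.coe_mul]
    change (Matrix.diagonal d + vecMulVec y (Pi.single (⟨n - 1, by omega⟩ : Fin n) 1)) * (1 + LL (fun _ => 1)) = _
    rw [Matrix.add_mul, Matrix.vecMulVec_mul]
  refine ⟨A * WS n F, y, hyn, hAW, by rw [hAW]; exact hH, by rw [hAW]; exact hnil, ?_⟩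
  apply eq_top_of_map
  set H := Subgroup.closure ({WS n F, A * WS n F} : Set (Matrix.SpecialLinearGroup (Fin n) F)) with hHdef
  have m1 : WS n F ∈ H := Subgroup.subset_closure (by simp)
  have m2 : A * WS n F ∈ H := Subgroup.subset_closure (by simp)
  have m3 : A ∈ H := by
    have := H.mul_mem m2 (H.inv_mem m1)
    rwa [mul_inv_cancel_right] at this
  exact gen hn d lam h0 hlast hd hne y hyn hy0 hμ (A := Matrix.SpecialLinearGroup.toGL A)
    (w := Matrix.SpecialLinearGroup.toGL (WS n F)) rfl rfl ⟨_, m3, rfl⟩ ⟨_, m1, rfl⟩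

theorem regular_of_hess (hn : 0 < n) {u : Matrix (Fin n) (Fin n) F} (h : Hess u) (h1 : (u - 1) ^ n = 0) :
    IsNilpotent (u - 1) ∧ (u - 1) ^ (n - 1) ≠ 0 := by
  refine ⟨⟨n, h1⟩, ?_⟩
  intro h2
  have h3 := (h.sub_one.pow_vals hn (n - 1)).2 ⟨n - 1, by omega⟩ rfl
  rw [h2, Matrix.zero_mulVec] at h3
  exact h3 rfl

/-- a generator of the multiplicative group -/
theorem exists_zeta (F : Type*) [Field F] [Fintype F] : ∃ z : F, z ≠ 0 ∧ (∀ x : F, x ≠ 0 → ∃ k : ℕ, x = z ^ k) ∧
    ∀ m : ℕ, z ^ m = 1 → Fintype.card F - 1 ∣ m := by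
  classical
  obtain ⟨ζ, hζ⟩ := IsCyclic.exists_generator (α := Fˣ)
  have hord : orderOf ζ = Fintype.card F - 1 := by
    rw [orderOf_eq_card_of_forall_mem_zpowers hζ, Nat.card_eq_fintype_card, Fintype.card_units]
  refine ⟨ζ, ζ.ne_zero, ?_, ?_⟩
  · intro x hx
    obtain ⟨k, hk⟩ := (mem_powers_iff_mem_zpowers.2 (hζ (Units.mk0 x hx)))
    refine ⟨k, ?_⟩
    have := congrArg (fun u : Fˣ => (u : F)) hk
    simpa using this.symm
  · intro m hm
    rw [← hord]
    apply orderOf_dvd_of_pow_eq_one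
    apply Units.ext
    rw [Units.val_pow_eq_pow_val, hm, Units.val_one]

theorem card_ne_six [Fintype F] : Fintype.card F ≠ 6 := by
  intro h
  obtain ⟨p, _, k, hp, hc⟩ := FiniteField.card' F
  rw [h] at hc
  have h2 : 2 ∣ p ^ (k : ℕ) := by rw [← hc]; norm_num
  have h3 : 3 ∣ p ^ (k : ℕ) := by rw [← hc]; norm_num
  have e2 := (Nat.prime_dvd_prime_iff_eq Nat.prime_two hp).1 (Nat.prime_two.dvd_of_dvd_pow h2)
  have e3 := (Nat.prime_dvd_prime_iff_eq Nat.prime_three hp).1 (Nat.prime_three.dvd_of_dvd_pow h3)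
  omega

end H43.RegPair
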