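import Mathlib
import Cfsg.Agent.S2278

/-!
Pairs of conjugate regular unipotent generators of `SL_3(F)` in special position.
-/
set_option autoImplicit false

namespace H43.SL3Pair

open Matrix

variable {F : Type*} [Field F]

theorem exists_P {a c : Fin 3 → F} (ha : a ≠ 0) (hc : c ≠ 0) (hac : c ⬝ᵥ a = 0) :
    ∃ P : SpecialLinearGroup (Fin 3) F, (P : Matrix (Fin 3) (Fin 3) F) *ᵥ Pi.single 0 1 = a ∧
      ∃ δ : F, δ ≠ 0 ∧ c ᵥ* (P : Matrix (Fin 3) (Fin 3) F) = δ • Pi.single 2 1 := by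
  obtain ⟨p, hp⟩ : ∃ p : Fin 3 → F, c ⬝ᵥ p ≠ 0 := by
    by_contra hcon
    push Not at hcon
    apply hc
    funext i
    have := hcon (Pi.single i 1)
    simpa using this
  obtain ⟨x, hx⟩ : ∃ x : Fin 3 → F, a ⬝ᵥ x = (c ⬝ᵥ p)⁻¹ := by
    obtain ⟨y, hy⟩ : ∃ y : Fin 3 → F, a ⬝ᵥ y ≠ 0 := by
      by_contra hcon
      push Not at hcon
      apply ha
      funext i
      have := hcon (Pi.single i 1)
      simpa using this
    refine ⟨((c ⬝ᵥ p)⁻¹ * (a ⬝ᵥ y)⁻¹) • y, ?_⟩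
    rw [dotProduct_smul, smul_eq_mul, mul_assoc, inv_mul_cancel₀ hy, mul_one]
  have hx' : (a ⬝ᵥ x) * (c ⬝ᵥ p) = 1 := by rw [hx, inv_mul_cancel₀ hp]
  have hdet : (!![a 0, c 1 * x 2 - c 2 * x 1, p 0; a 1, c 2 * x 0 - c 0 * x 2, p 1;
      a 2, c 0 * x 1 - c 1 * x 0, p 2] : Matrix (Fin 3) (Fin 3) F).det = 1 := by
    rw [det_fin_three]
    simp only [dotProduct, Fin.sum_univ_three] at hac hx'
    simp
    linear_combination hx' - (x 0 * p 0 + x 1 * p 1 + x 2 * p 2) * hac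
  refine ⟨⟨_, hdet⟩, ?_, c ⬝ᵥ p, hp, ?_⟩
  · rw [mulVec_single_one]
    funext i
    fin_cases i <;> rfl
  · simp only [dotProduct, Fin.sum_univ_three] at hac ⊢
    funext i
    simp only [vecMul, dotProduct, Fin.sum_univ_three]
    fin_cases i
    · simp; linear_combination hac
    · simp; ring
    · simp

/-- special position -/
def Sp (v : SpecialLinearGroup (Fin 3) F) : Prop :=
  (v : Matrix (Fin 3) (Fin 3) F) *ᵥ Pi.single 0 1 = Pi.single 0 1 ∧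
    (Pi.single 2 1 : Fin 3 → F) ᵥ* (v : Matrix (Fin 3) (Fin 3) F) = Pi.single 2 1

theorem inv_mulVec (P : SpecialLinearGroup (Fin 3) F) {x y : Fin 3 → F}
    (h : (P : Matrix (Fin 3) (Fin 3) F) *ᵥ x = y) :
    ((P⁻¹ : SpecialLinearGroup (Fin 3) F) : Matrix (Fin 3) (Fin 3) F) *ᵥ y = x := by
  have h1 : ((P⁻¹ : SpecialLinearGroup (Fin 3) F) : Matrix (Fin 3) (Fin 3) F) * (P : Matrix (Fin 3) (Fin 3) F) = 1 :=
    congrArg Subtype.val (inv_mul_cancel P)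
  rw [← h, mulVec_mulVec, h1, one_mulVec]

theorem inv_vecMul (P : SpecialLinearGroup (Fin 3) F) {x y : Fin 3 → F}
    (h : x ᵥ* (P : Matrix (Fin 3) (Fin 3) F) = y) :
    y ᵥ* ((P⁻¹ : SpecialLinearGroup (Fin 3) F) : Matrix (Fin 3) (Fin 3) F) = x := by
  have h1 : (P : Matrix (Fin 3) (Fin 3) F) * ((P⁻¹ : SpecialLinearGroup (Fin 3) F) : Matrix (Fin 3) (Fin 3) F) = 1 :=
    congrArg Subtype.val (mul_inv_cancel P)
  rw [← h, vecMul_vecMul, h1, vecMul_one]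

theorem coe_mul3 (A B C : SpecialLinearGroup (Fin 3) F) : ((A * B * C : SpecialLinearGroup (Fin 3) F) : Matrix (Fin 3) (Fin 3) F) =
    (A : Matrix (Fin 3) (Fin 3) F) * (B : Matrix (Fin 3) (Fin 3) F) * (C : Matrix (Fin 3) (Fin 3) F) := rfl

theorem exists_pair (F : Type*) [Field F] [Fintype F] : ∃ u s : SpecialLinearGroup (Fin 3) F,
    Subgroup.closure ({u, s * u * s⁻¹} : Set (SpecialLinearGroup (Fin 3) F)) = ⊤ ∧ Sp (s * u * s⁻¹) ∧
    (((s * u * s⁻¹ : SpecialLinearGroup (Fin 3) F) : Matrix (Fin 3) (Fin 3) F) - 1) ^ 2 ≠ 0 := by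
  obtain ⟨u, g, hnil, hne, hcl⟩ := Cfsg.Agent.S2278.result (F := F)
  set N : Matrix (Fin 3) (Fin 3) F := (u : Matrix (Fin 3) (Fin 3) F) - 1 with hN
  have hNz : ∃ k, N ^ k = 0 := hnil
  classical
  obtain ⟨k, hk1, hk2⟩ : ∃ k, N ^ (k + 2) ≠ 0 ∧ N ^ (k + 3) = 0 := by
    have h1 := Nat.find_spec hNz
    have h2 : 3 ≤ Nat.find hNz := by
      by_contra hcon
      push Not at hcon
      have : N ^ 2 = 0 := by
        rw [show 2 = Nat.find hNz + (2 - Nat.find hNz) by omega, pow_add, h1, zero_mul]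
      exact hne this
    refine ⟨Nat.find hNz - 3, ?_, ?_⟩
    · have := Nat.find_min hNz (m := Nat.find hNz - 3 + 2) (by omega)
      exact this
    · rw [show Nat.find hNz - 3 + 3 = Nat.find hNz by omega]; exact h1
  obtain ⟨x, hx⟩ : ∃ x, (N ^ (k + 2)) *ᵥ x ≠ 0 := by
    by_contra hcon
    push Not at hcon
    apply hk1
    ext i j
    have := congrFun (hcon (Pi.single j 1)) i
    rw [mulVec_single_one] at this
    exact this
  obtain ⟨z, hz⟩ : ∃ z : Fin 3 → F, z ᵥ* (N ^ (k + 2)) ≠ 0 := by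
    by_contra hcon
    push Not at hcon
    apply hk1
    ext i j
    have := congrFun (hcon (Pi.single i 1)) j
    rw [single_one_vecMul] at this
    exact this
  set a0 := (N ^ (k + 2)) *ᵥ x with ha0
  set c0 := z ᵥ* (N ^ (k + 2)) with hc0
  have hu : (u : Matrix (Fin 3) (Fin 3) F) = 1 + N := by rw [hN]; abel
  have hua : (u : Matrix (Fin 3) (Fin 3) F) *ᵥ a0 = a0 := by
    rw [hu, add_mulVec, one_mulVec, ha0, mulVec_mulVec, ← pow_succ', hk2, zero_mulVec, add_zero]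
  have huc : c0 ᵥ* (u : Matrix (Fin 3) (Fin 3) F) = c0 := by
    rw [hu, vecMul_add, vecMul_one, hc0, vecMul_vecMul, ← pow_succ, hk2, vecMul_zero, add_zero]
  have hca0 : c0 ⬝ᵥ a0 = 0 := by
    rw [hc0, ha0, ← dotProduct_mulVec, mulVec_mulVec, ← pow_add, show k + 2 + (k + 2) = (k + 3) + (k + 1) by ring,
      pow_add, hk2, zero_mul, zero_mulVec, dotProduct_zero]
  set a := (g : Matrix (Fin 3) (Fin 3) F) *ᵥ a0 with ha
  set c := c0 ᵥ* ((g⁻¹ : SpecialLinearGroup (Fin 3) F) : Matrix (Fin 3) (Fin 3) F) with hc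
  have hga : ((g⁻¹ : SpecialLinearGroup (Fin 3) F) : Matrix (Fin 3) (Fin 3) F) *ᵥ a = a0 := inv_mulVec g ha.symm
  have hgc : c ᵥ* (g : Matrix (Fin 3) (Fin 3) F) = c0 := by
    have := inv_vecMul (g⁻¹) hc.symm
    rwa [inv_inv] at this
  have hane : a ≠ 0 := by
    intro h
    rw [h, mulVec_zero] at hga
    exact hx hga.symm
  have hcne : c ≠ 0 := by
    intro h
    rw [h, zero_vecMul] at hgc
    exact hz hgc.symm
  have hca : c ⬝ᵥ a = 0 := by
    rw [ha, dotProduct_mulVec, hgc, hca0]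
  have hva : ((g * u * g⁻¹ : SpecialLinearGroup (Fin 3) F) : Matrix (Fin 3) (Fin 3) F) *ᵥ a = a := by
    rw [coe_mul3, ← mulVec_mulVec, hga, ← mulVec_mulVec, hua]
  have hcv : c ᵥ* ((g * u * g⁻¹ : SpecialLinearGroup (Fin 3) F) : Matrix (Fin 3) (Fin 3) F) = c := by
    rw [coe_mul3, ← vecMul_vecMul, ← vecMul_vecMul, hgc, huc]
  obtain ⟨P, hPa, δ, hδ, hPc⟩ := exists_P hane hcne hca
  refine ⟨P⁻¹ * u * P, P⁻¹ * g * P, ?_, ?_, ?_⟩
  · have e1 : P⁻¹ * g * P * (P⁻¹ * u * P) * (P⁻¹ * g * P)⁻¹ = P⁻¹ * (g * u * g⁻¹) * P := by group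
    rw [e1]
    have h1 : (Subgroup.closure ({u, g * u * g⁻¹} : Set (SpecialLinearGroup (Fin 3) F))).map
        (MulAut.conj P⁻¹).toMonoidHom = Subgroup.closure {P⁻¹ * u * P, P⁻¹ * (g * u * g⁻¹) * P} := by
      rw [MonoidHom.map_closure, Set.image_pair]
      have e2 : ∀ z : SpecialLinearGroup (Fin 3) F, (MulAut.conj P⁻¹).toMonoidHom z = P⁻¹ * z * P := by
        intro z
        show P⁻¹ * z * (P⁻¹)⁻¹ = _
        rw [inv_inv]
      rw [e2, e2]
    rw [← h1, hcl, Subgroup.map_top_of_surjective]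
    exact (MulAut.conj P⁻¹).surjective
  · have e1 : P⁻¹ * g * P * (P⁻¹ * u * P) * (P⁻¹ * g * P)⁻¹ = P⁻¹ * (g * u * g⁻¹) * P := by group
    rw [e1]
    constructor
    · rw [coe_mul3, ← mulVec_mulVec, ← mulVec_mulVec, hPa, hva]
      exact inv_mulVec P hPa
    · have h3 : (Pi.single 2 1 : Fin 3 → F) ᵥ* ((P⁻¹ : SpecialLinearGroup (Fin 3) F) : Matrix (Fin 3) (Fin 3) F) = δ⁻¹ • c := by
        have h4 := inv_vecMul P hPc
        rw [smul_vecMul] at h4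
        rw [← h4, smul_smul, inv_mul_cancel₀ hδ, one_smul]
      rw [coe_mul3, ← vecMul_vecMul, ← vecMul_vecMul, h3, smul_vecMul, hcv, smul_vecMul, hPc, smul_smul,
        inv_mul_cancel₀ hδ, one_smul]
  · have e1 : P⁻¹ * g * P * (P⁻¹ * u * P) * (P⁻¹ * g * P)⁻¹ = (P⁻¹ * g) * u * (P⁻¹ * g)⁻¹ := by group
    rw [e1]
    intro h0
    apply hne
    set A := P⁻¹ * g with hA
    have i1 : (A : Matrix (Fin 3) (Fin 3) F) * ((A⁻¹ : SpecialLinearGroup (Fin 3) F) : Matrix (Fin 3) (Fin 3) F) = 1 :=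
      congrArg Subtype.val (mul_inv_cancel A)
    have i2 : ((A⁻¹ : SpecialLinearGroup (Fin 3) F) : Matrix (Fin 3) (Fin 3) F) * (A : Matrix (Fin 3) (Fin 3) F) = 1 :=
      congrArg Subtype.val (inv_mul_cancel A)
    have e2 : ((A * u * A⁻¹ : SpecialLinearGroup (Fin 3) F) : Matrix (Fin 3) (Fin 3) F) - 1 =
        (A : Matrix (Fin 3) (Fin 3) F) * N * ((A⁻¹ : SpecialLinearGroup (Fin 3) F) : Matrix (Fin 3) (Fin 3) F) := by
      rw [coe_mul3, hN, mul_sub, sub_mul, mul_one, i1]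
    rw [e2] at h0
    have e3 : N ^ 2 = ((A⁻¹ : SpecialLinearGroup (Fin 3) F) : Matrix (Fin 3) (Fin 3) F) *
        ((A : Matrix (Fin 3) (Fin 3) F) * N * ((A⁻¹ : SpecialLinearGroup (Fin 3) F) : Matrix (Fin 3) (Fin 3) F)) ^ 2 *
        (A : Matrix (Fin 3) (Fin 3) F) := by
      rw [pow_two, pow_two]
      set a := (A : Matrix (Fin 3) (Fin 3) F)
      set b := ((A⁻¹ : SpecialLinearGroup (Fin 3) F) : Matrix (Fin 3) (Fin 3) F)
      calc N * N = (b * a) * N * (b * a) * N * (b * a) := by rw [i2]; simp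
        _ = _ := by simp only [mul_assoc]
    show N ^ (3 - 1) = 0
    rw [show 3 - 1 = 2 by norm_num, e3, h0, mul_zero, zero_mul]

/-- the shape of elements in special position -/
theorem Sp.shape {v : SpecialLinearGroup (Fin 3) F} (h : Sp v) : ∃ a b c d : F, (v : Matrix (Fin 3) (Fin 3) F) =
    !![1, a, c; 0, d, b; 0, 0, 1] ∧ d = 1 := by
  obtain ⟨h1, h2⟩ := h
  rw [mulVec_single_one] at h1
  rw [single_one_vecMul] at h2
  have a0 := congrFun h1 0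
  have a1 := congrFun h1 1
  have a2 := congrFun h1 2
  have b1 := congrFun h2 1
  have b2 := congrFun h2 2
  simp at a0 a1 a2 b1 b2
  have hv : (v : Matrix (Fin 3) (Fin 3) F) = !![1, (v : Matrix (Fin 3) (Fin 3) F) 0 1, (v : Matrix (Fin 3) (Fin 3) F) 0 2;
      0, (v : Matrix (Fin 3) (Fin 3) F) 1 1, (v : Matrix (Fin 3) (Fin 3) F) 1 2; 0, 0, 1] := by
    ext i j
    fin_cases i <;> fin_cases j <;> simp [a0, a1, a2, b1, b2]
  refine ⟨_, _, _, _, hv, ?_⟩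
  have hd := v.2
  change (v : Matrix (Fin 3) (Fin 3) F).det = 1 at hd
  rw [hv, det_fin_three] at hd
  simpa using hd

end H43.SL3Pair
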