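import Mathlib
import Cfsg.Agent.Lib.H43.OmTwo
import Cfsg.Agent.Lib.H43.SL3Pair

/-!
Two-generation of `Om (hyp (hyp Q))`.
-/
set_option autoImplicit false

namespace H43.OmTwoB

open QuadraticMap H7.Hyp H7.Omega H43.Rho H43.RhoGen H43.OmTwo H43.SL3Pair

variable {F : Type*} [Field F] {B : Type*} [AddCommGroup B] [Module F B] {Q : QuadraticForm F B}

/-- Siegel transformations are in `Om` -/
theorem rho_mem_Om {V : Type*} [AddCommGroup V] [Module F V] [Nontrivial V] {Q : QuadraticForm F V} (hQ : ND Q)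
    {u y : F × F × V} (hu : u ≠ 0) (hg : Gd (hyp Q) u y) : rho (hyp Q) u y ∈ Om Q := by
  apply IsSiegel.mem hQ hu hg.1
  refine ⟨rho_mem _ _, ?_, ?_⟩
  · rw [rho_apply hg, pol_self, hg.1, hg.2]
    module
  · intro x hx
    refine ⟨-polar (hyp Q) x y, ?_⟩
    have hx' : polar (hyp Q) x u = 0 := by rw [polar_comm]; exact hx
    rw [rho_apply hg, hx']
    module

theorem E_eq_rho {V : Type*} [AddCommGroup V] [Module F V] {Q : QuadraticForm F V} (w : V) :
    E Q w = rho (hyp Q) (e1 F V) (0, 0, w) := by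
  have hg : Gd (hyp Q) (e1 F V) (0, 0, w) := by
    constructor
    · rw [hyp_apply, e1]; simp
    · rw [polar_hyp, e1]; simp
  apply LinearEquiv.ext
  rintro ⟨x, y, v⟩
  rw [rho_apply hg, E_apply, polar_hyp, polar_hyp, hyp_apply, e1]
  simp only [mul_zero, zero_add, add_zero, zero_mul, polar_zero_right]
  ext
  · simp [sub_eq_add_neg]; ring
  · simp
  · simp

theorem E'_eq_rho {V : Type*} [AddCommGroup V] [Module F V] {Q : QuadraticForm F V} (w : V) :
    E' Q w = rho (hyp Q) (e2 F V) (0, 0, w) := by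
  rw [E'_eq, E_eq_rho, rho_conj (S_mem Q)]
  congr 1

theorem Om_le_of {V : Type*} [AddCommGroup V] [Module F V] {Q : QuadraticForm F V}
    {M : Subgroup ((F × F × V) ≃ₗ[F] (F × F × V))}
    (h1 : ∀ y, polar (hyp Q) (e1 F V) y = 0 → rho (hyp Q) (e1 F V) y ∈ M)
    (h2 : ∀ y, polar (hyp Q) (e2 F V) y = 0 → rho (hyp Q) (e2 F V) y ∈ M) : Om Q ≤ M := by
  rw [Om, Subgroup.closure_le]
  rintro g (⟨w, rfl⟩ | ⟨w, rfl⟩)
  · rw [E_eq_rho]
    apply h1
    rw [polar_hyp, e1]; simp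
  · rw [E'_eq_rho]
    apply h2
    rw [polar_hyp, e2]; simp

theorem ev_zero : ev F B 0 = e1 F (F × F × (F × F × B)) := by
  rw [ev, Psi_apply, e1]
  simp

theorem fv_zero : fv F B 0 = e2 F (F × F × (F × F × B)) := by
  rw [fv, Psi_apply, e2]
  simp

/-- if a subgroup contains the Levi subgroup and all `rho (e i) b`, `rho (f i) b` it contains `Om` -/
theorem final [Nontrivial B] (hQ : ND Q) {M : Subgroup ((F × F × (F × F × (F × F × B))) ≃ₗ[F] (F × F × (F × F × (F × F × B))))}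
    (hT : ∀ i j c, i ≠ j → Rho.T (hyp (hyp (hyp Q))) (ev F B) (fv F B) i j c ∈ M)
    (h1 : ∀ b i, rho (hyp (hyp (hyp Q))) (ev F B i) (bv F b) ∈ M)
    (h2 : ∀ b i, rho (hyp (hyp (hyp Q))) (fv F B i) (bv F b) ∈ M) : Om (hyp (hyp Q)) ≤ M := by
  obtain ⟨w, hw⟩ := exists_Q_ne hQ
  have hne : ∃ b ∈ Bp (hyp (hyp (hyp Q))) (ev F B) (fv F B), hyp (hyp (hyp Q)) b ≠ 0 :=
    ⟨bv F w, bv_mem w, by rw [Q_bv]; exact hw⟩
  apply Om_le_of
  · intro y hy
    rw [← ev_zero] at hy ⊢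
    apply final_e frame hT _ hne y hy
    intro b hb i
    obtain ⟨b, rfl⟩ := exists_bv hb
    exact h1 b i
  · intro y hy
    rw [← fv_zero] at hy ⊢
    apply final_e frame.swap (hT_swap frame hT) _ _ y hy
    · intro b hb i
      rw [Bp_swap] at hb
      obtain ⟨b, rfl⟩ := exists_bv hb
      exact h2 b i
    · rw [Bp_swap]; exact hne

theorem lev_ev (g : Matrix.SpecialLinearGroup (Fin 3) F) (h : (g : Matrix (Fin 3) (Fin 3) F).mulVec (Pi.single 0 1) = Pi.single 0 1) :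
    lev F B g (ev F B 0) = ev F B 0 := by
  rw [ev, lev_apply, h]
  simp

theorem lev_fv (g : Matrix.SpecialLinearGroup (Fin 3) F)
    (h : Matrix.vecMul (Pi.single 2 1 : Fin 3 → F) (g : Matrix (Fin 3) (Fin 3) F) = Pi.single 2 1) :
    lev F B g (fv F B 2) = fv F B 2 := by
  rw [fv, lev_apply, tinv_coe, Matrix.mulVec_transpose, inv_vecMul g h]
  simp

theorem lev_bv (g : Matrix.SpecialLinearGroup (Fin 3) F) (b : B) : lev F B g (bv F b) = bv F b := by
  rw [bv, lev_apply]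
  simp

theorem hT_of_lev {M : Subgroup ((F × F × (F × F × (F × F × B))) ≃ₗ[F] (F × F × (F × F × (F × F × B))))}
    (h : ∀ g, lev F B g ∈ M) (i j : Fin 3) (c : F) (hij : i ≠ j) :
    Rho.T (hyp (hyp (hyp Q))) (ev F B) (fv F B) i j c ∈ M := by
  have := lev_transvection (F := F) (B := B) (Q := Q) hij (-c)
  rw [neg_neg] at this
  rw [← this]
  exact h _

theorem ev_ne (i : Fin 3) : ev F B i ≠ 0 := by
  rw [ev]
  intro h
  rw [map_eq_zero_iff _ (Psi F B).injective] at h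
  have := congrFun (congrArg Prod.fst h) i
  simp at this

theorem fv_ne (i : Fin 3) : fv F B i ≠ 0 := by
  rw [fv]
  intro h
  rw [map_eq_zero_iff _ (Psi F B).injective] at h
  have := congrFun (congrArg (fun p => p.2.1) h) i
  simp at this

theorem lev_mem_Om [Nontrivial B] (hQ : ND Q) (g : Matrix.SpecialLinearGroup (Fin 3) F) :
    lev F B g ∈ Om (hyp (hyp Q)) := by
  have h : (Om (hyp (hyp Q))).comap (lev F B) = ⊤ := by
    apply H45.SLnGen.eq_top_of_transvection_mem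
    intro i j hij c
    show lev F B _ ∈ Om (hyp (hyp Q))
    rw [lev_transvection (Q := Q) hij c]
    exact rho_mem_Om hQ.hyp.hyp (ev_ne i) (frame.gT hij _)
  have : g ∈ (Om (hyp (hyp Q))).comap (lev F B) := by rw [h]; trivial
  exact this

/-- the generation theorem: `Y` normalizes the Levi subgroup -/
theorem key (w w' : B) (u v : Matrix.SpecialLinearGroup (Fin 3) F)
    (huv : Subgroup.closure ({u, v} : Set (Matrix.SpecialLinearGroup (Fin 3) F)) = ⊤) (hv : Sp v)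
    (Y : (F × F × (F × F × (F × F × B))) ≃ₗ[F] (F × F × (F × F × (F × F × B))))
    (α : Matrix.SpecialLinearGroup (Fin 3) F ≃* Matrix.SpecialLinearGroup (Fin 3) F)
    (hY : ∀ g, Y * lev F B g * Y⁻¹ = lev F B (α g)) (hαu : α u = v)
    (M : Subgroup ((F × F × (F × F × (F × F × B))) ≃ₗ[F] (F × F × (F × F × (F × F × B)))))
    (ha : lev F B u ∈ M)
    (hb : rho (hyp (hyp (hyp Q))) (ev F B 0) (bv F w) * (rho (hyp (hyp (hyp Q))) (fv F B 2) (bv F w') * Y) ∈ M) :
    (∀ g, lev F B g ∈ M) ∧ (∀ i, rho (hyp (hyp (hyp Q))) (ev F B i) (bv F w) ∈ M) ∧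
      (∀ i, rho (hyp (hyp (hyp Q))) (fv F B i) (bv F w') ∈ M) ∧ Y ∈ M := by
  set A := rho (hyp (hyp (hyp Q))) (ev F B 0) (bv F w) with hA
  set C := rho (hyp (hyp (hyp Q))) (fv F B 2) (bv F w') with hC
  have cA : lev F B v * A * (lev F B v)⁻¹ = A := by
    rw [hA, rho_conj (lev_mem (Q := Q) v), lev_ev (B := B) v hv.1, lev_bv]
  have cC : lev F B v * C * (lev F B v)⁻¹ = C := by
    rw [hC, rho_conj (lev_mem (Q := Q) v), lev_fv (B := B) v hv.2, lev_bv]
  have hv' : lev F B v ∈ M := by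
    have h1 := conj_mem hb ha
    have h2 : A * (C * Y) * lev F B u * (A * (C * Y))⁻¹ = A * C * (Y * lev F B u * Y⁻¹) * (A * C)⁻¹ := by group
    rw [h2, hY, hαu] at h1
    have h3 : A * C * lev F B v * (A * C)⁻¹ = lev F B v := by
      rw [mul_inv_eq_iff_eq_mul] at cA cC
      calc A * C * lev F B v * (A * C)⁻¹ = A * (C * lev F B v) * (A * C)⁻¹ := by group
        _ = A * lev F B v * C * (A * C)⁻¹ := by rw [← cC]; group
        _ = lev F B v * A * C * (A * C)⁻¹ := by rw [← cA]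
        _ = _ := by group
    rwa [h3] at h1
  have hlev : ∀ g, lev F B g ∈ M := by
    have h1 : Subgroup.closure ({u, v} : Set (Matrix.SpecialLinearGroup (Fin 3) F)) ≤ M.comap (lev F B) := by
      rw [Subgroup.closure_le]
      rintro z (rfl | hz)
      · exact ha
      · rw [Set.mem_singleton_iff.1 hz]; exact hv'
    rw [huv] at h1
    exact fun g => h1 trivial
  refine ⟨hlev, ?_⟩
  refine extract2 frame (fun i j c hij => hT_of_lev hlev i j c hij) (bv_mem w) (bv_mem w') Y hb ?_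
  intro i j c hij
  refine ⟨lev F B (α.symm (Matrix.SpecialLinearGroup.transvection hij (-c))), hlev _, ?_⟩
  rw [hY, MulEquiv.apply_symm_apply, lev_transvection (Q := Q), neg_neg]

/-- the embedding of the orthogonal group of the third complement -/
theorem emb3_Psi (t : B ≃ₗ[F] B) (x y : Fin 3 → F) (b : B) :
    emb (emb (emb t)) (Psi F B (x, y, b)) = Psi F B (x, y, t b) := rfl

theorem lev_emb3 (t : B ≃ₗ[F] B) (g : Matrix.SpecialLinearGroup (Fin 3) F) :
    lev F B g * emb (emb (emb t)) = emb (emb (emb t)) * lev F B g := by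
  apply ext_Psi
  intro x y b
  rw [LinearEquiv.mul_apply, LinearEquiv.mul_apply, emb3_Psi, lev_apply, lev_apply, emb3_Psi]

theorem emb3_mem {t : B ≃ₗ[F] B} (ht : t ∈ O Q) : emb (emb (emb t)) ∈ O (hyp (hyp (hyp Q))) :=
  emb_mem_iff.2 (emb_mem_iff.2 (emb_mem_iff.2 ht))

theorem emb3_conj_e {t : B ≃ₗ[F] B} (ht : t ∈ O Q) (b : B) (i : Fin 3) :
    emb (emb (emb t)) * rho (hyp (hyp (hyp Q))) (ev F B i) (bv F b) * (emb (emb (emb t)))⁻¹ =
      rho (hyp (hyp (hyp Q))) (ev F B i) (bv F (t b)) := by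
  rw [rho_conj (emb3_mem ht), ev, bv, emb3_Psi, emb3_Psi, map_zero]
  rfl

theorem emb3_conj_f {t : B ≃ₗ[F] B} (ht : t ∈ O Q) (b : B) (i : Fin 3) :
    emb (emb (emb t)) * rho (hyp (hyp (hyp Q))) (fv F B i) (bv F b) * (emb (emb (emb t)))⁻¹ =
      rho (hyp (hyp (hyp Q))) (fv F B i) (bv F (t b)) := by
  rw [rho_conj (emb3_mem ht), fv, bv, emb3_Psi, emb3_Psi, map_zero]
  rfl

/-- first type -/
theorem two_gen_one [Nontrivial B] [Fintype F] (hQ : ND Q) (w w' : B) (hw : Q w ≠ 0) (hw' : Q w' ≠ 0)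
    (t : B ≃ₗ[F] B) (ht : t ∈ O Q) (htO : emb (emb (emb t)) ∈ Om (hyp (hyp Q)))
    (hcyc : ∀ W : Submodule F B, w ∈ W → w' ∈ W → (∀ y ∈ W, t y ∈ W) → W = ⊤) :
    ∃ a ∈ Om (hyp (hyp Q)), ∃ b ∈ Om (hyp (hyp Q)),
      ∀ M : Subgroup ((F × F × (F × F × (F × F × B))) ≃ₗ[F] (F × F × (F × F × (F × F × B)))),
        a ∈ M → b ∈ M → Om (hyp (hyp Q)) ≤ M := by
  obtain ⟨u, s, hus, hsp, -⟩ := exists_pair F
  set Y := lev F B s * emb (emb (emb t)) with hYdef
  refine ⟨lev F B u, lev_mem_Om hQ u, rho (hyp (hyp (hyp Q))) (ev F B 0) (bv F w) *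
    (rho (hyp (hyp (hyp Q))) (fv F B 2) (bv F w') * Y), ?_, ?_⟩
  · refine (Om _).mul_mem (rho_mem_Om hQ.hyp.hyp (ev_ne 0) (frame.gE 0 (bv_mem w))) ((Om _).mul_mem
      (rho_mem_Om hQ.hyp.hyp (fv_ne 2) (frame.swap.gE 2 (by rw [Bp_swap]; exact bv_mem w'))) ?_)
    exact (Om _).mul_mem (lev_mem_Om hQ s) htO
  intro M ha hb
  have hY : ∀ g, Y * lev F B g * Y⁻¹ = lev F B (MulAut.conj s g) := by
    intro g
    rw [MulAut.conj_apply, map_mul, map_mul, map_inv, hYdef]
    calc lev F B s * emb (emb (emb t)) * lev F B g * (lev F B s * emb (emb (emb t)))⁻¹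
        = lev F B s * (emb (emb (emb t)) * lev F B g) * (emb (emb (emb t)))⁻¹ * (lev F B s)⁻¹ := by group
      _ = _ := by rw [← lev_emb3]; group
  obtain ⟨h1, h2, h3, h4⟩ := key w w' u _ hus hsp Y (MulAut.conj s) hY (by rw [MulAut.conj_apply]) M ha hb
  have hT : ∀ i j c, i ≠ j → Rho.T (hyp (hyp (hyp Q))) (ev F B) (fv F B) i j c ∈ M :=
    fun i j c hij => hT_of_lev h1 i j c hij
  have ht' : emb (emb (emb t)) ∈ M := by
    have := M.mul_mem (M.inv_mem (h1 s)) h4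
    rwa [hYdef, inv_mul_cancel_left] at this
  have hTs := hT_swap frame hT
  have h5 : ∀ i, rho (hyp (hyp (hyp Q))) (ev F B i) (bv F w') ∈ M :=
    cross frame hT (bv_mem w) (bv_mem w') (by rw [Q_bv]; exact hw) h2 h3
  have h6 : ∀ i, rho (hyp (hyp (hyp Q))) (fv F B i) (bv F w) ∈ M :=
    cross frame.swap hTs (by rw [Bp_swap]; exact bv_mem w') (by rw [Bp_swap]; exact bv_mem w)
      (by rw [Q_bv]; exact hw') h3 h2
  let bl : B →ₗ[F] (F × F × (F × F × (F × F × B))) :=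
    { toFun := fun b => bv F b
      map_add' := fun b b' => by
        rw [bv, bv, bv, ← map_add]; simp
      map_smul' := fun c b => by
        rw [bv, bv, ← map_smul]; simp }
  have hE : (WE frame hT).comap bl = ⊤ := by
    apply hcyc
    · exact ⟨bv_mem w, h2⟩
    · exact ⟨bv_mem w', h5⟩
    · rintro y ⟨-, hy⟩
      refine ⟨bv_mem (t y), fun i => ?_⟩
      show rho (hyp (hyp (hyp Q))) (ev F B i) (bv F (t y)) ∈ M
      rw [← emb3_conj_e ht]
      exact conj_mem ht' (hy i)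
  have hF : (WE frame.swap hTs).comap bl = ⊤ := by
    apply hcyc
    · exact ⟨by rw [Bp_swap]; exact bv_mem w, h6⟩
    · exact ⟨by rw [Bp_swap]; exact bv_mem w', h3⟩
    · rintro y ⟨-, hy⟩
      refine ⟨by rw [Bp_swap]; exact bv_mem (t y), fun i => ?_⟩
      show rho (hyp (hyp (hyp Q))) (fv F B i) (bv F (t y)) ∈ M
      rw [← emb3_conj_f ht]
      exact conj_mem ht' (hy i)
  apply final hQ hT
  · intro b i
    have : b ∈ (WE frame hT).comap bl := by rw [hE]; trivial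
    exact this.2 i
  · intro b i
    have : b ∈ (WE frame.swap hTs).comap bl := by rw [hF]; trivial
    exact this.2 i

end H43.OmTwoB
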