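import Mathlib
import Cfsg.Agent.Lib.H43.OmTwoB

/-!
Two-generation of orthogonal groups: the inductive construction of cyclic isometries, and the transfer.
-/
set_option autoImplicit false

namespace H43.OmTwoC

open QuadraticMap H7.Hyp H7.Omega H43.Rho H43.RhoGen H43.OmTwo H43.SL3Pair H43.OmTwoB

universe u v

variable {F : Type u} [Field F] {B : Type v} [AddCommGroup B] [Module F B] {Q : QuadraticForm F B}

/-- existence of a suitable isometry -/
def P (Q : QuadraticForm F B) : Prop :=
  ∃ t ∈ O Q, ∃ w w' : B, Q w ≠ 0 ∧ Q w' ≠ 0 ∧ (∀ z, t z - z ≠ w) ∧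
    (∀ W : Submodule F B, w ∈ W → w' ∈ W → (∀ y ∈ W, t y ∈ W) → W = ⊤) ∧
    emb (emb (emb t)) ∈ Om (hyp (hyp Q))

theorem emb_rho (u y : B) : emb (rho Q u y) = rho (hyp Q) ((0, 0, u) : F × F × B) (0, 0, y) := by
  have h : Gd (hyp Q) ((0, 0, u) : F × F × B) (0, 0, y) ↔ Gd Q u y := by
    unfold Gd
    rw [hyp_apply, polar_hyp]
    simp
  by_cases hg : Gd Q u y
  · apply LinearEquiv.ext
    rintro ⟨x, x', b⟩
    rw [rho_apply (h.2 hg), emb_apply, rho_apply hg, polar_hyp, polar_hyp, hyp_apply]
    ext <;> simp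
  · rw [rho_of_not hg, rho_of_not (fun h' => hg (h.1 h')), map_one]

theorem emb_Om [Nontrivial B] (hQ : ND Q) {g : (F × F × B) ≃ₗ[F] (F × F × B)} (hg : g ∈ Om Q) : emb g ∈ Om (hyp Q) := by
  have h : Om Q ≤ (Om (hyp Q)).comap emb := by
    apply OmTwoB.Om_le_of
    · intro y hy
      show emb _ ∈ Om (hyp Q)
      rw [emb_rho]
      apply rho_mem_Om hQ.hyp
      · intro h0
        have := congrArg (fun p : F × F × (F × F × B) => p.2.2.1) h0
        simp [e1] at this
      · constructor
        · rw [hyp_apply, hyp_apply, e1]; simp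
        · rw [polar_hyp, hy]; simp
    · intro y hy
      show emb _ ∈ Om (hyp Q)
      rw [emb_rho]
      apply rho_mem_Om hQ.hyp
      · intro h0
        have := congrArg (fun p : F × F × (F × F × B) => p.2.2.2.1) h0
        simp [e2] at this
      · constructor
        · rw [hyp_apply, hyp_apply, e2]; simp
        · rw [polar_hyp, hy]; simp
  exact h hg

theorem exists_dual [FiniteDimensional F B] (hQ : ND Q) (φ : B →ₗ[F] F) : ∃ z, ∀ b, polar Q b z = φ b := by
  have hnd : (polarBilin Q).Nondegenerate := H7.OmegaIso.ND.nondegenerate hQ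
  obtain ⟨z, hz⟩ := (LinearMap.BilinForm.toDual (polarBilin Q) hnd).surjective φ
  refine ⟨z, fun b => ?_⟩
  rw [← hz, polar_comm, LinearMap.BilinForm.toDual_def]
  rfl

theorem P_step [Nontrivial B] [FiniteDimensional F B] (hQ : ND Q) (h : P Q) : P (hyp Q) := by
  obtain ⟨t, ht, w, w', hw, hw', him, hcyc, hO⟩ := h
  have hact : ∀ (x y : F) (b : B), (E' Q w * emb t) (x, y, b) = (x, y - Q w * x - polar Q (t b) w, t b + x • w) := by
    intro x y b
    rw [LinearEquiv.mul_apply, emb_apply, E'_apply]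
  refine ⟨E' Q w * emb t, (O _).mul_mem (E'_mem Q w) (emb_mem_iff.2 ht), (1, 1, 0), (0, 0, w'), ?_, ?_, ?_, ?_, ?_⟩
  · rw [hyp_apply]; simp
  · rw [hyp_apply]; simpa using hw'
  · rintro ⟨x, y, b⟩ h0
    rw [hact] at h0
    have := congrArg (fun p : F × F × B => p.1) h0
    simp at this
  · intro W h1 h2 hW
    have hfst : ∀ b : B, ∃ y : F, ((0, y, b) : F × F × B) ∈ W := by
      let Wf : Submodule F B :=
        { carrier := {b | ∃ y : F, ((0, y, b) : F × F × B) ∈ W}
          zero_mem' := ⟨0, W.zero_mem⟩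
          add_mem' := by
            rintro b b' ⟨y, hy⟩ ⟨y', hy'⟩
            refine ⟨y + y', ?_⟩
            have := W.add_mem hy hy'
            simpa using this
          smul_mem' := by
            rintro c b ⟨y, hy⟩
            refine ⟨c * y, ?_⟩
            have := W.smul_mem c hy
            simpa using this }
      have : Wf = ⊤ := by
        apply hcyc
        · have h3 := W.sub_mem (hW _ h1) h1
          rw [hact] at h3
          refine ⟨-Q w, ?_⟩
          have e : ((1, 1 - Q w * 1 - polar Q (t 0) w, t 0 + (1 : F) • w) : F × F × B) - (1, 1, 0) = (0, -Q w, w) := by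
            rw [map_zero]
            ext <;> simp
          rwa [e] at h3
        · exact ⟨0, h2⟩
        · rintro b ⟨y, hy⟩
          have h3 := hW _ hy
          rw [hact, zero_smul, add_zero] at h3
          exact ⟨_, h3⟩
      intro b
      have hb : b ∈ Wf := by rw [this]; trivial
      exact hb
    have hf : ((0, 1, 0) : F × F × B) ∈ W := by
      by_contra hnot
      have huniq : ∀ (y y' : F) (b : B), ((0, y, b) : F × F × B) ∈ W → ((0, y', b) : F × F × B) ∈ W → y = y' := by
        intro y y' b hy hy'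
        by_contra hne
        apply hnot
        have h3 := W.smul_mem (y - y')⁻¹ (W.sub_mem hy hy')
        have e : (y - y')⁻¹ • (((0, y, b) : F × F × B) - (0, y', b)) = (0, 1, 0) := by
          have : (y - y')⁻¹ * (y - y') = 1 := inv_mul_cancel₀ (sub_ne_zero.2 hne)
          ext <;> simp [this]
        rwa [e] at h3
      choose φ hφ using hfst
      let φl : B →ₗ[F] F :=
        { toFun := φ
          map_add' := by
            intro b b'
            apply huniq _ _ (b + b') (hφ _)
            have := W.add_mem (hφ b) (hφ b')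
            simpa using this
          map_smul' := by
            intro c b
            apply huniq _ _ (c • b) (hφ _)
            have := W.smul_mem c (hφ b)
            simpa using this }
      obtain ⟨z, hz⟩ := exists_dual hQ φl
      apply him z
      have key : ∀ b, polar Q (t b) (t z - z - w) = 0 := by
        intro b
        have h3 := hW _ (hφ b)
        rw [hact, zero_smul, add_zero, mul_zero, sub_zero] at h3
        have h4 := huniq _ _ _ h3 (hφ (t b))
        have e1 : φ b = polar Q b z := (hz b).symm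
        have e2 : φ (t b) = polar Q (t b) z := (hz (t b)).symm
        rw [e1, e2] at h4
        have e3 : polar Q (t b) (t z - z - w) = polar Q (t b) (t z) - polar Q (t b) z - polar Q (t b) w := by
          rw [polar_sub_right, polar_sub_right]
        rw [e3, map_O_polar ht]
        linear_combination h4
      have h5 : t z - z - w = 0 := by
        apply hQ
        intro x
        obtain ⟨b, rfl⟩ := t.surjective x
        rw [polar_comm]
        exact key b
      exact sub_eq_zero.1 h5
    rw [eq_top_iff]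
    rintro ⟨x, y, b⟩ -
    obtain ⟨y0, hy0⟩ := hfst b
    have h3 := W.add_mem (W.add_mem (W.smul_mem x h1) hy0) (W.smul_mem (y - x - y0) hf)
    have e : x • ((1, 1, 0) : F × F × B) + (0, y0, b) + (y - x - y0) • ((0, 1, 0) : F × F × B) = (x, y, b) := by
      ext <;> simp
    rwa [e] at h3
  · rw [map_mul, map_mul, map_mul]
    apply (Om _).mul_mem
    · rw [E'_eq_rho, emb_rho, emb_rho, emb_rho]
      apply rho_mem_Om hQ.hyp.hyp.hyp
      · intro h0
        have := congrArg (fun p : F × F × (F × F × (F × F × (F × F × B))) => p.2.2.2.2.2.2.2.1) h0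
        simp [e2] at this
      · constructor
        · rw [hyp_apply, hyp_apply, hyp_apply, hyp_apply, e2]; simp
        · rw [polar_hyp, polar_hyp, polar_hyp, polar_hyp, e2]; simp
    · exact emb_Om hQ.hyp.hyp hO

/-- existence of an equivalent form with `P` -/
def Good3 {V : Type u} [AddCommGroup V] [Module F V] (Q₀ : QuadraticForm F V) : Prop :=
  ∃ (B : Type u) (_ : AddCommGroup B) (_ : Module F B) (Q : QuadraticForm F B),
    ND Q ∧ Nontrivial B ∧ FiniteDimensional F B ∧ P Q ∧ Q₀.Equivalent Q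

theorem Good3.step {V : Type u} [AddCommGroup V] [Module F V] {Q₀ : QuadraticForm F V} (h : Good3 Q₀) : Good3 (hyp Q₀) := by
  obtain ⟨B, _, _, Q, h1, h2, h3, h4, h5⟩ := h
  exact ⟨F × F × B, inferInstance, inferInstance, hyp Q, h1.hyp, inferInstance, inferInstance, P_step h1 h4,
    H7.OmegaIso.hyp_congr h5⟩

theorem Good3.congr {V V' : Type u} [AddCommGroup V] [Module F V] [AddCommGroup V'] [Module F V']
    {Q₀ : QuadraticForm F V} {Q₁ : QuadraticForm F V'} (h : Good3 Q₀) (he : Q₁.Equivalent Q₀) : Good3 Q₁ := by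
  obtain ⟨B, _, _, Q, h1, h2, h3, h4, h5⟩ := h
  exact ⟨B, _, _, Q, h1, h2, h3, h4, he.trans h5⟩

theorem two_gen_of_top {G : Type*} [Group G] (C : Subgroup G) (h : ∃ a ∈ C, ∃ b ∈ C, ∀ M : Subgroup G, a ∈ M → b ∈ M → C ≤ M) :
    ∃ a b : C, Subgroup.closure ({a, b} : Set C) = ⊤ := by
  obtain ⟨a, ha, b, hb, hab⟩ := h
  refine ⟨⟨a, ha⟩, ⟨b, hb⟩, ?_⟩
  have h1 := hab ((Subgroup.closure ({⟨a, ha⟩, ⟨b, hb⟩} : Set C)).map C.subtype)
    ⟨⟨a, ha⟩, Subgroup.subset_closure (Or.inl rfl), rfl⟩
    ⟨⟨b, hb⟩, Subgroup.subset_closure (Or.inr rfl), rfl⟩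
  rw [eq_top_iff]
  intro x _
  obtain ⟨y, hy, hyx⟩ := h1 x.2
  have : y = x := Subtype.ext hyx
  rwa [← this]

/-- quotients of two-generated groups -/
theorem two_gen_quot {G G' : Type*} [Group G] [Group G'] (f : G →* G') (hf : Function.Surjective f)
    (h : ∃ a b : G, Subgroup.closure ({a, b} : Set G) = ⊤) : ∃ a b : G', Subgroup.closure ({a, b} : Set G') = ⊤ := by
  obtain ⟨a, b, hab⟩ := h
  refine ⟨f a, f b, ?_⟩
  have h1 : (Subgroup.closure ({a, b} : Set G)).map f = Subgroup.closure ({f a, f b} : Set G') := by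
    rw [MonoidHom.map_closure, Set.image_pair]
  rw [← h1, hab, Subgroup.map_top_of_surjective f hf]

theorem transfer [Fintype F] {V : Type u} [AddCommGroup V] [Module F V] {Q₀ : QuadraticForm F V} {G : Type*} [Group G]
    (e : G ≃* O (hyp (hyp (hyp Q₀))))
    (h : ∃ (B : Type u) (_ : AddCommGroup B) (_ : Module F B) (Q : QuadraticForm F B), ND Q ∧ Nontrivial B ∧
      FiniteDimensional F B ∧ Q₀.Equivalent Q ∧ ∃ a ∈ Om (hyp (hyp Q)), ∃ b ∈ Om (hyp (hyp Q)),
      ∀ M : Subgroup ((F × F × (F × F × (F × F × B))) ≃ₗ[F] (F × F × (F × F × (F × F × B)))),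
        a ∈ M → b ∈ M → Om (hyp (hyp Q)) ≤ M) :
    ∃ a b : commutator G, Subgroup.closure ({a, b} : Set (commutator G)) = ⊤ := by
  obtain ⟨B, _, _, Q, h1, h2, h3, h5, h4⟩ := h
  obtain ⟨e2⟩ := H7.HypStd.nonempty_congrO (H7.OmegaIso.hyp_congr (H7.OmegaIso.hyp_congr (H7.OmegaIso.hyp_congr h5)))
  have e3 := H7.OmegaIso.omegaEquiv (e.trans e2) (H7.OmegaIso.commutator_eq_two h1.hyp)
  exact two_gen_quot e3.symm.toMonoidHom e3.symm.surjective (two_gen_of_top _ h4)

theorem Good3.two_gen [Fintype F] {V : Type u} [AddCommGroup V] [Module F V] {Q₀ : QuadraticForm F V} (h : Good3 Q₀)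
    {G : Type*} [Group G] (e : G ≃* O (hyp (hyp (hyp Q₀)))) :
    ∃ a b : commutator G, Subgroup.closure ({a, b} : Set (commutator G)) = ⊤ := by
  obtain ⟨B, i1, i2, Q, h1, h2, h3, ⟨t, ht, w, w', hw, hw', -, hcyc, hO⟩, h5⟩ := h
  exact transfer e ⟨B, i1, i2, Q, h1, h2, h3, h5, two_gen_one h1 w w' hw hw' t ht hO hcyc⟩

end H43.OmTwoC
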