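import Mathlib
import Cfsg.Agent.Lib.H43.OmTwoC

/-!
Two-generation of orthogonal groups: base cases and the case of eight dimensions over the field of two elements.
-/
set_option autoImplicit false

namespace H43.OmTwoD

open QuadraticMap H7.Hyp H7.Omega H43.Rho H43.RhoGen H43.OmTwo H43.SL3Pair H43.OmTwoB H43.OmTwoC

open scoped commutatorElement

universe u v

variable {F : Type u} [Field F] {B : Type v} [AddCommGroup B] [Module F B] {Q : QuadraticForm F B}

theorem emb3_one : emb (emb (emb (1 : B ≃ₗ[F] B))) ∈ Om (hyp (hyp Q)) := by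
  rw [map_one, map_one, map_one]; exact (Om _).one_mem

theorem base_one [Nontrivial B] (hQ : ND Q) (h1 : Module.finrank F B = 1) : P Q := by
  obtain ⟨w, hw⟩ := exists_Q_ne hQ
  have hw0 : w ≠ 0 := by rintro rfl; exact hw (map_zero Q)
  refine ⟨1, (O Q).one_mem, w, w, hw, hw, ?_, ?_, emb3_one⟩
  · intro z h
    have h0 : (1 : B ≃ₗ[F] B) z = z := rfl
    rw [h0, sub_self] at h
    exact hw0 h.symm
  · intro W h2 _ _
    rw [eq_top_iff]
    intro x _
    obtain ⟨c, hc⟩ := (finrank_eq_one_iff_of_nonzero' w hw0).1 h1 x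
    rw [← hc]
    exact W.smul_mem _ h2

theorem base_two [FiniteDimensional F B] (ha : ∀ w, w ≠ 0 → Q w ≠ 0) (h2 : Module.finrank F B = 2) : P Q := by
  have : Nontrivial B := Module.nontrivial_of_finrank_pos (R := F) (by omega)
  obtain ⟨w, hw⟩ := exists_ne (0 : B)
  obtain ⟨w', hw'⟩ : ∃ w' : B, w' ∉ Submodule.span F {w} := by
    by_contra hcon
    push Not at hcon
    have h3 : Submodule.span F {w} = ⊤ := eq_top_iff.2 fun x _ => hcon x
    have h4 := finrank_span_singleton (K := F) hw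
    rw [h3, finrank_top] at h4
    omega
  have hw0' : w' ≠ 0 := by rintro rfl; exact hw' (Submodule.zero_mem _)
  refine ⟨1, (O Q).one_mem, w, w', ha w hw, ha w' hw0', ?_, ?_, emb3_one⟩
  · intro z h
    have h0 : (1 : B ≃ₗ[F] B) z = z := rfl
    rw [h0, sub_self] at h
    exact hw h.symm
  · intro W h3 h4 _
    have h5 : Submodule.span F {w} < W := by
      refine lt_of_le_of_ne ?_ ?_
      · rw [Submodule.span_singleton_le_iff_mem]; exact h3
      · rintro h6
        rw [h6] at hw'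
        exact hw' h4
    have h6 := Submodule.finrank_lt_finrank_of_lt h5
    rw [finrank_span_singleton hw] at h6
    apply Submodule.eq_top_of_finrank_eq
    have h7 := Submodule.finrank_le W
    omega

theorem base_plus [Subsingleton B] (hc : ∃ c : F, c ≠ 0 ∧ c ≠ 1) : P (hyp Q) := by
  obtain ⟨c, hc0, hc1⟩ := hc
  refine ⟨1, (O _).one_mem, (1, 1, 0), (1, c, 0), ?_, ?_, ?_, ?_, emb3_one⟩
  · rw [hyp_apply]; simp
  · rw [hyp_apply]; simpa using hc0
  · intro z h
    have h0 : (1 : (F × F × B) ≃ₗ[F] (F × F × B)) z = z := rfl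
    rw [h0, sub_self] at h
    have := congrArg (fun p : F × F × B => p.1) h
    simp at this
  · intro W h1 h2 _
    rw [eq_top_iff]
    rintro ⟨x, y, b⟩ -
    have h3 : ((0, 1, 0) : F × F × B) ∈ W := by
      have h4 := W.smul_mem (c - 1)⁻¹ (W.sub_mem h2 h1)
      have e : (c - 1)⁻¹ • (((1, c, 0) : F × F × B) - (1, 1, 0)) = (0, 1, 0) := by
        have : (c - 1)⁻¹ * (c - 1) = 1 := inv_mul_cancel₀ (sub_ne_zero.2 hc1)
        ext <;> simp [this]
      rwa [e] at h4
    have h4 := W.add_mem (W.smul_mem x h1) (W.smul_mem (y - x) h3)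
    have e : x • ((1, 1, 0) : F × F × B) + (y - x) • ((0, 1, 0) : F × F × B) = (x, y, b) := by
      ext
      · simp
      · simp
      · exact Subsingleton.elim _ _
    rwa [e] at h4

theorem base_plus2 [Subsingleton B] (hQ : ND Q) : P (hyp (hyp Q)) := by
  set t : (F × F × (F × F × B)) ≃ₗ[F] (F × F × (F × F × B)) := E' (hyp Q) (1, 0, 0) with ht
  have hact : ∀ (x y x' y' : F) (b : B), t (x, y, (x', y', b)) = (x, y - y', (x' + x, y', b)) := by
    intro x y x' y' b
    rw [ht, E'_apply, hyp_apply, polar_hyp]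
    simp
  refine ⟨t, E'_mem _ _, (1, 1, 0), (0, 0, (1, 1, 0)), ?_, ?_, ?_, ?_, ?_⟩
  · rw [hyp_apply]; simp
  · rw [hyp_apply, hyp_apply]; simp
  · rintro ⟨x, y, x', y', b⟩ h0
    rw [hact] at h0
    have := congrArg (fun p : F × F × (F × F × B) => p.1) h0
    simp at this
  · intro W h1 h2 hW
    have k1 : ((0, 0, (1, 0, 0)) : F × F × (F × F × B)) ∈ W := by
      have h3 := W.sub_mem (hW _ h1) h1
      have e : t (1, 1, 0) - (1, 1, 0) = ((0, 0, (1, 0, 0)) : F × F × (F × F × B)) := by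
        have := hact 1 1 0 0 0
        have e0 : ((1, 1, 0) : F × F × (F × F × B)) = (1, 1, (0, 0, 0)) := rfl
        rw [e0, this]
        ext <;> simp
      rwa [e] at h3
    have k2 : ((0, 1, (0, 0, 0)) : F × F × (F × F × B)) ∈ W := by
      have h3 := W.sub_mem h2 (hW _ h2)
      rw [hact] at h3
      have e : ((0, 0, (1, 1, 0)) : F × F × (F × F × B)) - (0, 0 - 1, (1 + 0, 1, 0)) = (0, 1, (0, 0, 0)) := by
        ext <;> simp
      rwa [e] at h3
    rw [eq_top_iff]
    rintro ⟨x, y, x', y', b⟩ -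
    have h3 := W.add_mem (W.add_mem (W.smul_mem x h1) (W.smul_mem y' h2))
      (W.add_mem (W.smul_mem (y - x) k2) (W.smul_mem (x' - y') k1))
    have e : x • ((1, 1, 0) : F × F × (F × F × B)) + y' • ((0, 0, (1, 1, 0)) : F × F × (F × F × B)) +
      ((y - x) • ((0, 1, (0, 0, 0)) : F × F × (F × F × B)) + (x' - y') • ((0, 0, (1, 0, 0)) : F × F × (F × F × B))) =
      (x, y, (x', y', b)) := by
      ext
      · simp
      · simp
      · simp
      · simp
      · exact Subsingleton.elim _ _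
    rwa [e] at h3
  · rw [ht, E'_eq_rho, emb_rho, emb_rho, emb_rho]
    apply rho_mem_Om hQ.hyp.hyp.hyp.hyp
    · intro h0
      have := congrArg (fun p : F × F × (F × F × (F × F × (F × F × (F × F × B)))) => p.2.2.2.2.2.2.2.1) h0
      simp [e2] at this
    · constructor
      · rw [hyp_apply, hyp_apply, hyp_apply, hyp_apply, e2]; simp
      · rw [polar_hyp, polar_hyp, polar_hyp, polar_hyp, polar_hyp, e2]; simp

/-! ### eight dimensions over the field of two elements -/

/-- swapping the `e` and the `f` -/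
def G (F : Type u) (B : Type v) [Field F] [AddCommGroup B] [Module F B] :
    (F × F × (F × F × (F × F × B))) ≃ₗ[F] (F × F × (F × F × (F × F × B))) := S * (emb S * emb (emb S))

theorem G_Psi (x y : Fin 3 → F) (b : B) : G F B (Psi F B (x, y, b)) = Psi F B (y, x, b) := rfl

theorem tinv_tinv (g : Matrix.SpecialLinearGroup (Fin 3) F) : tinv (tinv g) = g := by
  apply Subtype.ext
  have h1 : ((tinv g)⁻¹ : Matrix.SpecialLinearGroup (Fin 3) F) = tinv g⁻¹ := (map_inv tinv g).symm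
  have h2 : ((tinv (tinv g) : Matrix.SpecialLinearGroup (Fin 3) F) : Matrix (Fin 3) (Fin 3) F) =
    (((tinv g)⁻¹ : Matrix.SpecialLinearGroup (Fin 3) F) : Matrix (Fin 3) (Fin 3) F).transpose := rfl
  refine h2.trans ?_
  rw [h1, tinv_coe, inv_inv, Matrix.transpose_transpose]

def tinvE : Matrix.SpecialLinearGroup (Fin 3) F ≃* Matrix.SpecialLinearGroup (Fin 3) F where
  toFun := tinv
  invFun := tinv
  left_inv := tinv_tinv
  right_inv := tinv_tinv
  map_mul' := map_mul tinv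

theorem G_lev (g : Matrix.SpecialLinearGroup (Fin 3) F) : G F B * lev F B g = lev F B (tinv g) * G F B := by
  apply ext_Psi
  intro x y b
  rw [LinearEquiv.mul_apply, LinearEquiv.mul_apply, G_Psi, lev_apply, lev_apply, G_Psi, tinv_tinv]

/-- exchanging the first two hyperbolic planes -/
def ex (V : Type v) [AddCommGroup V] [Module F V] : (F × F × (F × F × V)) ≃ₗ[F] (F × F × (F × F × V)) where
  toFun p := (p.2.2.1, p.2.2.2.1, (p.1, p.2.1, p.2.2.2.2))
  invFun p := (p.2.2.1, p.2.2.2.1, (p.1, p.2.1, p.2.2.2.2))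
  map_add' _ _ := rfl
  map_smul' _ _ := rfl
  left_inv _ := rfl
  right_inv _ := rfl

theorem ex_mem {V : Type v} [AddCommGroup V] [Module F V] (Q : QuadraticForm F V) : ex V ∈ O (hyp (hyp Q)) := by
  rintro ⟨x, y, x', y', v⟩
  show hyp (hyp Q) (x', y', (x, y, v)) = _
  rw [hyp_apply, hyp_apply, hyp_apply, hyp_apply]
  ring

theorem S_emb_S {V : Type v} [AddCommGroup V] [Module F V] (Q : QuadraticForm F V) :
    (S : (F × F × (F × F × V)) ≃ₗ[F] _) * emb S ∈ ⁅O (hyp (hyp Q)), O (hyp (hyp Q))⁆ := by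
  have h1 : (S : (F × F × (F × F × V)) ≃ₗ[F] _) * emb S = ⁅(S : (F × F × (F × F × V)) ≃ₗ[F] _), ex V⁆ := by
    rw [commutatorElement_def, S_inv]
    rfl
  rw [h1]
  exact Subgroup.commutator_mem_commutator (S_mem _) (ex_mem Q)

theorem emb_comm {V : Type v} [AddCommGroup V] [Module F V] {Q : QuadraticForm F V} {g : V ≃ₗ[F] V}
    (hg : g ∈ ⁅O Q, O Q⁆) : emb g ∈ ⁅O (hyp Q), O (hyp Q)⁆ := by
  have h : (⁅O Q, O Q⁆ : Subgroup _).map emb ≤ ⁅O (hyp Q), O (hyp Q)⁆ := by
    rw [Subgroup.map_commutator]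
    apply Subgroup.commutator_mono
    · rintro _ ⟨x, hx, rfl⟩
      exact emb_mem_iff.2 hx
    · rintro _ ⟨x, hx, rfl⟩
      exact emb_mem_iff.2 hx
  exact h (Subgroup.mem_map_of_mem _ hg)

theorem GS_mem [Fintype F] {B : Type v} [AddCommGroup B] [Module F B] {Q : QuadraticForm F B} (hQ : ND Q)
    [FiniteDimensional F B] :
    G F (F × F × B) * emb (emb (emb S)) ∈ Om (hyp (hyp (hyp Q))) := by
  rw [← H7.OmegaIso.commutator_eq_two hQ.hyp.hyp]
  have h1 : G F (F × F × B) * emb (emb (emb S)) = (S * emb S) * emb (emb (S * emb S)) := by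
    rw [G, map_mul, map_mul]
    simp only [mul_assoc]
  rw [h1]
  exact Subgroup.mul_mem _ (S_emb_S _) (emb_comm (emb_comm (S_emb_S _)))

theorem exists_r (h2 : (2 : F) = 0) (h01 : ∀ x : F, x = 0 ∨ x = 1) {v : Matrix.SpecialLinearGroup (Fin 3) F} (hv : Sp v)
    (hne : ((v : Matrix (Fin 3) (Fin 3) F) - 1) ^ 2 ≠ 0) :
    ∃ r : Matrix.SpecialLinearGroup (Fin 3) F, r * v * r⁻¹ = tinv v := by
  obtain ⟨a, b, c, d, hvv, rfl⟩ := hv.shape
  have ha : a = 1 := by
    rcases h01 a with h | h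
    · exfalso
      apply hne
      rw [hvv, h]
      ext i j
      fin_cases i <;> fin_cases j <;> simp [pow_two, Matrix.mul_apply, Fin.sum_univ_three]
    · exact h
  have hb : b = 1 := by
    rcases h01 b with h | h
    · exfalso
      apply hne
      rw [hvv, h]
      ext i j
      fin_cases i <;> fin_cases j <;> simp [pow_two, Matrix.mul_apply, Fin.sum_univ_three]
    · exact h
  subst ha hb
  have hdet : (!![0, 0, 1; 0, 1, 0; 1, 1, 0] : Matrix (Fin 3) (Fin 3) F).det = 1 := by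
    rw [Matrix.det_fin_three]
    simp
    linear_combination -h2
  set r : Matrix.SpecialLinearGroup (Fin 3) F := ⟨!![0, 0, 1; 0, 1, 0; 1, 1, 0], hdet⟩ with hr
  refine ⟨r, ?_⟩
  rw [mul_inv_eq_iff_eq_mul]
  -- `r v = (v⁻¹)ᵀ r`
  have h3 : (v : Matrix (Fin 3) (Fin 3) F).transpose * ((r : Matrix (Fin 3) (Fin 3) F) * (v : Matrix (Fin 3) (Fin 3) F)) =
      (r : Matrix (Fin 3) (Fin 3) F) := by
    rw [hvv]
    show _ * (!![0, 0, 1; 0, 1, 0; 1, 1, 0] * _) = !![0, 0, 1; 0, 1, 0; 1, 1, 0]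
    ext i j
    fin_cases i <;> fin_cases j <;> simp [Matrix.mul_apply, Fin.sum_univ_three, Matrix.transpose_apply]
    all_goals (first | linear_combination (0 : F) * h2 | linear_combination h2 | linear_combination c * h2 | linear_combination (1 + c) * h2)
  have h4 : (tinv v : Matrix (Fin 3) (Fin 3) F) * (v : Matrix (Fin 3) (Fin 3) F).transpose = 1 := by
    rw [tinv_coe, ← Matrix.transpose_mul]
    have h5 : (v : Matrix (Fin 3) (Fin 3) F) * ((v⁻¹ : Matrix.SpecialLinearGroup (Fin 3) F) : Matrix (Fin 3) (Fin 3) F) = 1 :=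
      congrArg Subtype.val (mul_inv_cancel v)
    rw [h5, Matrix.transpose_one]
  apply Subtype.ext
  show (r : Matrix (Fin 3) (Fin 3) F) * (v : Matrix (Fin 3) (Fin 3) F) = (tinv v : Matrix (Fin 3) (Fin 3) F) * (r : Matrix (Fin 3) (Fin 3) F)
  calc (r : Matrix (Fin 3) (Fin 3) F) * (v : Matrix (Fin 3) (Fin 3) F)
      = ((tinv v : Matrix (Fin 3) (Fin 3) F) * (v : Matrix (Fin 3) (Fin 3) F).transpose) *
        ((r : Matrix (Fin 3) (Fin 3) F) * (v : Matrix (Fin 3) (Fin 3) F)) := by rw [h4, one_mul]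
    _ = _ := by rw [mul_assoc, h3]

theorem G_mem : G F B ∈ O (hyp (hyp (hyp Q))) := by
  intro v
  obtain ⟨⟨x, y, b⟩, rfl⟩ := (Psi F B).surjective v
  rw [G_Psi, Q_Psi, Q_Psi, dotProduct_comm]

theorem grp_aux {H : Type*} [Group H] {g e s x y L : H} (h1 : g * L * g⁻¹ = y) (h2 : L = s * x * s⁻¹)
    (h3 : L * e = e * L) : g * e * s * x * (g * e * s)⁻¹ = y := by
  rw [← h1]
  have h4 : e * (s * x * s⁻¹) * e⁻¹ = L := by
    rw [← h2, ← h3, mul_inv_cancel_right]
  calc g * e * s * x * (g * e * s)⁻¹ = g * (e * (s * x * s⁻¹) * e⁻¹) * g⁻¹ := by group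
    _ = _ := by rw [h4]

/-- second type -/
theorem two_gen_two [Fintype F] [Subsingleton B] [FiniteDimensional F B] (hQ : ND Q) (hF : Fintype.card F = 2) :
    ∃ a ∈ Om (hyp (hyp (hyp Q))), ∃ b ∈ Om (hyp (hyp (hyp Q))),
      ∀ M : Subgroup ((F × F × (F × F × (F × F × (F × F × B)))) ≃ₗ[F] (F × F × (F × F × (F × F × (F × F × B))))),
        a ∈ M → b ∈ M → Om (hyp (hyp (hyp Q))) ≤ M := by
  have h2 : (2 : F) = 0 := by
    have : ((2 : ℕ) : F) = 0 := by rw [← hF]; exact Nat.cast_card_eq_zero F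
    exact_mod_cast this
  have h01 : ∀ x : F, x = 0 ∨ x = 1 := by
    intro x
    have h := FiniteField.pow_card x
    rw [hF] at h
    have h3 : x * (x - 1) = 0 := by linear_combination h
    rcases mul_eq_zero.1 h3 with h | h
    · exact Or.inl h
    · exact Or.inr (sub_eq_zero.1 h)
  obtain ⟨u, s0, hus, hsp, hne⟩ := exists_pair F
  obtain ⟨r, hr⟩ := exists_r h2 h01 hsp hne
  set s := r * s0 with hs
  set GS := G F (F × F × B) * emb (emb (emb S)) with hGS
  set w : F × F × B := (1, 0, 0) with hw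
  have hGSm : GS ∈ Om (hyp (hyp (hyp Q))) := GS_mem hQ
  have hGSO : GS ∈ O (hyp (hyp (hyp (hyp Q)))) := Om_le _ hGSm
  set Y := GS * lev F (F × F × B) s with hYdef
  refine ⟨lev F (F × F × B) u, lev_mem_Om hQ.hyp u, rho (hyp (hyp (hyp (hyp Q)))) (ev F (F × F × B) 0) (bv F w) *
    (rho (hyp (hyp (hyp (hyp Q)))) (fv F (F × F × B) 2) (bv F w) * Y), ?_, ?_⟩
  · refine (Om _).mul_mem (rho_mem_Om hQ.hyp.hyp.hyp (ev_ne 0) (frame.gE 0 (bv_mem w))) ((Om _).mul_mem
      (rho_mem_Om hQ.hyp.hyp.hyp (fv_ne 2) (frame.swap.gE 2 (by rw [Bp_swap]; exact bv_mem w))) ?_)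
    exact (Om _).mul_mem hGSm (lev_mem_Om hQ.hyp s)
  intro M ha hb
  have hY : ∀ g, Y * lev F (F × F × B) g * Y⁻¹ = lev F (F × F × B) (((MulAut.conj s).trans tinvE) g) := by
    intro g
    have e1 : ((MulAut.conj s).trans tinvE) g = tinv (s * g * s⁻¹) := rfl
    rw [e1, hYdef, hGS]
    apply grp_aux (L := lev F (F × F × B) (s * g * s⁻¹))
    · rw [G_lev, mul_inv_cancel_right]
    · rw [map_mul, map_mul, map_inv]
    · exact lev_emb3 _ _
  have hαu : ((MulAut.conj s).trans tinvE) u = s0 * u * s0⁻¹ := by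
    show tinv (s * u * s⁻¹) = _
    have e1 : s * u * s⁻¹ = r * (s0 * u * s0⁻¹) * r⁻¹ := by rw [hs]; group
    rw [e1, hr, tinv_tinv]
  obtain ⟨h1, h2', h3, h4⟩ := key w w u _ hus hsp Y _ hY hαu M ha hb
  have hT : ∀ i j c, i ≠ j → Rho.T (hyp (hyp (hyp (hyp Q)))) (ev F (F × F × B)) (fv F (F × F × B)) i j c ∈ M :=
    fun i j c hij => hT_of_lev h1 i j c hij
  have hGSM : GS ∈ M := by
    have := M.mul_mem h4 (M.inv_mem (h1 s))
    rwa [hYdef, mul_inv_cancel_right] at this
  have hTs := hT_swap frame hT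
  have c1 : ∀ (i : Fin 3) (b : F × F × B), GS * rho (hyp (hyp (hyp (hyp Q)))) (ev F (F × F × B) i) (bv F b) * GS⁻¹ =
      rho (hyp (hyp (hyp (hyp Q)))) (fv F (F × F × B) i) (bv F (S b)) := by
    intro i b
    rw [rho_conj hGSO, hGS, LinearEquiv.mul_apply, LinearEquiv.mul_apply, ev, bv, emb3_Psi, emb3_Psi, map_zero, G_Psi,
      G_Psi]
    rfl
  have c2 : ∀ (i : Fin 3) (b : F × F × B), GS * rho (hyp (hyp (hyp (hyp Q)))) (fv F (F × F × B) i) (bv F b) * GS⁻¹ =
      rho (hyp (hyp (hyp (hyp Q)))) (ev F (F × F × B) i) (bv F (S b)) := by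
    intro i b
    rw [rho_conj hGSO, hGS, LinearEquiv.mul_apply, LinearEquiv.mul_apply, fv, bv, emb3_Psi, emb3_Psi, map_zero, G_Psi,
      G_Psi]
    rfl
  let bl : (F × F × B) →ₗ[F] (F × F × (F × F × (F × F × (F × F × B)))) :=
    { toFun := fun b => bv F b
      map_add' := fun b b' => by
        rw [bv, bv, bv, ← map_add]; simp
      map_smul' := fun c b => by
        rw [bv, bv, ← map_smul]; simp }
  have hcyc : ∀ W : Submodule F (F × F × B), w ∈ W → S w ∈ W → W = ⊤ := by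
    intro W k1 k2
    rw [eq_top_iff]
    rintro ⟨x, y, b⟩ -
    have k3 := W.add_mem (W.smul_mem x k1) (W.smul_mem y k2)
    have e : x • w + y • S w = (x, y, b) := by
      rw [hw, S_apply]
      ext
      · simp
      · simp
      · exact Subsingleton.elim _ _
    rwa [e] at k3
  have hE : (WE frame hT).comap bl = ⊤ := by
    apply hcyc
    · exact ⟨bv_mem w, h2'⟩
    · refine ⟨bv_mem (S w), fun i => ?_⟩
      show rho (hyp (hyp (hyp (hyp Q)))) (ev F (F × F × B) i) (bv F (S w)) ∈ M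
      rw [← c2]
      exact conj_mem hGSM (h3 i)
  have hF' : (WE frame.swap hTs).comap bl = ⊤ := by
    apply hcyc
    · exact ⟨by rw [Bp_swap]; exact bv_mem w, h3⟩
    · refine ⟨by rw [Bp_swap]; exact bv_mem (S w), fun i => ?_⟩
      show rho (hyp (hyp (hyp (hyp Q)))) (fv F (F × F × B) i) (bv F (S w)) ∈ M
      rw [← c1]
      exact conj_mem hGSM (h2' i)
  apply final hQ.hyp hT
  · intro b i
    have : b ∈ (WE frame hT).comap bl := by rw [hE]; trivial
    exact this.2 i
  · intro b i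
    have : b ∈ (WE frame.swap hTs).comap bl := by rw [hF']; trivial
    exact this.2 i

end H43.OmTwoD
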