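import Mathlib
import Cfsg.Agent.Lib.H43.OmTwoD

/-!
Two-generation of the projective orthogonal groups.
-/
set_option autoImplicit false

namespace H43.OmTwoE

open QuadraticMap H7.Hyp H7.Omega H43.OmTwoB H43.OmTwoC H43.OmTwoD H48.QuadStd H7.HypStd

universe u

variable {F : Type u} [Field F] [Fintype F]

theorem pomega_of {ι : Type} [Fintype ι] [DecidableEq ι] {Q₀ : (ι → F) → F}
    (h : ∃ a b : commutator ↥(Cfsg.isometryGroup F Q₀), Subgroup.closure ({a, b} : Set (commutator ↥(Cfsg.isometryGroup F Q₀))) = ⊤) :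
    ∃ a b : Cfsg.POmega F Q₀, Subgroup.closure ({a, b} : Set (Cfsg.POmega F Q₀)) = ⊤ :=
  two_gen_quot (QuotientGroup.mk' (Subgroup.center (Cfsg.Omega F Q₀))) (QuotientGroup.mk'_surjective _) h

/-! ### odd dimension -/

theorem good_odd (h2 : (2 : F) ≠ 0) (k : ℕ) : Good3 (qOdd k F 1) := by
  induction k with
  | zero =>
    have hfr : Module.finrank F (Unit ⊕ (Fin 0 ⊕ Fin 0) → F) = 1 := by
      rw [Module.finrank_fintype_fun_eq_card]; rfl
    have : Nontrivial (Unit ⊕ (Fin 0 ⊕ Fin 0) → F) := Module.nontrivial_of_finrank_pos (R := F) (by omega)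
    have hnd : ND (qOdd 0 F 1) := H7.HypOrd.nd_odd 0 h2 one_ne_zero
    exact ⟨_, inferInstance, inferInstance, _, hnd, this, inferInstance, base_one hnd hfr, QuadraticMap.Equivalent.refl _⟩
  | succ k ih => exact ih.step.congr (odd_succ k 1)

theorem odd (h2 : (2 : F) ≠ 0) (k : ℕ) :
    ∃ a b : Cfsg.POmega F (Cfsg.quadFormOdd (k + 3) F), Subgroup.closure ({a, b} : Set (Cfsg.POmega F (Cfsg.quadFormOdd (k + 3) F))) = ⊤ := by
  obtain ⟨e⟩ := H7.OmegaIso.nonempty_odd (F := F) (k + 1)
  obtain ⟨e2⟩ := nonempty_congrO (H7.OmegaIso.hyp_congr (H7.OmegaIso.hyp_congr (odd_succ (F := F) k 1)))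
  exact pomega_of ((good_odd h2 k).two_gen (e.trans e2))

/-! ### minus type -/

theorem good_minus (a b : F) (hab : ∀ z₁ z₂ : F, z₁ ^ 2 + a * z₁ * z₂ + b * z₂ ^ 2 = 0 → z₁ = 0 ∧ z₂ = 0) (k : ℕ) :
    Good3 (qMinus k F a b) := by
  induction k with
  | zero =>
    have hfr : Module.finrank F ((Fin 0 ⊕ Fin 0) ⊕ Fin 2 → F) = 2 := by
      rw [Module.finrank_fintype_fun_eq_card]; rfl
    have : Nontrivial ((Fin 0 ⊕ Fin 0) ⊕ Fin 2 → F) := Module.nontrivial_of_finrank_pos (R := F) (by omega)
    have hnd : ND (qMinus 0 F a b) := H7.MinusOrd.nd_minus 0 hab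
    have han : ∀ w, w ≠ 0 → qMinus 0 F a b w ≠ 0 := by
      intro w hw h0
      rw [qMinus_apply] at h0
      simp only [Finset.univ_eq_empty, Finset.sum_empty, zero_add] at h0
      obtain ⟨h1, h2⟩ := hab (w (.inr 0)) (w (.inr 1)) (by linear_combination h0)
      apply hw
      funext i
      rcases i with (i | i) | i
      · exact i.elim0
      · exact i.elim0
      · fin_cases i
        · exact h1
        · exact h2
    exact ⟨_, inferInstance, inferInstance, _, hnd, this, inferInstance, base_two han hfr, QuadraticMap.Equivalent.refl _⟩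
  | succ k ih => exact ih.step.congr (minus_succ k a b)

theorem minus (a b : F) (hab : ∀ z₁ z₂ : F, z₁ ^ 2 + a * z₁ * z₂ + b * z₂ ^ 2 = 0 → z₁ = 0 ∧ z₂ = 0) (k : ℕ) :
    ∃ g h : Cfsg.POmega F (Cfsg.quadFormMinus (k + 3) F a b),
      Subgroup.closure ({g, h} : Set (Cfsg.POmega F (Cfsg.quadFormMinus (k + 3) F a b))) = ⊤ := by
  obtain ⟨e⟩ := H7.OmegaIso.nonempty_minus (F := F) (k + 1) a b
  obtain ⟨e2⟩ := nonempty_congrO (H7.OmegaIso.hyp_congr (H7.OmegaIso.hyp_congr (minus_succ (F := F) k a b)))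
  exact pomega_of ((good_minus a b hab k).two_gen (e.trans e2))

/-! ### plus type -/

theorem good_plus_of (h : ∃ c : F, c ≠ 0 ∧ c ≠ 1) (k : ℕ) : Good3 (qPlus (k + 1) F) := by
  induction k with
  | zero =>
    have hnd : ND (qPlus 0 F) := H7.HypOrd.nd_plus 0
    have : Subsingleton (Fin 0 ⊕ Fin 0 → F) := inferInstance
    exact ⟨_, inferInstance, inferInstance, _, hnd.hyp, inferInstance, inferInstance, base_plus h, plus_succ 0⟩
  | succ k ih => exact ih.step.congr (plus_succ (k + 1))

theorem good_plus2 (k : ℕ) : Good3 (qPlus (k + 2) F) := by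
  induction k with
  | zero =>
    have hnd : ND (qPlus 0 F) := H7.HypOrd.nd_plus 0
    have : Subsingleton (Fin 0 ⊕ Fin 0 → F) := inferInstance
    exact ⟨_, inferInstance, inferInstance, _, hnd.hyp.hyp, inferInstance, inferInstance, base_plus2 hnd,
      (plus_succ 1).trans (H7.OmegaIso.hyp_congr (plus_succ 0))⟩
  | succ k ih => exact ih.step.congr (plus_succ (k + 2))

theorem plus (k : ℕ) :
    ∃ a b : Cfsg.POmega F (Cfsg.quadFormPlus (k + 4) F),
      Subgroup.closure ({a, b} : Set (Cfsg.POmega F (Cfsg.quadFormPlus (k + 4) F))) = ⊤ := by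
  obtain ⟨e⟩ := H7.OmegaIso.nonempty_plus (F := F) (k + 2)
  obtain ⟨e2⟩ := nonempty_congrO (H7.OmegaIso.hyp_congr (H7.OmegaIso.hyp_congr (plus_succ (F := F) (k + 1))))
  by_cases h : ∃ c : F, c ≠ 0 ∧ c ≠ 1
  · exact pomega_of ((good_plus_of h k).two_gen (e.trans e2))
  · rcases k with _ | k
    · have hcard : Fintype.card F = 2 := by
        push Not at h
        classical
        have h1 : (Finset.univ : Finset F) = {0, 1} := by
          ext x
          simp only [Finset.mem_univ, Finset.mem_insert, Finset.mem_singleton, true_iff]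
          by_cases hx : x = 0
          · exact Or.inl hx
          · exact Or.inr (h x hx)
        rw [← Finset.card_univ, h1, Finset.card_pair zero_ne_one]
      have hnd : ND (qPlus 0 F) := H7.HypOrd.nd_plus 0
      have : Subsingleton (Fin 0 ⊕ Fin 0 → F) := inferInstance
      apply pomega_of
      exact transfer (e.trans e2) ⟨_, inferInstance, inferInstance, hyp (qPlus 0 F), hnd.hyp, inferInstance, inferInstance,
        plus_succ 0, two_gen_two hnd hcard⟩
    · exact pomega_of ((good_plus2 k).two_gen (e.trans e2))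

end H43.OmTwoE
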