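import Cfsg.Agent.Lib.H43.Pres3
import Cfsg.Agent.Lib.H43.AltPres
import Cfsg.Agent.S2402
import Cfsg.Agent.S2403

/-!
Two-generator bounded presentations of `PSL_n(q)`.
-/
set_option autoImplicit false

namespace H43.PSLTwo

open Matrix H43.Tietze

theorem exists_w (K : Type*) [Field K] (n : ℕ) : ∃ w : SpecialLinearGroup (Fin (n + 1)) K,
    (w : Matrix (Fin (n + 1)) (Fin (n + 1)) K) =
      Matrix.of (fun i j => if j.val = i.val + 1 then 1 else if i.val = n ∧ j.val = 0 then (-1) ^ n else 0) := by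
  let M : Matrix (Fin (n + 1)) (Fin (n + 1)) K :=
    Matrix.diagonal (fun i => if i = Fin.last n then (-1) ^ n else 1) * (finRotate (n + 1)).permMatrix K
  have hdet : M.det = 1 := by
    rw [Matrix.det_mul, Matrix.det_diagonal, Matrix.det_permutation, sign_finRotate]
    rw [Finset.prod_ite_eq' Finset.univ (Fin.last n) (fun _ => ((-1 : K)) ^ n), if_pos (Finset.mem_univ _)]
    push_cast
    rw [← mul_pow]; norm_num
  refine ⟨⟨M, hdet⟩, ?_⟩
  ext i j
  change M i j = _
  rw [Matrix.of_apply]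
  simp only [M]
  rw [Matrix.diagonal_mul]
  unfold Equiv.Perm.permMatrix
  rw [PEquiv.toMatrix_apply]
  simp only [Equiv.toPEquiv_apply, Option.mem_def, Option.some.injEq]
  by_cases hi : i = Fin.last n
  · subst hi
    rw [if_pos rfl, finRotate_last]
    by_cases hj : j = 0
    · subst hj
      simp
    · rw [if_neg (Ne.symm hj)]
      have h1 : j.val ≠ 0 := fun h => hj (Fin.ext h)
      have h2 : j.val ≠ (Fin.last n).val + 1 := by have := j.2; rw [Fin.val_last]; omega
      rw [if_neg h2, if_neg (fun h => h1 h.2), mul_zero]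
  · rw [if_neg hi, one_mul]
    have h1 : i.val < n := by
      have := i.2
      have h3 : i.val ≠ n := fun h => hi (Fin.ext h)
      omega
    have h2 : (finRotate (n + 1) i).val = i.val + 1 := coe_finRotate_of_ne_last hi
    by_cases hj : j.val = i.val + 1
    · rw [if_pos hj, if_pos (Fin.ext (by rw [h2, hj]))]
    · rw [if_neg hj, if_neg (fun h => hj (by rw [← h, h2])), if_neg (fun h => by omega)]

theorem exists_h {K : Type*} [Field K] (k : Kˣ) (n : ℕ) : ∃ h : SpecialLinearGroup (Fin (n + 1 + 1)) K,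
    (h : Matrix (Fin (n + 1 + 1)) (Fin (n + 1 + 1)) K) =
      Matrix.diagonal (fun i => if i.val = 0 then (k : K) else if i.val = 1 then ((k⁻¹ : Kˣ) : K) else 1) := by
  refine ⟨⟨Matrix.diagonal (fun i => if i.val = 0 then (k : K) else if i.val = 1 then ((k⁻¹ : Kˣ) : K) else 1), ?_⟩, rfl⟩
  rw [Matrix.det_diagonal, Fin.prod_univ_succ, Fin.prod_univ_succ]
  simp

theorem two_gen {K : Type*} [Field K] [Fintype K] (n : ℕ) (hn : 2 ≤ n) :
    ∃ w : Fin 2 → ProjectiveSpecialLinearGroup (Fin n) K, Subgroup.closure (Set.range w) = ⊤ := by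
  obtain ⟨m, rfl⟩ : ∃ m, n = m + 1 + 1 := ⟨n - 2, by omega⟩
  have key : ∃ a b : SpecialLinearGroup (Fin (m + 1 + 1)) K, Subgroup.closure {a, b} ⊔
      Subgroup.center (SpecialLinearGroup (Fin (m + 1 + 1)) K) = ⊤ := by
    obtain ⟨w, hw⟩ := exists_w K (m + 1)
    obtain ⟨k, hk⟩ : ∃ ζ : Kˣ, ∀ t : Kˣ, t ∈ Subgroup.zpowers ζ := IsCyclic.exists_generator
    obtain ⟨h, hh⟩ := exists_h k m
    have h01 : (0 : Fin (m + 1 + 1)) ≠ 1 := by
      intro h
      have := congrArg Fin.val h
      rw [Fin.val_zero, Fin.val_one] at this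
      omega
    let x : SpecialLinearGroup (Fin (m + 1 + 1)) K := ⟨transvection 0 1 1, det_transvection_of_ne 0 1 h01 1⟩
    by_cases hK : 3 < Fintype.card K
    · exact ⟨_, _, Cfsg.Agent.S2402.result hK (m + 1) (by omega) k hk h x w hh rfl hw⟩
    · exact ⟨_, _, Cfsg.Agent.S2403.result (not_lt.1 hK) (m + 1) (by omega) x w rfl hw⟩
  obtain ⟨a, b, hab⟩ := key
  refine ⟨![(a : SpecialLinearGroup (Fin (m + 1 + 1)) K ⧸ Subgroup.center _), (b : SpecialLinearGroup (Fin (m + 1 + 1)) K ⧸ Subgroup.center _)], ?_⟩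
  rw [eq_top_iff]
  rintro x -
  obtain ⟨g, rfl⟩ := QuotientGroup.mk'_surjective _ x
  set K' := Subgroup.closure (Set.range ![(a : SpecialLinearGroup (Fin (m + 1 + 1)) K ⧸ Subgroup.center _), (b : SpecialLinearGroup (Fin (m + 1 + 1)) K ⧸ Subgroup.center _)])
  have h1 : Subgroup.closure {a, b} ⊔ Subgroup.center (SpecialLinearGroup (Fin (m + 1 + 1)) K) ≤
      K'.comap (QuotientGroup.mk' (Subgroup.center (SpecialLinearGroup (Fin (m + 1 + 1)) K))) := by
    apply sup_le
    · rw [Subgroup.closure_le]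
      rintro _ (rfl | rfl)
      · exact Subgroup.subset_closure ⟨0, rfl⟩
      · exact Subgroup.subset_closure ⟨1, rfl⟩
    · intro z hz
      change QuotientGroup.mk' _ z ∈ K'
      have : QuotientGroup.mk' (Subgroup.center (SpecialLinearGroup (Fin (m + 1 + 1)) K)) z = 1 :=
        (QuotientGroup.eq_one_iff z).2 hz
      rw [this]; exact one_mem _
  rw [hab] at h1
  exact h1 (Subgroup.mem_top g)

theorem pres (F : Type*) [Field F] [Fintype F] (n : ℕ) (hn : 2 ≤ n) :
    ∃ m, HasPres (ProjectiveSpecialLinearGroup (Fin n) F) m 24 := by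
  rcases Nat.lt_or_ge n 4 with h | h
  · interval_cases n
    · obtain ⟨ζ, hζ⟩ := H43.SL2R.exists_gen F
      by_cases h2 : (2 : F) = 0
      · obtain ⟨R, hR⟩ := H43.SL2R.pres_PSL2_even h2 hζ
        refine ⟨3, (hR.hasPres (Equiv.refl _) (Set.finite_range _) (k := 5) ?_).mono (by norm_num)⟩
        have := ncard_range_le R
        simpa using this
      · obtain ⟨R, hR⟩ := H43.SL2R.pres_PSL2_odd h2 hζ
        refine ⟨3, (hR.hasPres (Equiv.refl _) (Set.finite_range _) (k := 9) ?_).mono (by norm_num)⟩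
        have := ncard_range_le R
        simpa using this
    · exact ⟨4, (H43.SLRels.pres_psl (H43.Rel3.pres_three F)).mono (by norm_num)⟩
  · rcases Nat.eq_or_lt_of_le h with h | h
    · subst h
      exact ⟨4, (H43.SLRels.pres_psl (H43.SLRels.pres_four F H43.AltPres.pres_A4)).mono (by norm_num)⟩
    · exact ⟨5, (H43.SLRels.pres_psl (H43.SLRels.pres_big F h (H43.AltPres.pres_An h))).mono (by norm_num)⟩

theorem pres_two (F : Type*) [Field F] [Fintype F] (n : ℕ) (hn : 2 ≤ n) :
    HasPres (ProjectiveSpecialLinearGroup (Fin n) F) 2 26 := by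
  obtain ⟨m, hm⟩ := pres F n hn
  obtain ⟨w, hw⟩ := two_gen (K := F) n hn
  exact hm.change w hw

end H43.PSLTwo
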