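import Cfsg.Agent.Lib.H43.SL2Main
import Cfsg.Agent.Lib.H43.GL2Card
import Cfsg.Agent.Lib.H98.DicksonPGL

/-!
Bounded presentations of `SL_2(q)` and `PSL_2(q)`.
-/
set_option autoImplicit false

namespace H43.SL2R

open Matrix H43.Borel H43.Tietze

universe u

variable {F : Type u} [Field F] [Fintype F]

omit [Fintype F] in
theorem UH (a : F) (t : Fˣ) : U a * Hh t = mk2 (t : F) (a * ((t⁻¹ : Fˣ) : F)) 0 ((t⁻¹ : Fˣ) : F) (by simp) := by
  unfold U Hh; rw [mul2]; apply ext2 <;> simp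

omit [Fintype F] in
theorem pow_inj {ζ : Fˣ} {i j N : ℕ} (hi : i < N) (hj : j < N) (hN : N ≤ orderOf ζ) (h : ζ ^ i = ζ ^ j) : i = j := by
  apply pow_injOn_Iio_orderOf (x := ζ) (Set.mem_Iio.2 (lt_of_lt_of_le hi hN)) (Set.mem_Iio.2 (lt_of_lt_of_le hj hN)) h

theorem ord_eq {ζ : Fˣ} (hζ : ∀ t : Fˣ, t ∈ Subgroup.zpowers ζ) : orderOf ζ = Fintype.card F - 1 := by
  rw [orderOf_eq_card_of_forall_mem_zpowers hζ, Nat.card_units, Nat.card_eq_fintype_card]

omit [Fintype F] in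
theorem UH_inj {a b : F} {s t : Fˣ} (h : U a * Hh s = U b * Hh t) : a = b ∧ s = t := by
  rw [UH, UH] at h
  have h1 := congrArg (fun g : Matrix.SpecialLinearGroup (Fin 2) F => g.1 0 0) h
  have h2 := congrArg (fun g : Matrix.SpecialLinearGroup (Fin 2) F => g.1 0 1) h
  simp only [mk2] at h1 h2
  simp at h1 h2
  have h3 : s = t := Units.ext h1
  subst h3
  refine ⟨?_, rfl⟩
  simpa using h2

theorem setupSL {ζ : Fˣ} (hζ : ∀ t : Fˣ, t ∈ Subgroup.zpowers ζ) :
    Setup (MonoidHom.id (Matrix.SpecialLinearGroup (Fin 2) F)) (Fintype.card F - 1) ζ where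
  surj := fun g => ⟨g, rfl⟩
  gen := hζ
  hN := by have := Fintype.one_lt_card (α := F); omega
  inj := by
    intro a b i hi j hj h
    change U a * Hh ζ ^ i = U b * Hh ζ ^ j at h
    rw [← Hh_pow, ← Hh_pow] at h
    obtain ⟨h1, h2⟩ := UH_inj h
    exact ⟨h1, pow_inj hi hj (ord_eq hζ).ge h2⟩
  card := by
    rw [H43.GL2Card.card_SL]
    obtain ⟨q, hq⟩ : ∃ q, Fintype.card F = q + 1 := ⟨Fintype.card F - 1, by have := Fintype.one_lt_card (α := F); omega⟩
    rw [hq]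
    have : (q + 1) ^ 2 - 1 = (q + 2) * q := by
      rw [Nat.sub_eq_iff_eq_add (Nat.one_le_pow _ _ (by omega))]; ring
    rw [this]
    have : q + 1 - 1 = q := by omega
    rw [this]; ring
  pow := by
    change Hh ζ ^ _ = 1
    rw [← Hh_pow, ← ord_eq hζ, pow_orderOf_eq_one, Hh_one]

/-- the projection to `PSL_2` -/
abbrev prj (F : Type u) [Field F] : Matrix.SpecialLinearGroup (Fin 2) F →* Matrix.ProjectiveSpecialLinearGroup (Fin 2) F :=
  QuotientGroup.mk' (Subgroup.center (Matrix.SpecialLinearGroup (Fin 2) F))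

omit [Fintype F] in
theorem prj_eq {A B : Matrix.SpecialLinearGroup (Fin 2) F} (h : prj F A = prj F B) : ∃ s : Fˣ, s ^ 2 = 1 ∧ B = A * Hh s ∧ (Hh s : Matrix.SpecialLinearGroup (Fin 2) F) ∈ Subgroup.center _ := by
  have h1 : A⁻¹ * B ∈ Subgroup.center (Matrix.SpecialLinearGroup (Fin 2) F) := (QuotientGroup.eq).1 h
  have h0 := h1
  rw [Matrix.SpecialLinearGroup.mem_center_iff] at h1
  obtain ⟨r, hr, hs⟩ := h1
  rw [Fintype.card_fin] at hr
  have hr0 : r ≠ 0 := by rintro rfl; norm_num at hr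
  have e : A⁻¹ * B = Hh (Units.mk0 r hr0) := by
    apply Subtype.ext
    rw [← hs]
    change _ = !![r, 0; 0, (((Units.mk0 r hr0)⁻¹ : Fˣ) : F)]
    have : r⁻¹ = r := by
      rw [inv_eq_iff_eq_inv]
      exact eq_inv_of_mul_eq_one_left (by rw [← sq]; exact hr)
    ext i j
    fin_cases i <;> fin_cases j <;> simp [this]
  refine ⟨Units.mk0 r hr0, Units.ext (by rw [Units.val_pow_eq_pow_val]; exact hr), by rw [← e]; group, by rw [← e]; exact h0⟩

omit [Fintype F] in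
theorem prj_pow {s : Fˣ} (h : s ^ 2 = 1) : prj F (Hh s) = 1 := by
  refine (QuotientGroup.eq_one_iff (Hh s)).2 ?_
  rw [Matrix.SpecialLinearGroup.mem_center_iff]
  refine ⟨s, by rw [Fintype.card_fin, ← Units.val_pow_eq_pow_val, h]; rfl, ?_⟩
  have : s⁻¹ = s := inv_eq_of_mul_eq_one_left (by rw [← sq]; exact h)
  change (scalar (Fin 2)) (s : F) = !![(s : F), 0; 0, ((s⁻¹ : Fˣ) : F)]
  rw [this]
  ext i j
  fin_cases i <;> fin_cases j <;> simp

theorem setupPSL_odd {ζ : Fˣ} (hζ : ∀ t : Fˣ, t ∈ Subgroup.zpowers ζ) {N : ℕ} (hN : Fintype.card F - 1 = 2 * N) :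
    Setup (prj F) N ζ where
  surj := QuotientGroup.mk'_surjective _
  gen := hζ
  hN := by have := Fintype.one_lt_card (α := F); omega
  inj := by
    intro a b i hi j hj h
    obtain ⟨s, hs, e, -⟩ := prj_eq h
    rw [← Hh_pow, ← Hh_pow, mul_assoc, ← Hh_mul] at e
    obtain ⟨h1, h2⟩ := UH_inj e
    have h3 : ζ ^ (2 * j) = ζ ^ (2 * i) := by
      rw [mul_comm 2 j, mul_comm 2 i, pow_mul, pow_mul, h2, mul_pow, hs, mul_one]
    have := pow_inj (N := 2 * N) (by omega) (by omega) (by rw [ord_eq hζ, hN]) h3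
    exact ⟨h1.symm, by omega⟩
  card := by
    have h1 := H98.DicksonPGL.card_psl_eq F
    rw [Nat.card_eq_fintype_card (α := F), hN, Nat.gcd_mul_right_right] at h1
    have h2 : 2 * Nat.card (Matrix.ProjectiveSpecialLinearGroup (Fin 2) F) = 2 * ((Fintype.card F + 1) * (Fintype.card F * N)) := by
      rw [h1]; ring
    exact Nat.eq_of_mul_eq_mul_left (by norm_num) h2
  pow := by
    rw [← map_pow, ← Hh_pow]
    apply prj_pow
    rw [← pow_mul, mul_comm N 2, ← hN, ← ord_eq hζ, pow_orderOf_eq_one]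

theorem setupPSL_even {ζ : Fˣ} (hζ : ∀ t : Fˣ, t ∈ Subgroup.zpowers ζ) (h2 : (2 : F) = 0) :
    Setup (prj F) (Fintype.card F - 1) ζ where
  surj := QuotientGroup.mk'_surjective _
  gen := hζ
  hN := by have := Fintype.one_lt_card (α := F); omega
  inj := by
    intro a b i hi j hj h
    obtain ⟨s, hs, e, -⟩ := prj_eq h
    have hs1 : s = 1 := by
      have h3 : (s : F) ^ 2 = 1 := by rw [← Units.val_pow_eq_pow_val, hs]; rfl
      have h4 : ((s : F) - 1) ^ 2 = 0 := by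
        have : ((s : F) - 1) ^ 2 = (s : F) ^ 2 - 2 * s + 1 := by ring
        rw [this, h3, h2, zero_mul, sub_zero]
        calc (1 : F) + 1 = 2 := by norm_num
          _ = 0 := h2
      apply Units.ext
      rw [Units.val_one]
      exact sub_eq_zero.1 (pow_eq_zero_iff two_ne_zero |>.1 h4)
    rw [hs1, Hh_one, mul_one, ← Hh_pow, ← Hh_pow] at e
    obtain ⟨h1, h2⟩ := UH_inj e
    exact ⟨h1.symm, pow_inj hi hj (ord_eq hζ).ge h2.symm⟩
  card := by
    have hchar : CharP F 2 := CharTwo.of_one_ne_zero_of_two_eq_zero one_ne_zero h2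
    have h1 := H98.DicksonPGL.card_psl_eq F
    rw [Nat.card_eq_fintype_card (α := F)] at h1
    have hev : Even (Fintype.card F) := by
      rw [Nat.even_iff]
      exact FiniteField.even_card_iff_char_two.1 (ringChar.eq F 2 ▸ rfl : ringChar F = 2)
    have : Nat.gcd 2 (Fintype.card F - 1) = 1 := by
      have h3 : Nat.Coprime 2 (Fintype.card F - 1) := by
        rw [Nat.coprime_two_left]
        have := Fintype.one_lt_card (α := F)
        rcases hev with ⟨k, hk⟩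
        exact ⟨k - 1, by omega⟩
      exact h3
    rwa [this, one_mul] at h1
  pow := by
    rw [← map_pow, ← Hh_pow, ← ord_eq hζ, pow_orderOf_eq_one, Hh_one, map_one]

theorem exists_gen (F : Type u) [Field F] [Fintype F] : ∃ ζ : Fˣ, ∀ t : Fˣ, t ∈ Subgroup.zpowers ζ :=
  IsCyclic.exists_generator

theorem fin_of_pres {κ : Type} [Fintype κ] {Γ : Type*} [Group Γ] {v : Fin 3 → Γ} (R : κ → FreeGroup (Fin 3))
    (h : Pres v (Set.range R)) : ∃ rels : Finset (FreeGroup (Fin 3)), rels.card ≤ Fintype.card κ ∧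
      Nonempty (PresentedGroup (↑rels : Set (FreeGroup (Fin 3))) ≃* Γ) := by
  classical
  refine ⟨Finset.univ.image R, Finset.card_image_le, ?_⟩
  have e : (↑(Finset.univ.image R) : Set (FreeGroup (Fin 3))) = Set.range R := by
    rw [Finset.coe_image, Finset.coe_univ, Set.image_univ]
  rw [e]
  obtain ⟨f, -⟩ := h.iso
  exact ⟨f⟩


theorem odd_mod (h2 : (2 : F) ≠ 0) : Fintype.card F % 2 = 1 := by
  apply FiniteField.odd_card_of_char_ne_two
  intro h
  apply h2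
  have := CharP.cast_eq_zero F (ringChar F)
  rw [h] at this; exact_mod_cast this

/-- `SL_2(q)`, `q` odd -/
theorem pres_SL2_odd (h2 : (2 : F) ≠ 0) {ζ : Fˣ} (hζ : ∀ t : Fˣ, t ∈ Subgroup.zpowers ζ) :
    ∃ R : Fin 4 ⊕ Fin 5 → FreeGroup (Fin 3),
      Pres ![(U (1 : F)), Hh ζ, n0] (Set.range R) := by
  have hodd := odd_mod h2
  have hM : (MonoidHom.id (Matrix.SpecialLinearGroup (Fin 2) F)) n0 * (MonoidHom.id _) n0 =
      (MonoidHom.id _) (Hh ζ) ^ ((Fintype.card F - 1) / 2) := by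
    change n0 * n0 = Hh ζ ^ _
    rw [n0_sq, ← Hh_pow]
    congr 1
    have h1 : (ζ ^ ((Fintype.card F - 1) / 2)) ^ 2 = 1 := by
      rw [← pow_mul, show (Fintype.card F - 1) / 2 * 2 = orderOf ζ by rw [ord_eq hζ]; omega, pow_orderOf_eq_one]
    have h3 : ζ ^ ((Fintype.card F - 1) / 2) ≠ 1 := by
      intro h
      have := Nat.le_of_dvd (by have := Fintype.one_lt_card (α := F); omega) (orderOf_dvd_of_pow_eq_one h)
      rw [ord_eq hζ] at this
      have := Fintype.one_lt_card (α := F)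
      omega
    have h4 : (((ζ ^ ((Fintype.card F - 1) / 2) : Fˣ) : F)) ^ 2 = 1 := by
      rw [← Units.val_pow_eq_pow_val, h1]; rfl
    rw [sq] at h4
    rcases mul_self_eq_one_iff.1 h4 with h | h
    · exact absurd (Units.ext h) h3
    · exact (Units.ext (by rw [h]; rfl)).symm
  exact odd_pres (setupSL hζ) h2 _ hM

/-- `PSL_2(q)`, `q` odd -/
theorem pres_PSL2_odd (h2 : (2 : F) ≠ 0) {ζ : Fˣ} (hζ : ∀ t : Fˣ, t ∈ Subgroup.zpowers ζ) :
    ∃ R : Fin 4 ⊕ Fin 5 → FreeGroup (Fin 3),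
      Pres ![prj F (U (1 : F)), prj F (Hh ζ), prj F n0] (Set.range R) := by
  have hodd := odd_mod h2
  obtain ⟨N, hN⟩ : ∃ N, Fintype.card F - 1 = 2 * N := ⟨(Fintype.card F - 1) / 2, by omega⟩
  apply odd_pres (setupPSL_odd hζ hN) h2 0
  rw [pow_zero, ← map_mul, n0_sq]
  apply prj_pow
  exact Units.ext (by rw [Units.val_pow_eq_pow_val]; norm_num)

/-- `SL_2(q)`, `q` even -/
theorem pres_SL2_even (h2 : (2 : F) = 0) {ζ : Fˣ} (hζ : ∀ t : Fˣ, t ∈ Subgroup.zpowers ζ) :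
    ∃ R : Fin 5 → FreeGroup (Fin 3), Pres ![(U (1 : F)), Hh ζ, n0] (Set.range R) :=
  even_pres (setupSL hζ) h2 rfl

/-- `PSL_2(q)`, `q` even -/
theorem pres_PSL2_even (h2 : (2 : F) = 0) {ζ : Fˣ} (hζ : ∀ t : Fˣ, t ∈ Subgroup.zpowers ζ) :
    ∃ R : Fin 5 → FreeGroup (Fin 3), Pres ![prj F (U (1 : F)), prj F (Hh ζ), prj F n0] (Set.range R) :=
  even_pres (setupPSL_even hζ h2) h2 rfl

end H43.SL2R
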