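import Cfsg.Agent.Lib.H43.SLMain

/-!
Bounded presentations of `SL_4` and `PSL_n`.
-/
set_option autoImplicit false

namespace H43.SLRels

open Equiv Matrix H43.Borel H43.SL2R H43.FieldStr H43.SteinHom H43.SDM H43.AltTrans H43.SLPerm H43.Tietze Monoid

theorem fix4 : ∀ ρ : Perm (Fin 4), Perm.sign ρ = 1 → ρ 0 = 0 → ρ 1 = 1 → ρ = 1 := by decide

theorem pres_four (F : Type*) [Field F] [Fintype F] {m k : ℕ} (hA : HasPres (alternatingGroup (Fin 4)) m k) :
    HasPres (SpecialLinearGroup (Fin 4) F) (m + 2) (k + 15) := by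
  have hn4 : 4 ≤ 4 := le_rfl
  obtain ⟨p, hpF⟩ := CharP.exists F
  have hp : p.Prime := (CharP.char_is_prime_or_zero F p).resolve_right (CharP.char_ne_zero_of_finite F p)
  have : Fact p.Prime := ⟨hp⟩
  let _ := ZMod.algebra F p
  obtain ⟨ζ, hζ⟩ : ∃ ζ : Fˣ, ∀ t : Fˣ, t ∈ Subgroup.zpowers ζ := IsCyclic.exists_generator
  obtain ⟨pb, hpb⟩ := exists_field_data hζ (p := p)
  obtain ⟨c, hc⟩ := coeffs pb (pb.gen ^ pb.dim)
  obtain ⟨s, hs⟩ := exists_goodS hn4
  obtain ⟨v, R, hRf, hRk, hP⟩ := hA.exists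
  have n01 : o hn4 0 ≠ o hn4 1 := o_ne hn4 (by decide)
  have n02 : o hn4 0 ≠ o hn4 2 := o_ne hn4 (by decide)
  have n03 : o hn4 0 ≠ o hn4 3 := o_ne hn4 (by decide)
  have n12 : o hn4 1 ≠ o hn4 2 := o_ne hn4 (by decide)
  have n13 : o hn4 1 ≠ o hn4 3 := o_ne hn4 (by decide)
  have n23 : o hn4 2 ≠ o hn4 3 := o_ne hn4 (by decide)
  have stab : ∀ {G : Type _} [Group G] (α : alternatingGroup (Fin 4) →* G) (u : G),
      ∀ ρ : alternatingGroup (Fin 4), (ρ : Perm (Fin 4)) (o hn4 0) = o hn4 0 → (ρ : Perm (Fin 4)) (o hn4 1) = o hn4 1 →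
      Commute (α ρ) u := by
    intro G _ α u ρ h0 h1
    have : ρ = 1 := Subtype.ext (fix4 _ (Perm.mem_alternatingGroup.1 ρ.2) h0 h1)
    rw [this, map_one]; exact Commute.one_left _
  let y : Fin 2 → SpecialLinearGroup (Fin 4) F :=
    ![Tr (o hn4 0) (o hn4 1) (o_ne hn4 (by decide)) 1, Hd (o hn4 0) (o hn4 1) ζ]
  let r : Fin 12 ⊕ Fin 3 → Coprod (alternatingGroup (Fin 4)) (FreeGroup (Fin 2)) :=
    Sum.elim (fun i => relL hn4 s p pb.dim Coprod.inl (Coprod.inr (FreeGroup.of 0)) (Coprod.inr (FreeGroup.of 1)) i *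
        (relR hn4 s pb.dim c Coprod.inl (Coprod.inr (FreeGroup.of 0)) (Coprod.inr (FreeGroup.of 1)) i)⁻¹)
      (fun i => relL4 hn4 s Coprod.inl (Coprod.inr (FreeGroup.of 0)) (Coprod.inr (FreeGroup.of 1)) i *
        (relR4 hn4 s Coprod.inl (Coprod.inr (FreeGroup.of 0)) (Coprod.inr (FreeGroup.of 1)) i)⁻¹)
  have hev : ∀ {G : Type _} [Group G] (α : alternatingGroup (Fin 4) →* G) (z : Fin 2 → G),
      (∀ j, Coprod.lift α (FreeGroup.lift z) (r j) = 1) ↔
        RR hn4 s p pb.dim c α (z 0) (z 1) ∧ ∀ i, relL4 hn4 s α (z 0) (z 1) i = relR4 hn4 s α (z 0) (z 1) i := by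
    intro G _ α z
    have e1 : (Coprod.lift α (FreeGroup.lift z)).comp Coprod.inl = α := Coprod.lift_comp_inl _ _
    have e2 : Coprod.lift α (FreeGroup.lift z) (Coprod.inr (FreeGroup.of 0)) = z 0 := by simp
    have e3 : Coprod.lift α (FreeGroup.lift z) (Coprod.inr (FreeGroup.of 1)) = z 1 := by simp
    rw [← RR_iff, Sum.forall]
    apply and_congr
    · apply forall_congr'
      intro i
      change Coprod.lift α (FreeGroup.lift z) (_ * _⁻¹) = 1 ↔ _
      rw [map_mul, map_inv, mul_inv_eq_one, map_relL, map_relR, e1, e2, e3]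
    · apply forall_congr'
      intro i
      change Coprod.lift α (FreeGroup.lift z) (_ * _⁻¹) = 1 ↔ _
      rw [map_mul, map_inv, mul_inv_eq_one, map_relL4, map_relR4, e1, e2, e3]
  obtain ⟨W, hW⟩ := hP.extend P y r (gen_target hn4 hs hζ) (by
    have h1 : RR hn4 s p pb.dim c (P (F := F)) (y 0) (y 1) := RR_target hn4 hs ζ (by rw [← hpb]; exact hc)
    have h2 : ∀ i, relL4 hn4 s (P (F := F)) (y 0) (y 1) i = relR4 hn4 s P (y 0) (y 1) i := by
      have T : ∀ {i j : Fin 4} (hij : i ≠ j), cj P s (y 0) i j = Tr i j hij 1 := fun hij => cj_tr hn4 hs (1 : F) hij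
      have D : ∀ {i j : Fin 4}, i ≠ j → cj P s (y 1) i j = Hd i j ζ := fun hij => cj_hd hn4 hs ζ hij
      intro i
      fin_cases i
      · change cj P s (y 0) _ _ * cj P s (y 0) _ _ = cj P s (y 0) _ _ * cj P s (y 0) _ _ * cj P s (y 0) _ _
        rw [T n01.symm, T n02, T n12]
        have := Tr_B n01.symm n02 n12 (1 : F) 1
        rwa [mul_one] at this
      · change cj P s (y 0) _ _ * cj P s (y 0) _ _ = cj P s (y 0) _ _ * cj P s (y 0) _ _
        rw [T n01, T n23.symm]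
        exact Tr_comm _ _ n02 n13 _ _
      · change cj P s (y 1) _ _ * cj P s (y 1) _ _ = 1
        rw [D n01, D n01.symm, Hd_one_of]
    have e1 : (Coprod.lift (P (F := F)) (FreeGroup.lift y)).comp Coprod.inl = P := Coprod.lift_comp_inl _ _
    have e2 : Coprod.lift (P (F := F)) (FreeGroup.lift y) (Coprod.inr (FreeGroup.of 0)) = y 0 := by simp
    have e3 : Coprod.lift (P (F := F)) (FreeGroup.lift y) (Coprod.inr (FreeGroup.of 1)) = y 1 := by simp
    rintro (i | i)
    · change Coprod.lift P (FreeGroup.lift y) (_ * _⁻¹) = 1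
      rw [map_mul, map_inv, mul_inv_eq_one, map_relL, map_relR, e1, e2, e3]
      exact (RR_iff hn4 s p pb.dim c _ _ _).2 h1 i
    · change Coprod.lift P (FreeGroup.lift y) (_ * _⁻¹) = 1
      rw [map_mul, map_inv, mul_inv_eq_one, map_relL4, map_relR4, e1, e2, e3]
      exact h2 i) (by
    intro G _ α z hz
    obtain ⟨h1, h2⟩ := (hev α z).1 hz
    have hu := stab α (z 0)
    have hh := stab α (z 1)
    obtain ⟨f, f1, f2, f3⟩ := hom_of_full hs hζ pb hpb hc hu hh h1 (full4 hs hu hh h1 (h2 0) (h2 1) (h2 2))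
    refine ⟨f, f1, fun k => ?_⟩
    fin_cases k
    · exact f2
    · exact f3)
  apply hW.hasPres finSumFinEquiv ((hRf.image _).union (Set.finite_range _))
  calc _ ≤ _ := Set.ncard_union_le _ _
    _ ≤ k + 15 := by
      apply Nat.add_le_add (le_trans (Set.ncard_image_le hRf) hRk)
      have := ncard_range_le W
      simpa using this

theorem center_gen (n : ℕ) (F : Type*) [Field F] [Finite F] :
    ∃ z : SpecialLinearGroup (Fin n) F, Subgroup.center (SpecialLinearGroup (Fin n) F) = Subgroup.zpowers z := by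
  have hfin : Finite Fˣ := inferInstance
  have h1 : IsCyclic (rootsOfUnity (max (Fintype.card (Fin n)) 1) F) := inferInstance
  have h2 : IsCyclic (Subgroup.center (SpecialLinearGroup (Fin n) F)) :=
    isCyclic_of_surjective (SpecialLinearGroup.center_equiv_rootsOfUnity (n := Fin n) (R := F)).symm.toMonoidHom
      (SpecialLinearGroup.center_equiv_rootsOfUnity (n := Fin n) (R := F)).symm.surjective
  obtain ⟨z, hz⟩ := h2.exists_generator
  refine ⟨z, ?_⟩
  ext x
  constructor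
  · intro hx
    obtain ⟨k, hk⟩ := hz ⟨x, hx⟩
    exact ⟨k, congrArg Subtype.val hk⟩
  · rintro ⟨k, rfl⟩
    exact zpow_mem z.2 k

theorem pres_psl {n m k : ℕ} {F : Type*} [Field F] [Fintype F] (h : HasPres (SpecialLinearGroup (Fin n) F) m k) :
    HasPres (ProjectiveSpecialLinearGroup (Fin n) F) m (k + 1) := by
  obtain ⟨z, hz⟩ := center_gen n F
  exact h.quot _ z hz

end H43.SLRels
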