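import Cfsg.Agent.Lib.H43.Target3
import Cfsg.Agent.Lib.H43.SL2Setup
import Cfsg.Agent.Lib.H43.SLFour

/-!
The presentation of `SL_3` with 4 generators and 14 relations.
-/
set_option autoImplicit false

namespace H43.Rel3

open Matrix Equiv H43.Borel H43.SL2R H43.FieldStr H43.SteinHom H43.SDM H43.SLPerm H43.Hom3 H43.SLRels H43.Tietze

section
variable {F : Type*} [Field F] [Fintype F] {p : ℕ} [Fact p.Prime]

/-- the cube of a generator generates the field -/
theorem adjoin_cube [Algebra (ZMod p) F] {ζ : Fˣ} (hζ : ∀ t : Fˣ, t ∈ Subgroup.zpowers ζ)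
    (h4 : Fintype.card F ≠ 4) : Algebra.adjoin (ZMod p) {(ζ : F) ^ 3} = ⊤ := by
  set x : F := (ζ : F) ^ 3 with hx
  set E := IntermediateField.adjoin (ZMod p) {x} with hE
  have hEA : E.toSubalgebra = Algebra.adjoin (ZMod p) {x} :=
    IntermediateField.adjoin_simple_toSubalgebra_of_isAlgebraic (Algebra.IsAlgebraic.isAlgebraic x)
  have hfE : Fintype E := Fintype.ofFinite E
  set r := Fintype.card E with hr
  have hcF : Fintype.card F = r ^ Module.finrank E F := Module.card_eq_pow_finrank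
  have hpow : ∀ z ∈ E, z ^ r = z := by
    intro z hz
    have := FiniteField.pow_card (⟨z, hz⟩ : E)
    exact congrArg Subtype.val this
  have hxE : x ∈ E := IntermediateField.mem_adjoin_simple_self _ x
  have hζ0 : (ζ : F) ≠ 0 := ζ.ne_zero
  have hx0 : x ≠ 0 := pow_ne_zero 3 hζ0
  have hord : orderOf ζ = Fintype.card F - 1 := by
    rw [orderOf_eq_card_of_forall_mem_zpowers hζ, Nat.card_units, Nat.card_eq_fintype_card]
  have hr2 : 2 ≤ r := Fintype.one_lt_card
  have hle : Fintype.card F ≤ 3 * r - 2 := by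
    have h5 : ζ ^ (3 * (r - 1)) = 1 := by
      apply Units.ext
      rw [Units.val_pow_eq_pow_val, pow_mul, Units.val_one]
      have h6 : x ^ (r - 1) * x = 1 * x := by
        rw [← pow_succ, Nat.sub_add_cancel (by omega), one_mul]; exact hpow x hxE
      exact mul_right_cancel₀ hx0 h6
    have h6 := Nat.le_of_dvd (by omega) (orderOf_dvd_of_pow_eq_one h5)
    rw [hord] at h6
    omega
  have hfin : Module.finrank E F = 1 := by
    have h0 : 0 < Module.finrank E F := Module.finrank_pos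
    by_contra hne
    have h5 : 2 ≤ Module.finrank E F := by omega
    have h6 : r ^ 2 ≤ Fintype.card F := by
      rw [hcF]; exact Nat.pow_le_pow_right (by omega) h5
    have h7 : r = 2 := by
      have h8 : r ^ 2 + 2 ≤ 3 * r := by omega
      nlinarith
    rw [h7] at h6 hle
    apply h4; omega
  have hbt : E = ⊤ := by
    rw [← IntermediateField.finrank_eq_one_iff_eq_top]
    exact hfin
  rw [← hEA, hbt, IntermediateField.top_toSubalgebra]

omit [Fintype F] in
theorem exists_M [Finite F] {ζ : Fˣ} (hζ : ∀ t : Fˣ, t ∈ Subgroup.zpowers ζ) : ∃ M : ℕ, ζ ^ M = -1 := by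
  have hfin : Finite Fˣ := inferInstance
  have := (mem_powers_iff_mem_zpowers).2 (hζ (-1))
  obtain ⟨M, hM⟩ := this
  exact ⟨M, hM⟩

end

section
variable {G H : Type*} [Group G] [Group H]

/-- common relations -/
def rl3 (M : ℕ) (u h n c : G) : Fin 8 → G × G :=
  ![(n * n, h ^ M), (n * h * n⁻¹, h⁻¹), (n * u⁻¹ * n⁻¹, u * n * u), (h * u * h⁻¹, kk h c ^ 2 * u * (kk h c ^ 2)⁻¹),
    (h * kk h c, kk h c * h), (h * (c * h * c⁻¹) * (c⁻¹ * h * c), 1), (c * c * c, 1), (c * n * c * n, 1)]

/-- generic relations -/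
def rlB (p e : ℕ) (cf df : ℕ → ℕ) (u h n c : G) : Fin 6 → G × G :=
  ![(u ^ p, 1), (cu u (kk h c ^ 3) e, wd cf e (kk h c ^ 3) u), (kk h c * u * (kk h c)⁻¹, wd df e (kk h c ^ 3) u),
    (u * (c * u * c⁻¹), (c⁻¹ * (n * u⁻¹ * n⁻¹) * c) * (c * u * c⁻¹) * u),
    (u * (c⁻¹ * (n * u⁻¹ * n⁻¹) * c), (c⁻¹ * (n * u⁻¹ * n⁻¹) * c) * u),
    ((c⁻¹ * (n * u⁻¹ * n⁻¹) * c) * (c * u * c⁻¹), (c * u * c⁻¹) * (c⁻¹ * (n * u⁻¹ * n⁻¹) * c))]

/-- relations for the field of four elements -/
def rlC (u h n c : G) : Fin 6 → G × G :=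
  ![(u ^ 2, 1), (kk h c ^ 2 * u * (kk h c ^ 2)⁻¹, u * (kk h c * u * (kk h c)⁻¹)),
    (u * (c * u * c⁻¹), (c⁻¹ * (n * u⁻¹ * n⁻¹) * c) * (c * u * c⁻¹) * u),
    (u * (c * (kk h c * u * (kk h c)⁻¹) * c⁻¹),
      (c⁻¹ * (n * (kk h c * u * (kk h c)⁻¹)⁻¹ * n⁻¹) * c) * (c * (kk h c * u * (kk h c)⁻¹) * c⁻¹) * u),
    (u * (c * (kk h c ^ 2 * u * (kk h c ^ 2)⁻¹) * c⁻¹),
      (c⁻¹ * (n * (kk h c ^ 2 * u * (kk h c ^ 2)⁻¹)⁻¹ * n⁻¹) * c) * (c * (kk h c ^ 2 * u * (kk h c ^ 2)⁻¹) * c⁻¹) * u),
    (1, 1)]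

theorem map_kk (f : G →* H) (h c : G) : f (kk h c) = kk (f h) (f c) := by
  unfold kk; simp only [map_mul, map_inv]

theorem map_rl3 (f : G →* H) (M : ℕ) (u h n c : G) (i : Fin 8) :
    Prod.map f f (rl3 M u h n c i) = rl3 M (f u) (f h) (f n) (f c) i := by
  fin_cases i <;> simp [rl3, map_kk]

theorem map_rlB (f : G →* H) (p e : ℕ) (cf df : ℕ → ℕ) (u h n c : G) (i : Fin 6) :
    Prod.map f f (rlB p e cf df u h n c i) = rlB p e cf df (f u) (f h) (f n) (f c) i := by
  fin_cases i <;> simp [rlB, map_kk, map_wd, map_cu]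

theorem map_rlC (f : G →* H) (u h n c : G) (i : Fin 6) :
    Prod.map f f (rlC u h n c i) = rlC (f u) (f h) (f n) (f c) i := by
  fin_cases i <;> simp [rlC, map_kk]

theorem R3_iff (M : ℕ) (u h n c : G) : (∀ i, (rl3 M u h n c i).1 = (rl3 M u h n c i).2) ↔ R3 u h n c M := by
  constructor
  · intro H
    exact ⟨H 0, H 1, H 2, H 3, H 4, H 5, H 6, H 7⟩
  · intro H i
    fin_cases i
    · exact H.ra
    · exact H.rb
    · exact H.rc
    · exact H.rf
    · exact H.rg
    · exact H.ri
    · exact H.rj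
    · exact H.rk

theorem RB_iff (M p e : ℕ) (cf df : ℕ → ℕ) (u h n c : G) :
    ((∀ i, (rl3 M u h n c i).1 = (rl3 M u h n c i).2) ∧
      (∀ i, (rlB p e cf df u h n c i).1 = (rlB p e cf df u h n c i).2)) ↔ RB u h n c M p e cf df := by
  constructor
  · rintro ⟨H1, H⟩
    exact ⟨(R3_iff M u h n c).1 H1, H 0, H 1, H 2, H 3, H 4, H 5⟩
  · intro H
    refine ⟨(R3_iff M u h n c).2 H.r3, fun i => ?_⟩
    fin_cases i
    · exact H.rd
    · exact H.e1
    · exact H.e2
    · exact H.rl
    · exact H.rm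
    · exact H.rn

theorem RC_iff (u h n c : G) :
    ((∀ i, (rl3 0 u h n c i).1 = (rl3 0 u h n c i).2) ∧
      (∀ i, (rlC u h n c i).1 = (rlC u h n c i).2)) ↔ RC u h n c := by
  constructor
  · rintro ⟨H1, H⟩
    exact ⟨(R3_iff 0 u h n c).1 H1, H 0, H 1, H 2, H 3, H 4⟩
  · intro H
    refine ⟨(R3_iff 0 u h n c).2 H.r3, fun i => ?_⟩
    fin_cases i
    · exact H.rd
    · exact H.re
    · exact H.l0
    · exact H.l1
    · exact H.l2
    · rfl

end

/-- presentations from natural relator lists -/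
theorem pres_of_lists {Γ : Type*} [Group Γ] (v : Fin 4 → Γ) (hv : Subgroup.closure (Set.range v) = ⊤)
    {J : Type} [Fintype J] (rl : ∀ {G : Type} [Group G], G → G → G → G → J → G × G)
    (rl' : Γ → Γ → Γ → Γ → J → Γ × Γ)
    (nat : ∀ {G H : Type} [Group G] [Group H] (f : G →* H) (a b c d : G) (i : J),
      Prod.map f f (rl a b c d i) = rl (f a) (f b) (f c) (f d) i)
    (nat' : ∀ {G : Type} [Group G] (f : G →* Γ) (a b c d : G) (i : J),
      Prod.map f f (rl a b c d i) = rl' (f a) (f b) (f c) (f d) i)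
    (hsat : ∀ i, (rl' (v 0) (v 1) (v 2) (v 3) i).1 = (rl' (v 0) (v 1) (v 2) (v 3) i).2)
    (hcons : ∀ (G : Type) [Group G] (a b c d : G), (∀ i, (rl a b c d i).1 = (rl a b c d i).2) →
      ∃ f : Γ →* G, f (v 0) = a ∧ f (v 1) = b ∧ f (v 2) = c ∧ f (v 3) = d) :
    HasPres Γ 4 (Fintype.card J) := by
  let fr : J → FreeGroup (Fin 4) × FreeGroup (Fin 4) := rl (FreeGroup.of 0) (FreeGroup.of 1) (FreeGroup.of 2) (FreeGroup.of 3)
  let W : J → FreeGroup (Fin 4) := fun i => (fr i).1 * (fr i).2⁻¹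
  obtain ⟨f, f0, f1, f2, f3⟩ := hcons (PresentedGroup (Set.range W)) (PresentedGroup.of 0) (PresentedGroup.of 1)
    (PresentedGroup.of 2) (PresentedGroup.of 3) (by
      intro i
      have h1 := nat (PresentedGroup.mk (Set.range W)) (FreeGroup.of 0) (FreeGroup.of 1) (FreeGroup.of 2) (FreeGroup.of 3) i
      have h2 : rl (PresentedGroup.of (rels := Set.range W) 0) (PresentedGroup.of 1) (PresentedGroup.of 2) (PresentedGroup.of 3) i =
        Prod.map (PresentedGroup.mk (Set.range W)) (PresentedGroup.mk (Set.range W)) (fr i) := h1.symm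
      rw [h2]
      change PresentedGroup.mk (Set.range W) (fr i).1 = PresentedGroup.mk (Set.range W) (fr i).2
      rw [← mul_inv_eq_one, ← map_inv, ← map_mul]
      exact PresentedGroup.one_of_mem ⟨i, rfl⟩)
  have hP : Pres v (Set.range W) := by
    apply pres_of_hom hv _ f
    · intro i
      fin_cases i
      · exact f0
      · exact f1
      · exact f2
      · exact f3
    · rintro _ ⟨i, rfl⟩
      change FreeGroup.lift v ((fr i).1 * (fr i).2⁻¹) = 1
      rw [map_mul, map_inv, mul_inv_eq_one]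
      have h1 := nat' (FreeGroup.lift v) (FreeGroup.of 0) (FreeGroup.of 1) (FreeGroup.of 2) (FreeGroup.of 3) i
      have h2 := hsat i
      simp only [FreeGroup.lift_apply_of] at h1
      rw [← h1] at h2
      exact h2
  apply hP.hasPres (Equiv.refl _) (Set.finite_range _)
  have := ncard_range_le W
  rwa [Nat.card_eq_fintype_card] at this

/-- `SL_3(q)`: four generators, fourteen relations -/
theorem pres_three (F : Type*) [Field F] [Fintype F] : HasPres (SpecialLinearGroup (Fin 3) F) 4 14 := by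
  obtain ⟨p, hpF⟩ := CharP.exists F
  have hp : p.Prime := (CharP.char_is_prime_or_zero F p).resolve_right (CharP.char_ne_zero_of_finite F p)
  have : Fact p.Prime := ⟨hp⟩
  let _ := ZMod.algebra F p
  obtain ⟨ζ, hζ⟩ := exists_gen F
  by_cases h4 : Fintype.card F = 4
  · have hp2 : p = 2 := by
      have h1 : p ∣ Fintype.card F := (CharP.cast_eq_zero_iff F p _).1 (FiniteField.cast_card_eq_zero F)
      rw [h4] at h1
      have h2 : p ∣ 2 := hp.dvd_of_dvd_pow (n := 2) (by norm_num; exact h1)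
      exact ((Nat.prime_dvd_prime_iff_eq hp Nat.prime_two).1 h2)
    subst hp2
    have h20 : (2 : F) = 0 := by exact_mod_cast CharP.cast_eq_zero F 2
    have hζ2 : (ζ : F) ^ 2 = 1 + ζ := by
      have hord : orderOf ζ = 3 := by
        rw [orderOf_eq_card_of_forall_mem_zpowers hζ, Nat.card_units, Nat.card_eq_fintype_card, h4]
      have e1 : (ζ : F) ^ 3 = 1 := by
        have := pow_orderOf_eq_one ζ
        rw [hord] at this
        rw [← Units.val_pow_eq_pow_val, this]; rfl
      have e2 : (ζ : F) ≠ 1 := by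
        intro h
        have : ζ = 1 := Units.ext h
        rw [this, orderOf_one] at hord
        omega
      have e3 : ((ζ : F) - 1) * ((ζ : F) ^ 2 + ζ + 1) = 0 := by linear_combination e1
      have e4 := (mul_eq_zero.1 e3).resolve_left (sub_ne_zero.2 e2)
      linear_combination e4 - (ζ : F) * h20 - h20
    have key := pres_of_lists (J := Fin 8 ⊕ Fin 6) ![gu F, gh ζ, gn F, gc F] (gen3 hζ)
      (fun {G} _ u h n c => Sum.elim (rl3 0 u h n c) (rlC u h n c))
      (fun u h n c => Sum.elim (rl3 0 u h n c) (rlC u h n c)) (by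
        intro G H _ _ f a b c d i
        rcases i with i | i
        · exact map_rl3 f 0 a b c d i
        · exact map_rlC f a b c d i) (by
        intro G _ f a b c d i
        rcases i with i | i
        · exact map_rl3 f 0 a b c d i
        · exact map_rlC f a b c d i) (by
        have := (RC_iff _ _ _ _).2 (RC_target (ζ := ζ) h20 hζ2)
        intro i
        rcases i with i | i
        · exact this.1 i
        · exact this.2 i) (by
        intro G _ a b c d H
        obtain ⟨f, f1, f2, f3, f4⟩ := homC hζ h4 ((RC_iff a b c d).1 ⟨fun i => H (Sum.inl i), fun i => H (Sum.inr i)⟩)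
        exact ⟨f, f1, f2, f3, f4⟩)
    simpa using key
  · obtain ⟨pb, hpb⟩ := exists_pb (adjoin_cube (p := p) hζ h4)
    obtain ⟨cf, hcf⟩ := coeffs pb (pb.gen ^ pb.dim)
    obtain ⟨df, hdf⟩ := coeffs pb (ζ : F)
    obtain ⟨M, hM⟩ := exists_M hζ
    have hM' : (ζ : F) ^ M = -1 := by
      rw [← Units.val_pow_eq_pow_val, hM]; rfl
    have key := pres_of_lists (J := Fin 8 ⊕ Fin 6) ![gu F, gh ζ, gn F, gc F] (gen3 hζ)
      (fun {G} _ u h n c => Sum.elim (rl3 M u h n c) (rlB p pb.dim cf df u h n c))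
      (fun u h n c => Sum.elim (rl3 M u h n c) (rlB p pb.dim cf df u h n c)) (by
        intro G H _ _ f a b c d i
        rcases i with i | i
        · exact map_rl3 f M a b c d i
        · exact map_rlB f p pb.dim cf df a b c d i) (by
        intro G _ f a b c d i
        rcases i with i | i
        · exact map_rl3 f M a b c d i
        · exact map_rlB f p pb.dim cf df a b c d i) (by
        have := (RB_iff _ _ _ _ _ _ _ _ _).2 (RB_target (ζ := ζ) (p := p) hM (by rw [← hpb]; exact hcf) (by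
          rw [← hpb]; exact hdf))
        intro i
        rcases i with i | i
        · exact this.1 i
        · exact this.2 i) (by
        intro G _ a b c d H
        obtain ⟨f, f1, f2, f3, f4⟩ := homB hζ hM' pb hpb hcf hdf
          ((RB_iff M p pb.dim cf df a b c d).1 ⟨fun i => H (Sum.inl i), fun i => H (Sum.inr i)⟩)
        exact ⟨f, f1, f2, f3, f4⟩)
    simpa using key

end H43.Rel3
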