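import Cfsg.Agent.Lib.H43.RegUni

/-!
A criterion for a subgroup of `GL_n` containing a "cyclic" element `w` and transvections in opposite position
to contain `SL_n`.
-/
set_option autoImplicit false

namespace H43.RegCrit

open Matrix Cfsg.Geo H94.Transv
open scoped MatrixGroups

variable {F : Type*} [Field F] {n : ℕ} {K : Subgroup (GL (Fin n) F)}

/-- `v, w v, ..., w^{n-1} v` is a basis and `ψ` vanishes on the first `n - 1` of these vectors. -/
structure Cyc (w : GL (Fin n) F) (v ψ : Fin n → F) : Prop where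
  zero : ∀ k : ℕ, k + 1 < n → ψ ⬝ᵥ (((w ^ k : GL (Fin n) F) : Matrix (Fin n) (Fin n) F) *ᵥ v) = 0
  ne : ψ ⬝ᵥ (((w ^ (n - 1) : GL (Fin n) F) : Matrix (Fin n) (Fin n) F) *ᵥ v) ≠ 0
  inv_ne : ψ ⬝ᵥ (((w⁻¹ : GL (Fin n) F) : Matrix (Fin n) (Fin n) F) *ᵥ v) ≠ 0
  cyc : ∀ φ : Fin n → F, (∀ k : ℕ, k < n → φ ⬝ᵥ (((w ^ k : GL (Fin n) F) : Matrix (Fin n) (Fin n) F) *ᵥ v) = 0) → φ = 0

/-- shifted functionals -/
def ps (w : GL (Fin n) F) (ψ : Fin n → F) (e : ℕ) : Fin n → F :=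
  ψ ᵥ* ((w ^ e : GL (Fin n) F) : Matrix (Fin n) (Fin n) F)

theorem ps_zero (w : GL (Fin n) F) (ψ : Fin n → F) : ps w ψ 0 = ψ := by
  unfold ps; rw [pow_zero, Units.val_one, Matrix.vecMul_one]

theorem ps_pair (w : GL (Fin n) F) (ψ v : Fin n → F) (e : ℕ) (k : ℤ) :
    ps w ψ e ⬝ᵥ (((w ^ k : GL (Fin n) F) : Matrix (Fin n) (Fin n) F) *ᵥ v) =
      ψ ⬝ᵥ (((w ^ ((e : ℤ) + k) : GL (Fin n) F) : Matrix (Fin n) (Fin n) F) *ᵥ v) := by
  unfold ps
  rw [← Matrix.dotProduct_mulVec, Matrix.mulVec_mulVec, ← Units.val_mul, _root_.zpow_add, zpow_natCast]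

theorem ps_pair_self (w : GL (Fin n) F) (ψ v : Fin n → F) (e : ℕ) :
    ps w ψ e ⬝ᵥ v = ψ ⬝ᵥ (((w ^ e : GL (Fin n) F) : Matrix (Fin n) (Fin n) F) *ᵥ v) := by
  have h := ps_pair w ψ v e 0
  rw [zpow_zero, Units.val_one, Matrix.one_mulVec, add_zero, zpow_natCast] at h
  exact h

theorem ps_pair_nat (w : GL (Fin n) F) (ψ v : Fin n → F) (e k : ℕ) :
    ps w ψ e ⬝ᵥ (((w ^ k : GL (Fin n) F) : Matrix (Fin n) (Fin n) F) *ᵥ v) =
      ψ ⬝ᵥ (((w ^ (e + k) : GL (Fin n) F) : Matrix (Fin n) (Fin n) F) *ᵥ v) := by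
  have h := ps_pair w ψ v e k
  rw [zpow_natCast] at h
  rw [h, ← Nat.cast_add, zpow_natCast]

/-- shift of a transvection by a power of `w` -/
theorem shift {w : GL (Fin n) F} (hwK : w ∈ K) {v φ : Fin n → F} (h : HasT K v φ) (k : ℤ) :
    HasT K (((w ^ k : GL (Fin n) F) : Matrix (Fin n) (Fin n) F) *ᵥ v)
      (φ ᵥ* ((w ^ (-k) : GL (Fin n) F) : Matrix (Fin n) (Fin n) F)) := by
  have h1 := h.conj (K.zpow_mem hwK k)
  rwa [← _root_.zpow_neg] at h1

theorem ps_vecMul (w : GL (Fin n) F) (ψ : Fin n → F) (e : ℕ) (k : ℤ) (m : ℕ) (h : (e : ℤ) + k = m) :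
    ps w ψ e ᵥ* ((w ^ k : GL (Fin n) F) : Matrix (Fin n) (Fin n) F) = ps w ψ m := by
  unfold ps
  rw [Matrix.vecMul_vecMul, ← Units.val_mul, ← zpow_natCast w e, ← _root_.zpow_add, h, zpow_natCast]

/-- The basic relation: from `T(v, b ψ_d)` and `T(v, a ψ_e)` get `T(v, b f(d-k) a ψ_{e+k})`. -/
theorem rel {w : GL (Fin n) F} (hwK : w ∈ K) {v ψ : Fin n → F} (d e m : ℕ) (k : ℤ) (hm : (e : ℤ) + k = m)
    (hz : ps w ψ m ⬝ᵥ v = 0) {a b : F} (hb : HasT K v (b • ps w ψ d)) (ha : HasT K v (a • ps w ψ e)) :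
    HasT K v ((b * (ψ ⬝ᵥ (((w ^ ((d : ℤ) - k) : GL (Fin n) F) : Matrix (Fin n) (Fin n) F) *ᵥ v)) * a) • ps w ψ m) := by
  have h1 := shift hwK ha (-k)
  rw [neg_neg, Matrix.smul_vecMul, ps_vecMul w ψ e k m hm] at h1
  have h2 := h1.comm_right hb (by rw [smul_dotProduct, hz, smul_zero])
  rw [smul_dotProduct, ps_pair, smul_smul, smul_eq_mul, ← sub_eq_add_neg] at h2
  exact h2

variable {w : GL (Fin n) F} {v ψ : Fin n → F}

theorem Cyc.ps_zero_of (hc : Cyc w v ψ) (e : ℕ) (he : e + 1 < n) : ps w ψ e ⬝ᵥ v = 0 := by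
  rw [ps_pair_self]; exact hc.zero e he

/-- raising -/
theorem Cyc.up (hc : Cyc w v ψ) (hwK : w ∈ K) (e : ℕ) (he : e + 2 < n) {a b : F}
    (ha : HasT K v (a • ψ)) (hb : HasT K v (b • ps w ψ e)) :
    HasT K v ((b * (ψ ⬝ᵥ (((w⁻¹ : GL (Fin n) F) : Matrix (Fin n) (Fin n) F) *ᵥ v)) * a) • ps w ψ (e + 1)) := by
  have h := rel hwK e 0 (e + 1) ((e : ℤ) + 1) (by push_cast; ring) (hc.ps_zero_of (e + 1) he) hb
    (by rw [ps_zero]; exact ha)
  have e1 : ((e : ℤ) - ((e : ℤ) + 1)) = -1 := by ring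
  rw [e1, _root_.zpow_neg_one] at h
  exact h

/-- lowering -/
theorem Cyc.down (hc : Cyc w v ψ) (hwK : w ∈ K) (hn : 2 ≤ n) (e : ℕ) (he : e + 1 < n) {a b : F}
    (hb : HasT K v (b • ps w ψ (n - 2))) (ha : HasT K v (a • ps w ψ (e + 1))) :
    HasT K v ((b * (ψ ⬝ᵥ (((w ^ (n - 1) : GL (Fin n) F) : Matrix (Fin n) (Fin n) F) *ᵥ v)) * a) • ps w ψ e) := by
  have h := rel hwK (n - 2) (e + 1) e (-1) (by push_cast; ring) (hc.ps_zero_of e he) hb ha
  have e1 : (((n - 2 : ℕ) : ℤ) - (-1)) = ((n - 1 : ℕ) : ℤ) := by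
    have : n - 1 = (n - 2) + 1 := by omega
    rw [this]; push_cast; ring
  rw [e1, zpow_natCast] at h
  exact h

/-- Criterion: all transvections `T(v, a ψ)` and `w` suffice. -/
theorem Cyc.specialLinear_le (hc : Cyc w v ψ) (hwK : w ∈ K) (hn : 2 ≤ n) (hS0 : ∀ a : F, HasT K v (a • ψ)) :
    specialLinear (Fin n) F ≤ K := by
  set ρ := ψ ⬝ᵥ (((w⁻¹ : GL (Fin n) F) : Matrix (Fin n) (Fin n) F) *ᵥ v) with hρ
  have hS : ∀ e : ℕ, e + 1 < n → ∀ a : F, HasT K v (a • ps w ψ e) := by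
    intro e
    induction e with
    | zero => intro _ a; rw [ps_zero]; exact hS0 a
    | succ e ih =>
      intro he a
      have h1 := hc.up hwK e (by omega) (hS0 (a * ρ⁻¹)) (ih (by omega) 1)
      convert h1 using 2
      have := hc.inv_ne
      rw [← hρ] at this ⊢
      field_simp
  have hfull : Full K v := by
    have key : ∀ m : ℕ, m ≤ n → ∀ φ : Fin n → F,
        (∀ k : ℕ, k < n - m → φ ⬝ᵥ (((w ^ k : GL (Fin n) F) : Matrix (Fin n) (Fin n) F) *ᵥ v) = 0) →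
        (m < n) → HasT K v φ := by
      intro m
      induction m with
      | zero =>
        intro _ φ hφ _
        rw [hc.cyc φ (fun k hk => hφ k (by omega))]
        exact HasT.zero_right v
      | succ m ih =>
        intro hm φ hφ hmn
        -- kill the value at k = n - 1 - m
        have hne : ps w ψ m ⬝ᵥ (((w ^ (n - 1 - m) : GL (Fin n) F) : Matrix (Fin n) (Fin n) F) *ᵥ v) ≠ 0 := by
          rw [ps_pair_nat]
          have : m + (n - 1 - m) = n - 1 := by omega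
          rw [this]; exact hc.ne
        set a := φ ⬝ᵥ (((w ^ (n - 1 - m) : GL (Fin n) F) : Matrix (Fin n) (Fin n) F) *ᵥ v) /
          (ps w ψ m ⬝ᵥ (((w ^ (n - 1 - m) : GL (Fin n) F) : Matrix (Fin n) (Fin n) F) *ᵥ v)) with ha
        have h1 : HasT K v (φ - a • ps w ψ m) := by
          apply ih (by omega) _ _ (by omega)
          intro k hk
          rw [sub_dotProduct, smul_dotProduct, smul_eq_mul]
          rcases Nat.lt_or_ge k (n - (m + 1)) with h2 | h2
          · rw [hφ k h2, ps_pair_nat, hc.zero (m + k) (by omega)]; ring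
          · have : k = n - 1 - m := by omega
            rw [this, ha, div_mul_cancel₀ _ hne, sub_self]
        have h2 := h1.add_right (hS m (by omega) a)
        rwa [sub_add_cancel] at h2
    intro φ hφ
    apply key (n - 1) (by omega) φ _ (by omega)
    intro k hk
    have : k = 0 := by omega
    rw [this, pow_zero, Units.val_one, Matrix.one_mulVec]
    exact hφ
  apply specialLinear_le_of_full
  by_contra hne
  obtain ⟨y, hy⟩ : ∃ y, y ∉ fullSubmodule K := by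
    by_contra hcon
    push Not at hcon
    exact hne (eq_top_iff.2 fun x _ => hcon x)
  obtain ⟨φ, hφ, hφy⟩ := exists_functional_submodule hy
  have hφ0 : φ = 0 := by
    apply hc.cyc
    intro k _
    apply hφ
    have hv : v ∈ fullSubmodule K := hfull
    exact fullSubmodule_stable (K.pow_mem hwK k) hv
  rw [hφ0, zero_dotProduct] at hφy
  exact zero_ne_one hφy

/-- from `ψ_{n-2}` down to `ψ_0` -/
theorem Cyc.exists_of_top (hc : Cyc w v ψ) (hwK : w ∈ K) (hn : 2 ≤ n) {b : F} (hb0 : b ≠ 0)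
    (hb : HasT K v (b • ps w ψ (n - 2))) : ∃ c : F, c ≠ 0 ∧ HasT K v (c • ψ) := by
  have key : ∀ m : ℕ, m + 2 ≤ n → ∃ c : F, c ≠ 0 ∧ HasT K v (c • ps w ψ (n - 2 - m)) := by
    intro m
    induction m with
    | zero => intro _; exact ⟨b, hb0, hb⟩
    | succ m ih =>
      intro hm
      obtain ⟨c, hc0, hc1⟩ := ih (by omega)
      have e1 : n - 2 - m = (n - 2 - (m + 1)) + 1 := by omega
      rw [e1] at hc1
      exact ⟨_, mul_ne_zero (mul_ne_zero hb0 hc.ne) hc0, hc.down hwK hn _ (by omega) hb hc1⟩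
  obtain ⟨c, hc0, hc1⟩ := key (n - 2) (by omega)
  rw [Nat.sub_self, ps_zero] at hc1
  exact ⟨c, hc0, hc1⟩

/-- over a prime field a single nonzero multiple suffices -/
theorem Cyc.specialLinear_le_of_prime [Fintype F] (hp : (Fintype.card F).Prime) (hc : Cyc w v ψ) (hwK : w ∈ K)
    (hn : 2 ≤ n) {b : F} (hb0 : b ≠ 0) (hb : HasT K v (b • ψ)) : specialLinear (Fin n) F ≤ K := by
  apply hc.specialLinear_le hwK hn
  have hnat : ∀ k : ℕ, HasT K v (((k : F) * b) • ψ) := by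
    intro k
    induction k with
    | zero => simp only [Nat.cast_zero, zero_mul, zero_smul]; exact HasT.zero_right v
    | succ k ih =>
      have := ih.add_right hb
      rw [← add_smul] at this
      convert this using 2
      push_cast; ring
  intro a
  -- every element of a prime field is a natural number
  have hcast : ∃ k : ℕ, (k : F) = a / b := by
    obtain ⟨p, hp'⟩ := CharP.exists F
    have hpp : Fact p.Prime := ⟨CharP.char_is_prime F p⟩
    have hdvd : p ∣ Fintype.card F := (CharP.cast_eq_zero_iff F p _).1 (FiniteField.cast_card_eq_zero F)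
    have hpc : p = Fintype.card F := (Nat.prime_dvd_prime_iff_eq hpp.out hp).1 hdvd
    have hbij : Function.Bijective (ZMod.castHom (dvd_refl p) F) := by
      rw [Fintype.bijective_iff_injective_and_card]
      exact ⟨RingHom.injective _, by rw [ZMod.card, hpc]⟩
    obtain ⟨x, hx⟩ := hbij.2 (a / b)
    refine ⟨x.val, ?_⟩
    rw [← hx, ← map_natCast (ZMod.castHom (dvd_refl p) F), ZMod.natCast_zmod_val]
  obtain ⟨k, hk⟩ := hcast
  have := hnat k
  rw [hk, div_mul_cancel₀ _ hb0] at this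
  exact this

end H43.RegCrit
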