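import Cfsg.Agent.Lib.H43.RegLev

/-!
Upper Hessenberg matrices, the cyclic lower unitriangular element, and two conjugate regular unipotents
over a prime field.
-/
set_option autoImplicit false

namespace H43.RegHess

open Matrix Cfsg.Geo H94.Transv H43.RegCrit H43.RegUni H43.RegLev
open scoped MatrixGroups

variable {F : Type*} [Field F] {n : ℕ}

/-- unreduced upper Hessenberg matrices -/
structure Hess (M : Matrix (Fin n) (Fin n) F) : Prop where
  zero : ∀ i j : Fin n, (j : ℕ) + 1 < i → M i j = 0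
  ne : ∀ i j : Fin n, (i : ℕ) = j + 1 → M i j ≠ 0

theorem Hess.add_diag {M : Matrix (Fin n) (Fin n) F} (h : Hess M) (c : F) : Hess (M + c • 1) := by
  constructor
  · intro i j hij
    rw [Matrix.add_apply, h.zero i j hij, Matrix.smul_apply, Matrix.one_apply, if_neg]
    · simp
    · intro e; rw [e] at hij; omega
  · intro i j hij
    rw [Matrix.add_apply, Matrix.smul_apply, Matrix.one_apply, if_neg]
    · simpa using h.ne i j hij
    · intro e; rw [e] at hij; omega

theorem Hess.sub_one {M : Matrix (Fin n) (Fin n) F} (h : Hess M) : Hess (M - 1) := by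
  have := h.add_diag (-1)
  rwa [neg_one_smul, ← sub_eq_add_neg] at this

/-- the orbit of the first basis vector -/
theorem Hess.pow_vals {M : Matrix (Fin n) (Fin n) F} (h : Hess M) (hn : 0 < n) (k : ℕ) :
    (∀ i : Fin n, k < (i : ℕ) → (M ^ k *ᵥ (Pi.single (⟨0, hn⟩ : Fin n) 1)) i = 0) ∧
    (∀ i : Fin n, (i : ℕ) = k → (M ^ k *ᵥ (Pi.single (⟨0, hn⟩ : Fin n) 1)) i ≠ 0) := by
  induction k with
  | zero =>
    refine ⟨?_, ?_⟩
    · intro i hi
      rw [pow_zero, Matrix.one_mulVec, Pi.single_apply, if_neg]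
      intro e; rw [e] at hi; simp at hi
    · intro i hi
      rw [pow_zero, Matrix.one_mulVec, Pi.single_apply, if_pos (Fin.ext hi)]
      exact one_ne_zero
  | succ k ih =>
    have hstep : ∀ i : Fin n, ∀ hik : (i : ℕ) = k + 1, (M ^ (k + 1) *ᵥ (Pi.single (⟨0, hn⟩ : Fin n) 1)) i =
        M i ⟨k, by have := i.2; omega⟩ * (M ^ k *ᵥ (Pi.single (⟨0, hn⟩ : Fin n) 1)) ⟨k, by have := i.2; omega⟩ := by
      intro i hik
      rw [_root_.pow_succ', ← Matrix.mulVec_mulVec]
      conv_lhs => rw [Matrix.mulVec, dotProduct]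
      rw [Finset.sum_eq_single (⟨k, by have := i.2; omega⟩ : Fin n)]
      · intro j _ hj
        have hj' : (j : ℕ) ≠ k := fun e => hj (Fin.ext e)
        rcases Nat.lt_or_ge (j : ℕ) k with h2 | h2
        · rw [h.zero i j (by omega), zero_mul]
        · rw [ih.1 j (by omega), mul_zero]
      · intro h'; exact absurd (Finset.mem_univ _) h'
    refine ⟨?_, ?_⟩
    · intro i hi
      rw [_root_.pow_succ', ← Matrix.mulVec_mulVec, Matrix.mulVec, dotProduct]
      apply Finset.sum_eq_zero
      intro j _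
      rcases Nat.lt_or_ge k (j : ℕ) with h2 | h2
      · rw [ih.1 j h2, mul_zero]
      · rw [h.zero i j (by omega), zero_mul]
    · intro i hi
      rw [hstep i hi]
      exact mul_ne_zero (h.ne _ _ (by simp; omega)) (ih.2 _ rfl)

theorem Hess.cyc {M : Matrix (Fin n) (Fin n) F} (h : Hess M) (hn : 0 < n) (φ : Fin n → F)
    (hφ : ∀ k : ℕ, k < n → φ ⬝ᵥ (M ^ k *ᵥ (Pi.single (⟨0, hn⟩ : Fin n) 1)) = 0) : φ = 0 := by
  have key : ∀ m : ℕ, ∀ j : Fin n, (j : ℕ) < m → φ j = 0 := by
    intro m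
    induction m with
    | zero => intro j hj; omega
    | succ m ih =>
      intro j hj
      rcases Nat.lt_or_ge (j : ℕ) m with h1 | h1
      · exact ih j h1
      have hjm : (j : ℕ) = m := by omega
      have h2 := hφ j j.2
      rw [dotProduct, Finset.sum_eq_single j] at h2
      · rcases mul_eq_zero.1 h2 with h3 | h3
        · exact h3
        · exact absurd h3 ((h.pow_vals hn j).2 j rfl)
      · intro i _ hi
        have hi' : (i : ℕ) ≠ j := fun e => hi (Fin.ext e)
        rcases Nat.lt_or_ge (i : ℕ) (j : ℕ) with h3 | h3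
        · rw [ih i (by omega), zero_mul]
        · rw [(h.pow_vals hn j).1 i (by omega), mul_zero]
      · intro h'; exact absurd (Finset.mem_univ _) h'
  funext j
  exact key _ j (Nat.lt_succ_self _)

/-- a cyclic structure from a Hessenberg group element -/
theorem Hess.toCyc {w : GL (Fin n) F} (h : Hess (w : Matrix (Fin n) (Fin n) F)) (hn : 2 ≤ n) :
    Cyc w (Pi.single (⟨0, by omega⟩ : Fin n) 1) (Pi.single (⟨n - 1, by omega⟩ : Fin n) 1) := by
  have hcyc : ∀ φ : Fin n → F, (∀ k : ℕ, k < n → φ ⬝ᵥ (((w ^ k : GL (Fin n) F) : Matrix (Fin n) (Fin n) F) *ᵥ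
      (Pi.single (⟨0, by omega⟩ : Fin n) 1)) = 0) → φ = 0 := by
    intro φ hφ
    apply h.cyc (by omega) φ
    intro k hk
    have := hφ k hk
    rwa [Units.val_pow_eq_pow_val] at this
  have hzero : ∀ k : ℕ, k + 1 < n → (Pi.single (⟨n - 1, by omega⟩ : Fin n) 1 : Fin n → F) ⬝ᵥ
      (((w ^ k : GL (Fin n) F) : Matrix (Fin n) (Fin n) F) *ᵥ (Pi.single (⟨0, by omega⟩ : Fin n) 1)) = 0 := by
    intro k hk
    rw [single_dotProduct, one_mul, Units.val_pow_eq_pow_val]
    exact (h.pow_vals (by omega) k).1 _ (by change k < n - 1; omega)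
  refine ⟨hzero, ?_, ?_, hcyc⟩
  · rw [single_dotProduct, one_mul, Units.val_pow_eq_pow_val]
    exact (h.pow_vals (by omega) (n - 1)).2 _ rfl
  · intro hinv
    have h0 : (Pi.single (⟨n - 1, by omega⟩ : Fin n) 1 : Fin n → F) ᵥ* ((w⁻¹ : GL (Fin n) F) : Matrix (Fin n) (Fin n) F) = 0 := by
      apply hcyc
      intro k hk
      rw [← Matrix.dotProduct_mulVec, Matrix.mulVec_mulVec, ← Units.val_mul]
      rcases Nat.eq_zero_or_pos k with hk0 | hk0
      · rw [hk0, pow_zero, mul_one]; exact hinv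
      · have : w⁻¹ * w ^ k = w ^ (k - 1) := by
          have : k = (k - 1) + 1 := by omega
          rw [this, _root_.pow_succ', inv_mul_cancel_left, Nat.add_sub_cancel]
        rw [this]
        exact hzero _ (by omega)
    have h1 : (Pi.single (⟨n - 1, by omega⟩ : Fin n) 1 : Fin n → F) = 0 := by
      have := congrArg (fun x => x ᵥ* (w : Matrix (Fin n) (Fin n) F)) h0
      rwa [Matrix.vecMul_vecMul, ← Units.val_mul, inv_mul_cancel, Units.val_one, Matrix.vecMul_one,
        Matrix.zero_vecMul] at this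
    have := congrFun h1 ⟨n - 1, by omega⟩
    rw [Pi.single_eq_same] at this
    exact one_ne_zero this

theorem LL_hess (l : ℕ → F) (hl : ∀ i, l i ≠ 0) : Hess (1 + LL l : Matrix (Fin n) (Fin n) F) := by
  constructor
  · intro i j hij
    rw [Matrix.add_apply, LL, Matrix.one_apply, if_neg, if_neg (by omega), add_zero]
    intro e; rw [e] at hij; omega
  · intro i j hij
    rw [Matrix.add_apply, LL, Matrix.one_apply, if_neg, if_pos hij, zero_add]
    · exact hl i
    · intro e; rw [e] at hij; omega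

theorem det_one_add_LL (l : ℕ → F) : (1 + LL l : Matrix (Fin n) (Fin n) F).det = 1 := by
  rw [Matrix.det_of_isLowerTriangular]
  · apply Finset.prod_eq_one
    intro i _
    simp [LL]
  · intro i j hij
    have hij' : (i : ℕ) < j := hij
    rw [Matrix.add_apply, LL, Matrix.one_apply, if_neg, if_neg (by omega), add_zero]
    intro e; rw [e] at hij'; omega

/-- the lower unitriangular Jordan block -/
def WS (n : ℕ) (F : Type*) [Field F] : Matrix.SpecialLinearGroup (Fin n) F := ⟨1 + LL (fun _ => 1), det_one_add_LL _⟩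

theorem LL_pow (k : ℕ) (i j : Fin n) : (LL (fun _ => (1 : F)) ^ k : Matrix (Fin n) (Fin n) F) i j = if (i : ℕ) = j + k then 1 else 0 := by
  induction k generalizing i j with
  | zero =>
    rw [pow_zero, Matrix.one_apply]
    by_cases h : i = j
    · rw [if_pos h, if_pos (by rw [h]; simp)]
    · rw [if_neg h, if_neg (fun h' => h (Fin.ext (by simpa using h')))]
  | succ k ih =>
    rw [_root_.pow_succ, Matrix.mul_apply]
    by_cases hj : (j : ℕ) + 1 < n
    · rw [Finset.sum_eq_single (⟨j + 1, hj⟩ : Fin n)]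
      · have e1 : LL (fun _ => (1 : F)) (⟨j + 1, hj⟩ : Fin n) j = 1 := by rw [LL, if_pos (by simp)]
        rw [ih, e1, mul_one]
        congr 1
        simp only [eq_iff_iff]
        omega
      · intro b _ hb
        rw [LL, if_neg (fun h => hb (Fin.ext h)), mul_zero]
      · intro h; exact absurd (Finset.mem_univ _) h
    · rw [if_neg (by have := i.2; omega)]
      apply Finset.sum_eq_zero
      intro b _
      rw [LL, if_neg (by have := b.2; omega), mul_zero]

theorem LL_pow_n : (LL (fun _ => (1 : F)) ^ n : Matrix (Fin n) (Fin n) F) = 0 := by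
  ext i j
  rw [LL_pow, if_neg (by have := i.2; omega)]; rfl

theorem LL_nilpotent : IsNilpotent (LL (fun _ => (1 : F)) : Matrix (Fin n) (Fin n) F) := ⟨n, LL_pow_n⟩

theorem LL_pow_ne (hn : 0 < n) : (LL (fun _ => (1 : F)) : Matrix (Fin n) (Fin n) F) ^ (n - 1) ≠ 0 := by
  intro h
  have h1 := congrFun (congrFun h ⟨n - 1, by omega⟩) ⟨0, hn⟩
  rw [LL_pow, if_pos (by simp)] at h1
  exact one_ne_zero h1

theorem WS_sub_one : ((WS n F : Matrix.SpecialLinearGroup (Fin n) F) : Matrix (Fin n) (Fin n) F) - 1 = LL (fun _ => 1) := by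
  change 1 + LL (fun _ => (1 : F)) - 1 = _
  rw [add_sub_cancel_left]

theorem WS_regular (hn : 0 < n) : IsNilpotent (((WS n F : Matrix.SpecialLinearGroup (Fin n) F) : Matrix (Fin n) (Fin n) F) - 1) ∧
    (((WS n F : Matrix.SpecialLinearGroup (Fin n) F) : Matrix (Fin n) (Fin n) F) - 1) ^ (n - 1) ≠ 0 := by
  rw [WS_sub_one]
  exact ⟨LL_nilpotent, LL_pow_ne hn⟩

theorem WS_cyc (hn : 2 ≤ n) : Cyc (Matrix.SpecialLinearGroup.toGL (WS n F))
    (Pi.single (⟨0, by omega⟩ : Fin n) 1) (Pi.single (⟨n - 1, by omega⟩ : Fin n) 1) :=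
  Hess.toCyc (LL_hess _ (fun _ => one_ne_zero)) hn

/-- transfer of the criterion to subgroups of SL -/
theorem eq_top_of_map {H : Subgroup (Matrix.SpecialLinearGroup (Fin n) F)}
    (h : specialLinear (Fin n) F ≤ H.map Matrix.SpecialLinearGroup.toGL) : H = ⊤ := by
  rw [eq_top_iff]
  intro x _
  have hx : Matrix.SpecialLinearGroup.toGL x ∈ specialLinear (Fin n) F := by
    rw [mem_specialLinear_iff]
    exact x.det_coe
  obtain ⟨y, hy, hxy⟩ := h hx
  rw [← Matrix.SpecialLinearGroup.toGL_injective hxy]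
  exact hy

/-- S2279, prime case -/
theorem prime_case [Fintype F] (hp : (Fintype.card F).Prime) (hn : 4 ≤ n) :
    Subgroup.closure ({WS n F, tS (⟨0, by omega⟩ : Fin n) ⟨n - 1, by omega⟩ (by rw [Ne, Fin.mk.injEq]; omega) 1 * WS n F *
      (tS (⟨0, by omega⟩ : Fin n) ⟨n - 1, by omega⟩ (by rw [Ne, Fin.mk.injEq]; omega) 1)⁻¹} :
        Set (Matrix.SpecialLinearGroup (Fin n) F)) = ⊤ := by
  set t : Matrix.SpecialLinearGroup (Fin n) F :=
    tS (⟨0, by omega⟩ : Fin n) ⟨n - 1, by omega⟩ (by rw [Ne, Fin.mk.injEq]; omega) 1 with ht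
  apply eq_top_of_map
  set K := (Subgroup.closure ({WS n F, t * WS n F * t⁻¹} : Set (Matrix.SpecialLinearGroup (Fin n) F))).map
    Matrix.SpecialLinearGroup.toGL with hK
  have hw : Matrix.SpecialLinearGroup.toGL (WS n F) ∈ K := ⟨_, Subgroup.subset_closure (by simp), rfl⟩
  have htw : Matrix.SpecialLinearGroup.toGL t * Matrix.SpecialLinearGroup.toGL (WS n F) *
      (Matrix.SpecialLinearGroup.toGL t)⁻¹ ∈ K := by
    rw [← map_mul, ← map_inv, ← map_mul]
    exact ⟨_, Subgroup.subset_closure (by simp), rfl⟩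
  have hc := WS_cyc (F := F) (n := n) (by omega)
  have htv : ((Matrix.SpecialLinearGroup.toGL t : GL (Fin n) F) : Matrix (Fin n) (Fin n) F) =
      tm (Pi.single (⟨0, by omega⟩ : Fin n) 1) ((1 : F) • Pi.single (⟨n - 1, by omega⟩ : Fin n) 1) := by
    change Matrix.transvection _ _ 1 = _
    rw [transvection_eq_tm, one_smul]
  obtain ⟨b, hb0, hb⟩ := H43.RegLev.Cyc.exists_top_of_pair hn hc one_ne_zero htv hw htw
  obtain ⟨c, hc0, hc1⟩ := hc.exists_of_top hw (by omega) hb0 hb
  exact hc.specialLinear_le_of_prime hp hw (by omega) hc0 hc1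

end H43.RegHess
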