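import Cfsg.Agent.Lib.H43.RegCrit

/-!
Two conjugate regular unipotents over a prime field: the lower central series argument.
-/
set_option autoImplicit false

namespace H43.RegLev

open Matrix Cfsg.Geo H94.Transv H43.RegCrit H43.RegUni
open scoped MatrixGroups

variable {F : Type*} [Field F] {n : ℕ}

/-- matrices supported on the `m`-th lower diagonals and below -/
def Lev (m : ℕ) (a : Matrix (Fin n) (Fin n) F) : Prop := ∀ i j : Fin n, (i : ℕ) < (j : ℕ) + m → a i j = 0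

theorem Lev.add {m : ℕ} {a b : Matrix (Fin n) (Fin n) F} (ha : Lev m a) (hb : Lev m b) : Lev m (a + b) := by
  intro i j h; rw [Matrix.add_apply, ha i j h, hb i j h, add_zero]

theorem Lev.sub {m : ℕ} {a b : Matrix (Fin n) (Fin n) F} (ha : Lev m a) (hb : Lev m b) : Lev m (a - b) := by
  intro i j h; rw [Matrix.sub_apply, ha i j h, hb i j h, sub_zero]

theorem Lev.neg {m : ℕ} {a : Matrix (Fin n) (Fin n) F} (ha : Lev m a) : Lev m (-a) := by
  intro i j h; rw [Matrix.neg_apply, ha i j h, neg_zero]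

theorem Lev.mono {m k : ℕ} (h : k ≤ m) {a : Matrix (Fin n) (Fin n) F} (ha : Lev m a) : Lev k a :=
  fun i j hij => ha i j (by omega)

theorem Lev.one : Lev 0 (1 : Matrix (Fin n) (Fin n) F) := by
  intro i j h; rw [Matrix.one_apply, if_neg]; intro e; rw [e] at h; omega

theorem Lev.mul {m k : ℕ} {a b : Matrix (Fin n) (Fin n) F} (ha : Lev m a) (hb : Lev k b) : Lev (m + k) (a * b) := by
  intro i j h
  rw [Matrix.mul_apply]
  apply Finset.sum_eq_zero
  intro l _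
  rcases Nat.lt_or_ge (i : ℕ) ((l : ℕ) + m) with h1 | h1
  · rw [ha i l h1, zero_mul]
  · rw [hb l j (by omega), mul_zero]

theorem Lev.mul_entry {m k : ℕ} {a b : Matrix (Fin n) (Fin n) F} (ha : Lev m a) (hb : Lev k b) (i l j : Fin n)
    (h1 : (i : ℕ) = l + m) (h2 : (l : ℕ) = j + k) : (a * b) i j = a i l * b l j := by
  rw [Matrix.mul_apply, Finset.sum_eq_single l]
  · intro l' _ hne
    have hne' : (l' : ℕ) ≠ l := fun h => hne (Fin.ext h)
    rcases Nat.lt_or_ge (i : ℕ) ((l' : ℕ) + m) with h3 | h3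
    · rw [ha i l' h3, zero_mul]
    · rw [hb l' j (by omega), mul_zero]
  · intro h; exact absurd (Finset.mem_univ _) h

theorem Lev.inv [Finite F] {g : GL (Fin n) F} (hg : Lev 0 (g : Matrix (Fin n) (Fin n) F)) :
    Lev 0 ((g⁻¹ : GL (Fin n) F) : Matrix (Fin n) (Fin n) F) := by
  have hpow : ∀ k : ℕ, Lev 0 ((g ^ k : GL (Fin n) F) : Matrix (Fin n) (Fin n) F) := by
    intro k
    induction k with
    | zero => rw [pow_zero, Units.val_one]; exact Lev.one
    | succ k ih => rw [_root_.pow_succ, Units.val_mul]; exact ih.mul hg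
  have hfin : Finite (GL (Fin n) F) := inferInstance
  have h1 : g⁻¹ = g ^ (orderOf g - 1) := by
    rw [inv_eq_iff_mul_eq_one, ← _root_.pow_succ', Nat.sub_add_cancel (orderOf_pos g), pow_orderOf_eq_one]
  rw [h1]; exact hpow _

theorem Lev.inv_one [Finite F] {g : GL (Fin n) F} (hg : Lev 1 ((g : Matrix (Fin n) (Fin n) F) - 1)) :
    Lev 1 (((g⁻¹ : GL (Fin n) F) : Matrix (Fin n) (Fin n) F) - 1) := by
  have h0 : Lev 0 (g : Matrix (Fin n) (Fin n) F) := by
    have := (hg.mono (Nat.zero_le 1)).add Lev.one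
    rwa [sub_add_cancel] at this
  have h1 : ((g⁻¹ : GL (Fin n) F) : Matrix (Fin n) (Fin n) F) - 1 =
      -(((g⁻¹ : GL (Fin n) F) : Matrix (Fin n) (Fin n) F) * ((g : Matrix (Fin n) (Fin n) F) - 1)) := by
    rw [mul_sub, mul_one, ← Units.val_mul, inv_mul_cancel, Units.val_one, neg_sub]
  rw [h1]
  have := (h0.inv.mul hg).neg
  rwa [zero_add] at this

theorem comm_sub_one (A B : GL (Fin n) F) :
    ((A * B * A⁻¹ * B⁻¹ : GL (Fin n) F) : Matrix (Fin n) (Fin n) F) - 1 =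
      (((A : Matrix (Fin n) (Fin n) F) - 1) * ((B : Matrix (Fin n) (Fin n) F) - 1) -
        ((B : Matrix (Fin n) (Fin n) F) - 1) * ((A : Matrix (Fin n) (Fin n) F) - 1)) *
        (((A⁻¹ : GL (Fin n) F) : Matrix (Fin n) (Fin n) F) * ((B⁻¹ : GL (Fin n) F) : Matrix (Fin n) (Fin n) F)) := by
  have h1 : (((A : Matrix (Fin n) (Fin n) F) - 1) * ((B : Matrix (Fin n) (Fin n) F) - 1) -
        ((B : Matrix (Fin n) (Fin n) F) - 1) * ((A : Matrix (Fin n) (Fin n) F) - 1)) =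
      (A : Matrix (Fin n) (Fin n) F) * B - (B : Matrix (Fin n) (Fin n) F) * A := by noncomm_ring
  rw [h1, sub_mul, Units.val_mul, Units.val_mul, Units.val_mul]
  congr 1
  · simp only [mul_assoc]
  · rw [← Units.val_mul, ← Units.val_mul, ← Units.val_mul]
    have : B * A * (A⁻¹ * B⁻¹) = 1 := by group
    rw [this, Units.val_one]

theorem comm_lev [Finite F] {m : ℕ} {A B : GL (Fin n) F} (hm : 1 ≤ m) (hA : Lev m ((A : Matrix (Fin n) (Fin n) F) - 1))
    (hB : Lev 1 ((B : Matrix (Fin n) (Fin n) F) - 1)) :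
    Lev (m + 1) (((A * B * A⁻¹ * B⁻¹ : GL (Fin n) F) : Matrix (Fin n) (Fin n) F) - 1) ∧
    ∀ i j l k : Fin n, (i : ℕ) = j + m + 1 → (l : ℕ) = j + 1 → (k : ℕ) = j + m →
      (((A * B * A⁻¹ * B⁻¹ : GL (Fin n) F) : Matrix (Fin n) (Fin n) F) - 1) i j =
        ((A : Matrix (Fin n) (Fin n) F) - 1) i l * ((B : Matrix (Fin n) (Fin n) F) - 1) l j -
        ((B : Matrix (Fin n) (Fin n) F) - 1) i k * ((A : Matrix (Fin n) (Fin n) F) - 1) k j := by
  have hA1 := (hA.mono hm).inv_one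
  have hB1 := hB.inv_one
  have hA0 : Lev 0 ((A⁻¹ : GL (Fin n) F) : Matrix (Fin n) (Fin n) F) := by
    have := (hA1.mono (Nat.zero_le 1)).add Lev.one
    rwa [sub_add_cancel] at this
  have hB0 : Lev 0 ((B⁻¹ : GL (Fin n) F) : Matrix (Fin n) (Fin n) F) := by
    have := (hB1.mono (Nat.zero_le 1)).add Lev.one
    rwa [sub_add_cancel] at this
  have hAB := hA0.mul hB0
  rw [zero_add] at hAB
  have h1 := hA.mul hB
  have h2 := hB.mul hA
  rw [add_comm 1 m] at h2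
  have h3 := h1.sub h2
  refine ⟨?_, ?_⟩
  · rw [comm_sub_one]
    have := h3.mul hAB
    rwa [add_zero] at this
  · intro i j l k hi hl hk
    rw [comm_sub_one, Lev.mul_entry h3 hAB i j j (by omega) (by omega),
      Lev.mul_entry hA0 hB0 j j j (by omega) (by omega)]
    have hdA : ((A⁻¹ : GL (Fin n) F) : Matrix (Fin n) (Fin n) F) j j = 1 := by
      have := hA1 j j (by omega)
      rw [Matrix.sub_apply, Matrix.one_apply_eq, sub_eq_zero] at this
      exact this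
    have hdB : ((B⁻¹ : GL (Fin n) F) : Matrix (Fin n) (Fin n) F) j j = 1 := by
      have := hB1 j j (by omega)
      rw [Matrix.sub_apply, Matrix.one_apply_eq, sub_eq_zero] at this
      exact this
    rw [hdA, hdB, mul_one, mul_one, Matrix.sub_apply, Lev.mul_entry hA hB i l j (by omega) (by omega),
      Lev.mul_entry hB hA i k j (by omega) (by omega)]

/-- The chain of commutators. -/
theorem chain [Finite F] (hn : 4 ≤ n) {K : Subgroup (GL (Fin n) F)} (κ : F) (hκ : κ ≠ 0)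
    (hg : ∀ k : ℕ, 1 ≤ k → k + 1 < n → ∃ g ∈ K, Lev 1 ((g : Matrix (Fin n) (Fin n) F) - 1) ∧
      (∀ i j : Fin n, (i : ℕ) = k → (j : ℕ) + 1 = k → ((g : Matrix (Fin n) (Fin n) F) - 1) i j = κ) ∧
      (∀ i j : Fin n, (i : ℕ) = k + 1 → (j : ℕ) = k → ((g : Matrix (Fin n) (Fin n) F) - 1) i j = -κ) ∧
      (∀ i j : Fin n, (i : ℕ) ≠ k → (i : ℕ) ≠ k + 1 → ((g : Matrix (Fin n) (Fin n) F) - 1) i j = 0)) :
    ∃ x : F, x ≠ 0 ∧ HasT K (Pi.single (⟨n - 1, by omega⟩ : Fin n) 1) (Pi.single (⟨0, by omega⟩ : Fin n) x) := by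
  have key : ∀ m : ℕ, 1 ≤ m → ∀ hm : m + 1 < n, ∃ h ∈ K, Lev m ((h : Matrix (Fin n) (Fin n) F) - 1) ∧
      ((h : Matrix (Fin n) (Fin n) F) - 1) ⟨m, by omega⟩ ⟨0, by omega⟩ ≠ 0 := by
    intro m
    induction m with
    | zero => intro h; omega
    | succ m ih =>
      intro _ hm
      rcases Nat.eq_zero_or_pos m with h0 | h0
      · subst h0
        obtain ⟨g, hgK, h1, h2, -, -⟩ := hg 1 le_rfl (by omega)
        refine ⟨g, hgK, h1, ?_⟩
        rw [h2 _ _ (by simp) (by simp)]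
        exact hκ
      · obtain ⟨h, hhK, h1, h2⟩ := ih h0 (by omega)
        obtain ⟨g, hgK, g1, g2, g3, g4⟩ := hg (m + 1) (by omega) hm
        obtain ⟨c1, c2⟩ := comm_lev h0 h1 g1
        refine ⟨h * g * h⁻¹ * g⁻¹, ?_, c1, ?_⟩
        · exact K.mul_mem (K.mul_mem (K.mul_mem hhK hgK) (K.inv_mem hhK)) (K.inv_mem hgK)
        · rw [c2 ⟨m + 1, by omega⟩ ⟨0, by omega⟩ ⟨1, by omega⟩ ⟨m, by omega⟩ (by simp) (by simp) (by simp),
            g4 ⟨1, by omega⟩ _ (by simp; omega) (by simp), mul_zero, zero_sub,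
            g2 _ _ (by simp) (by simp)]
          exact neg_ne_zero.2 (mul_ne_zero hκ h2)
  obtain ⟨h, hhK, h1, h2⟩ := key (n - 2) (by omega) (by omega)
  obtain ⟨g, hgK, g1, g2, g3, g4⟩ := hg (n - 2) (by omega) (by omega)
  obtain ⟨c1, c2⟩ := comm_lev (by omega) h1 g1
  have e1 := c2 ⟨n - 1, by omega⟩ ⟨0, by omega⟩ ⟨1, by omega⟩ ⟨n - 2, by omega⟩ (by simp; omega) (by simp) (by simp)
  rw [g4 ⟨1, by omega⟩ _ (by simp; omega) (by simp; omega), mul_zero, zero_sub,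
    g3 ⟨n - 1, by omega⟩ _ (by simp; omega) (by simp)] at e1
  have hx : ((((h * g * h⁻¹ * g⁻¹ : GL (Fin n) F) : Matrix (Fin n) (Fin n) F) - 1) ⟨n - 1, by omega⟩ ⟨0, by omega⟩) ≠ 0 := by
    rw [e1]
    exact neg_ne_zero.2 (mul_ne_zero (neg_ne_zero.2 hκ) h2)
  refine ⟨_, hx, ?_, h * g * h⁻¹ * g⁻¹, ?_, ?_⟩
  · rw [dotProduct_single, Pi.single_apply, if_neg, zero_mul]
    rw [Fin.mk.injEq]; omega
  · exact K.mul_mem (K.mul_mem (K.mul_mem hhK hgK) (K.inv_mem hhK)) (K.inv_mem hgK)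
  · have h4 : ((h * g * h⁻¹ * g⁻¹ : GL (Fin n) F) : Matrix (Fin n) (Fin n) F) =
        1 + (((h * g * h⁻¹ * g⁻¹ : GL (Fin n) F) : Matrix (Fin n) (Fin n) F) - 1) := by abel
    rw [tm]
    nth_rewrite 1 [h4]
    congr 1
    ext i j
    rw [vecMulVec_apply, Pi.single_apply, Pi.single_apply]
    by_cases hi : i = ⟨n - 1, by omega⟩
    · by_cases hj : j = ⟨0, by omega⟩
      · rw [if_pos hi, if_pos hj, hi, hj, one_mul]
      · rw [if_neg hj, mul_zero]
        apply c1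
        have : (j : ℕ) ≠ 0 := fun h => hj (Fin.ext h)
        have := i.2
        omega
    · rw [if_neg hi, zero_mul]
      apply c1
      have : (i : ℕ) ≠ n - 1 := fun h => hi (Fin.ext h)
      have := i.2
      omega

/-- the basis matrix -/
def PM (w : GL (Fin n) F) (v : Fin n → F) : Matrix (Fin n) (Fin n) F :=
  fun i k => (((w ^ (k : ℕ) : GL (Fin n) F) : Matrix (Fin n) (Fin n) F) *ᵥ v) i

theorem vecMul_PM (w : GL (Fin n) F) (v φ : Fin n → F) (k : Fin n) :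
    (φ ᵥ* PM w v) k = φ ⬝ᵥ (((w ^ (k : ℕ) : GL (Fin n) F) : Matrix (Fin n) (Fin n) F) *ᵥ v) := rfl

theorem det_PM_ne {w : GL (Fin n) F} {v ψ : Fin n → F} (hc : Cyc w v ψ) : (PM w v).det ≠ 0 := by
  intro h
  obtain ⟨φ, hφ, h1⟩ := Matrix.exists_vecMul_eq_zero_iff.2 h
  apply hφ
  apply hc.cyc
  intro k hk
  have := congrFun h1 ⟨k, hk⟩
  rw [vecMul_PM] at this
  exact this

theorem PM_mulVec_single (w : GL (Fin n) F) (v : Fin n → F) (k : Fin n) :
    PM w v *ᵥ (Pi.single k 1) = ((w ^ (k : ℕ) : GL (Fin n) F) : Matrix (Fin n) (Fin n) F) *ᵥ v := by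
  rw [Matrix.mulVec_single_one]; rfl

theorem Cyc.exists_top_of_pair [Finite F] (hn : 4 ≤ n) {K : Subgroup (GL (Fin n) F)} {w t : GL (Fin n) F}
    {v ψ : Fin n → F} (hc : Cyc w v ψ) {c : F} (hc0 : c ≠ 0)
    (ht : (t : Matrix (Fin n) (Fin n) F) = tm v (c • ψ)) (hw : w ∈ K) (htw : t * w * t⁻¹ ∈ K) :
    ∃ b : F, b ≠ 0 ∧ HasT K v (b • ps w ψ (n - 2)) := by
  set ρ := ψ ⬝ᵥ (((w⁻¹ : GL (Fin n) F) : Matrix (Fin n) (Fin n) F) *ᵥ v) with hρ
  have hρ0 : ρ ≠ 0 := hc.inv_ne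
  set P : GL (Fin n) F := Matrix.GeneralLinearGroup.mkOfDetNeZero (PM w v) (det_PM_ne hc) with hP
  have hPval : (P : Matrix (Fin n) (Fin n) F) = PM w v := rfl
  set K' : Subgroup (GL (Fin n) F) := K.comap (MulAut.conj P).toMonoidHom with hK'
  have hψv : (c • ψ) ⬝ᵥ v = 0 := by
    rw [smul_dotProduct]
    have := hc.zero 0 (by omega)
    rw [pow_zero, Units.val_one, Matrix.one_mulVec] at this
    rw [this, smul_zero]
  have htinv : ((t⁻¹ : GL (Fin n) F) : Matrix (Fin n) (Fin n) F) = tm v (-(c • ψ)) := by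
    have : t = tGL v (c • ψ) hψv := Units.ext ht
    rw [this, tGL_inv_val]
  -- functionals
  set φ : ℕ → Fin n → F := fun k => (ψ ᵥ* ((w ^ (-(k : ℤ)) : GL (Fin n) F) : Matrix (Fin n) (Fin n) F)) ᵥ* PM w v with hφ
  have hφval : ∀ k : ℕ, ∀ j : Fin n, φ k j =
      ψ ⬝ᵥ (((w ^ ((j : ℤ) - k) : GL (Fin n) F) : Matrix (Fin n) (Fin n) F) *ᵥ v) := by
    intro k j
    rw [hφ]
    simp only
    rw [vecMul_PM, ← Matrix.dotProduct_mulVec, Matrix.mulVec_mulVec, ← Units.val_mul, ← zpow_natCast, ← _root_.zpow_add,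
      neg_add_eq_sub]
  have hφ0 : ∀ k : ℕ, 1 ≤ k → ∀ j : Fin n, k ≤ (j : ℕ) → φ k j = 0 := by
    intro k hk j hj
    rw [hφval]
    have : ((j : ℤ) - k) = ((j - k : ℕ) : ℤ) := by omega
    rw [this, zpow_natCast]
    have := j.2
    exact hc.zero _ (by omega)
  have hφ1 : ∀ k : ℕ, 1 ≤ k → ∀ j : Fin n, (j : ℕ) + 1 = k → φ k j = ρ := by
    intro k hk j hj
    rw [hφval]
    have : ((j : ℤ) - k) = -1 := by omega
    rw [this, _root_.zpow_neg_one]
  -- conjugated transvections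
  have hTk : ∀ (k : ℕ) (x : F), ((w ^ k : GL (Fin n) F) : Matrix (Fin n) (Fin n) F) * tm v (x • ψ) *
      ((w ^ (-(k : ℤ)) : GL (Fin n) F) : Matrix (Fin n) (Fin n) F) =
      tm (((w ^ k : GL (Fin n) F) : Matrix (Fin n) (Fin n) F) *ᵥ v)
        (x • (ψ ᵥ* ((w ^ (-(k : ℤ)) : GL (Fin n) F) : Matrix (Fin n) (Fin n) F))) := by
    intro k x
    rw [_root_.zpow_neg, zpow_natCast, conj_tm, Matrix.smul_vecMul]
  have hTk' : ∀ (k : ℕ) (hk : k < n) (x : F), ((P⁻¹ : GL (Fin n) F) : Matrix (Fin n) (Fin n) F) *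
      (tm (((w ^ k : GL (Fin n) F) : Matrix (Fin n) (Fin n) F) *ᵥ v)
        (x • (ψ ᵥ* ((w ^ (-(k : ℤ)) : GL (Fin n) F) : Matrix (Fin n) (Fin n) F)))) *
      (P : Matrix (Fin n) (Fin n) F) = tm (Pi.single ⟨k, hk⟩ 1) (x • φ k) := by
    intro k hk x
    have h1 := conj_tm P⁻¹ (((w ^ k : GL (Fin n) F) : Matrix (Fin n) (Fin n) F) *ᵥ v)
        (x • (ψ ᵥ* ((w ^ (-(k : ℤ)) : GL (Fin n) F) : Matrix (Fin n) (Fin n) F)))
    rw [inv_inv] at h1
    rw [h1]
    congr 1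
    · have h2 := PM_mulVec_single w v ⟨k, hk⟩
      simp only at h2
      rw [← h2, ← hPval, Matrix.mulVec_mulVec, ← Units.val_mul, inv_mul_cancel, Units.val_one, Matrix.one_mulVec]
    · rw [Matrix.smul_vecMul, hPval]
  have hg : ∀ k : ℕ, 1 ≤ k → k + 1 < n → ∃ g ∈ K', Lev 1 ((g : Matrix (Fin n) (Fin n) F) - 1) ∧
      (∀ i j : Fin n, (i : ℕ) = k → (j : ℕ) + 1 = k → ((g : Matrix (Fin n) (Fin n) F) - 1) i j = c * ρ) ∧
      (∀ i j : Fin n, (i : ℕ) = k + 1 → (j : ℕ) = k → ((g : Matrix (Fin n) (Fin n) F) - 1) i j = -(c * ρ)) ∧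
      (∀ i j : Fin n, (i : ℕ) ≠ k → (i : ℕ) ≠ k + 1 → ((g : Matrix (Fin n) (Fin n) F) - 1) i j = 0) := by
    intro k hk hkn
    set g : GL (Fin n) F := P⁻¹ * (w ^ k * (t * w * t⁻¹) * w ^ (-(k : ℤ) - 1)) * P with hgdef
    have hgK : g ∈ K' := by
      rw [hK', Subgroup.mem_comap]
      change P * g * P⁻¹ ∈ K
      have : P * g * P⁻¹ = w ^ k * (t * w * t⁻¹) * w ^ (-(k : ℤ) - 1) := by rw [hgdef]; group
      rw [this]
      exact K.mul_mem (K.mul_mem (K.pow_mem hw _) htw) (K.zpow_mem hw _)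
    have hgval : (g : Matrix (Fin n) (Fin n) F) - 1 =
        vecMulVec (Pi.single ⟨k, by omega⟩ 1) (c • φ k) - vecMulVec (Pi.single ⟨k + 1, hkn⟩ 1) (c • φ (k + 1)) := by
      have e1 : g = (P⁻¹ * (w ^ k * t * w ^ (-(k : ℤ))) * P) * (P⁻¹ * (w ^ (k + 1) * t⁻¹ * w ^ (-((k + 1 : ℕ) : ℤ))) * P) := by
        rw [hgdef]
        have : w ^ (-(k : ℤ)) * w ^ (k + 1) = w := by
          rw [← zpow_natCast w (k + 1), ← _root_.zpow_add]
          have : (-(k : ℤ) + ((k + 1 : ℕ) : ℤ)) = 1 := by push_cast; ring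
          rw [this, zpow_one]
        have e2 : (P⁻¹ * (w ^ k * t * w ^ (-(k : ℤ))) * P) * (P⁻¹ * (w ^ (k + 1) * t⁻¹ * w ^ (-((k + 1 : ℕ) : ℤ))) * P) =
          P⁻¹ * (w ^ k * t * (w ^ (-(k : ℤ)) * w ^ (k + 1)) * t⁻¹ * w ^ (-((k + 1 : ℕ) : ℤ))) * P := by group
        rw [e2, this]
        have : (-(k : ℤ) - 1) = (-((k + 1 : ℕ) : ℤ)) := by push_cast; ring
        rw [this]
        group
      have e3 : (((P⁻¹ * (w ^ k * t * w ^ (-(k : ℤ))) * P : GL (Fin n) F)) : Matrix (Fin n) (Fin n) F) =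
          tm (Pi.single ⟨k, by omega⟩ 1) (c • φ k) := by
        rw [Units.val_mul, Units.val_mul, Units.val_mul, Units.val_mul, ht, hTk, hTk' k (by omega)]
      have e4 : (((P⁻¹ * (w ^ (k + 1) * t⁻¹ * w ^ (-((k + 1 : ℕ) : ℤ))) * P : GL (Fin n) F)) : Matrix (Fin n) (Fin n) F) =
          tm (Pi.single ⟨k + 1, hkn⟩ 1) ((-c) • φ (k + 1)) := by
        rw [Units.val_mul, Units.val_mul, Units.val_mul, Units.val_mul, htinv, ← neg_smul, hTk, hTk' (k + 1) hkn]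
      rw [e1, Units.val_mul, e3, e4, tm, tm, add_mul, one_mul, mul_add, mul_one, vecMulVec_mul_vecMulVec]
      have e5 : (c • φ k) ⬝ᵥ (Pi.single (⟨k + 1, hkn⟩ : Fin n) 1) = 0 := by
        rw [dotProduct_single, mul_one, Pi.smul_apply, hφ0 k hk _ (by simp), smul_zero]
      rw [e5, zero_smul, vecMulVec_zero, add_zero, neg_smul, vecMulVec_neg]
      abel
    refine ⟨g, hgK, ?_, ?_, ?_, ?_⟩
    · intro i j hij
      rw [hgval, Matrix.sub_apply, vecMulVec_apply, vecMulVec_apply, Pi.single_apply, Pi.single_apply, Pi.smul_apply,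
        Pi.smul_apply]
      by_cases h1 : i = ⟨k, by omega⟩
      · have h1' : (i : ℕ) = k := by rw [h1]
        have h2 : i ≠ ⟨k + 1, hkn⟩ := by intro h; rw [h] at h1'; simp at h1'
        rw [if_neg h2, zero_mul, hφ0 k hk j (by omega)]; simp
      · rw [if_neg h1, zero_mul]
        by_cases h2 : i = ⟨k + 1, hkn⟩
        · have h2' : (i : ℕ) = k + 1 := by rw [h2]
          rw [hφ0 (k + 1) (by omega) j (by omega)]; simp
        · rw [if_neg h2, zero_mul, sub_zero]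
    · intro i j hi hj
      rw [hgval, Matrix.sub_apply, vecMulVec_apply, vecMulVec_apply, Pi.single_apply, Pi.single_apply, Pi.smul_apply,
        Pi.smul_apply]
      have h1 : i = ⟨k, by omega⟩ := Fin.ext hi
      have h2 : i ≠ ⟨k + 1, hkn⟩ := by intro h; rw [h] at hi; simp at hi
      rw [if_pos h1, if_neg h2, hφ1 k hk j hj, zero_mul, sub_zero, one_mul, smul_eq_mul]
    · intro i j hi hj
      rw [hgval, Matrix.sub_apply, vecMulVec_apply, vecMulVec_apply, Pi.single_apply, Pi.single_apply, Pi.smul_apply,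
        Pi.smul_apply]
      have h1 : i = ⟨k + 1, hkn⟩ := Fin.ext hi
      have h2 : i ≠ ⟨k, by omega⟩ := by intro h; rw [h] at hi; simp at hi
      rw [if_pos h1, if_neg h2, hφ1 (k + 1) (by omega) j (by omega), zero_mul, zero_sub, one_mul, smul_eq_mul]
    · intro i j hi hj
      rw [hgval, Matrix.sub_apply, vecMulVec_apply, vecMulVec_apply, Pi.single_apply, Pi.single_apply,
        if_neg (fun h => hi (by rw [h])), if_neg (fun h => hj (by rw [h])), zero_mul, zero_mul, sub_zero]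
  obtain ⟨x, hx0, hx⟩ := chain hn (c * ρ) (mul_ne_zero hc0 hρ0) hg
  -- transport back
  have hback : HasT K (((w ^ (n - 1) : GL (Fin n) F) : Matrix (Fin n) (Fin n) F) *ᵥ v)
      ((x * ρ⁻¹) • (ψ ᵥ* ((w⁻¹ : GL (Fin n) F) : Matrix (Fin n) (Fin n) F))) := by
    obtain ⟨h1, g, hgK, hgv⟩ := hx
    have h2 : ((P * g * P⁻¹ : GL (Fin n) F) : Matrix (Fin n) (Fin n) F) =
        tm (((w ^ (n - 1) : GL (Fin n) F) : Matrix (Fin n) (Fin n) F) *ᵥ v)
          ((x * ρ⁻¹) • (ψ ᵥ* ((w⁻¹ : GL (Fin n) F) : Matrix (Fin n) (Fin n) F))) := by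
      rw [Units.val_mul, Units.val_mul, hgv, conj_tm]
      congr 1
      · rw [hPval, PM_mulVec_single]
      · have h3 : (Pi.single (⟨0, by omega⟩ : Fin n) x : Fin n → F) =
            ((x * ρ⁻¹) • (ψ ᵥ* ((w⁻¹ : GL (Fin n) F) : Matrix (Fin n) (Fin n) F))) ᵥ* (P : Matrix (Fin n) (Fin n) F) := by
          have h4 : (ψ ᵥ* ((w⁻¹ : GL (Fin n) F) : Matrix (Fin n) (Fin n) F)) ᵥ* PM w v = φ 1 := by
            rw [hφ]; simp
          rw [Matrix.smul_vecMul, hPval, h4]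
          ext j
          rw [Pi.single_apply, Pi.smul_apply]
          by_cases hj : j = ⟨0, by omega⟩
          · rw [if_pos hj, hφ1 1 le_rfl j (by rw [hj])]
            rw [smul_eq_mul, mul_assoc, inv_mul_cancel₀ hρ0, mul_one]
          · rw [if_neg hj, hφ0 1 le_rfl j, smul_zero]
            have : (j : ℕ) ≠ 0 := fun h => hj (Fin.ext h)
            omega
        rw [h3, Matrix.vecMul_vecMul, ← Units.val_mul, mul_inv_cancel, Units.val_one, Matrix.vecMul_one]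
    refine ⟨?_, _, hgK, h2⟩
    rw [smul_dotProduct, ← Matrix.dotProduct_mulVec, Matrix.mulVec_mulVec, ← Units.val_mul]
    have e6 : w⁻¹ * w ^ (n - 1) = w ^ (n - 2) := by
      have : n - 1 = (n - 2) + 1 := by omega
      rw [this, _root_.pow_succ', inv_mul_cancel_left]
    rw [e6, hc.zero _ (by omega), smul_zero]
  have h5 := shift hw hback (-((n - 1 : ℕ) : ℤ))
  rw [Matrix.mulVec_mulVec, ← Units.val_mul, _root_.zpow_neg, zpow_natCast, inv_mul_cancel, Units.val_one,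
    Matrix.one_mulVec, Matrix.smul_vecMul, Matrix.vecMul_vecMul, ← Units.val_mul, neg_neg, zpow_natCast] at h5
  refine ⟨x * ρ⁻¹, mul_ne_zero hx0 (inv_ne_zero hρ0), ?_⟩
  have e6 : w⁻¹ * w ^ (n - 1) = w ^ (n - 2) := by
    have : n - 1 = (n - 2) + 1 := by omega
    rw [this, _root_.pow_succ', inv_mul_cancel_left]
  rw [e6] at h5
  exact h5

end H43.RegLev
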