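import Cfsg.Agent.Lib.H94.Transv

/-!
Regular unipotent matrices: the upper Jordan block `J` and lower bidiagonal unipotent matrices; a subgroup
of `GL` containing `J`, a lower bidiagonal unipotent matrix and the transvection `1 + c E_{0,n-1}` contains `SL`
for suitable `c`.
-/
set_option autoImplicit false

namespace H43.RegUni

open Matrix Cfsg.Geo H94.Transv
open scoped MatrixGroups

variable {F : Type*} [Field F] {n : ℕ}

/-- nilpotent upper shift -/
def NN (n : ℕ) (F : Type*) [Field F] : Matrix (Fin n) (Fin n) F := fun i j => if (i : ℕ) + 1 = j then 1 else 0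

/-- nilpotent lower weighted shift -/
def LL (l : ℕ → F) : Matrix (Fin n) (Fin n) F := fun i j => if (i : ℕ) = j + 1 then l i else 0

theorem NN_mulVec (x : Fin n → F) (i : Fin n) (h : (i : ℕ) + 1 < n) : (NN n F *ᵥ x) i = x ⟨i + 1, h⟩ := by
  simp only [mulVec, dotProduct, NN, ite_mul, one_mul, zero_mul]
  rw [Finset.sum_eq_single (⟨i + 1, h⟩ : Fin n)]
  · simp
  · intro b _ hb
    rw [if_neg]
    intro hh
    exact hb (Fin.ext hh.symm)
  · intro h; exact absurd (Finset.mem_univ _) h

theorem NN_mulVec_last (x : Fin n → F) (i : Fin n) (h : ¬ (i : ℕ) + 1 < n) : (NN n F *ᵥ x) i = 0 := by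
  simp only [mulVec, dotProduct, NN, ite_mul, one_mul, zero_mul]
  apply Finset.sum_eq_zero
  intro b _
  rw [if_neg]
  intro hh
  have := b.2
  omega

theorem LL_mulVec (l : ℕ → F) (x : Fin n → F) (i : Fin n) (h : 0 < (i : ℕ)) :
    (LL l *ᵥ x) i = l i * x ⟨i - 1, by omega⟩ := by
  simp only [mulVec, dotProduct, LL, ite_mul, zero_mul]
  rw [Finset.sum_eq_single (⟨i - 1, by omega⟩ : Fin n)]
  · rw [if_pos]
    simp; omega
  · intro b _ hb
    rw [if_neg]
    intro hh
    apply hb
    apply Fin.ext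
    simp; omega
  · intro h; exact absurd (Finset.mem_univ _) h

theorem LL_mulVec_zero (l : ℕ → F) (x : Fin n → F) (i : Fin n) (h : (i : ℕ) = 0) : (LL l *ᵥ x) i = 0 := by
  simp only [mulVec, dotProduct, LL, ite_mul, zero_mul]
  apply Finset.sum_eq_zero
  intro b _
  rw [if_neg]
  omega

theorem vecMul_LL (l : ℕ → F) (x : Fin n → F) (j : Fin n) (h : (j : ℕ) + 1 < n) :
    (x ᵥ* LL l) j = x ⟨j + 1, h⟩ * l (j + 1) := by
  simp only [vecMul, dotProduct, LL, mul_ite, mul_zero]
  rw [Finset.sum_eq_single (⟨j + 1, h⟩ : Fin n)]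
  · simp
  · intro b _ hb
    rw [if_neg]
    intro hh
    exact hb (Fin.ext hh)
  · intro h; exact absurd (Finset.mem_univ _) h

theorem vecMul_LL_last (l : ℕ → F) (x : Fin n → F) (j : Fin n) (h : ¬ (j : ℕ) + 1 < n) : (x ᵥ* LL l) j = 0 := by
  simp only [vecMul, dotProduct, LL, mul_ite, mul_zero]
  apply Finset.sum_eq_zero
  intro b _
  rw [if_neg]
  have := b.2
  omega

theorem vecMul_NN (x : Fin n → F) (j : Fin n) (h : 0 < (j : ℕ)) : (x ᵥ* NN n F) j = x ⟨j - 1, by omega⟩ := by
  simp only [vecMul, dotProduct, NN, mul_ite, mul_zero, mul_one]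
  rw [Finset.sum_eq_single (⟨j - 1, by omega⟩ : Fin n)]
  · rw [if_pos]
    simp; omega
  · intro b _ hb
    rw [if_neg]
    intro hh
    apply hb
    apply Fin.ext
    simp; omega
  · intro h; exact absurd (Finset.mem_univ _) h

theorem vecMul_NN_zero (x : Fin n → F) (j : Fin n) (h : (j : ℕ) = 0) : (x ᵥ* NN n F) j = 0 := by
  simp only [vecMul, dotProduct, NN, mul_ite, mul_zero, mul_one]
  apply Finset.sum_eq_zero
  intro b _
  rw [if_neg]
  omega

/-- irreducibility: a subspace stable under the upper and the lower shift is trivial -/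
theorem stable_trivial (l : ℕ → F) (hl : ∀ i, l i ≠ 0) (W : Submodule F (Fin n → F))
    (hN : ∀ x ∈ W, NN n F *ᵥ x ∈ W) (hL : ∀ x ∈ W, (LL l : Matrix (Fin n) (Fin n) F) *ᵥ x ∈ W) : W = ⊥ ∨ W = ⊤ := by
  by_cases hW : W = ⊥
  · exact Or.inl hW
  right
  obtain ⟨x, hx, hx0⟩ := Submodule.exists_mem_ne_zero_of_ne_bot hW
  -- get e_0
  have step : ∀ k : ℕ, ∀ x : Fin n → F, x ∈ W → x ≠ 0 → (∀ j : Fin n, k < (j : ℕ) → x j = 0) →
      ∀ h0 : 0 < n, (Pi.single (⟨0, h0⟩ : Fin n) 1 : Fin n → F) ∈ W := by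
    intro k
    induction k with
    | zero =>
      intro x hx hx0 hk h0
      have h1 : x = x ⟨0, h0⟩ • (Pi.single (⟨0, h0⟩ : Fin n) 1 : Fin n → F) := by
        funext j
        by_cases hj : j = ⟨0, h0⟩
        · subst hj; simp
        · have : 0 < (j : ℕ) := by
            rcases Nat.eq_zero_or_pos (j : ℕ) with h | h
            · exact absurd (Fin.ext h) hj
            · exact h
          rw [hk j this]
          simp [hj]
      have h2 : x ⟨0, h0⟩ ≠ 0 := by
        intro h
        rw [h, zero_smul] at h1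
        exact hx0 h1
      have h3 := W.smul_mem (x ⟨0, h0⟩)⁻¹ hx
      rw [h1, smul_smul] at h3
      simpa [h2] using h3
    | succ k ih =>
      intro x hx hx0 hk h0
      by_cases hkn : k + 1 < n
      · by_cases hxk : x ⟨k + 1, hkn⟩ = 0
        · apply ih x hx hx0 _ h0
          intro j hj
          rcases Nat.lt_or_ge (k + 1) (j : ℕ) with h | h
          · exact hk j h
          · have : j = ⟨k + 1, hkn⟩ := Fin.ext (by simp; omega)
            rw [this, hxk]
        · apply ih (NN n F *ᵥ x) (hN x hx) _ _ h0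
          · intro h
            have h1 := congrFun h ⟨k, by omega⟩
            rw [NN_mulVec _ _ (by simpa using hkn)] at h1
            exact hxk h1
          · intro j hj
            by_cases hjn : (j : ℕ) + 1 < n
            · rw [NN_mulVec _ _ hjn]
              apply hk
              simp; omega
            · exact NN_mulVec_last _ _ hjn
      · apply ih x hx hx0 _ h0
        intro j hj
        have := j.2
        omega
  have h0 : 0 < n := by
    rcases Nat.eq_zero_or_pos n with h | h
    · subst h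
      exact absurd (funext fun i => i.elim0) hx0
    · exact h
  have he0 := step n x hx hx0 (fun j hj => by have := j.2; omega) h0
  have hall : ∀ k : ℕ, ∀ hk : k < n, (Pi.single (⟨k, hk⟩ : Fin n) 1 : Fin n → F) ∈ W := by
    intro k
    induction k with
    | zero => intro hk; exact he0
    | succ k ih =>
      intro hk
      have h1 := hL _ (ih (by omega))
      have h2 : (LL l : Matrix (Fin n) (Fin n) F) *ᵥ (Pi.single (⟨k, by omega⟩ : Fin n) 1 : Fin n → F) =
          l (k + 1) • (Pi.single (⟨k + 1, hk⟩ : Fin n) 1 : Fin n → F) := by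
        funext j
        rw [Matrix.mulVec_single_one]
        simp only [Matrix.col_apply, LL, Pi.smul_apply, Pi.single_apply, smul_eq_mul]
        by_cases hj : j = ⟨k + 1, hk⟩
        · subst hj; simp
        · rw [if_neg, if_neg hj, mul_zero]
          intro h
          exact hj (Fin.ext h)
      rw [h2] at h1
      have h3 := W.smul_mem (l (k + 1))⁻¹ h1
      rw [smul_smul, inv_mul_cancel₀ (hl _), one_smul] at h3
      exact h3
  rw [eq_top_iff]
  intro y _
  have : y = ∑ i, y i • (Pi.single i 1 : Fin n → F) := by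
    funext j
    simp [Finset.sum_apply, Pi.single_apply]
  rw [this]
  exact W.sum_mem (fun i _ => W.smul_mem _ (hall i i.2))

section main

/-- rows `e_{n-1}^* w^e` -/
def psi (w : Matrix (Fin n) (Fin n) F) (h : 0 < n) (e : ℕ) : Fin n → F :=
  (Pi.single (⟨n - 1, by omega⟩ : Fin n) 1 : Fin n → F) ᵥ* (w ^ e)

theorem psi_succ (w : Matrix (Fin n) (Fin n) F) (h : 0 < n) (e : ℕ) : psi w h (e + 1) = psi w h e ᵥ* w := by
  unfold psi
  rw [pow_succ, Matrix.vecMul_vecMul]

theorem psi_vals (l : ℕ → F) (hl : ∀ i, l i ≠ 0) (h : 0 < n) (e : ℕ) :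
    (∀ j : Fin n, (j : ℕ) + e < n - 1 → psi (1 + LL l) h e j = 0) ∧
    (∀ j : Fin n, (j : ℕ) + e = n - 1 → psi (1 + LL l) h e j ≠ 0) := by
  induction e with
  | zero =>
    unfold psi
    rw [pow_zero, Matrix.vecMul_one]
    constructor
    · intro j hj
      rw [Pi.single_apply, if_neg]
      rintro rfl
      simp at hj
    · intro j hj
      have : j = ⟨n - 1, by omega⟩ := Fin.ext (by simpa using hj)
      rw [this, Pi.single_eq_same]
      exact one_ne_zero
  | succ e ih =>
    rw [psi_succ, Matrix.vecMul_add, Matrix.vecMul_one]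
    constructor
    · intro j hj
      have hj1 : (j : ℕ) + 1 < n := by omega
      rw [Pi.add_apply, vecMul_LL _ _ _ hj1, ih.1 j (by omega), ih.1 ⟨j + 1, hj1⟩ (by simp; omega)]
      ring
    · intro j hj
      have hj1 : (j : ℕ) + 1 < n := by omega
      rw [Pi.add_apply, vecMul_LL _ _ _ hj1, ih.1 j (by omega), zero_add]
      exact mul_ne_zero (ih.2 ⟨j + 1, hj1⟩ (by simp; omega)) (hl _)

/-- Main criterion. -/
theorem exists_kappa (hn : 3 ≤ n) (l : ℕ → F) (hl : ∀ i, l i ≠ 0) {u w : GL (Fin n) F}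
    (hu : (u : Matrix (Fin n) (Fin n) F) = 1 + NN n F) (hw : (w : Matrix (Fin n) (Fin n) F) = 1 + LL l) :
    ∃ κ₀ : F, κ₀ ≠ 0 ∧ ∀ {K : Subgroup (GL (Fin n) F)}, u ∈ K → w ∈ K →
      ∀ c : F, (∀ x : F, x ≠ 0 → ∃ k : ℕ, x = c * (c * κ₀) ^ k) →
      HasT K (Pi.single (⟨0, by omega⟩ : Fin n) 1) (Pi.single (⟨n - 1, by omega⟩ : Fin n) c) →
      specialLinear (Fin n) F ≤ K := by
  have h0 : 0 < n := by omega
  set v : Fin n → F := Pi.single (⟨0, by omega⟩ : Fin n) 1 with hv
  set ψ := psi (1 + LL l : Matrix (Fin n) (Fin n) F) h0 with hψ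
  have hψ0 : ψ 0 = Pi.single (⟨n - 1, by omega⟩ : Fin n) 1 := by
    rw [hψ]; unfold psi; rw [pow_zero, Matrix.vecMul_one]
  -- x = w⁻¹ e_0
  set x : Fin n → F := ((w⁻¹ : GL (Fin n) F) : Matrix (Fin n) (Fin n) F) *ᵥ v with hx
  have hwx : (w : Matrix (Fin n) (Fin n) F) *ᵥ x = v := by
    rw [hx, Matrix.mulVec_mulVec, ← Units.val_mul, mul_inv_cancel, Units.val_one, Matrix.one_mulVec]
  have hxne : ∀ k : ℕ, ∀ hk : k < n, x ⟨k, hk⟩ ≠ 0 := by
    intro k
    induction k with
    | zero =>
      intro hk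
      have h1 := congrFun hwx ⟨0, hk⟩
      rw [hw, Matrix.add_mulVec, Matrix.one_mulVec, Pi.add_apply, LL_mulVec_zero _ _ _ rfl, add_zero, hv,
        Pi.single_eq_same] at h1
      rw [h1]; exact one_ne_zero
    | succ k ih =>
      intro hk
      have h1 := congrFun hwx ⟨k + 1, hk⟩
      rw [hw, Matrix.add_mulVec, Matrix.one_mulVec, Pi.add_apply, LL_mulVec _ _ _ (by simp), hv,
        Pi.single_apply, if_neg (by simp)] at h1
      intro h2
      rw [h2, zero_add] at h1
      have h3 := ih (by omega)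
      rcases mul_eq_zero.1 h1 with h4 | h4
      · exact hl _ h4
      · exact h3 h4
  have hρ := hxne (n - 1) (by omega)
  set ρ : F := x ⟨n - 1, by omega⟩ with hρdef
  -- ψ_e (w^{-(e+1)} v) = ρ
  have hpair : ∀ e : ℕ, ψ e ⬝ᵥ (((w⁻¹ ^ (e + 1) : GL (Fin n) F) : Matrix (Fin n) (Fin n) F) *ᵥ v) = ρ := by
    intro e
    have h1 : ((w⁻¹ ^ (e + 1) : GL (Fin n) F) : Matrix (Fin n) (Fin n) F) *ᵥ v =
        ((w⁻¹ ^ e : GL (Fin n) F) : Matrix (Fin n) (Fin n) F) *ᵥ x := by
      rw [hx, Matrix.mulVec_mulVec, ← Units.val_mul, ← pow_succ]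
    have h2 : ψ e = (Pi.single (⟨n - 1, by omega⟩ : Fin n) 1 : Fin n → F) ᵥ* ((w ^ e : GL (Fin n) F) : Matrix (Fin n) (Fin n) F) := by
      rw [hψ]; unfold psi; rw [Units.val_pow_eq_pow_val, hw]
    rw [h1, h2, ← Matrix.dotProduct_mulVec, Matrix.mulVec_mulVec, ← Units.val_mul, inv_pow, mul_inv_cancel, Units.val_one,
      Matrix.one_mulVec, single_one_dotProduct]
  have hψv : ∀ e : ℕ, e + 1 < n → ψ e ⬝ᵥ v = 0 := by
    intro e he
    rw [hv, dotProduct_single_one]
    exact (psi_vals l hl h0 e).1 _ (by simp; omega)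
  refine ⟨ρ * l (n - 1), mul_ne_zero hρ (hl _), ?_⟩
  intro K huK hwK c hgen hc
  -- relation A
  have relA : ∀ (e : ℕ), e + 2 < n → ∀ a b : F, HasT K v (a • ψ 0) → HasT K v (b • ψ e) →
      HasT K v ((b * ρ * a) • ψ (e + 1)) := by
    intro e he a b ha hb
    have h1 := ha.conj (K.pow_mem (K.inv_mem hwK) (e + 1))
    have h2 : (a • ψ 0) ᵥ* (((w⁻¹ ^ (e + 1))⁻¹ : GL (Fin n) F) : Matrix (Fin n) (Fin n) F) = a • ψ (e + 1) := by
      rw [Matrix.smul_vecMul, hψ0, inv_pow, inv_inv, hψ]
      unfold psi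
      rw [Units.val_pow_eq_pow_val, hw]
    rw [h2] at h1
    have h3 := h1.comm_right hb (by rw [smul_dotProduct, hψv (e + 1) (by omega), smul_zero])
    rw [smul_dotProduct, hpair e, smul_smul, smul_eq_mul] at h3
    exact h3
  -- relation B
  have hlast : n - 1 - 1 + 1 = n - 1 := by omega
  have relB : ∀ b : F, HasT K v (b • ψ 1) → HasT K v ((b * l (n - 1)) • ψ 0) := by
    intro b hb
    have h1 := hb.conj (K.inv_mem huK)
    have h2 : (((u⁻¹ : GL (Fin n) F)) : Matrix (Fin n) (Fin n) F) *ᵥ v = v := by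
      have h3 : (u : Matrix (Fin n) (Fin n) F) *ᵥ v = v := by
        rw [hu, Matrix.add_mulVec, Matrix.one_mulVec]
        funext i
        rw [Pi.add_apply]
        by_cases hi : (i : ℕ) + 1 < n
        · rw [NN_mulVec _ _ hi, hv, Pi.single_apply, Pi.single_apply, if_neg (by rw [Fin.mk.injEq]; omega : ¬ ((⟨i + 1, hi⟩ : Fin n) = ⟨0, h0⟩)),
            add_zero]
        · rw [NN_mulVec_last _ _ hi, add_zero]
      conv_lhs => rw [← h3]
      rw [Matrix.mulVec_mulVec, ← Units.val_mul, inv_mul_cancel, Units.val_one, Matrix.one_mulVec]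
    rw [h2, inv_inv, hu, Matrix.vecMul_add, Matrix.vecMul_one] at h1
    have h4 := h1.sub_right hb
    rw [add_sub_cancel_left] at h4
    have h5 : (b • ψ 1) ᵥ* NN n F = (b * l (n - 1)) • ψ 0 := by
      rw [Matrix.smul_vecMul, mul_smul]
      congr 1
      have h6 : ψ 1 = ψ 0 + ψ 0 ᵥ* LL l := by
        rw [hψ]
        rw [psi_succ, Matrix.vecMul_add, Matrix.vecMul_one]
      rw [h6, Matrix.add_vecMul]
      funext j
      rw [hψ0]
      by_cases hj : 0 < (j : ℕ)
      · rw [Pi.add_apply, vecMul_NN _ _ hj, vecMul_NN _ _ hj, vecMul_LL _ _ _ (by have := j.2; simp; omega), Pi.smul_apply,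
          smul_eq_mul]
        simp only [Pi.single_apply, Fin.mk.injEq]
        have e1 : ¬ ((j : ℕ) - 1 = n - 1) := by have := j.2; omega
        rw [if_neg e1, zero_add]
        have e2 : ((j : ℕ) - 1 + 1 = n - 1) ↔ (j = ⟨n - 1, by omega⟩) := by
          constructor
          · intro h; apply Fin.ext; simp; omega
          · intro h; rw [h]; simp; omega
        by_cases e3 : j = ⟨n - 1, by omega⟩
        · rw [if_pos (e2.2 e3), if_pos e3, one_mul, mul_one, e2.2 e3]
        · rw [if_neg (fun h => e3 (e2.1 h)), if_neg e3]; ring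
      · have hj0 : (j : ℕ) = 0 := by omega
        rw [Pi.add_apply, vecMul_NN_zero _ _ hj0, vecMul_NN_zero _ _ hj0, Pi.smul_apply, Pi.single_apply, if_neg]
        · simp
        · intro h; rw [h] at hj0; simp at hj0; omega
    rw [h5] at h4
    exact h4
  have hc0 : c ≠ 0 := by
    rintro rfl
    obtain ⟨k, hk⟩ := hgen 1 one_ne_zero
    simp at hk
  have hc' : HasT K v (c • ψ 0) := by
    rw [hψ0]
    convert hc using 1
    funext j
    simp [Pi.single_apply]
  -- S_0 everything
  have hpow : ∀ k : ℕ, HasT K v ((c * (c * (ρ * l (n - 1))) ^ k) • ψ 0) := by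
    intro k
    induction k with
    | zero => simpa using hc'
    | succ k ih =>
      have h1 := relA 0 (by omega) c _ hc' ih
      have h2 := relB _ h1
      convert h2 using 2
      ring
  have hS0 : ∀ a : F, HasT K v (a • ψ 0) := by
    intro a
    by_cases ha : a = 0
    · rw [ha, zero_smul]; exact HasT.zero_right v
    · obtain ⟨k, hk⟩ := hgen a ha
      rw [hk]; exact hpow k
  have hS : ∀ e : ℕ, e + 1 < n → ∀ a : F, HasT K v (a • ψ e) := by
    intro e
    induction e with
    | zero => intro _; exact hS0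
    | succ e ih =>
      intro he a
      have h1 := relA e (by omega) (a * ρ⁻¹) 1 (hS0 _) (ih (by omega) 1)
      convert h1 using 2
      field_simp
  have hfull : Full K v := by
    have key : ∀ e : ℕ, e + 1 < n → ∀ φ : Fin n → F, (∀ j : Fin n, (j : ℕ) + e < n - 1 → φ j = 0) → HasT K v φ := by
      intro e
      induction e with
      | zero =>
        intro _ φ hφ
        have : φ = φ ⟨n - 1, by omega⟩ • ψ 0 := by
          rw [hψ0]
          funext j
          rw [Pi.smul_apply, smul_eq_mul, Pi.single_apply]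
          by_cases hj : j = ⟨n - 1, by omega⟩
          · rw [if_pos hj, hj, mul_one]
          · rw [if_neg hj, mul_zero]
            apply hφ
            have := j.2
            have h2 : (j : ℕ) ≠ n - 1 := fun h => hj (Fin.ext h)
            omega
        rw [this]; exact hS0 _
      | succ e ih =>
        intro he φ hφ
        have hidx : n - 1 - (e + 1) < n := by omega
        have hne := (psi_vals l hl h0 (e + 1)).2 ⟨n - 1 - (e + 1), hidx⟩ (by simp; omega)
        set a := φ ⟨n - 1 - (e + 1), hidx⟩ / ψ (e + 1) ⟨n - 1 - (e + 1), hidx⟩ with ha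
        have h1 : HasT K v (φ - a • ψ (e + 1)) := by
          apply ih (by omega)
          intro j hj
          rw [Pi.sub_apply, Pi.smul_apply, smul_eq_mul]
          rcases Nat.lt_or_ge ((j : ℕ) + (e + 1)) (n - 1) with h2 | h2
          · have hps : ψ (e + 1) j = 0 := (psi_vals l hl h0 (e + 1)).1 j h2
            rw [hφ j h2, hps]; ring
          · have : j = ⟨n - 1 - (e + 1), hidx⟩ := Fin.ext (by simp; omega)
            rw [this, ha, div_mul_cancel₀ _ hne, sub_self]
        have h2 := h1.add_right (hS (e + 1) he a)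
        rwa [sub_add_cancel] at h2
    intro φ hφ
    apply key (n - 2) (by omega)
    intro j hj
    have : j = ⟨0, by omega⟩ := Fin.ext (by simp; omega)
    rw [this]
    rw [hv, dotProduct_single_one] at hφ
    exact hφ
  apply specialLinear_le_of_full_of_irreducible (v := v) _ hfull
  · intro W hW
    apply stable_trivial l hl W
    · intro y hy
      have h1 := W.sub_mem (hW u huK y hy) hy
      rw [hu, Matrix.add_mulVec, Matrix.one_mulVec, add_sub_cancel_left] at h1
      exact h1
    · intro y hy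
      have h1 := W.sub_mem (hW w hwK y hy) hy
      rw [hw, Matrix.add_mulVec, Matrix.one_mulVec, add_sub_cancel_left] at h1
      exact h1
  · intro h
    have := congrFun h ⟨0, by omega⟩
    rw [hv] at this
    simp at this

end main

theorem NN_pow (k : ℕ) (i j : Fin n) : (NN n F ^ k) i j = if (i : ℕ) + k = j then 1 else 0 := by
  induction k generalizing i j with
  | zero =>
    rw [pow_zero, Matrix.one_apply]
    by_cases h : i = j
    · subst h; simp
    · rw [if_neg h, if_neg]
      intro h'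
      exact h (Fin.ext (by simpa using h'))
  | succ k ih =>
    rw [pow_succ, Matrix.mul_apply]
    simp only [ih, NN, mul_ite, mul_one, mul_zero]
    by_cases h : (i : ℕ) + (k + 1) = j
    · rw [if_pos h, Finset.sum_eq_single (⟨i + k, by have := j.2; omega⟩ : Fin n)]
      · rw [if_pos (by simp; omega), if_pos (by simp)]
      · intro b _ hb
        by_cases h1 : (b : ℕ) + 1 = j
        · exact absurd (Fin.ext (by simp; omega)) hb
        · rw [if_neg h1]
      · intro h; exact absurd (Finset.mem_univ _) h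
    · rw [if_neg h]
      apply Finset.sum_eq_zero
      intro b _
      by_cases h1 : (b : ℕ) + 1 = j
      · rw [if_pos h1, if_neg (by omega)]
      · rw [if_neg h1]

theorem NN_nilpotent : IsNilpotent (NN n F) := by
  refine ⟨n, ?_⟩
  ext i j
  rw [NN_pow, if_neg]
  · rfl
  · have := j.2; omega

theorem NN_pow_ne (hn : 0 < n) : NN n F ^ (n - 1) ≠ 0 := by
  intro h
  have h1 := congrFun (congrFun h ⟨0, hn⟩) ⟨n - 1, by omega⟩
  rw [NN_pow, if_pos (by simp)] at h1
  exact one_ne_zero h1

theorem det_one_add_NN : (1 + NN n F).det = 1 := by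
  rw [Matrix.det_of_isUpperTriangular]
  · apply Finset.prod_eq_one
    intro i _
    simp [NN]
  · intro i j hij
    have h1 : (j : ℕ) < i := hij
    rw [Matrix.add_apply, Matrix.one_apply, NN, if_neg (by rintro rfl; omega), if_neg (by omega), add_zero]

/-- the Jordan block in `SL` -/
def JS (n : ℕ) (F : Type*) [Field F] : Matrix.SpecialLinearGroup (Fin n) F := ⟨1 + NN n F, det_one_add_NN⟩

/-- reversal matrix -/
def PP (n : ℕ) (F : Type*) [Field F] : Matrix (Fin n) (Fin n) F := fun i j => if (i : ℕ) + j = n - 1 then 1 else 0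

theorem PP_mul : PP n F * PP n F = 1 := by
  ext i k
  rw [Matrix.mul_apply]
  simp only [PP, mul_ite, mul_one, mul_zero]
  rw [Finset.sum_eq_single (⟨n - 1 - k, by have := k.2; omega⟩ : Fin n)]
  · by_cases h : i = k
    · subst h
      have := i.2
      rw [if_pos (by simp; omega), if_pos (by simp; omega), Matrix.one_apply_eq]
    · have h1 := i.2
      have h2 := k.2
      have h3 : (i : ℕ) ≠ k := fun h' => h (Fin.ext h')
      rw [if_pos (by simp; omega), if_neg (by simp; omega), Matrix.one_apply_ne h]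
  · intro b _ hb
    rw [if_neg]
    intro h
    apply hb
    apply Fin.ext
    simp; omega
  · intro h; exact absurd (Finset.mem_univ _) h

theorem det_PP_ne : (PP n F).det ≠ 0 := by
  intro h
  have h1 := congrArg Matrix.det (PP_mul (n := n) (F := F))
  rw [Matrix.det_mul, h, Matrix.det_one, mul_zero] at h1
  exact zero_ne_one h1

/-- weights -/
def dd (n : ℕ) (F : Type*) [Field F] (i : ℕ) : F := if i = 0 then ((PP n F).det)⁻¹ else 1
def ll (n : ℕ) (F : Type*) [Field F] (i : ℕ) : F := if i = n - 1 then ((PP n F).det)⁻¹ else 1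

theorem ll_ne (i : ℕ) : ll n F i ≠ 0 := by
  unfold ll
  split_ifs
  · exact inv_ne_zero det_PP_ne
  · exact one_ne_zero

/-- element of `SL` conjugating the Jordan block into a lower bidiagonal matrix -/
def gS (hn : 0 < n) : Matrix.SpecialLinearGroup (Fin n) F :=
  ⟨PP n F * Matrix.diagonal (fun i : Fin n => dd n F i), by
    rw [Matrix.det_mul, Matrix.det_diagonal, Finset.prod_eq_single (⟨0, hn⟩ : Fin n)]
    · have : dd n F ((⟨0, hn⟩ : Fin n) : ℕ) = ((PP n F).det)⁻¹ := by simp [dd]
      rw [this]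
      exact mul_inv_cancel₀ det_PP_ne
    · intro b _ hb
      simp only [dd]
      rw [if_neg]
      intro h
      exact hb (Fin.ext h)
    · intro h; exact absurd (Finset.mem_univ _) h⟩

theorem gS_apply (hn : 0 < n) (i j : Fin n) : (gS hn : Matrix.SpecialLinearGroup (Fin n) F) i j =
    if (i : ℕ) + j = n - 1 then dd n F j else 0 := by
  change (PP n F * Matrix.diagonal (fun i : Fin n => dd n F i)) i j = _
  rw [Matrix.mul_diagonal, PP]
  split_ifs <;> simp

theorem gS_conj (hn : 2 ≤ n) :
    ((gS (by omega) * JS n F * (gS (by omega))⁻¹ : Matrix.SpecialLinearGroup (Fin n) F) : Matrix (Fin n) (Fin n) F) =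
      1 + LL (ll n F) := by
  have key : (1 + LL (ll n F)) * ((gS (by omega) : Matrix.SpecialLinearGroup (Fin n) F) : Matrix (Fin n) (Fin n) F) =
      ((gS (by omega) : Matrix.SpecialLinearGroup (Fin n) F) : Matrix (Fin n) (Fin n) F) * (1 + NN n F) := by
    rw [Matrix.add_mul, Matrix.mul_add, one_mul, mul_one]
    congr 1
    ext i k
    rw [Matrix.mul_apply, Matrix.mul_apply]
    simp only [gS_apply, LL, NN, ite_mul, zero_mul, mul_ite, mul_zero, mul_one]
    have hi := i.2
    have hk := k.2
    by_cases h : (i : ℕ) + k = n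
    · rw [Finset.sum_eq_single (⟨i - 1, by omega⟩ : Fin n), Finset.sum_eq_single (⟨k - 1, by omega⟩ : Fin n)]
      · rw [if_pos (by simp; omega), if_pos (by simp; omega), if_pos (by simp; omega), if_pos (by simp; omega)]
        simp only [ll, dd]
        rw [if_neg (by omega : ¬ (k : ℕ) = 0), mul_one]
        by_cases h1 : (i : ℕ) = n - 1
        · rw [if_pos h1, if_pos (by omega)]
        · rw [if_neg h1, if_neg (by omega)]
      · intro b _ hb
        rw [if_neg]
        intro h'
        exact hb (Fin.ext (by simp; omega))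
      · intro h; exact absurd (Finset.mem_univ _) h
      · intro b _ hb
        rw [if_neg]
        intro h'
        exact hb (Fin.ext (by simp; omega))
      · intro h; exact absurd (Finset.mem_univ _) h
    · rw [Finset.sum_eq_zero, Finset.sum_eq_zero]
      · intro b _
        by_cases h1 : (b : ℕ) + 1 = k
        · rw [if_pos h1, if_neg (by omega)]
        · rw [if_neg h1]
      · intro b _
        by_cases h1 : (i : ℕ) = b + 1
        · rw [if_pos h1, if_neg (by omega)]
        · rw [if_neg h1]; simp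
  have h2 : (((gS (by omega) * JS n F * (gS (by omega))⁻¹ : Matrix.SpecialLinearGroup (Fin n) F) : Matrix (Fin n) (Fin n) F)) *
      ((gS (by omega) : Matrix.SpecialLinearGroup (Fin n) F) : Matrix (Fin n) (Fin n) F) =
      (1 + LL (ll n F)) * ((gS (by omega) : Matrix.SpecialLinearGroup (Fin n) F) : Matrix (Fin n) (Fin n) F) := by
    rw [key, ← Matrix.SpecialLinearGroup.coe_mul, inv_mul_cancel_right]
    rfl
  have h3 : IsUnit ((gS (by omega) : Matrix.SpecialLinearGroup (Fin n) F) : Matrix (Fin n) (Fin n) F) := by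
    rw [Matrix.isUnit_iff_isUnit_det, Matrix.SpecialLinearGroup.det_coe]
    exact isUnit_one
  exact h3.mul_right_cancel h2

/-- elementary transvections in `SL` -/
def tS (i j : Fin n) (hij : i ≠ j) (c : F) : Matrix.SpecialLinearGroup (Fin n) F :=
  ⟨Matrix.transvection i j c, Matrix.det_transvection_of_ne i j hij c⟩

theorem conj_JS (hn : 3 ≤ n) (c : F) :
    tS (⟨0, by omega⟩ : Fin n) ⟨n - 2, by omega⟩ (by rw [Ne, Fin.mk.injEq]; omega) c * JS n F *
      (tS (⟨0, by omega⟩ : Fin n) ⟨n - 2, by omega⟩ (by rw [Ne, Fin.mk.injEq]; omega) c)⁻¹ =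
      JS n F * tS (⟨0, by omega⟩ : Fin n) ⟨n - 1, by omega⟩ (by rw [Ne, Fin.mk.injEq]; omega) c := by
  rw [mul_inv_eq_iff_eq_mul]
  apply Subtype.ext
  change Matrix.transvection _ _ c * (1 + NN n F) = (1 + NN n F) * Matrix.transvection _ _ c * Matrix.transvection _ _ c
  simp only [Matrix.transvection]
  have h1 : Matrix.single (⟨0, by omega⟩ : Fin n) (⟨n - 2, by omega⟩ : Fin n) c * NN n F =
      Matrix.single (⟨0, by omega⟩ : Fin n) (⟨n - 1, by omega⟩ : Fin n) c := by
    ext i j
    by_cases hi : i = (⟨0, by omega⟩ : Fin n)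
    · rw [hi, Matrix.single_mul_apply_same]
      by_cases hj : j = (⟨n - 1, by omega⟩ : Fin n)
      · rw [hj, Matrix.single_apply_same]
        simp only [NN]
        rw [if_pos (by omega), mul_one]
      · have hj' : (j : ℕ) ≠ n - 1 := fun h => hj (Fin.ext h)
        rw [Matrix.single_apply_of_col_ne _ _ (fun h => hj h.symm)]
        simp only [NN]
        rw [if_neg (by omega), mul_zero]
    · rw [Matrix.single_mul_apply_of_ne _ _ _ _ _ hi, Matrix.single_apply_of_row_ne (fun h => hi h.symm)]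
  have h2 : ∀ k : Fin n, NN n F * Matrix.single (⟨0, by omega⟩ : Fin n) k c = 0 := by
    intro k
    ext i j
    by_cases hj : j = k
    · rw [hj, Matrix.mul_single_apply_same, Matrix.zero_apply]
      simp only [NN]
      rw [if_neg (by omega), zero_mul]
    · rw [Matrix.mul_single_apply_of_ne _ _ _ _ _ hj, Matrix.zero_apply]
  have h3 : Matrix.single (⟨0, by omega⟩ : Fin n) (⟨n - 1, by omega⟩ : Fin n) c *
      Matrix.single (⟨0, by omega⟩ : Fin n) (⟨n - 2, by omega⟩ : Fin n) c = 0 := by
    apply Matrix.single_mul_single_of_ne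
    rw [Ne, Fin.mk.injEq]; omega
  simp only [Matrix.add_mul, Matrix.mul_add, one_mul, mul_one, h1, h2, h3, Matrix.zero_mul]
  abel

/-- every nonzero element is `c * ζ ^ k` for a generator `ζ` -/
theorem exists_gen [Finite F] (κ₀ : F) (hκ : κ₀ ≠ 0) : ∃ c : F, ∀ x : F, x ≠ 0 → ∃ k : ℕ, x = c * (c * κ₀) ^ k := by
  have : Fintype F := Fintype.ofFinite F
  obtain ⟨ζ, hζ⟩ := IsCyclic.exists_generator (α := Fˣ)
  refine ⟨(ζ : F) / κ₀, fun x hx => ?_⟩
  have h1 : (ζ : F) / κ₀ * κ₀ = ζ := div_mul_cancel₀ _ hκ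
  have hc : (ζ : F) / κ₀ ≠ 0 := div_ne_zero ζ.ne_zero hκ
  obtain ⟨k, hk⟩ := (isOfFinOrder_of_finite ζ).mem_powers_iff_mem_zpowers.2 (hζ (Units.mk0 (x / ((ζ : F) / κ₀)) (div_ne_zero hx hc)))
  refine ⟨k, ?_⟩
  have h2 := congrArg Units.val hk
  simp only [Units.val_pow_eq_pow_val, Units.val_mk0] at h2
  rw [h1, h2]
  field_simp

end H43.RegUni
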