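import Cfsg.Agent.Lib.H43.Hom3

/-!
Relations for `SL_3`.
-/
set_option autoImplicit false

namespace H43.Rel3

open Matrix H43.Borel H43.SL2R H43.FieldStr H43.SteinHom H43.SDM H43.SLPerm H43.Hom3

variable {G : Type*} [Group G]

/-- the third torus generator -/
def kk (h c : G) : G := (c * h * c⁻¹)⁻¹

/-- basic relations -/
structure R3 (u h n c : G) (M : ℕ) : Prop where
  ra : n * n = h ^ M
  rb : n * h * n⁻¹ = h⁻¹
  rc : n * u⁻¹ * n⁻¹ = u * n * u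
  rf : h * u * h⁻¹ = kk h c ^ 2 * u * (kk h c ^ 2)⁻¹
  rg : Commute h (kk h c)
  ri : h * (c * h * c⁻¹) * (c⁻¹ * h * c) = 1
  rj : c * c * c = 1
  rk : c * n * c * n = 1

variable {u h n c : G} {M : ℕ}

section
variable (R : R3 u h n c M)
include R

theorem cc : c * c = c⁻¹ := eq_inv_of_mul_eq_one_left R.rj
theorem ccinv : c⁻¹ * c⁻¹ = c := by
  rw [← cc R]
  calc c * c * (c * c) = c * c * c * c := by group
    _ = c := by rw [R.rj, one_mul]
theorem ncn : n * c * n = c⁻¹ := by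
  have := R.rk
  rw [mul_assoc, mul_assoc] at this
  rw [mul_assoc]
  exact (inv_eq_of_mul_eq_one_right this).symm
theorem nc : n * c = c⁻¹ * n⁻¹ := by rw [← ncn R]; group
omit R in
theorem k1 : c⁻¹ * kk h c * c = h⁻¹ := by unfold kk; group
theorem hl : c⁻¹ * h * c = kk h c * h⁻¹ := by
  have h1 := R.ri
  have h2 := eq_inv_of_mul_eq_one_right h1
  rw [h2]
  unfold kk; group
theorem ckc : c * kk h c * c⁻¹ = h * (kk h c)⁻¹ := by
  have h1 : c * kk h c * c⁻¹ = (c⁻¹ * h * c)⁻¹ := by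
    unfold kk
    calc c * (c * h * c⁻¹)⁻¹ * c⁻¹ = (c * c) * h⁻¹ * (c⁻¹ * c⁻¹) := by group
      _ = c⁻¹ * h⁻¹ * c := by rw [cc R, ccinv R]
      _ = _ := by group
  rw [h1, hl R]; group
theorem n2u : Commute (n * n) u := by
  have h1 := R.rc
  have h2 : n * u * n⁻¹ = u⁻¹ * n⁻¹ * u⁻¹ := by
    calc n * u * n⁻¹ = (n * u⁻¹ * n⁻¹)⁻¹ := by group
      _ = _ := by rw [h1]; group
  have h3 : n * n * u⁻¹ * (n * n)⁻¹ = u⁻¹ := by
    calc n * n * u⁻¹ * (n * n)⁻¹ = n * (n * u⁻¹ * n⁻¹) * n⁻¹ := by group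
      _ = n * (u * n * u) * n⁻¹ := by rw [h1]
      _ = (n * u * n⁻¹) * n * (n * u * n⁻¹) := by group
      _ = u⁻¹ * n⁻¹ * u⁻¹ * (n * u⁻¹ * n⁻¹) * u⁻¹ := by rw [h2]; group
      _ = _ := by rw [h1]; group
  have h4 : Commute (n * n) u⁻¹ := mul_inv_eq_iff_eq_mul.1 h3
  have := h4.inv_right
  rwa [inv_inv] at this
theorem nkn : n * kk h c * n⁻¹ = kk h c * h⁻¹ := by
  have hb' : n⁻¹ * h * n = h⁻¹ := by
    have h1 := R.rb
    have h2 : n⁻¹ * h⁻¹ * n = h := by rw [← h1]; group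
    calc n⁻¹ * h * n = (n⁻¹ * h⁻¹ * n)⁻¹ := by group
      _ = _ := by rw [h2]
  have e : n * kk h c * n⁻¹ = (n * c) * h⁻¹ * (n * c)⁻¹ := by unfold kk; group
  rw [e, nc R]
  calc c⁻¹ * n⁻¹ * h⁻¹ * (c⁻¹ * n⁻¹)⁻¹ = c⁻¹ * (n⁻¹ * h * n)⁻¹ * c := by group
    _ = c⁻¹ * h * c := by rw [hb', inv_inv]
    _ = _ := hl R

/-- the torus orbit -/
def A (u h c : G) (m : ℤ) : G := cz (kk h c) m u
/-- lower root elements -/
def D (u h n c : G) (m : ℤ) : G := n * (A u h c m)⁻¹ * n⁻¹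
/-- root `(1,2)` -/
def X12 (u h c : G) (m : ℤ) : G := c * A u h c m * c⁻¹
/-- root `(0,2)` -/
def X02 (u h n c : G) (m : ℤ) : G := c⁻¹ * D u h n c m * c
/-- root `(2,1)` -/
def X21 (u h n c : G) (m : ℤ) : G := c * D u h n c m * c⁻¹

omit R in
theorem cz_conj (t x g : G) (m : ℤ) : cz t m (x * g * x⁻¹) = x * cz (x⁻¹ * t * x) m g * x⁻¹ := by
  unfold cz
  have : (x⁻¹ * t * x) ^ m = x⁻¹ * t ^ m * x := by
    have := conj_zpow (a := x⁻¹) (b := t) (i := m)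
    rwa [inv_inv] at this
  rw [this]; group

omit R in
theorem cz_ginv (t g : G) (m : ℤ) : cz t m g⁻¹ = (cz t m g)⁻¹ := by unfold cz; group

omit R in
theorem kA (s m : ℤ) : cz (kk h c) s (A u h c m) = A u h c (m + s) := by
  unfold A; rw [← cz_add, add_comm]
theorem hA (s m : ℤ) : cz h s (A u h c m) = A u h c (m + 2 * s) := by
  have h1 : Commute (h * (kk h c ^ 2)⁻¹) u := by
    have h2 : (kk h c ^ 2)⁻¹ * h * u * ((kk h c ^ 2)⁻¹ * h)⁻¹ = u := by
      calc _ = (kk h c ^ 2)⁻¹ * (h * u * h⁻¹) * (kk h c ^ 2) := by group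
        _ = u := by rw [R.rf]; group
    have h3 : (kk h c ^ 2)⁻¹ * h = h * (kk h c ^ 2)⁻¹ := ((R.rg.pow_right 2).inv_right).eq.symm
    rw [h3] at h2
    exact mul_inv_eq_iff_eq_mul.1 h2
  have h4 : Commute (h * (kk h c ^ 2)⁻¹) (kk h c ^ 2) := (R.rg.pow_right 2).mul_left (Commute.refl _).inv_left
  have h5 : cz h s u = cz (kk h c) (2 * s) u := by
    have e : h = (h * (kk h c ^ 2)⁻¹) * kk h c ^ 2 := by group
    conv_lhs => rw [e]
    rw [cz_mul_left h4]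
    have e2 : cz (kk h c ^ 2) s u = cz (kk h c) (2 * s) u := by
      unfold cz; rw [← zpow_natCast, ← _root_.zpow_mul]; norm_num
    have h6 : Commute (h * (kk h c ^ 2)⁻¹) (kk h c) := R.rg.mul_left ((Commute.refl _).pow_left 2).inv_left
    rw [e2, cz_swap h6, cz_of_comm h1]
  unfold A
  rw [cz_swap R.rg, h5, ← cz_add]


theorem nhn' : n⁻¹ * h * n = h⁻¹ := by
  have h1 := R.rb
  have h2 : n⁻¹ * h⁻¹ * n = h := by rw [← h1]; group
  calc n⁻¹ * h * n = (n⁻¹ * h⁻¹ * n)⁻¹ := by group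
    _ = _ := by rw [h2]
theorem nkn' : n⁻¹ * kk h c * n = kk h c * h⁻¹ := by
  have h1 : n * (kk h c * h⁻¹) * n⁻¹ = kk h c := by
    calc n * (kk h c * h⁻¹) * n⁻¹ = (n * kk h c * n⁻¹) * (n * h * n⁻¹)⁻¹ := by group
      _ = _ := by rw [nkn R, R.rb]; group
  calc n⁻¹ * kk h c * n = n⁻¹ * (n * (kk h c * h⁻¹) * n⁻¹) * n := by rw [h1]
    _ = _ := by group

theorem kX12 (s m : ℤ) : cz (kk h c) s (X12 u h c m) = X12 u h c (m - 2 * s) := by
  unfold X12
  rw [cz_conj, k1, cz_inv, hA R]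
  congr 3; ring
theorem hX12 (s m : ℤ) : cz h s (X12 u h c m) = X12 u h c (m - s) := by
  unfold X12
  rw [cz_conj, hl R, cz_mul_left (R.rg.symm.inv_right), cz_inv, hA R, kA]
  congr 3; ring
theorem kD (s m : ℤ) : cz (kk h c) s (D u h n c m) = D u h n c (m - s) := by
  unfold D
  rw [cz_conj, nkn' R, cz_mul_left (R.rg.symm.inv_right), cz_ginv, cz_ginv, cz_inv, hA R, kA]
  congr 4; ring
theorem hD (s m : ℤ) : cz h s (D u h n c m) = D u h n c (m - 2 * s) := by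
  unfold D
  rw [cz_conj, nhn' R, cz_ginv, cz_inv, hA R]
  congr 4; ring
theorem kX02 (s m : ℤ) : cz (kk h c) s (X02 u h n c m) = X02 u h n c (m - s) := by
  unfold X02
  have e : c⁻¹ * D u h n c m * c = c⁻¹ * D u h n c m * c⁻¹⁻¹ := by rw [inv_inv]
  rw [e, cz_conj, inv_inv, ckc R, cz_mul_left (R.rg.inv_right), cz_inv, kD R, hD R]
  congr 3; ring
theorem hX02 (s m : ℤ) : cz h s (X02 u h n c m) = X02 u h n c (m + s) := by
  unfold X02
  have e : c⁻¹ * D u h n c m * c = c⁻¹ * D u h n c m * c⁻¹⁻¹ := by rw [inv_inv]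
  have e2 : c * h * c⁻¹ = (kk h c)⁻¹ := by unfold kk; rw [inv_inv]
  rw [e, cz_conj, inv_inv, e2, cz_inv, kD R]
  congr 3; ring

/-- the commutator relation on a torus orbit -/
theorem Bplus {m0' : ℤ} (h0 : A u h c 0 * X12 u h c m0' = X02 u h n c m0' * X12 u h c m0' * A u h c 0) (m m' r : ℤ)
    (hm : m - m' = 3 * r - m0') : A u h c m * X12 u h c m' = X02 u h n c (m + m') * X12 u h c m' * A u h c m := by
  have e := congrArg (fun g => cz h (m - r) (cz (kk h c) (2 * r - m) g)) h0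
  simp only [cz_mul] at e
  rw [kA, hA R, kX12 R, hX12 R, kX02 R, hX02 R] at e
  have e1 : (0 : ℤ) + (2 * r - m) + 2 * (m - r) = m := by ring
  have e2 : m0' - 2 * (2 * r - m) - (m - r) = m' := by linarith
  have e3 : m0' - (2 * r - m) + (m - r) = m + m' := by linarith
  rwa [e1, e2, e3] at e

theorem Rowm (h0 : Commute (A u h c 0) (X02 u h n c 0)) (m m' r : ℤ) (hm : m + m' = 3 * r) :
    Commute (A u h c m) (X02 u h n c m') := by
  have e := cz_comm (cz_comm h0 (kk h c) (m - 2 * r)) h r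
  rw [kA, hA R, kX02 R, hX02 R] at e
  have e1 : (0 : ℤ) + (m - 2 * r) + 2 * r = m := by ring
  have e2 : (0 : ℤ) - (m - 2 * r) + r = m' := by linarith
  rwa [e1, e2] at e

theorem Colm (h0 : Commute (X02 u h n c 0) (X12 u h c 0)) (m m' r : ℤ) (hm : m + m' = 3 * r) :
    Commute (X02 u h n c m) (X12 u h c m') := by
  have e := cz_comm (cz_comm h0 (kk h c) (-r)) h (m - r)
  rw [kX02 R, hX02 R, kX12 R, hX12 R] at e
  have e1 : (0 : ℤ) - -r + (m - r) = m := by ring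
  have e2 : (0 : ℤ) - 2 * -r - (m - r) = m' := by linarith
  rwa [e1, e2] at e

omit R in
theorem nA (m : ℤ) : n * A u h c m * n⁻¹ = (D u h n c m)⁻¹ := by unfold D; group

theorem n2A (m : ℤ) : Commute (n * n) (A u h c m) := by
  have h1 : Commute (n * n) (kk h c) := by rw [R.ra]; exact R.rg.pow_left M
  unfold A cz
  exact ((h1.zpow_right m).mul_right (n2u R)).mul_right (h1.zpow_right m).inv_right

theorem nX12 (m : ℤ) : n * X12 u h c m * n⁻¹ = (X02 u h n c m)⁻¹ := by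
  unfold X12 X02 D
  have h1 := (n2A R m).eq
  have h2 : n⁻¹ * A u h c m * n = n * A u h c m * n⁻¹ := by
    calc n⁻¹ * A u h c m * n = n⁻¹ * (A u h c m * (n * n)) * n⁻¹ := by group
      _ = _ := by rw [← h1]; group
  calc n * (c * A u h c m * c⁻¹) * n⁻¹ = (n * c) * A u h c m * (n * c)⁻¹ := by group
    _ = c⁻¹ * (n⁻¹ * A u h c m * n) * c := by rw [nc R]; group
    _ = _ := by rw [h2]; group

theorem nX02 (m : ℤ) : n * X02 u h n c m * n⁻¹ = (X12 u h c (m - M))⁻¹ := by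
  have h1 : n * c⁻¹ * n = n * n * c * (n * n) := by rw [← ncn R]; group
  have h2 := (n2A R m).eq
  have h3 : X12 u h c (m - M) = (n * n) * X12 u h c m * (n * n)⁻¹ := by
    have := hX12 R M m
    rw [← this, R.ra]
    unfold cz; rw [zpow_natCast]
  rw [h3]
  unfold X02 X12 D
  calc n * (c⁻¹ * (n * (A u h c m)⁻¹ * n⁻¹) * c) * n⁻¹ = (n * c⁻¹ * n) * (A u h c m)⁻¹ * (n * c⁻¹ * n)⁻¹ := by group
    _ = (n * n) * c * ((n * n) * (A u h c m)⁻¹ * (n * n)⁻¹) * c⁻¹ * (n * n)⁻¹ := by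
      rw [h1]; simp only [_root_.mul_inv_rev, mul_assoc]
    _ = (n * n) * c * ((n * n) * (A u h c m) * (n * n)⁻¹)⁻¹ * c⁻¹ * (n * n)⁻¹ := by
      simp only [_root_.mul_inv_rev, mul_assoc, inv_inv]
    _ = (n * n) * c * (A u h c m)⁻¹ * c⁻¹ * (n * n)⁻¹ := by rw [h2, mul_inv_cancel_right]
    _ = _ := by simp only [_root_.mul_inv_rev, mul_assoc, inv_inv]

theorem per (m : ℤ) : A u h c (m + 2 * M) = A u h c m := by
  have h1 : h ^ M * h ^ M = 1 := by
    have h2 : n * h ^ M * n⁻¹ = (h ^ M)⁻¹ := by rw [← conj_pow, R.rb, inv_pow]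
    have h3 : n * h ^ M * n⁻¹ = h ^ M := by rw [← R.ra]; group
    rw [h3] at h2
    nth_rw 1 [h2]
    exact inv_mul_cancel _
  have h4 : kk h c ^ (2 * (M : ℤ)) = 1 := by
    have e : kk h c ^ (2 * M) = (c * (h ^ M * h ^ M) * c⁻¹)⁻¹ := by
      unfold kk; rw [inv_pow, conj_pow, two_mul, pow_add]
    have : kk h c ^ (2 * (M : ℤ)) = kk h c ^ (2 * M) := by
      rw [← zpow_natCast]; push_cast; rfl
    rw [this, e, h1]; group
  unfold A
  rw [cz_add]
  congr 1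
  unfold cz; rw [h4]; group

/-- commutation within the root subgroup -/
theorem selfcomm (hB : A u h c 0 * X12 u h c 0 = X02 u h n c 0 * X12 u h c 0 * A u h c 0)
    (hR : Commute (A u h c 0) (X02 u h n c 0)) (hC : Commute (X02 u h n c 0) (X12 u h c 0)) (i j : ℤ) :
    Commute (A u h c (3 * i)) (A u h c (3 * j)) := by
  have e1 := Bplus R (m0' := 0) hB (3 * j + 3 * M) 0 (j + M) (by ring)
  rw [add_zero] at e1
  have e2 : c⁻¹ * (n * (A u h c (3 * j + 3 * M) * X12 u h c 0) * n⁻¹) * c =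
      c⁻¹ * (n * (X02 u h n c (3 * j + 3 * M) * X12 u h c 0 * A u h c (3 * j + 3 * M)) * n⁻¹) * c := by rw [e1]
  have g1 : c⁻¹ * (n * (A u h c (3 * j + 3 * M) * X12 u h c 0) * n⁻¹) * c =
      (c⁻¹ * (n * A u h c (3 * j + 3 * M) * n⁻¹) * c) * (c⁻¹ * (n * X12 u h c 0 * n⁻¹) * c) := by group
  have g2 : c⁻¹ * (n * (X02 u h n c (3 * j + 3 * M) * X12 u h c 0 * A u h c (3 * j + 3 * M)) * n⁻¹) * c =
      (c⁻¹ * (n * X02 u h n c (3 * j + 3 * M) * n⁻¹) * c) * (c⁻¹ * (n * X12 u h c 0 * n⁻¹) * c) *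
      (c⁻¹ * (n * A u h c (3 * j + 3 * M) * n⁻¹) * c) := by group
  rw [g1, g2, nA, nX12 R, nX02 R] at e2
  have g3 : c⁻¹ * (D u h n c (3 * j + 3 * M))⁻¹ * c = (X02 u h n c (3 * j + 3 * M))⁻¹ := by unfold X02; group
  have g4 : c⁻¹ * (X02 u h n c 0)⁻¹ * c = (X21 u h n c 0)⁻¹ := by
    unfold X02 X21
    calc c⁻¹ * (c⁻¹ * D u h n c 0 * c)⁻¹ * c = (c⁻¹ * c⁻¹) * (D u h n c 0)⁻¹ * (c * c) := by group
      _ = _ := by rw [ccinv R, cc R]; group
  have g5 : c⁻¹ * (X12 u h c (3 * j + 3 * M - M))⁻¹ * c = (A u h c (3 * j))⁻¹ := by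
    have : (3 * j + 3 * M - M : ℤ) = 3 * j + 2 * M := by ring
    rw [this]
    unfold X12
    rw [per R]; group
  rw [g3, g4, g5] at e2
  have e3 : A u h c (3 * j) = (X21 u h n c 0)⁻¹ * (X02 u h n c (3 * j + 3 * M))⁻¹ * X21 u h n c 0 *
      X02 u h n c (3 * j + 3 * M) := by
    have e4 : (A u h c (3 * j))⁻¹ = (X02 u h n c (3 * j + 3 * M))⁻¹ * (X21 u h n c 0)⁻¹ * X02 u h n c (3 * j + 3 * M) *
        X21 u h n c 0 := by rw [e2]; group
    calc A u h c (3 * j) = ((A u h c (3 * j))⁻¹)⁻¹ := by rw [inv_inv]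
      _ = _ := by rw [e4]; group
  have c1 : Commute (A u h c (3 * i)) (X02 u h n c (3 * j + 3 * M)) := Rowm R hR _ _ (i + j + M) (by ring)
  have c2 : Commute (A u h c (3 * i)) (X21 u h n c 0) := by
    have h5 := Colm R hC 0 (3 * i) i (by ring)
    have h6 := h5.map (MulAut.conj c⁻¹)
    have h7 : MulAut.conj c⁻¹ (X02 u h n c 0) = X21 u h n c 0 := by
      rw [MulAut.conj_apply]
      unfold X02 X21
      calc c⁻¹ * (c⁻¹ * D u h n c 0 * c) * c⁻¹⁻¹ = (c⁻¹ * c⁻¹) * (D u h n c 0) * (c * c) := by group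
        _ = _ := by rw [ccinv R, cc R]
    have h8 : MulAut.conj c⁻¹ (X12 u h c (3 * i)) = A u h c (3 * i) := by
      rw [MulAut.conj_apply]; unfold X12; group
    rw [h7, h8] at h6
    exact h6.symm
  rw [e3]
  exact (((c2.inv_right).mul_right c1.inv_right).mul_right c2).mul_right c1

end

end H43.Rel3
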