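import Cfsg.Agent.S2401

/-!
Homomorphisms out of `SL_n` from Steinberg relations.
-/
set_option autoImplicit false

namespace H43.SteinHom

open Matrix

/-- elementary matrix -/
def Tr {n : ℕ} {K : Type*} [Field K] (i j : Fin n) (h : i ≠ j) (t : K) : SpecialLinearGroup (Fin n) K :=
  ⟨transvection i j t, det_transvection_of_ne i j h t⟩

theorem exists_hom {n : ℕ} (hn : 3 ≤ n) {K : Type*} [Field K] [Finite K] {G : Type*} [Group G]
    (θ : Fin n → Fin n → K → G)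
    (hadd : ∀ i j, i ≠ j → ∀ a b, θ i j (a + b) = θ i j a * θ i j b)
    (hcomm : ∀ i j k l, i ≠ j → k ≠ l → i ≠ l → j ≠ k → ∀ a b, Commute (θ i j a) (θ k l b))
    (hB : ∀ i j k, i ≠ j → j ≠ k → i ≠ k → ∀ a b, θ i j a * θ j k b * (θ i j a)⁻¹ * (θ j k b)⁻¹ = θ i k (a * b)) :
    ∃ f : SpecialLinearGroup (Fin n) K →* G, ∀ i j (h : i ≠ j) t, f (Tr i j h t) = θ i j t := by
  obtain ⟨e, he⟩ := Cfsg.Agent.S2401.result (K := K) n hn
  let v : ({ij : Fin n × Fin n // ij.1 ≠ ij.2} × K) → G := fun x => θ x.1.1.1 x.1.1.2 x.2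
  have hv : ∀ r ∈ ({g : FreeGroup ({ij : Fin n × Fin n // ij.1 ≠ ij.2} × K) | ∃ (a : {ij : Fin n × Fin n // ij.1 ≠ ij.2}) (t u : K),
            g = FreeGroup.of (a, t) * FreeGroup.of (a, u) * (FreeGroup.of (a, t + u))⁻¹} ∪
          {g | ∃ (a b : {ij : Fin n × Fin n // ij.1 ≠ ij.2}) (t u : K), a.1.1 ≠ b.1.2 ∧ a.1.2 ≠ b.1.1 ∧
            g = FreeGroup.of (a, t) * FreeGroup.of (b, u) * (FreeGroup.of (a, t))⁻¹ * (FreeGroup.of (b, u))⁻¹} ∪
          {g | ∃ (a b : {ij : Fin n × Fin n // ij.1 ≠ ij.2}) (h : a.1.1 ≠ b.1.2) (t u : K), a.1.2 = b.1.1 ∧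
            g = FreeGroup.of (a, t) * FreeGroup.of (b, u) * (FreeGroup.of (a, t))⁻¹ * (FreeGroup.of (b, u))⁻¹ *
              (FreeGroup.of (⟨(a.1.1, b.1.2), h⟩, t * u))⁻¹}), FreeGroup.lift v r = 1 := by
    rintro r ((⟨a, t, u, rfl⟩ | ⟨a, b, t, u, h1, h2, rfl⟩) | ⟨⟨⟨i, j⟩, hij⟩, ⟨⟨j', k⟩, hjk⟩, h, t, u, h1, rfl⟩)
    · simp only [map_mul, map_inv, FreeGroup.lift_apply_of, v]
      rw [hadd _ _ a.2, mul_inv_cancel]
    · simp only [map_mul, map_inv, FreeGroup.lift_apply_of, v]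
      rw [(hcomm _ _ _ _ a.2 b.2 h1 h2 t u).eq]; group
    · simp only [map_mul, map_inv, FreeGroup.lift_apply_of, v]
      dsimp only at h1 h hij hjk
      subst h1
      rw [hB i j k hij hjk h, mul_inv_cancel]
  let f0 := PresentedGroup.toGroup hv
  refine ⟨f0.comp e.symm.toMonoidHom, ?_⟩
  intro i j h t
  have h1 : e (PresentedGroup.of (⟨(i, j), h⟩, t)) = Tr i j h t := Subtype.ext (he ⟨(i, j), h⟩ t)
  rw [← h1]
  change f0 (e.symm (e _)) = _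
  rw [e.symm_apply_apply]
  exact PresentedGroup.toGroup.of hv

end H43.SteinHom
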