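import Cfsg.Agent.Lib.H43.FieldStr
import Cfsg.Agent.Lib.H43.SteinHom

/-!
Steinberg relations from torus-equivariant data, rank at least three.
-/
set_option autoImplicit false

namespace H43.SDM

open H43.Borel H43.SL2R H43.FieldStr H43.SteinHom

section cz
variable {G : Type*} [Group G]

/-- conjugation by a power -/
def cz (t : G) (m : ℤ) (g : G) : G := t ^ m * g * (t ^ m)⁻¹

theorem cz_mul (t : G) (m : ℤ) (a b : G) : cz t m (a * b) = cz t m a * cz t m b := by unfold cz; group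
theorem cz_zero (t g : G) : cz t 0 g = g := by unfold cz; simp
theorem cz_add (t : G) (m m' : ℤ) (g : G) : cz t (m + m') g = cz t m (cz t m' g) := by unfold cz; rw [zpow_add]; group
theorem cz_swap {s t : G} (h : Commute s t) (m m' : ℤ) (g : G) : cz s m (cz t m' g) = cz t m' (cz s m g) := by
  have h1 : s ^ m * t ^ m' = t ^ m' * s ^ m := (h.zpow_zpow m m').eq
  have h2 : (t ^ m')⁻¹ * (s ^ m)⁻¹ = (s ^ m)⁻¹ * (t ^ m')⁻¹ := by rw [← mul_inv_rev, h1, mul_inv_rev]
  unfold cz
  calc s ^ m * (t ^ m' * g * (t ^ m')⁻¹) * (s ^ m)⁻¹ = (s ^ m * t ^ m') * g * ((t ^ m')⁻¹ * (s ^ m)⁻¹) := by group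
    _ = _ := by rw [h1, h2]; group
theorem cz_of_comm {t g : G} (h : Commute t g) (m : ℤ) : cz t m g = g := by
  unfold cz; rw [(h.zpow_left m).eq, mul_inv_cancel_right]
theorem cz_mul_left {s t : G} (h : Commute s t) (m : ℤ) (g : G) : cz (s * t) m g = cz s m (cz t m g) := by
  unfold cz; rw [h.mul_zpow]; group
theorem cz_inv (t : G) (m : ℤ) (g : G) : cz t⁻¹ m g = cz t (-m) g := by
  unfold cz; rw [inv_zpow']
theorem cz_comm {a b : G} (h : Commute a b) (t : G) (m : ℤ) : Commute (cz t m a) (cz t m b) := by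
  change cz t m a * cz t m b = cz t m b * cz t m a
  rw [← cz_mul, h.eq, cz_mul]
theorem cz_nat (t g : G) (j : ℕ) : cz t (j : ℤ) g = cu g t j := by unfold cz cu; rw [zpow_natCast]
end cz

variable {n : ℕ} {G : Type*} [Group G]

/-- torus-equivariant data -/
structure SD (u h : Fin n → Fin n → G) : Prop where
  hcomm : ∀ i j k l, i ≠ j → k ≠ l → Commute (h i j) (h k l)
  hinv : ∀ i j, i ≠ j → h j i = (h i j)⁻¹
  htri : ∀ i j k, i ≠ j → j ≠ k → i ≠ k → h i j * h j k = h i k
  act : ∀ i j k, i ≠ j → j ≠ k → i ≠ k → Commute (h i k * h j k) (u i j)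
  act0 : ∀ i j k l, i ≠ j → i ≠ k → i ≠ l → j ≠ k → j ≠ l → k ≠ l → Commute (h k l) (u i j)
  B1 : ∀ i j k, i ≠ j → j ≠ k → i ≠ k → u i j * u j k = u i k * u j k * u i j
  row : ∀ i j k, i ≠ j → j ≠ k → i ≠ k → Commute (u i j) (u i k)
  col : ∀ i j k, i ≠ j → j ≠ k → i ≠ k → Commute (u i k) (u j k)
  dis : ∀ i j k l, i ≠ j → i ≠ k → i ≠ l → j ≠ k → j ≠ l → k ≠ l → Commute (u i j) (u k l)

theorem exists_third (hn : 3 ≤ n) (i j : Fin n) : ∃ k, i ≠ k ∧ j ≠ k := by
  by_contra hc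
  push Not at hc
  have : (Finset.univ : Finset (Fin n)) ⊆ {i, j} := by
    intro k _
    rw [Finset.mem_insert, Finset.mem_singleton]
    by_cases h : i = k
    · exact Or.inl h.symm
    · exact Or.inr (hc k h).symm
  have h1 := Finset.card_le_card this
  have h2 : ({i, j} : Finset (Fin n)).card ≤ 2 := Finset.card_le_two
  rw [Finset.card_univ, Fintype.card_fin] at h1
  omega

theorem exists_fourth (hn : 4 ≤ n) (i j k : Fin n) : ∃ l, i ≠ l ∧ j ≠ l ∧ k ≠ l := by
  by_contra hc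
  push Not at hc
  have : (Finset.univ : Finset (Fin n)) ⊆ {i, j, k} := by
    intro l _
    rw [Finset.mem_insert, Finset.mem_insert, Finset.mem_singleton]
    by_cases h : i = l
    · exact Or.inl h.symm
    · by_cases h' : j = l
      · exact Or.inr (Or.inl h'.symm)
      · exact Or.inr (Or.inr (hc l h h').symm)
  have h1 := Finset.card_le_card this
  have h2 : ({i, j, k} : Finset (Fin n)).card ≤ 3 := Finset.card_le_three
  rw [Finset.card_univ, Fintype.card_fin] at h1
  omega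

variable {u h : Fin n → Fin n → G}

/-- the torus orbit -/
def X (u h : Fin n → Fin n → G) (i j k : Fin n) (m : ℤ) : G := cz (h i k) m (u i j)

section
variable (S : SD u h)
include S

theorem X_indep {i j k l : Fin n} (hij : i ≠ j) (hik : i ≠ k) (hil : i ≠ l) (hjk : j ≠ k) (hjl : j ≠ l) (m : ℤ) :
    X u h i j l m = X u h i j k m := by
  by_cases hkl : k = l
  · rw [hkl]
  · unfold X
    rw [← S.htri i k l hik hkl hil, cz_mul_left (S.hcomm _ _ _ _ hik hkl), cz_of_comm (S.act0 i j k l hij hik hil hjk hjl hkl)]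

theorem A1 {i j k l : Fin n} (hij : i ≠ j) (hik : i ≠ k) (hil : i ≠ l) (hjk : j ≠ k) (hjl : j ≠ l) (s m : ℤ) :
    cz (h i l) s (X u h i j k m) = X u h i j k (m + s) := by
  rw [← X_indep S hij hik hil hjk hjl, ← X_indep S hij hik hil hjk hjl, add_comm]
  unfold X
  rw [cz_add]

theorem A2 {i j k l : Fin n} (hij : i ≠ j) (hik : i ≠ k) (hil : i ≠ l) (hjk : j ≠ k) (hjl : j ≠ l) (s m : ℤ) :
    cz (h j l) s (X u h i j k m) = X u h i j k (m - s) := by
  have h1 : cz (h j l) s (u i j) = cz (h i l) (-s) (u i j) := by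
    have h2 := cz_of_comm (S.act i j l hij hjl hil) s
    rw [cz_mul_left (S.hcomm _ _ _ _ hil hjl)] at h2
    have h3 := congrArg (cz (h i l) (-s)) h2
    rw [← cz_add, neg_add_cancel, cz_zero] at h3
    exact h3
  rw [← X_indep S hij hik hil hjk hjl, ← X_indep S hij hik hil hjk hjl]
  unfold X
  rw [cz_swap (S.hcomm _ _ _ _ hjl hil), h1, ← cz_add, sub_eq_add_neg]

theorem A3 {i j k a b : Fin n} (hij : i ≠ j) (hik : i ≠ k) (hia : i ≠ a) (hib : i ≠ b) (hja : j ≠ a)
    (hjb : j ≠ b) (hab : a ≠ b) (s m : ℤ) : cz (h a b) s (X u h i j k m) = X u h i j k m := by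
  unfold X
  rw [cz_swap (S.hcomm _ _ _ _ hab hik), cz_of_comm (S.act0 i j a b hij hia hib hja hjb hab)]

theorem A4 {i j k : Fin n} (hij : i ≠ j) (hik : i ≠ k) (hjk : j ≠ k) (s m : ℤ) :
    cz (h i j) s (X u h i j k m) = X u h i j k (m + 2 * s) := by
  rw [← S.htri i k j hik hjk.symm hij, cz_mul_left (S.hcomm _ _ _ _ hik hjk.symm), S.hinv j k hjk, cz_inv,
    A2 S hij hik hik hjk hjk, A1 S hij hik hik hjk hjk]
  congr 1; ring

theorem XB (hn : 4 ≤ n) {i j k a b c : Fin n} (hij : i ≠ j) (hjk : j ≠ k) (hik : i ≠ k) (ha : i ≠ a) (ha' : j ≠ a)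
    (hb : j ≠ b) (hb' : k ≠ b) (hc : i ≠ c) (hc' : k ≠ c) (m m' : ℤ) :
    X u h i j a m * X u h j k b m' = X u h i k c (m + m') * X u h j k b m' * X u h i j a m := by
  obtain ⟨l, hil, hjl, hkl⟩ := exists_fourth hn i j k
  have e := congrArg (fun g => cz (h i l) (m + m') (cz (h j l) m' g)) (S.B1 i j k hij hjk hik)
  simp only [cz_mul] at e
  have e1 : cz (h i l) (m + m') (cz (h j l) m' (u i j)) = X u h i j a m := by
    have : u i j = X u h i j a 0 := (cz_zero _ _).symm
    rw [this, A2 S hij ha hil ha' hjl, A1 S hij ha hil ha' hjl]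
    congr 1; ring
  have e2 : cz (h i l) (m + m') (cz (h j l) m' (u j k)) = X u h j k b m' := by
    have : u j k = X u h j k b 0 := (cz_zero _ _).symm
    rw [this, A1 S hjk hb hjl hb' hkl, A3 S hjk hb hij.symm hjl hik.symm hkl hil]
    congr 1; ring
  have e3 : cz (h i l) (m + m') (cz (h j l) m' (u i k)) = X u h i k c (m + m') := by
    have : u i k = X u h i k c 0 := (cz_zero _ _).symm
    rw [this, A3 S hik hc hij hil hjk.symm hkl hjl, A1 S hik hc hil hc' hkl]
    congr 1; ring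
  rwa [e1, e2, e3] at e

theorem Xrow (hn : 4 ≤ n) {i j k a b : Fin n} (hij : i ≠ j) (hjk : j ≠ k) (hik : i ≠ k) (ha : i ≠ a) (ha' : j ≠ a)
    (hb : i ≠ b) (hb' : k ≠ b) (m m' : ℤ) : Commute (X u h i j a m) (X u h i k b m') := by
  obtain ⟨l, hil, hjl, hkl⟩ := exists_fourth hn i j k
  have e := cz_comm (cz_comm (S.row i j k hij hjk hik) (h j l) (-m)) (h k l) (-m')
  have e1 : cz (h k l) (-m') (cz (h j l) (-m) (u i j)) = X u h i j a m := by
    have : u i j = X u h i j a 0 := (cz_zero _ _).symm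
    rw [this, A2 S hij ha hil ha' hjl, A3 S hij ha hik hil hjk hjl hkl]
    congr 1; ring
  have e2 : cz (h k l) (-m') (cz (h j l) (-m) (u i k)) = X u h i k b m' := by
    have : u i k = X u h i k b 0 := (cz_zero _ _).symm
    rw [this, A3 S hik hb hij hil hjk.symm hkl hjl, A2 S hik hb hil hb' hkl]
    congr 1; ring
  rwa [e1, e2] at e

theorem Xcol (hn : 4 ≤ n) {i j k a b : Fin n} (hij : i ≠ j) (hjk : j ≠ k) (hik : i ≠ k) (ha : i ≠ a) (ha' : k ≠ a)
    (hb : j ≠ b) (hb' : k ≠ b) (m m' : ℤ) : Commute (X u h i k a m) (X u h j k b m') := by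
  obtain ⟨l, hil, hjl, hkl⟩ := exists_fourth hn i j k
  have e := cz_comm (cz_comm (S.col i j k hij hjk hik) (h i l) m) (h j l) m'
  have e1 : cz (h j l) m' (cz (h i l) m (u i k)) = X u h i k a m := by
    have : u i k = X u h i k a 0 := (cz_zero _ _).symm
    rw [this, A1 S hik ha hil ha' hkl, A3 S hik ha hij hil hjk.symm hkl hjl]
    congr 1; ring
  have e2 : cz (h j l) m' (cz (h i l) m (u j k)) = X u h j k b m' := by
    have : u j k = X u h j k b 0 := (cz_zero _ _).symm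
    rw [this, A3 S hjk hb hij.symm hjl hik.symm hkl hil, A1 S hjk hb hjl hb' hkl]
    congr 1; ring
  rwa [e1, e2] at e

theorem Xdis {i j k l a b : Fin n} (hij : i ≠ j) (hik : i ≠ k) (hil : i ≠ l) (hjk : j ≠ k) (hjl : j ≠ l) (hkl : k ≠ l)
    (ha : i ≠ a) (ha' : j ≠ a) (hb : k ≠ b) (hb' : l ≠ b) (m m' r : ℤ) (hm : m + m' = 2 * r) :
    Commute (X u h i j a m) (X u h k l b m') := by
  have e := cz_comm (cz_comm (S.dis i j k l hij hik hil hjk hjl hkl) (h i k) (-m')) (h i j) r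
  have e1 : cz (h i j) r (cz (h i k) (-m') (u i j)) = X u h i j a m := by
    have : u i j = X u h i j a 0 := (cz_zero _ _).symm
    rw [this, A1 S hij ha hik ha' hjk, A4 S hij ha ha']
    congr 1; omega
  have e2 : cz (h i j) r (cz (h i k) (-m') (u k l)) = X u h k l b m' := by
    have : u k l = X u h k l b 0 := (cz_zero _ _).symm
    rw [this, S.hinv k i hik.symm, cz_inv, neg_neg, A1 S hkl hb hik.symm hb' hil.symm,
      A3 S hkl hb hik.symm hjk.symm hil.symm hjl.symm hij]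
    congr 1; ring
  rwa [e1, e2] at e

theorem Xself (hn : 4 ≤ n) {i j a b : Fin n} (hij : i ≠ j) (ha : i ≠ a) (ha' : j ≠ a)
    (hb : i ≠ b) (hb' : j ≠ b) (m m' : ℤ) : Commute (X u h i j a m) (X u h i j b m') := by
  obtain ⟨l, hil, hjl⟩ := exists_third (by omega : 3 ≤ n) i j
  have e1 := XB S hn (a := j) (b := i) (c := b) hil hjl.symm hij hij hjl.symm hil.symm hij.symm hb hb' m' 0
  rw [add_zero] at e1
  have e2 : X u h i j b m' = X u h i l j m' * X u h l j i 0 * (X u h i l j m')⁻¹ * (X u h l j i 0)⁻¹ := by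
    rw [e1]; group
  have c1 : Commute (X u h i j a m) (X u h i l j m') := Xrow S hn hij hjl hil ha ha' hij hjl.symm m m'
  have c2 : Commute (X u h i j a m) (X u h l j i 0) := Xcol S hn hil hjl.symm hij ha ha' hil.symm hij.symm m 0
  rw [e2]
  exact ((c1.mul_right c2).mul_right c1.inv_right).mul_right c2.inv_right

end

variable {F : Type*} [Field F] [Fintype F] {p : ℕ} [Fact p.Prime] [Algebra (ZMod p) F]

theorem machine (hn : 4 ≤ n) (S : SD u h) {ζ : Fˣ} (hζ : ∀ t : Fˣ, t ∈ Subgroup.zpowers ζ)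
    (pb : PowerBasis (ZMod p) F) (hpb : pb.gen = ζ) {c : ℕ → ℕ}
    (hc : pb.gen ^ pb.dim = ∑ j ∈ Finset.range pb.dim, (c j : F) * pb.gen ^ j)
    (up : ∀ i j, i ≠ j → u i j ^ p = 1)
    (mp : ∀ i j k, i ≠ j → j ≠ k → i ≠ k → cu (u i j) (h i k) pb.dim = wd c pb.dim (h i k) (u i j)) :
    ∃ f : Matrix.SpecialLinearGroup (Fin n) F →* G, (∀ i j (hij : i ≠ j), f (Tr i j hij 1) = u i j) ∧
      (∀ i j k (hij : i ≠ j), j ≠ k → i ≠ k → f (Tr i j hij ζ) = h i k * u i j * (h i k)⁻¹) ∧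
      (∀ i j k (hij : i ≠ j), j ≠ k → i ≠ k → f (Tr i j hij (ζ : F)⁻¹) = (h i k)⁻¹ * u i j * h i k) := by
  have key : ∀ i j : Fin n, ∃ θ : F → G, i ≠ j → θ 1 = u i j ∧ (∀ a b, θ (a + b) = θ a * θ b) ∧
      (∀ k, i ≠ k → j ≠ k → ∀ a, h i k * θ a * (h i k)⁻¹ = θ (ζ * a)) ∧
      (∀ k, i ≠ k → j ≠ k → ∀ r : ℕ, θ ((ζ : F) ^ r) = X u h i j k r) := by
    intro i j
    by_cases hij : i = j
    · exact ⟨fun _ => 1, fun h => absurd hij h⟩
    · obtain ⟨k, hik, hjk⟩ := exists_third (by omega : 3 ≤ n) i j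
      obtain ⟨θ, h1, h2, h3, h4⟩ := field_structure pb (u := u i j) (x := h i k) hc (by
        intro a _ b _
        rw [← cz_nat, ← cz_nat]
        exact Xself S hn hij hik hjk hik hjk a b) (up i j hij) (mp i j k hij hjk hik)
      have h5 : ∀ k', i ≠ k' → j ≠ k' → ∀ r : ℕ, θ ((ζ : F) ^ r) = X u h i j k' r := by
        intro k' hik' hjk' r
        rw [← hpb, h4 r, ← cz_nat]
        exact X_indep S hij hik' hik hjk' hjk r
      refine ⟨θ, fun _ => ⟨h1, h2, ?_, h5⟩⟩
      intro k' hik' hjk' a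
      apply act_of pb h2 h1 h3 (S.hcomm _ _ _ _ hik hik')
      have := h5 k' hik' hjk' 1
      rw [pow_one, Nat.cast_one] at this
      rw [this]
      unfold X cz
      rw [zpow_one]
  choose θ hθ using key
  have hpow : ∀ a : F, a ≠ 0 → ∃ r : ℕ, a = (ζ : F) ^ r := by
    intro a ha
    have h1 := hζ (Units.mk0 a ha)
    rw [← mem_powers_iff_mem_zpowers] at h1
    obtain ⟨i, hi⟩ := h1
    refine ⟨i, ?_⟩
    have := congrArg (fun y : Fˣ => (y : F)) hi
    simpa using this.symm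
  have h0 : ∀ i j, i ≠ j → θ i j 0 = 1 := fun i j hij => theta_zero (hθ i j hij).2.1
  obtain ⟨f, hf⟩ := exists_hom (by omega : 3 ≤ n) θ (fun i j hij => (hθ i j hij).2.1) (by
    intro i j k l hij hkl hil hjk a b
    by_cases ha : a = 0
    · rw [ha, h0 i j hij]; exact Commute.one_left _
    by_cases hb : b = 0
    · rw [hb, h0 k l hkl]; exact Commute.one_right _
    obtain ⟨r, hr⟩ := hpow a ha
    obtain ⟨s, hs⟩ := hpow b hb
    obtain ⟨a', ha1, ha2⟩ := exists_third (by omega : 3 ≤ n) i j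
    obtain ⟨b', hb1, hb2⟩ := exists_third (by omega : 3 ≤ n) k l
    by_cases hik : i = k
    · subst hik
      by_cases hjl : j = l
      · subst hjl
        exact theta_comm (hθ i j hij).2.1 a b
      · rw [hr, hs, (hθ i j hij).2.2.2 a' ha1 ha2, (hθ i l hkl).2.2.2 b' hb1 hb2]
        exact Xrow S hn hij hjl hkl ha1 ha2 hb1 hb2 _ _
    · by_cases hjl : j = l
      · subst hjl
        rw [hr, hs, (hθ i j hij).2.2.2 a' ha1 ha2, (hθ k j hkl).2.2.2 b' hb1 hb2]
        exact Xcol S hn hik hkl hij ha1 ha2 hb1 hb2 _ _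
      · -- disjoint
        have hX : ∀ s' : ℕ, Even (r + s') → Commute (θ i j a) (θ k l ((ζ : F) ^ s')) := by
          rintro s' ⟨q, hq⟩
          rw [hr, (hθ i j hij).2.2.2 a' ha1 ha2, (hθ k l hkl).2.2.2 b' hb1 hb2]
          exact Xdis S hij hik hil hjk hjl hkl ha1 ha2 hb1 hb2 r s' q (by omega)
        let T : AddSubgroup F :=
          { carrier := {b | Commute (θ i j a) (θ k l ((ζ : F) ^ r * b))}
            zero_mem' := by
              change Commute (θ i j a) (θ k l ((ζ : F) ^ r * 0))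
              rw [mul_zero, h0 k l hkl]; exact Commute.one_right _
            add_mem' := by
              intro x y hx hy
              change Commute (θ i j a) (θ k l ((ζ : F) ^ r * (x + y)))
              rw [mul_add, (hθ k l hkl).2.1]
              exact Commute.mul_right hx hy
            neg_mem' := by
              intro x hx
              change Commute (θ i j a) (θ k l ((ζ : F) ^ r * (-x)))
              rw [mul_neg, theta_neg (hθ k l hkl).2.1]
              exact Commute.inv_right hx }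
        have hT : ∀ t : F, t ^ 2 ∈ T := by
          intro t
          by_cases ht : t = 0
          · rw [ht, zero_pow two_ne_zero]; exact T.zero_mem
          · obtain ⟨m, rfl⟩ := hpow t ht
            change Commute (θ i j a) (θ k l ((ζ : F) ^ r * ((ζ : F) ^ m) ^ 2))
            rw [← pow_mul, ← pow_add]
            exact hX _ ⟨r + m, by ring⟩
        have h6 := H43.FieldGen.top_of_squares hT (((ζ : F) ^ r)⁻¹ * b)
        change Commute (θ i j a) (θ k l ((ζ : F) ^ r * (((ζ : F) ^ r)⁻¹ * b))) at h6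
        rwa [mul_inv_cancel_left₀ (pow_ne_zero _ ζ.ne_zero)] at h6) (by
    intro i j k hij hjk hik a b
    by_cases ha : a = 0
    · rw [ha, zero_mul, h0 i j hij, h0 i k hik]; group
    by_cases hb : b = 0
    · rw [hb, mul_zero, h0 j k hjk, h0 i k hik]; group
    obtain ⟨r, hr⟩ := hpow a ha
    obtain ⟨s, hs⟩ := hpow b hb
    rw [hr, hs, ← pow_add, (hθ i j hij).2.2.2 k hik hjk, (hθ j k hjk).2.2.2 i hij.symm hik.symm,
      (hθ i k hik).2.2.2 j hij hjk.symm]
    have := XB S hn (a := k) (b := i) (c := j) hij hjk hik hik hjk hij.symm hik.symm hij hjk.symm (r : ℤ) (s : ℤ)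
    rw [this]
    push_cast
    group)
  refine ⟨f, ?_, ?_, ?_⟩
  · intro i j hij; rw [hf, (hθ i j hij).1]
  · intro i j k hij hjk hik
    rw [hf, ← (hθ i j hij).1, (hθ i j hij).2.2.1 k hik hjk, mul_one]
  · intro i j k hij hjk hik
    rw [hf]
    have := (hθ i j hij).2.2.1 k hik hjk (ζ : F)⁻¹
    rw [mul_inv_cancel₀ ζ.ne_zero, (hθ i j hij).1] at this
    rw [← this]; group

end H43.SDM
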