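import Cfsg.Agent.Lib.H43.SL2Words

/-!
Bounded presentations of `SL_2(q)`: the relator lists.
-/
set_option autoImplicit false

namespace H43.SL2R

open Matrix H43.Borel H43.Tietze

universe u

variable {F : Type u} [Field F] [Fintype F]
variable {Γ : Type u} [Group Γ] {π : Matrix.SpecialLinearGroup (Fin 2) F →* Γ} {N : ℕ} {ζ : Fˣ}

open Classical in
/-- words for the root elements -/
noncomputable def Wd (S : Setup π N ζ) (a : F) : FreeGroup (Fin 2) :=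
  if a = 1 then FreeGroup.of 0 else if a = -1 then (FreeGroup.of 0)⁻¹ else Classical.choose (S.exists_word a)

theorem Wd_eval (S : Setup π N ζ) (a : F) : FreeGroup.lift ![π (U 1), π (Hh ζ)] (Wd S a) = π (U a) := by
  unfold Wd
  split_ifs with h1 h2
  · rw [h1, FreeGroup.lift_apply_of]; rfl
  · rw [h2, map_inv, FreeGroup.lift_apply_of, U_neg, map_inv]; rfl
  · exact Classical.choose_spec (S.exists_word a)

theorem Wd_one (S : Setup π N ζ) : Wd S 1 = FreeGroup.of 0 := by unfold Wd; rw [if_pos rfl]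

/-- the inclusion of free groups -/
def inc : FreeGroup (Fin 2) →* FreeGroup (Fin 3) := FreeGroup.lift ![FreeGroup.of 0, FreeGroup.of 1]

theorem lift_inc {G : Type*} [Group G] (u h n : G) (W : FreeGroup (Fin 2)) :
    FreeGroup.lift ![u, h, n] (inc W) = FreeGroup.lift ![u, h] W := by
  unfold inc
  rw [lift_lift]
  congr 2
  funext i
  fin_cases i <;> simp

section
variable {G : Type*} [Group G] (u h n : G)
theorem lift0 : FreeGroup.lift ![u, h, n] (FreeGroup.of 0) = u := by simp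
theorem lift1 : FreeGroup.lift ![u, h, n] (FreeGroup.of 1) = h := by simp
theorem lift2 : FreeGroup.lift ![u, h, n] (FreeGroup.of 2) = n := by simp
theorem lift_eq (A B : FreeGroup (Fin 3)) : FreeGroup.lift ![u, h, n] (A * B⁻¹) = 1 ↔
    FreeGroup.lift ![u, h, n] A = FreeGroup.lift ![u, h, n] B := by
  rw [map_mul, map_inv, mul_inv_eq_one]
end

/-- odd case, Weyl part -/
noncomputable def rOdd (S : Setup π N ζ) (M : ℕ) : Fin 4 → FreeGroup (Fin 3) :=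
  ![FreeGroup.of 2 * FreeGroup.of 2 * (FreeGroup.of 1 ^ M)⁻¹,
    FreeGroup.of 2 * FreeGroup.of 1 * (FreeGroup.of 2)⁻¹ * ((FreeGroup.of 1)⁻¹)⁻¹,
    FreeGroup.of 2 * FreeGroup.of 0 * (FreeGroup.of 2)⁻¹ * ((FreeGroup.of 0)⁻¹ * FreeGroup.of 2 * (FreeGroup.of 0)⁻¹)⁻¹,
    FreeGroup.of 2 * inc (Wd S (ζ : F)) * (FreeGroup.of 2)⁻¹ *
      (inc (Wd S (-(ζ : F)⁻¹)) * FreeGroup.of 2 * FreeGroup.of 1 * inc (Wd S (-(ζ : F)⁻¹)))⁻¹]

theorem rOdd_iff (S : Setup π N ζ) (M : ℕ) {G : Type*} [Group G] (u h n : G) :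
    (∀ i, FreeGroup.lift ![u, h, n] (rOdd S M i) = 1) ↔
      n * n = h ^ M ∧ n * h * n⁻¹ = h⁻¹ ∧ n * u * n⁻¹ = u⁻¹ * n * u⁻¹ ∧
      n * FreeGroup.lift ![u, h] (Wd S (ζ : F)) * n⁻¹ =
        FreeGroup.lift ![u, h] (Wd S (-(ζ : F)⁻¹)) * n * h * FreeGroup.lift ![u, h] (Wd S (-(ζ : F)⁻¹)) := by
  have e : ∀ P : Fin 4 → Prop, (∀ i, P i) ↔ P 0 ∧ P 1 ∧ P 2 ∧ P 3 := by
    intro P
    constructor
    · intro hP; exact ⟨hP 0, hP 1, hP 2, hP 3⟩
    · rintro ⟨h0, h1, h2, h3⟩ i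
      fin_cases i
      · exact h0
      · exact h1
      · exact h2
      · exact h3
  rw [e]
  have e0 : rOdd S M 0 = FreeGroup.of 2 * FreeGroup.of 2 * (FreeGroup.of 1 ^ M)⁻¹ := rfl
  have e1 : rOdd S M 1 = FreeGroup.of 2 * FreeGroup.of 1 * (FreeGroup.of 2)⁻¹ * ((FreeGroup.of 1)⁻¹)⁻¹ := rfl
  have e2 : rOdd S M 2 = FreeGroup.of 2 * FreeGroup.of 0 * (FreeGroup.of 2)⁻¹ *
    ((FreeGroup.of 0)⁻¹ * FreeGroup.of 2 * (FreeGroup.of 0)⁻¹)⁻¹ := rfl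
  have e3 : rOdd S M 3 = FreeGroup.of 2 * inc (Wd S (ζ : F)) * (FreeGroup.of 2)⁻¹ *
      (inc (Wd S (-(ζ : F)⁻¹)) * FreeGroup.of 2 * FreeGroup.of 1 * inc (Wd S (-(ζ : F)⁻¹)))⁻¹ := rfl
  rw [e0, e1, e2, e3, lift_eq, lift_eq, lift_eq, lift_eq]
  simp only [map_mul, map_inv, map_pow, lift0, lift1, lift2, lift_inc]

theorem rOdd_sat (S : Setup π N ζ) (M : ℕ) (hM : π n0 * π n0 = π (Hh ζ) ^ M) :
    ∀ i, FreeGroup.lift ![π (U 1), π (Hh ζ), π n0] (rOdd S M i) = 1 := by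
  rw [rOdd_iff]
  refine ⟨hM, ?_, ?_, ?_⟩
  · rw [← map_inv, ← map_mul, ← map_mul, n0_Hh, map_inv]
  · have := n0_U (F := F) 1
    rw [Hh_one, mul_one, Units.val_one, inv_one, U_neg] at this
    rw [← map_inv, ← map_inv, ← map_mul, ← map_mul, this, map_mul, map_mul]
  · rw [Wd_eval, Wd_eval]
    have := n0_U (F := F) ζ
    rw [← map_inv, ← map_mul, ← map_mul, this, map_mul, map_mul, map_mul]

theorem rOdd_cons (S : Setup π N ζ) (hF2 : (2 : F) ≠ 0) (M : ℕ) {G : Type*} [Group G] {u h n : G}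
    (H : ∀ i, FreeGroup.lift ![u, h, n] (rOdd S M i) = 1) :
    n * h * n⁻¹ = h⁻¹ ∧ n * n ∈ Subgroup.closure {u, h} ∧
     ∀ c ∈ ({1, (ζ : F)} : Set F), ∃ b : F, ∃ y ∈ Subgroup.closure {u, h}, n * FreeGroup.lift ![u, h] (Wd S c) * n⁻¹ =
      FreeGroup.lift ![u, h] (Wd S b) * n * y := by
  rw [rOdd_iff] at H
  obtain ⟨h1, h2, h3, h4⟩ := H
  have hu : u ∈ Subgroup.closure {u, h} := Subgroup.subset_closure (by simp)
  have hh : h ∈ Subgroup.closure {u, h} := Subgroup.subset_closure (by simp)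
  have hW : ∀ W, FreeGroup.lift ![u, h] W ∈ Subgroup.closure {u, h} := by
    intro W
    have h1 : FreeGroup.lift ![u, h] W ∈ Subgroup.closure (Set.range ![u, h]) := by
      rw [← FreeGroup.range_lift_eq_closure]; exact ⟨_, rfl⟩
    have h2 : Subgroup.closure (Set.range ![u, h]) ≤ Subgroup.closure {u, h} := by
      rw [Subgroup.closure_le]
      rintro _ ⟨i, rfl⟩
      fin_cases i
      · exact hu
      · exact hh
    exact h2 h1
  refine ⟨h2, by rw [h1]; exact pow_mem hh _, ?_⟩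
  rintro c (rfl | hc)
  · have h11 : (1 : F) ≠ -1 := by
      intro h11
      apply hF2
      calc (2 : F) = 1 + 1 := by norm_num
        _ = -1 + 1 := by rw [← h11]
        _ = 0 := by ring
    refine ⟨-1, u⁻¹, inv_mem hu, ?_⟩
    have e : Wd S (-1) = (FreeGroup.of 0)⁻¹ := by
      unfold Wd
      rw [if_neg (fun h => h11 h.symm), if_pos rfl]
    rw [e, Wd_one, map_inv, FreeGroup.lift_apply_of]
    exact h3
  · rw [Set.mem_singleton_iff] at hc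
    subst hc
    refine ⟨-(ζ : F)⁻¹, h * FreeGroup.lift ![u, h] (Wd S (-(ζ : F)⁻¹)), mul_mem hh (hW _), ?_⟩
    rw [h4]; group

theorem forall5 {P : Fin 5 → Prop} : (∀ i, P i) ↔ P 0 ∧ P 1 ∧ P 2 ∧ P 3 ∧ P 4 := by
  constructor
  · intro hP; exact ⟨hP 0, hP 1, hP 2, hP 3, hP 4⟩
  · rintro ⟨h0, h1, h2, h3, h4⟩ i
    fin_cases i
    · exact h0
    · exact h1
    · exact h2
    · exact h3
    · exact h4

/-- Borel relators, case A -/
def rA (p N e : ℕ) (c : ℕ → ℕ) : Fin 5 → FreeGroup (Fin 3) :=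
  ![FreeGroup.of 0 ^ p * 1⁻¹,
    FreeGroup.of 0 * cu (FreeGroup.of 0) (FreeGroup.of 1) 1 * (cu (FreeGroup.of 0) (FreeGroup.of 1) 1 * FreeGroup.of 0)⁻¹,
    cu (FreeGroup.of 0) (FreeGroup.of 1) e * (wd c e (FreeGroup.of 1) (FreeGroup.of 0))⁻¹,
    FreeGroup.of 1 ^ N * 1⁻¹, 1 * 1⁻¹]

theorem rA_iff (p N e : ℕ) (c : ℕ → ℕ) {G : Type*} [Group G] (u h n : G) :
    (∀ i, FreeGroup.lift ![u, h, n] (rA p N e c i) = 1) ↔
      u ^ p = 1 ∧ u * cu u h 1 = cu u h 1 * u ∧ cu u h e = wd c e h u ∧ h ^ N = 1 ∧ (1 : G) = 1 := by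
  rw [forall5]
  have e0 : rA p N e c 0 = FreeGroup.of 0 ^ p * 1⁻¹ := rfl
  have e1 : rA p N e c 1 = FreeGroup.of 0 * cu (FreeGroup.of 0) (FreeGroup.of 1) 1 *
    (cu (FreeGroup.of 0) (FreeGroup.of 1) 1 * FreeGroup.of 0)⁻¹ := rfl
  have e2 : rA p N e c 2 = cu (FreeGroup.of 0) (FreeGroup.of 1) e * (wd c e (FreeGroup.of 1) (FreeGroup.of 0))⁻¹ := rfl
  have e3 : rA p N e c 3 = FreeGroup.of 1 ^ N * 1⁻¹ := rfl
  have e4 : rA p N e c 4 = 1 * 1⁻¹ := rfl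
  rw [e0, e1, e2, e3, e4, lift_eq, lift_eq, lift_eq, lift_eq, lift_eq]
  simp only [map_mul, map_pow, lift0, lift1, map_wd, map_cu, map_one]

/-- Borel relators, case B -/
def rB (p N e i j : ℕ) (c d : ℕ → ℕ) : Fin 5 → FreeGroup (Fin 3) :=
  ![FreeGroup.of 0 ^ p * 1⁻¹,
    FreeGroup.of 0 * cu (FreeGroup.of 0) (FreeGroup.of 1 ^ i) 1 * (cu (FreeGroup.of 0) (FreeGroup.of 1 ^ i) 1 * FreeGroup.of 0)⁻¹,
    FreeGroup.of 1 ^ j * FreeGroup.of 0 * (FreeGroup.of 1 ^ j)⁻¹ * (FreeGroup.of 0 * cu (FreeGroup.of 0) (FreeGroup.of 1 ^ i) 1)⁻¹,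
    cu (FreeGroup.of 0) (FreeGroup.of 1 ^ i) e * (FreeGroup.of 1 ^ N * wd c e (FreeGroup.of 1 ^ i) (FreeGroup.of 0))⁻¹,
    FreeGroup.of 1 * FreeGroup.of 0 * (FreeGroup.of 1)⁻¹ * (wd d e (FreeGroup.of 1 ^ i) (FreeGroup.of 0))⁻¹]

theorem rB_iff (p N e i j : ℕ) (c d : ℕ → ℕ) {G : Type*} [Group G] (u h n : G) :
    (∀ k, FreeGroup.lift ![u, h, n] (rB p N e i j c d k) = 1) ↔
      u ^ p = 1 ∧ u * cu u (h ^ i) 1 = cu u (h ^ i) 1 * u ∧ h ^ j * u * (h ^ j)⁻¹ = u * cu u (h ^ i) 1 ∧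
      cu u (h ^ i) e = h ^ N * wd c e (h ^ i) u ∧ h * u * h⁻¹ = wd d e (h ^ i) u := by
  rw [forall5]
  have e0 : rB p N e i j c d 0 = FreeGroup.of 0 ^ p * 1⁻¹ := rfl
  have e1 : rB p N e i j c d 1 = FreeGroup.of 0 * cu (FreeGroup.of 0) (FreeGroup.of 1 ^ i) 1 *
    (cu (FreeGroup.of 0) (FreeGroup.of 1 ^ i) 1 * FreeGroup.of 0)⁻¹ := rfl
  have e2 : rB p N e i j c d 2 = FreeGroup.of 1 ^ j * FreeGroup.of 0 * (FreeGroup.of 1 ^ j)⁻¹ *
    (FreeGroup.of 0 * cu (FreeGroup.of 0) (FreeGroup.of 1 ^ i) 1)⁻¹ := rfl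
  have e3 : rB p N e i j c d 3 = cu (FreeGroup.of 0) (FreeGroup.of 1 ^ i) e *
    (FreeGroup.of 1 ^ N * wd c e (FreeGroup.of 1 ^ i) (FreeGroup.of 0))⁻¹ := rfl
  have e4 : rB p N e i j c d 4 = FreeGroup.of 1 * FreeGroup.of 0 * (FreeGroup.of 1)⁻¹ *
    (wd d e (FreeGroup.of 1 ^ i) (FreeGroup.of 0))⁻¹ := rfl
  rw [e0, e1, e2, e3, e4, lift_eq, lift_eq, lift_eq, lift_eq, lift_eq]
  simp only [map_mul, map_inv, map_pow, lift0, lift1, map_wd, map_cu, map_one]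

theorem U_one_pow (p : ℕ) [CharP F p] : π (U 1) ^ p = 1 := by
  rw [← map_pow, U_pow, CharP.cast_eq_zero, zero_mul, U_zero, map_one]

theorem gamma_comm (a b : F) : π (U a) * π (U b) = π (U b) * π (U a) := by
  rw [← map_mul, ← map_mul, ← U_add, ← U_add, add_comm]

theorem borelA {G : Type*} [Group G] {u h : G} {p e N : ℕ} {c : ℕ → ℕ} (hp : 0 < p) (he : 0 < e) (he2 : e ≤ 2) (hN : 0 < N)
    (h0 : u ^ p = 1) (h1 : u * cu u h 1 = cu u h 1 * u) (h2 : cu u h e = wd c e h u) (h3 : h ^ N = 1) :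
    Finite (Subgroup.closure {u, h}) ∧ Nat.card (Subgroup.closure {u, h}) ≤ p ^ e * N := by
  have hcu1 : h * u * h⁻¹ = cu u h 1 := (cu_one u h).symm
  apply card_borel (x := h) hp he hN (Subgroup.mem_zpowers h) _ h0 _ _ h3
  · intro j hj
    rcases Nat.eq_zero_or_pos j with rfl | hj0
    · rw [cu_zero]
    · rw [show j = 1 by omega]; exact h1
  · rw [h2]; exact wd_mem _ _ _ _
  · rw [hcu1]
    rcases Nat.lt_or_ge 1 e with h | h
    · exact Subgroup.subset_closure ⟨1, h, rfl⟩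
    · have : e = 1 := by omega
      subst this
      rw [h2]; exact wd_mem _ _ _ _

theorem borelB {G : Type*} [Group G] {u h : G} {p e N i j : ℕ} {c : ℕ → ℕ} (hp : 0 < p) (he : 0 < e) (hN : 0 < N)
    (h0 : u ^ p = 1) (h1 : u * cu u (h ^ i) 1 = cu u (h ^ i) 1 * u) (h2 : h ^ j * u * (h ^ j)⁻¹ = u * cu u (h ^ i) 1)
    (h3 : cu u (h ^ i) e = h ^ N * wd c e (h ^ i) u)
    (h4 : h * u * h⁻¹ ∈ Subgroup.closure (cu u (h ^ i) '' {i | i < e})) :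
    Finite (Subgroup.closure {u, h}) ∧ Nat.card (Subgroup.closure {u, h}) ≤ p ^ e * N := by
  have hxy : Commute (h ^ i) (h ^ j) := (Commute.refl h).pow_pow i j
  have hN1 : h ^ N = 1 := by
    apply merged_trivial hxy h1 h2 _ ((Commute.refl h).pow_pow j N) ((Commute.refl h).pow_pow i N)
    have : h ^ N = cu u (h ^ i) e * (wd c e (h ^ i) u)⁻¹ := by rw [h3]; group
    rw [this]
    exact mul_mem (Subgroup.subset_closure ⟨e, rfl⟩) (inv_mem (cu_mem_range _ _ e (wd_mem _ _ _ _)))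
  apply card_borel (x := h ^ i) hp he hN (pow_mem (Subgroup.mem_zpowers h) i) _ h0 _ h4 hN1
  · intro k _; exact all_commute hxy h1 h2 k
  · rw [h3, hN1, one_mul]; exact wd_mem _ _ _ _

end H43.SL2R
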