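import Cfsg.Agent.Lib.H43.SL2Cases

/-!
Bounded presentations of `SL_2(q)`: the odd and the even case.
-/
set_option autoImplicit false

namespace H43.SL2R

open Matrix H43.Borel H43.Tietze

universe u

variable {F : Type u} [Field F] [Fintype F]
variable {Γ : Type u} [Group Γ] {π : Matrix.SpecialLinearGroup (Fin 2) F →* Γ} {N : ℕ} {ζ : Fˣ}

omit [Fintype F] in
theorem exists_nat_pow [Finite F] (hζ : ∀ t : Fˣ, t ∈ Subgroup.zpowers ζ) {a : F} (ha : a ≠ 0) : ∃ i : ℕ, (ζ : F) ^ i = a := by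
  have h1 := hζ (Units.mk0 a ha)
  rw [← mem_powers_iff_mem_zpowers] at h1
  obtain ⟨i, hi⟩ := h1
  refine ⟨i, ?_⟩
  have := congrArg (fun y : Fˣ => (y : F)) hi
  simpa using this

omit [Fintype F] in
theorem horb_odd [Finite F] (hζ : ∀ t : Fˣ, t ∈ Subgroup.zpowers ζ) :
    ∀ a : F, a ≠ 0 → ∃ i : ℕ, ∃ c ∈ ({1, (ζ : F)} : Set F), a = ((ζ : F) ^ i) ^ 2 * c := by
  intro a ha
  obtain ⟨k, hk⟩ := exists_nat_pow hζ ha
  rcases Nat.even_or_odd' k with ⟨i, rfl | rfl⟩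
  · refine ⟨i, 1, by simp, ?_⟩
    rw [← hk, mul_one, ← pow_mul, mul_comm]
  · refine ⟨i, ζ, by simp, ?_⟩
    rw [← hk, pow_succ, ← pow_mul, mul_comm i]

theorem odd_pres [Finite Γ] (S : Setup π N ζ) (h2 : (2 : F) ≠ 0) (M : ℕ) (hM : π n0 * π n0 = π (Hh ζ) ^ M) :
    ∃ R : Fin 4 ⊕ Fin 5 → FreeGroup (Fin 3), Pres ![π (U 1), π (Hh ζ), π n0] (Set.range R) := by
  obtain ⟨p, hpF⟩ := CharP.exists F
  have hp : p.Prime := (CharP.char_is_prime_or_zero F p).resolve_right (CharP.char_ne_zero_of_finite F p)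
  have : Fact p.Prime := ⟨hp⟩
  let _ := ZMod.algebra F p
  have hord : orderOf ζ = Fintype.card F - 1 := by
    rw [orderOf_eq_card_of_forall_mem_zpowers S.gen, Nat.card_units, Nat.card_eq_fintype_card]
  obtain ⟨e, he, hFe, hc⟩ := H43.FieldGen.exists_coeffs (H43.FieldGen.adjoin_sq (p := p) S.gen)
  rcases Nat.lt_or_ge 2 e with he2 | he2
  · -- large fields
    have hp3 : 3 ≤ p := by
      rcases hp.eq_two_or_odd with h | h
      · exfalso; apply h2
        have := CharP.cast_eq_zero F p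
        rw [h] at this; exact_mod_cast this
      · have := hp.two_le; omega
    have hq : 27 ≤ Fintype.card F := by
      rw [hFe]
      calc 27 = 3 ^ 3 := by norm_num
        _ ≤ p ^ 3 := Nat.pow_le_pow_left hp3 3
        _ ≤ p ^ e := Nat.pow_le_pow_right hp.pos he2
    obtain ⟨e', he', hFe', hc'⟩ := H43.FieldGen.exists_coeffs (H43.FieldGen.adjoin_special (p := p) S.gen h2 (by omega))
    set a : F := ((ζ : F) - (ζ : F)⁻¹) / 2 with ha
    set b : F := ((ζ : F) + (ζ : F)⁻¹) / 2 with hb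
    have hz := ζ.ne_zero
    have hab : b ^ 2 = a ^ 2 + 1 := by
      rw [ha, hb]; field_simp; ring
    have hz2 : (ζ : F) ^ 2 ≠ 1 := by
      intro h
      have h3 : ζ ^ 2 = 1 := Units.ext (by rw [Units.val_pow_eq_pow_val, h]; rfl)
      have := Nat.le_of_dvd (by norm_num) (orderOf_dvd_of_pow_eq_one h3)
      omega
    have hz4 : (ζ : F) ^ 2 ≠ -1 := by
      intro h
      have h3 : ζ ^ 4 = 1 := Units.ext (by
        rw [Units.val_pow_eq_pow_val, show (ζ : F) ^ 4 = ((ζ : F) ^ 2) ^ 2 by ring, h]; norm_num)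
      have := Nat.le_of_dvd (by norm_num) (orderOf_dvd_of_pow_eq_one h3)
      omega
    have ha0 : a ≠ 0 := by
      intro h
      apply hz2
      rw [ha, div_eq_zero_iff] at h
      rcases h with h | h
      · rw [sub_eq_zero] at h
        rw [sq]; nth_rw 2 [h]; exact mul_inv_cancel₀ hz
      · exact absurd h h2
    have hb0 : b ≠ 0 := by
      intro h
      apply hz4
      rw [hb, div_eq_zero_iff] at h
      rcases h with h | h
      · have h5 : (ζ : F) = -(ζ : F)⁻¹ := eq_neg_of_add_eq_zero_left h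
        rw [sq]; nth_rw 2 [h5]; rw [mul_neg, mul_inv_cancel₀ hz]
      · exact absurd h h2
    obtain ⟨i, hi⟩ := exists_nat_pow S.gen ha0
    obtain ⟨j, hj⟩ := exists_nat_pow S.gen hb0
    obtain ⟨c, hc1⟩ := hc' ((a ^ 2) ^ e')
    obtain ⟨d, hd1⟩ := hc' ((ζ : F) ^ 2)
    have hxi : π (Hh ζ) ^ i = π (Hh (ζ ^ i)) := by rw [Hh_pow, map_pow]
    have hyj : π (Hh ζ) ^ j = π (Hh (ζ ^ j)) := by rw [Hh_pow, map_pow]
    have hvi : ((ζ ^ i : Fˣ) : F) = a := by rw [Units.val_pow_eq_pow_val, hi]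
    have hvj : ((ζ ^ j : Fˣ) : F) = b := by rw [Units.val_pow_eq_pow_val, hj]
    refine ⟨Sum.elim (rOdd S M) (rB p N e' i j c d), pres S (Wd S) (Wd_eval S) {1, (ζ : F)} (horb_odd S.gen) _ ?_ ?_⟩
    · rintro (k | k)
      · exact rOdd_sat S M hM k
      · revert k
        change ∀ k, FreeGroup.lift ![π (U 1), π (Hh ζ), π n0] (rB p N e' i j c d k) = 1
        rw [rB_iff]
        refine ⟨U_one_pow p, ?_, ?_, ?_, ?_⟩
        · rw [hxi, cu_eval]; exact gamma_comm _ _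
        · rw [hxi, hyj, cu_eval, ← map_inv, ← map_mul, ← map_mul, ← map_mul, Hh_U, ← U_add, hvi, hvj, hab]
          congr 2; ring
        · rw [hxi, cu_eval, wd_eval, S.pow, one_mul, hvi, hc1]
        · have h5 : π (Hh ζ) * π (U 1) * (π (Hh ζ))⁻¹ = π (U ((ζ : F) ^ 2 * 1)) := by
            rw [← Hh_U, map_mul, map_mul, map_inv]
          rw [h5, hxi, wd_eval, hvi, ← hd1]
    · intro G _ u h n H
      have H1 := fun k => H (Sum.inl k)
      have H2 := fun k => H (Sum.inr k)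
      change ∀ k, FreeGroup.lift ![u, h, n] (rOdd S M k) = 1 at H1
      change ∀ k, FreeGroup.lift ![u, h, n] (rB p N e' i j c d k) = 1 at H2
      rw [rB_iff] at H2
      obtain ⟨r0, r1, r2, r3, r4⟩ := H2
      obtain ⟨k1, k2, k3⟩ := rOdd_cons S h2 M H1
      refine ⟨?_, k1, k2, k3⟩
      rw [hFe']
      exact borelB hp.pos he' S.hN r0 r1 r2 r3 (by rw [r4]; exact wd_mem _ _ _ _)
  · obtain ⟨c, hc1⟩ := hc (((ζ : F) ^ 2) ^ e)
    refine ⟨Sum.elim (rOdd S M) (rA p N e c), pres S (Wd S) (Wd_eval S) {1, (ζ : F)} (horb_odd S.gen) _ ?_ ?_⟩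
    · rintro (k | k)
      · exact rOdd_sat S M hM k
      · revert k
        change ∀ k, FreeGroup.lift ![π (U 1), π (Hh ζ), π n0] (rA p N e c k) = 1
        rw [rA_iff]
        refine ⟨U_one_pow p, ?_, ?_, S.pow, rfl⟩
        · rw [cu_eval]; exact gamma_comm _ _
        · rw [cu_eval, wd_eval, ← hc1]
    · intro G _ u h n H
      have H1 := fun k => H (Sum.inl k)
      have H2 := fun k => H (Sum.inr k)
      change ∀ k, FreeGroup.lift ![u, h, n] (rOdd S M k) = 1 at H1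
      change ∀ k, FreeGroup.lift ![u, h, n] (rA p N e c k) = 1 at H2
      rw [rA_iff] at H2
      obtain ⟨r0, r1, r2, r3, -⟩ := H2
      obtain ⟨k1, k2, k3⟩ := rOdd_cons S h2 M H1
      refine ⟨?_, k1, k2, k3⟩
      rw [hFe]
      exact borelA hp.pos he he2 S.hN r0 r1 r2 r3


/-- even relators, `q ≥ 4` -/
def rE (N e k : ℕ) (c : ℕ → ℕ) : Fin 5 → FreeGroup (Fin 3) :=
  ![FreeGroup.of 2 * FreeGroup.of 2 * 1⁻¹,
    FreeGroup.of 2 * FreeGroup.of 1 * (FreeGroup.of 2)⁻¹ * ((FreeGroup.of 1)⁻¹)⁻¹,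
    FreeGroup.of 2 * FreeGroup.of 0 * FreeGroup.of 2 * (FreeGroup.of 0 * FreeGroup.of 2 * FreeGroup.of 0)⁻¹,
    FreeGroup.of 1 ^ k * FreeGroup.of 0 * (FreeGroup.of 1 ^ k)⁻¹ * (FreeGroup.of 0 * cu (FreeGroup.of 0) (FreeGroup.of 1 ^ 1) 1)⁻¹,
    cu (FreeGroup.of 0) (FreeGroup.of 1 ^ 1) e * (FreeGroup.of 1 ^ N * wd c e (FreeGroup.of 1 ^ 1) (FreeGroup.of 0))⁻¹]

theorem rE_iff (N e k : ℕ) (c : ℕ → ℕ) {G : Type*} [Group G] (u h n : G) :
    (∀ i, FreeGroup.lift ![u, h, n] (rE N e k c i) = 1) ↔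
      n * n = 1 ∧ n * h * n⁻¹ = h⁻¹ ∧ n * u * n = u * n * u ∧
      h ^ k * u * (h ^ k)⁻¹ = u * cu u (h ^ 1) 1 ∧ cu u (h ^ 1) e = h ^ N * wd c e (h ^ 1) u := by
  rw [forall5]
  have e0 : rE N e k c 0 = FreeGroup.of 2 * FreeGroup.of 2 * 1⁻¹ := rfl
  have e1 : rE N e k c 1 = FreeGroup.of 2 * FreeGroup.of 1 * (FreeGroup.of 2)⁻¹ * ((FreeGroup.of 1)⁻¹)⁻¹ := rfl
  have e2 : rE N e k c 2 = FreeGroup.of 2 * FreeGroup.of 0 * FreeGroup.of 2 *
    (FreeGroup.of 0 * FreeGroup.of 2 * FreeGroup.of 0)⁻¹ := rfl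
  have e3 : rE N e k c 3 = FreeGroup.of 1 ^ k * FreeGroup.of 0 * (FreeGroup.of 1 ^ k)⁻¹ *
    (FreeGroup.of 0 * cu (FreeGroup.of 0) (FreeGroup.of 1 ^ 1) 1)⁻¹ := rfl
  have e4 : rE N e k c 4 = cu (FreeGroup.of 0) (FreeGroup.of 1 ^ 1) e *
    (FreeGroup.of 1 ^ N * wd c e (FreeGroup.of 1 ^ 1) (FreeGroup.of 0))⁻¹ := rfl
  rw [e0, e1, e2, e3, e4, lift_eq, lift_eq, lift_eq, lift_eq, lift_eq]
  simp only [map_mul, map_inv, map_pow, lift0, lift1, lift2, map_wd, map_cu, map_one]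

/-- even relators, `q = 2` -/
def rT : Fin 5 → FreeGroup (Fin 3) :=
  ![FreeGroup.of 2 * FreeGroup.of 2 * 1⁻¹, FreeGroup.of 1 * 1⁻¹,
    FreeGroup.of 2 * FreeGroup.of 0 * FreeGroup.of 2 * (FreeGroup.of 0 * FreeGroup.of 2 * FreeGroup.of 0)⁻¹,
    1 * 1⁻¹, 1 * 1⁻¹]

theorem rT_iff {G : Type*} [Group G] (u h n : G) :
    (∀ i, FreeGroup.lift ![u, h, n] (rT i) = 1) ↔
      n * n = 1 ∧ h = 1 ∧ n * u * n = u * n * u ∧ (1 : G) = 1 ∧ (1 : G) = 1 := by
  rw [forall5]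
  have e0 : rT 0 = FreeGroup.of 2 * FreeGroup.of 2 * 1⁻¹ := rfl
  have e1 : rT 1 = FreeGroup.of 1 * 1⁻¹ := rfl
  have e2 : rT 2 = FreeGroup.of 2 * FreeGroup.of 0 * FreeGroup.of 2 *
    (FreeGroup.of 0 * FreeGroup.of 2 * FreeGroup.of 0)⁻¹ := rfl
  have e3 : rT 3 = 1 * 1⁻¹ := rfl
  have e4 : rT 4 = 1 * 1⁻¹ := rfl
  rw [e0, e1, e2, e3, e4, lift_eq, lift_eq, lift_eq, lift_eq]
  simp only [map_mul, lift0, lift1, lift2, map_one]

theorem braid_sq {G : Type*} [Group G] {u n : G} (hn : n * n = 1) (hb : n * u * n = u * n * u) : u ^ 2 = 1 := by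
  have h1 : u = (u * n)⁻¹ * n * (u * n) := by
    have : (u * n) * u = n * (u * n) := by rw [← hb]; group
    rw [mul_assoc, ← this]; group
  have h2 : u ^ 2 = (u * n)⁻¹ * (n * n) * (u * n) := by
    rw [sq]
    nth_rw 1 2 [h1]
    group
  rw [h2, hn]; group

theorem even_cons (S : Setup π N ζ) {G : Type*} [Group G] {u h n : G} (h0 : n * n = 1) (h2 : n * u * n = u * n * u) :
    n * n ∈ Subgroup.closure {u, h} ∧
     ∀ c ∈ ({1} : Set F), ∃ b : F, ∃ y ∈ Subgroup.closure {u, h}, n * FreeGroup.lift ![u, h] (Wd S c) * n⁻¹ =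
      FreeGroup.lift ![u, h] (Wd S b) * n * y := by
  have hu : u ∈ Subgroup.closure {u, h} := Subgroup.subset_closure (by simp)
  refine ⟨by rw [h0]; exact one_mem _, ?_⟩
  intro c hc
  rw [Set.mem_singleton_iff] at hc
  subst hc
  refine ⟨1, u, hu, ?_⟩
  rw [Wd_one, FreeGroup.lift_apply_of]
  change n * u * n⁻¹ = u * n * u
  have hninv : n⁻¹ = n := inv_eq_of_mul_eq_one_left h0
  rw [← h2, hninv]

theorem even_pres [Finite Γ] (S : Setup π N ζ) (hF2 : (2 : F) = 0) (hNq : N = Fintype.card F - 1) :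
    ∃ R : Fin 5 → FreeGroup (Fin 3), Pres ![π (U 1), π (Hh ζ), π n0] (Set.range R) := by
  have hchar : CharP F 2 := CharTwo.of_one_ne_zero_of_two_eq_zero one_ne_zero hF2
  have : Fact (Nat.Prime 2) := ⟨Nat.prime_two⟩
  let _ := ZMod.algebra F 2
  have hord : orderOf ζ = Fintype.card F - 1 := by
    rw [orderOf_eq_card_of_forall_mem_zpowers S.gen, Nat.card_units, Nat.card_eq_fintype_card]
  have hneg : (-1 : Fˣ) = 1 := by
    apply Units.ext
    rw [Units.val_neg, Units.val_one]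
    exact CharTwo.neg_eq 1
  obtain ⟨e, he, hFe, hc⟩ := H43.FieldGen.exists_coeffs (H43.FieldGen.adjoin_sq (p := 2) S.gen)
  have horb : ∀ a : F, a ≠ 0 → ∃ i : ℕ, ∃ c ∈ ({1} : Set F), a = ((ζ : F) ^ i) ^ 2 * c := by
    intro a ha
    obtain ⟨t, ht⟩ := FiniteField.isSquare_of_char_two (ringChar.eq F 2 ▸ rfl : ringChar F = 2) a
    have ht0 : t ≠ 0 := by rintro rfl; apply ha; rw [ht, mul_zero]
    obtain ⟨i, hi⟩ := exists_nat_pow S.gen ht0
    exact ⟨i, 1, rfl, by rw [hi, mul_one, sq, ht]⟩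
  have s0 : π n0 * π n0 = 1 := by rw [← map_mul, n0_sq, hneg, Hh_one, map_one]
  have s1 : π n0 * π (Hh ζ) * (π n0)⁻¹ = (π (Hh ζ))⁻¹ := by
    rw [← map_inv, ← map_mul, ← map_mul, n0_Hh, map_inv]
  have s2 : π n0 * π (U 1) * π n0 = π (U 1) * π n0 * π (U 1) := by
    have h3 := n0_U (F := F) 1
    rw [Hh_one, mul_one, Units.val_one, inv_one, CharTwo.neg_eq (1 : F)] at h3
    have h4 : π n0 * π (U 1) * (π n0)⁻¹ = π (U 1) * π n0 * π (U 1) := by
      rw [← map_inv, ← map_mul, ← map_mul, h3, map_mul, map_mul]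
    have hninv : (π n0)⁻¹ = π n0 := inv_eq_of_mul_eq_one_left s0
    rw [← h4, hninv]
  rcases Nat.lt_or_ge 1 e with he1 | he1
  · have hq : 4 ≤ Fintype.card F := by
      rw [hFe]
      calc 4 = 2 ^ 2 := by norm_num
        _ ≤ 2 ^ e := Nat.pow_le_pow_right (by norm_num) he1
    have hz := ζ.ne_zero
    have hz1 : (ζ : F) ≠ 1 := by
      intro h
      have h3 : ζ ^ 1 = 1 := Units.ext (by rw [pow_one, h]; rfl)
      have := Nat.le_of_dvd (by norm_num) (orderOf_dvd_of_pow_eq_one h3)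
      omega
    have hk0 : 1 + (ζ : F) ≠ 0 := by
      intro h
      apply hz1
      rw [← CharTwo.neg_eq (1 : F)]
      exact eq_neg_of_add_eq_zero_right h
    obtain ⟨k, hk⟩ := exists_nat_pow S.gen hk0
    obtain ⟨c, hc1⟩ := hc (((ζ : F) ^ 2) ^ e)
    have hyk : π (Hh ζ) ^ k = π (Hh (ζ ^ k)) := by rw [Hh_pow, map_pow]
    have hvk : ((ζ ^ k : Fˣ) : F) = 1 + ζ := by rw [Units.val_pow_eq_pow_val, hk]
    refine ⟨rE N e k c, pres S (Wd S) (Wd_eval S) {1} horb _ ?_ ?_⟩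
    · rw [rE_iff]
      refine ⟨s0, s1, s2, ?_, ?_⟩
      · rw [hyk, pow_one, cu_eval, ← map_inv, ← map_mul, ← map_mul, ← map_mul, Hh_U, ← U_add, hvk]
        congr 2
        rw [CharTwo.add_sq]; ring
      · rw [pow_one, cu_eval, wd_eval, S.pow, one_mul, ← hc1]
    · intro G _ u h n H
      rw [rE_iff] at H
      obtain ⟨r0, r1, r2, r3, r4⟩ := H
      obtain ⟨k1, k2⟩ := even_cons S (h := h) r0 r2
      refine ⟨?_, r1, k1, k2⟩
      have hu2 := braid_sq r0 r2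
      rw [hFe]
      have hcomm : u * cu u (h ^ 1) 1 = cu u (h ^ 1) 1 * u := by
        have e1 : (u * cu u (h ^ 1) 1) * (u * cu u (h ^ 1) 1) = 1 := by
          rw [← r3]
          calc _ = h ^ k * u ^ 2 * (h ^ k)⁻¹ := by rw [sq]; group
            _ = 1 := by rw [hu2]; group
        have e2 : u⁻¹ = u := inv_eq_of_mul_eq_one_right (by rw [← sq]; exact hu2)
        have e3 : (cu u (h ^ 1) 1)⁻¹ = cu u (h ^ 1) 1 := by
          unfold cu; rw [_root_.mul_inv_rev, _root_.mul_inv_rev, inv_inv, e2]; group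
        rw [eq_inv_of_mul_eq_one_left e1, _root_.mul_inv_rev, e2, e3]
      apply borelB (i := 1) (j := k) (c := c) (by norm_num) he S.hN hu2 hcomm r3 r4
      have : h * u * h⁻¹ = cu u (h ^ 1) 1 := by rw [cu_one, pow_one]
      rw [this]
      exact Subgroup.subset_closure ⟨1, he1, rfl⟩
  · have he1' : e = 1 := by omega
    rw [he1', pow_one] at hFe
    have hN1 : N = 1 := by rw [hNq, hFe]
    have hz1 : ζ = 1 := by
      rw [hFe] at hord
      exact orderOf_eq_one_iff.1 hord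
    refine ⟨rT, pres S (Wd S) (Wd_eval S) {1} horb _ ?_ ?_⟩
    · rw [rT_iff]
      exact ⟨s0, by rw [hz1, Hh_one, map_one], s2, rfl, rfl⟩
    · intro G _ u h n H
      rw [rT_iff] at H
      obtain ⟨r0, r1, r2, -, -⟩ := H
      obtain ⟨k1, k2⟩ := even_cons S (h := h) r0 r2
      refine ⟨?_, by rw [r1]; group, k1, k2⟩
      rw [hFe, show 2 * N = 2 ^ 1 * N by norm_num]
      have hcu : ∀ j, cu u h j = u := by intro j; unfold cu; rw [r1]; simp
      have hmem : u ∈ Subgroup.closure (cu u h '' {i | i < 1}) := Subgroup.subset_closure ⟨0, show (0 : ℕ) < 1 from one_pos, hcu 0⟩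
      apply card_borel (x := h) (by norm_num) one_pos S.hN (Subgroup.mem_zpowers h) _ (braid_sq r0 r2) _ _ _
      · intro j _; rw [hcu]
      · rw [hcu]; exact hmem
      · rw [r1, one_mul, inv_one, mul_one, ← r1]; exact hmem
      · rw [r1, one_pow]

end H43.SL2R
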