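import Cfsg.Agent.Lib.H43.SL2Rel

/-!
Bounded presentations of `SL_2(q)`: the general presentation theorem.
-/
set_option autoImplicit false

namespace H43.SL2R

open Matrix H43.Borel H43.Tietze

universe u

variable {F : Type u} [Field F] [Fintype F]

theorem gen_SL2 {ζ : Fˣ} (hζ : ∀ t : Fˣ, t ∈ Subgroup.zpowers ζ) :
    Subgroup.closure {U (1 : F), Hh ζ, n0} = ⊤ := by
  rw [eq_top_iff]
  rintro g -
  set K := Subgroup.closure {U (1 : F), Hh ζ, n0} with hK
  have hU : ∀ a : F, U a ∈ K := by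
    intro a
    have h1 := U_mem hζ a
    have h2 : Subgroup.closure {U (1 : F), Hh ζ} ≤ K := Subgroup.closure_mono (by
      rintro y (rfl | rfl) <;> simp)
    exact h2 h1
  have hH : ∀ t : Fˣ, Hh t ∈ K := by
    intro t
    obtain ⟨k, rfl⟩ := hζ t
    change Hhom (ζ ^ k) ∈ K
    rw [map_zpow]
    exact zpow_mem (Subgroup.subset_closure (by right; left; rfl)) k
  have hn : n0 ∈ K := Subgroup.subset_closure (by simp)
  obtain ⟨a, b, c, d, hdet, rfl⟩ : ∃ a b c d : F, ∃ h : a * d - b * c = 1, g = mk2 a b c d h := by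
    refine ⟨g 0 0, g 0 1, g 1 0, g 1 1, ?_, ?_⟩
    · have := g.det_coe
      rwa [Matrix.det_fin_two] at this
    · apply Subtype.ext
      exact Matrix.eta_fin_two _
  by_cases hc : c = 0
  · subst hc
    have ha : a ≠ 0 := by rintro rfl; simp at hdet
    have e : mk2 a b 0 d hdet = Hh (Units.mk0 a ha) * U (a⁻¹ * b) := by
      unfold Hh U
      rw [mul2]
      apply ext2
      · simp
      · simp [ha]
      · simp
      · simp
        exact eq_inv_of_mul_eq_one_right (by linear_combination hdet)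
    rw [e]
    exact mul_mem (hH _) (hU _)
  · have hc' : -c ≠ 0 := neg_ne_zero.2 hc
    have e : mk2 a b c d hdet = U (a / c) * n0 * Hh (Units.mk0 (-c) hc') * U (d / c) := by
      unfold Hh U n0
      rw [mul2, mul2, mul2]
      apply ext2
      · simp; field_simp
      · simp; field_simp; linear_combination -hdet
      · simp
      · simp; field_simp
    rw [e]
    exact mul_mem (mul_mem (mul_mem (hU _) hn) (hH _)) (hU _)

variable {Γ : Type u} [Group Γ] {π : Matrix.SpecialLinearGroup (Fin 2) F →* Γ} {N : ℕ} {ζ : Fˣ}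

theorem lift_prod {ι : Type*} {A B : Type*} [Group A] [Group B] (v : ι → A) (w : ι → B) (W : FreeGroup ι) :
    FreeGroup.lift (fun i => (v i, w i)) W = (FreeGroup.lift v W, FreeGroup.lift w W) := by
  have : FreeGroup.lift (fun i => (v i, w i)) = (FreeGroup.lift v).prod (FreeGroup.lift w) := by
    apply FreeGroup.ext_hom
    intro i
    rw [FreeGroup.lift_apply_of, MonoidHom.prod_apply, FreeGroup.lift_apply_of, FreeGroup.lift_apply_of]
  rw [this]; rfl

/-- what the relators must imply -/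
def Cons (F : Type u) [Field F] [Fintype F] (N : ℕ) (Wd : F → FreeGroup (Fin 2)) (C : Set F) {κ : Type*}
    (R : κ → FreeGroup (Fin 3)) : Prop :=
  ∀ (G : Type u) [Group G] (u h n : G), (∀ i, FreeGroup.lift ![u, h, n] (R i) = 1) →
     (Finite (Subgroup.closure {u, h}) ∧ Nat.card (Subgroup.closure {u, h}) ≤ Fintype.card F * N) ∧
     n * h * n⁻¹ = h⁻¹ ∧ n * n ∈ Subgroup.closure {u, h} ∧
     ∀ c ∈ C, ∃ b : F, ∃ y ∈ Subgroup.closure {u, h}, n * FreeGroup.lift ![u, h] (Wd c) * n⁻¹ =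
      FreeGroup.lift ![u, h] (Wd b) * n * y

theorem pres [Finite Γ] (S : Setup π N ζ) (Wd : F → FreeGroup (Fin 2))
    (hWd : ∀ a, FreeGroup.lift ![π (U 1), π (Hh ζ)] (Wd a) = π (U a)) (C : Set F)
    (horb : ∀ a : F, a ≠ 0 → ∃ i : ℕ, ∃ c ∈ C, a = ((ζ : F) ^ i) ^ 2 * c) {κ : Type*} (R : κ → FreeGroup (Fin 3))
    (sat : ∀ i, FreeGroup.lift ![π (U 1), π (Hh ζ), π n0] (R i) = 1) (cons : Cons F N Wd C R) :
    Pres ![π (U 1), π (Hh ζ), π n0] (Set.range R) := by
  let P := PresentedGroup (Set.range R)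
  let uP : P := PresentedGroup.of 0
  let hP : P := PresentedGroup.of 1
  let nP : P := PresentedGroup.of 2
  have hvP : (fun i => (PresentedGroup.of i : P)) = ![uP, hP, nP] := by
    funext i; fin_cases i <;> rfl
  have hrP : ∀ i, FreeGroup.lift ![uP, hP, nP] (R i) = 1 := by
    intro i
    rw [← hvP]
    have hl : FreeGroup.lift (fun i => (PresentedGroup.of i : P)) = PresentedGroup.mk (Set.range R) := by
      apply FreeGroup.ext_hom
      intro i
      rw [FreeGroup.lift_apply_of]; rfl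
    rw [hl]
    exact PresentedGroup.one_of_mem ⟨i, rfl⟩
  have hgP : Subgroup.closure {uP, hP, nP} = ⊤ := by
    rw [eq_top_iff, ← PresentedGroup.closure_range_of (Set.range R), Subgroup.closure_le]
    rintro _ ⟨i, rfl⟩
    apply Subgroup.subset_closure
    fin_cases i
    · left; rfl
    · right; left; rfl
    · right; right; rfl
  -- the product
  have hvD : (fun i => (![uP, hP, nP] i, ![π (U 1), π (Hh ζ), π n0] i)) =
      ![(uP, π (U 1)), (hP, π (Hh ζ)), (nP, π n0)] := by
    funext i; fin_cases i <;> rfl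
  have hrD : ∀ i, FreeGroup.lift ![(uP, π (U 1)), (hP, π (Hh ζ)), (nP, π n0)] (R i) = 1 := by
    intro i
    rw [← hvD, lift_prod, hrP, sat]; rfl
  obtain ⟨⟨hfD, hcD⟩, hnD, hn2D, hCD⟩ := cons (P × Γ) _ _ _ hrD
  have hset : Set.range (fun i => (![uP, hP] i, ![π (U 1), π (Hh ζ)] i)) = {(uP, π (U 1)), (hP, π (Hh ζ))} := by
    ext y
    constructor
    · rintro ⟨i, rfl⟩
      fin_cases i
      · left; rfl
      · right; rfl
    · rintro (rfl | rfl)
      · exact ⟨0, rfl⟩
      · exact ⟨1, rfl⟩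
  have htr : ∀ W : FreeGroup (Fin 2), FreeGroup.lift ![π (U 1), π (Hh ζ)] W = 1 → FreeGroup.lift ![uP, hP] W = 1 := by
    intro W hW
    apply transfer_of_card ![uP, hP] ![π (U 1), π (Hh ζ)] _ _ hW
    · rw [hset]; exact hfD
    · rw [hset]; exact le_trans hcD S.card_ge
  -- project to `P`
  let fs : P × Γ →* P := MonoidHom.fst P Γ
  have hmap : (Subgroup.closure {(uP, π (U 1)), (hP, π (Hh ζ))}).map fs = Subgroup.closure {uP, hP} := by
    rw [MonoidHom.map_closure, Set.image_pair]; rfl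
  have hfP : Finite (Subgroup.closure {uP, hP}) := by
    rw [← hmap]
    exact Set.Finite.image fs (Set.toFinite (Subgroup.closure {(uP, π (U 1)), (hP, π (Hh ζ))} : Set (P × Γ)))
  have hcP : Nat.card (Subgroup.closure {uP, hP}) ≤ Fintype.card F * N := by
    rw [← hmap]
    refine le_trans ?_ hcD
    exact Nat.card_le_card_of_surjective _ (MonoidHom.subgroupMap_surjective fs _)
  have hn : nP * hP * nP⁻¹ = hP⁻¹ := congrArg Prod.fst hnD
  have hn2 : nP * nP ∈ Subgroup.closure {uP, hP} := by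
    rw [← hmap]; exact ⟨_, hn2D, rfl⟩
  have hC : ∀ c ∈ C, ∃ b : F, ∃ y ∈ Subgroup.closure {uP, hP}, nP * FreeGroup.lift ![uP, hP] (Wd c) * nP⁻¹ =
      FreeGroup.lift ![uP, hP] (Wd b) * nP * y := by
    intro c hc
    obtain ⟨b, y, hy, he⟩ := hCD c hc
    have hv2 : ![(uP, π (U 1)), (hP, π (Hh ζ))] = fun i => (![uP, hP] i, ![π (U 1), π (Hh ζ)] i) := by
      funext i; fin_cases i <;> rfl
    rw [hv2, lift_prod, lift_prod] at he
    refine ⟨b, y.1, ?_, congrArg Prod.fst he⟩
    rw [← hmap]; exact ⟨y, hy, rfl⟩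
  obtain ⟨hfin, hcard⟩ := card_bound S htr hfP hcP hn hn2 Wd hWd C hC horb hgP
  apply pres_of_card _ _ hfin hcard
  · rw [eq_top_iff, ← (MonoidHom.range_eq_top (f := π)).2 S.surj, MonoidHom.range_eq_map, ← gen_SL2 S.gen,
      MonoidHom.map_closure, Subgroup.closure_le]
    rintro _ ⟨y, (rfl | rfl | rfl), rfl⟩
    · exact Subgroup.subset_closure ⟨0, rfl⟩
    · exact Subgroup.subset_closure ⟨1, rfl⟩
    · exact Subgroup.subset_closure ⟨2, rfl⟩
  · rintro _ ⟨i, rfl⟩; exact sat i

end H43.SL2R
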