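import Cfsg.Agent.Lib.H43.BorelPres
import Cfsg.Agent.Lib.H43.FieldGen

/-!
Bounded presentations of `SL_2(q)`: matrices and the coset bound.
-/
set_option autoImplicit false

namespace H43.SL2R

open Matrix H43.Borel H43.Tietze

variable {F : Type*} [Field F]

/-- constructor -/
def mk2 (a b c d : F) (h : a * d - b * c = 1) : Matrix.SpecialLinearGroup (Fin 2) F :=
  ⟨!![a, b; c, d], by rw [Matrix.det_fin_two_of]; exact h⟩

/-- upper unipotent -/
def U (a : F) : Matrix.SpecialLinearGroup (Fin 2) F := mk2 1 a 0 1 (by ring)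
/-- torus -/
def Hh (t : Fˣ) : Matrix.SpecialLinearGroup (Fin 2) F := mk2 (t : F) 0 0 ((t⁻¹ : Fˣ) : F) (by simp)
/-- Weyl element -/
def n0 : Matrix.SpecialLinearGroup (Fin 2) F := mk2 0 1 (-1) 0 (by ring)

theorem ext2 {a b c d a' b' c' d' : F} {h : a * d - b * c = 1} {h' : a' * d' - b' * c' = 1} (h1 : a = a') (h2 : b = b')
    (h3 : c = c') (h4 : d = d') : mk2 a b c d h = mk2 a' b' c' d' h' := by
  subst h1 h2 h3 h4; rfl

theorem mul2 {a b c d a' b' c' d' : F} {h : a * d - b * c = 1} {h' : a' * d' - b' * c' = 1} :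
    mk2 a b c d h * mk2 a' b' c' d' h' =
      mk2 (a * a' + b * c') (a * b' + b * d') (c * a' + d * c') (c * b' + d * d') (by
        linear_combination (a' * d' - b' * c') * h + h') := by
  apply Subtype.ext
  change !![a, b; c, d] * !![a', b'; c', d'] = _
  rw [Matrix.mul_fin_two]; rfl

theorem U_add (a b : F) : U (a + b) = U a * U b := by
  unfold U; rw [mul2]; apply ext2 <;> ring
theorem U_zero : (U 0 : Matrix.SpecialLinearGroup (Fin 2) F) = 1 := by
  apply Subtype.ext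
  change !![1, 0; 0, 1] = (1 : Matrix (Fin 2) (Fin 2) F)
  rw [Matrix.one_fin_two]
theorem U_neg (a : F) : U (-a) = (U a)⁻¹ := by
  rw [eq_inv_iff_mul_eq_one, ← U_add, neg_add_cancel, U_zero]
theorem U_pow (a : F) (n : ℕ) : U a ^ n = U ((n : F) * a) := by
  induction n with
  | zero => rw [pow_zero, Nat.cast_zero, zero_mul, U_zero]
  | succ n ih => rw [pow_succ, ih, ← U_add]; congr 1; push_cast; ring
theorem Hh_mul (s t : Fˣ) : (Hh (s * t) : Matrix.SpecialLinearGroup (Fin 2) F) = Hh s * Hh t := by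
  unfold Hh; rw [mul2]; apply ext2 <;> simp [mul_comm]
theorem Hh_one : (Hh 1 : Matrix.SpecialLinearGroup (Fin 2) F) = 1 := by
  apply Subtype.ext
  change !![((1 : Fˣ) : F), 0; 0, (((1 : Fˣ)⁻¹ : Fˣ) : F)] = (1 : Matrix (Fin 2) (Fin 2) F)
  rw [Matrix.one_fin_two]; simp
/-- as a homomorphism -/
def Hhom : Fˣ →* Matrix.SpecialLinearGroup (Fin 2) F where
  toFun := Hh
  map_one' := Hh_one
  map_mul' := Hh_mul
theorem Hh_pow (t : Fˣ) (n : ℕ) : (Hh (t ^ n) : Matrix.SpecialLinearGroup (Fin 2) F) = Hh t ^ n := map_pow Hhom t n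
theorem Hh_inv (t : Fˣ) : (Hh (t⁻¹) : Matrix.SpecialLinearGroup (Fin 2) F) = (Hh t)⁻¹ := map_inv Hhom t

theorem Hh_U (t : Fˣ) (a : F) : Hh t * U a * (Hh t)⁻¹ = U ((t : F) ^ 2 * a) := by
  rw [mul_inv_eq_iff_eq_mul]
  unfold Hh U
  rw [mul2, mul2]
  apply ext2
  · simp
  · simp
    field_simp
  · simp
  · simp

theorem n0_sq : (n0 * n0 : Matrix.SpecialLinearGroup (Fin 2) F) = Hh (-1) := by
  unfold n0 Hh; rw [mul2]; apply ext2 <;> simp

theorem n0_Hh (t : Fˣ) : n0 * Hh t * n0⁻¹ = (Hh t)⁻¹ := by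
  rw [mul_inv_eq_iff_eq_mul, ← Hh_inv]
  unfold n0 Hh
  rw [mul2, mul2]
  apply ext2 <;> simp

theorem n0_U (a : Fˣ) : n0 * U (a : F) * n0⁻¹ = U (-(a : F)⁻¹) * n0 * Hh a * U (-(a : F)⁻¹) := by
  rw [mul_inv_eq_iff_eq_mul]
  unfold n0 Hh U
  rw [mul2, mul2, mul2, mul2, mul2]
  apply ext2 <;> simp

theorem card_pos' [Finite F] : 0 < Nat.card F := Nat.card_pos

variable [Fintype F]

/-- all unipotents are generated -/
theorem U_mem {ζ : Fˣ} (hζ : ∀ t : Fˣ, t ∈ Subgroup.zpowers ζ) (a : F) :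
    (U a : Matrix.SpecialLinearGroup (Fin 2) F) ∈ Subgroup.closure {U 1, Hh ζ} := by
  let S : AddSubgroup F :=
    { carrier := {a | U a ∈ Subgroup.closure {U 1, Hh ζ}}
      zero_mem' := by
        change U (0 : F) ∈ Subgroup.closure {U 1, Hh ζ}
        rw [U_zero]; exact one_mem _
      add_mem' := by
        intro a b ha hb
        change U (a + b) ∈ Subgroup.closure {U 1, Hh ζ}
        rw [U_add]; exact mul_mem ha hb
      neg_mem' := by
        intro a ha
        change U (-a) ∈ Subgroup.closure {U 1, Hh ζ}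
        rw [U_neg]; exact inv_mem ha }
  apply H43.FieldGen.top_of_squares (S := S) _ a
  intro t
  change U (t ^ 2) ∈ Subgroup.closure {U 1, Hh ζ}
  by_cases ht : t = 0
  · rw [ht, zero_pow two_ne_zero, U_zero]; exact one_mem _
  · obtain ⟨k, hk⟩ := hζ (Units.mk0 t ht)
    have h1 : (U (t ^ 2) : Matrix.SpecialLinearGroup (Fin 2) F) = Hh (Units.mk0 t ht) * U 1 * (Hh (Units.mk0 t ht))⁻¹ := by
      rw [Hh_U, mul_one]; rfl
    have h2 : (Hh (Units.mk0 t ht) : Matrix.SpecialLinearGroup (Fin 2) F) ∈ Subgroup.closure {U 1, Hh ζ} := by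
      rw [← hk]
      change Hhom (ζ ^ k) ∈ _
      rw [map_zpow]
      exact zpow_mem (Subgroup.subset_closure (by right; rfl)) k
    rw [h1]
    exact mul_mem (mul_mem h2 (Subgroup.subset_closure (by left; rfl))) (inv_mem h2)

/-- the target data -/
structure Setup {Γ : Type*} [Group Γ] (π : Matrix.SpecialLinearGroup (Fin 2) F →* Γ) (N : ℕ) (ζ : Fˣ) : Prop where
  surj : Function.Surjective π
  gen : ∀ t : Fˣ, t ∈ Subgroup.zpowers ζ
  hN : 0 < N
  inj : ∀ a b : F, ∀ i < N, ∀ j < N, π (U a * Hh ζ ^ i) = π (U b * Hh ζ ^ j) → a = b ∧ i = j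
  card : Nat.card Γ = (Fintype.card F + 1) * (Fintype.card F * N)
  pow : π (Hh ζ) ^ N = 1

variable {Γ : Type*} [Group Γ] {π : Matrix.SpecialLinearGroup (Fin 2) F →* Γ} {N : ℕ} {ζ : Fˣ}

theorem Setup.U_mem (S : Setup π N ζ) (a : F) : π (SL2R.U a) ∈ Subgroup.closure (Set.range ![π (U 1), π (Hh ζ)]) := by
  have h1 := SL2R.U_mem S.gen a
  have h2 : Subgroup.closure {U 1, Hh ζ} ≤ (Subgroup.closure (Set.range ![π (U 1), π (Hh ζ)])).comap π := by
    rw [Subgroup.closure_le]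
    rintro _ (rfl | rfl)
    · exact Subgroup.subset_closure ⟨0, rfl⟩
    · exact Subgroup.subset_closure ⟨1, rfl⟩
  exact h2 h1

theorem Setup.card_ge [Finite Γ] (S : Setup π N ζ) :
    Fintype.card F * N ≤ Nat.card (Subgroup.closure (Set.range ![π (U 1), π (Hh ζ)])) := by
  have hh : π (Hh ζ) ∈ Subgroup.closure (Set.range ![π (U 1), π (Hh ζ)]) := Subgroup.subset_closure ⟨1, rfl⟩
  let f : F × Fin N → Subgroup.closure (Set.range ![π (U 1), π (Hh ζ)]) := fun x =>
    ⟨π (U x.1 * Hh ζ ^ (x.2 : ℕ)), by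
      rw [map_mul, map_pow]
      exact mul_mem (S.U_mem _) (pow_mem hh _)⟩
  have hf : Function.Injective f := by
    rintro ⟨a, i⟩ ⟨b, j⟩ h
    obtain ⟨h1, h2⟩ := S.inj a b i i.2 j j.2 (congrArg Subtype.val h)
    exact Prod.ext h1 (Fin.ext h2)
  have := Nat.card_le_card_of_injective f hf
  rwa [Nat.card_prod, Nat.card_eq_fintype_card (α := F), Nat.card_eq_fintype_card (α := Fin N), Fintype.card_fin] at this

theorem Setup.exists_word (S : Setup π N ζ) (a : F) :
    ∃ W : FreeGroup (Fin 2), FreeGroup.lift ![π (U 1), π (Hh ζ)] W = π (U a) := by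
  have := S.U_mem a
  rw [← FreeGroup.range_lift_eq_closure] at this
  exact this

/-- the coset bound for the abstract group -/
theorem card_bound (S : Setup π N ζ) {G : Type*} [Group G] {u h n : G}
    (htr : ∀ W : FreeGroup (Fin 2), FreeGroup.lift ![π (U 1), π (Hh ζ)] W = 1 → FreeGroup.lift ![u, h] W = 1)
    (hfin : Finite (Subgroup.closure {u, h})) (hcard : Nat.card (Subgroup.closure {u, h}) ≤ Fintype.card F * N)
    (hn : n * h * n⁻¹ = h⁻¹) (hn2 : n * n ∈ Subgroup.closure {u, h})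
    (Wd : F → FreeGroup (Fin 2)) (hWd : ∀ a, FreeGroup.lift ![π (U 1), π (Hh ζ)] (Wd a) = π (U a))
    (C : Set F) (hC : ∀ c ∈ C, ∃ b : F, ∃ y ∈ Subgroup.closure {u, h}, n * FreeGroup.lift ![u, h] (Wd c) * n⁻¹ =
      FreeGroup.lift ![u, h] (Wd b) * n * y)
    (horb : ∀ a : F, a ≠ 0 → ∃ i : ℕ, ∃ c ∈ C, a = ((ζ : F) ^ i) ^ 2 * c)
    (hgen : Subgroup.closure {u, h, n} = ⊤) : Finite G ∧ Nat.card G ≤ Nat.card Γ := by
  have htr' : ∀ W W' : FreeGroup (Fin 2), FreeGroup.lift ![π (U 1), π (Hh ζ)] W = FreeGroup.lift ![π (U 1), π (Hh ζ)] W' →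
      FreeGroup.lift ![u, h] W = FreeGroup.lift ![u, h] W' := by
    intro W W' e
    have := htr (W * W'⁻¹) (by rw [map_mul, map_inv, e, mul_inv_cancel])
    rwa [map_mul, map_inv, mul_inv_eq_one] at this
  set θ : F → G := fun a => FreeGroup.lift ![u, h] (Wd a) with hθ
  set K := Subgroup.closure {u, h} with hK
  have hθadd : ∀ a b, θ (a + b) = θ a * θ b := by
    intro a b
    have := htr' (Wd (a + b)) (Wd a * Wd b) (by rw [hWd, map_mul, hWd, hWd, U_add, map_mul])
    rwa [map_mul] at this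
  have hθ1 : θ 1 = u := by
    have := htr' (Wd 1) (FreeGroup.of 0) (by rw [hWd, FreeGroup.lift_apply_of]; rfl)
    rwa [FreeGroup.lift_apply_of] at this
  have hθh : ∀ i : ℕ, ∀ a, h ^ i * θ a * (h ^ i)⁻¹ = θ (((ζ : F) ^ i) ^ 2 * a) := by
    intro i a
    have := htr' (FreeGroup.of 1 ^ i * Wd a * (FreeGroup.of 1 ^ i)⁻¹) (Wd (((ζ : F) ^ i) ^ 2 * a)) (by
      rw [map_mul, map_mul, map_inv, map_pow, hWd, hWd, FreeGroup.lift_apply_of]
      change π (Hh ζ) ^ i * π (U a) * (π (Hh ζ) ^ i)⁻¹ = _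
      rw [← map_pow, ← map_mul, ← map_inv, ← map_mul, ← Hh_pow, Hh_U, Units.val_pow_eq_pow_val])
    rw [map_mul, map_mul, map_inv, map_pow, FreeGroup.lift_apply_of] at this
    exact this
  have hθ0 : θ 0 = 1 := by
    have := hθadd 0 0
    rw [add_zero] at this
    exact mul_eq_left.1 this.symm
  have huK : u ∈ K := Subgroup.subset_closure (by simp)
  have hhK : h ∈ K := Subgroup.subset_closure (by simp)
  have hθK : ∀ a, θ a ∈ K := by
    intro a
    have h1 : FreeGroup.lift ![u, h] (Wd a) ∈ Subgroup.closure (Set.range ![u, h]) := by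
      rw [← FreeGroup.range_lift_eq_closure]; exact ⟨_, rfl⟩
    have h2 : Subgroup.closure (Set.range ![u, h]) ≤ K := by
      rw [Subgroup.closure_le]
      rintro _ ⟨i, rfl⟩
      fin_cases i
      · exact huK
      · exact hhK
    exact h2 h1
  have hco : ∀ (a : G) (b : G), b ∈ K → ((a * b : G) : G ⧸ K) = ((a : G) : G ⧸ K) := by
    intro a b hb
    rw [QuotientGroup.eq]
    have : (a * b)⁻¹ * a = b⁻¹ := by group
    rw [this]; exact inv_mem hb
  have hnh : ∀ i : ℕ, n * h ^ i * n⁻¹ = (h ^ i)⁻¹ := by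
    intro i
    rw [← conj_pow, hn, inv_pow]
  have hnθ : ∀ a, a ≠ 0 → ∃ b, ((n * θ a * n⁻¹ : G) : G ⧸ K) = ((θ b * n : G) : G ⧸ K) := by
    intro a ha
    obtain ⟨i, c, hc, rfl⟩ := horb a ha
    obtain ⟨b, y, hy, he⟩ := hC c hc
    obtain ⟨b', hb'⟩ : ∃ b', (h ^ i)⁻¹ * θ b * h ^ i = θ b' := by
      refine ⟨(((ζ : F) ^ i) ^ 2)⁻¹ * b, ?_⟩
      have hz : ((ζ : F) ^ i) ^ 2 ≠ 0 := pow_ne_zero _ (pow_ne_zero _ ζ.ne_zero)
      have := hθh i ((((ζ : F) ^ i) ^ 2)⁻¹ * b)
      rw [mul_inv_cancel_left₀ hz] at this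
      rw [← this]; group
    refine ⟨b', ?_⟩
    have e1 : n * θ (((ζ : F) ^ i) ^ 2 * c) * n⁻¹ = θ b' * n * (h ^ i * y * h ^ i) := by
      rw [← hθh]
      calc n * (h ^ i * θ c * (h ^ i)⁻¹) * n⁻¹ = (n * h ^ i * n⁻¹) * (n * θ c * n⁻¹) * (n * h ^ i * n⁻¹)⁻¹ := by group
        _ = (h ^ i)⁻¹ * (θ b * n * y) * h ^ i := by rw [hnh, inv_inv, he]
        _ = ((h ^ i)⁻¹ * θ b * h ^ i) * ((h ^ i)⁻¹ * n * y) * h ^ i := by group
        _ = θ b' * (n * h ^ i * n⁻¹ * n * y) * h ^ i := by rw [hb', hnh]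
        _ = _ := by group
    rw [e1]
    apply hco
    exact mul_mem (mul_mem (pow_mem hhK _) hy) (pow_mem hhK _)
  set T : Set (G ⧸ K) := {((1 : G) : G ⧸ K)} ∪ Set.range (fun a : F => ((θ a * n : G) : G ⧸ K)) with hT
  have hTf : T.Finite := (Set.finite_singleton _).union (Set.finite_range _)
  have hTc : T.ncard ≤ Fintype.card F + 1 := by
    calc T.ncard ≤ _ + _ := Set.ncard_union_le _ _
      _ ≤ 1 + Fintype.card F := by
        apply Nat.add_le_add
        · rw [Set.ncard_singleton]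
        · rw [← Set.image_univ]
          calc _ ≤ _ := Set.ncard_image_le Set.finite_univ
            _ = Fintype.card F := by rw [Set.ncard_univ, Nat.card_eq_fintype_card]
      _ = _ := add_comm _ _
  have key := H60.AltPres.card_le_of_cosets K {u, h, n} hfin T hTf (Or.inl rfl) (by
    rintro g hg s (hs | ⟨a, rfl⟩)
    · rw [Set.mem_singleton_iff] at hs
      subst hs
      rw [MulAction.Quotient.smul_coe, smul_eq_mul, mul_one]
      rcases hg with rfl | rfl | rfl
      · left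
        have := hco 1 g huK
        rwa [one_mul] at this
      · left
        have := hco 1 g hhK
        rwa [one_mul] at this
      · right
        exact ⟨0, by dsimp only; rw [hθ0, one_mul]⟩
    · dsimp only
      rw [MulAction.Quotient.smul_coe, smul_eq_mul]
      rcases hg with rfl | rfl | rfl
      · right
        refine ⟨1 + a, ?_⟩
        dsimp only
        rw [hθadd, hθ1, mul_assoc]
      · right
        refine ⟨(ζ : F) ^ 2 * a, ?_⟩
        dsimp only
        have h1 := hθh 1 a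
        rw [pow_one, pow_one] at h1
        rw [← h1]
        have h2 : g * θ a * g⁻¹ * n = g * (θ a * n) * (n⁻¹ * g⁻¹ * n) := by group
        have h3 : n⁻¹ * g⁻¹ * n = g := by rw [← hn]; group
        rw [h2, h3]
        exact hco _ _ hhK
      · by_cases ha : a = 0
        · left
          rw [ha, hθ0, one_mul]
          have := hco 1 (g * g) hn2
          rwa [one_mul] at this
        · right
          obtain ⟨b, hb⟩ := hnθ a ha
          refine ⟨b, ?_⟩
          dsimp only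
          rw [← hb]
          have h2 : g * (θ a * g) = (g * θ a * g⁻¹) * (g * g) := by group
          rw [h2]
          exact (hco _ _ hn2).symm)
  rw [hgen] at key
  have hG : Finite G := by
    have := key.1
    exact Finite.of_equiv _ Subgroup.topEquiv.toEquiv
  refine ⟨hG, ?_⟩
  rw [Nat.card_congr Subgroup.topEquiv.toEquiv] at key
  rw [S.card]
  exact le_trans key.2 (Nat.mul_le_mul hTc hcard)

end H43.SL2R
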