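import Cfsg.Agent.Lib.H43.SL2Pres

/-!
Bounded presentations of `SL_2(q)`: words, the torus trick and the Borel bounds.
-/
set_option autoImplicit false

namespace H43.SL2R

open Matrix H43.Borel H43.Tietze

section words
variable {G H : Type*} [Group G] [Group H]

/-- the word `∏ x^j u^{c_j} x^{-j}` -/
def wd (c : ℕ → ℕ) (e : ℕ) (x u : G) : G := ((List.range e).map (fun j => x ^ j * u ^ c j * (x ^ j)⁻¹)).prod

theorem map_wd (f : G →* H) (c : ℕ → ℕ) (e : ℕ) (x u : G) : f (wd c e x u) = wd c e (f x) (f u) := by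
  unfold wd
  rw [map_list_prod, List.map_map]
  congr 1
  apply List.map_congr_left
  intro j _
  simp

theorem wd_mem (c : ℕ → ℕ) (e : ℕ) (x u : G) : wd c e x u ∈ Subgroup.closure (cu u x '' {i | i < e}) := by
  unfold wd
  apply Subgroup.list_prod_mem
  intro y hy
  rw [List.mem_map] at hy
  obtain ⟨j, hj, rfl⟩ := hy
  rw [List.mem_range] at hj
  have h1 : x ^ j * u ^ c j * (x ^ j)⁻¹ = cu u x j ^ c j := by unfold cu; rw [conj_pow]
  have h2 : cu u x j ∈ Subgroup.closure (cu u x '' {i | i < e}) := Subgroup.subset_closure ⟨j, hj, rfl⟩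
  rw [h1]
  exact Subgroup.pow_mem _ h2 _

theorem map_cu (f : G →* H) (u x : G) (j : ℕ) : f (cu u x j) = cu (f u) (f x) j := by
  simp [cu]

theorem closure_comm {S : Set G} (h : ∀ a ∈ S, ∀ b ∈ S, Commute a b) :
    ∀ a ∈ Subgroup.closure S, ∀ b ∈ Subgroup.closure S, Commute a b := by
  have h1 : ∀ a ∈ Subgroup.closure S, ∀ b ∈ S, Commute a b := by
    intro a ha b hb
    induction ha using Subgroup.closure_induction with
    | mem x hx => exact h x hx b hb
    | one => exact Commute.one_left _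
    | mul x y _ _ h1 h2 => exact h1.mul_left h2
    | inv x _ h1 => exact h1.inv_left
  intro a ha b hb
  induction hb using Subgroup.closure_induction with
  | mem x hx => exact h1 a ha x hx
  | one => exact Commute.one_right _
  | mul x y _ _ h1 h2 => exact h1.mul_right h2
  | inv x _ h1 => exact h1.inv_right

/-- the merging lemma -/
theorem merged_trivial {u x y z : G} (hxy : Commute x y) (h1 : Commute u (cu u x 1)) (hy : y * u * y⁻¹ = u * cu u x 1)
    (hz : z ∈ Subgroup.closure (Set.range (cu u x))) (hyz : Commute y z) (hxz : Commute x z) : z = 1 := by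
  have hc := all_commute hxy h1 hy
  have hcc : ∀ a ∈ Set.range (cu u x), ∀ b ∈ Set.range (cu u x), Commute a b := by
    rintro _ ⟨i, rfl⟩ _ ⟨j, rfl⟩
    rcases le_total i j with h1 | h1
    · have := cu_comm_of (hc (j - i)) i
      rwa [show i + (j - i) = j by omega] at this
    · have := cu_comm_of (hc (i - j)) j
      rw [show j + (i - j) = i by omega] at this
      exact this.symm
  have hV := closure_comm hcc
  have hxV : ∀ v ∈ Subgroup.closure (Set.range (cu u x)), x * v * x⁻¹ ∈ Subgroup.closure (Set.range (cu u x)) := by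
    apply conj_closure_le
    rintro _ ⟨i, rfl⟩
    rw [cu_succ]
    exact Subgroup.subset_closure ⟨i + 1, rfl⟩
  have hyj : ∀ j, y * cu u x j * y⁻¹ = cu u x j * (x * cu u x j * x⁻¹) := by
    intro j
    have e1 : y * x ^ j = x ^ j * y := (hxy.symm.pow_right j).eq
    have e2 : (x ^ j)⁻¹ * y⁻¹ = y⁻¹ * (x ^ j)⁻¹ := by rw [← _root_.mul_inv_rev, e1, _root_.mul_inv_rev]
    calc y * cu u x j * y⁻¹ = (y * x ^ j) * u * ((x ^ j)⁻¹ * y⁻¹) := by unfold cu; group
      _ = x ^ j * (y * u * y⁻¹) * (x ^ j)⁻¹ := by rw [e1, e2]; group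
      _ = (x ^ j * u * (x ^ j)⁻¹) * (x ^ j * cu u x 1 * (x ^ j)⁻¹) := by rw [hy]; group
      _ = _ := by rw [cu_add, cu_succ]; rfl
  have key : ∀ v ∈ Subgroup.closure (Set.range (cu u x)), y * v * y⁻¹ = v * (x * v * x⁻¹) := by
    intro v hv
    induction hv using Subgroup.closure_induction with
    | mem v hv => obtain ⟨j, rfl⟩ := hv; exact hyj j
    | one => group
    | mul v w hv hw h1 h2 =>
      have h3 := (hV w hw _ (hxV v hv)).eq
      calc y * (v * w) * y⁻¹ = (y * v * y⁻¹) * (y * w * y⁻¹) := by group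
        _ = v * ((x * v * x⁻¹) * w) * (x * w * x⁻¹) := by rw [h1, h2]; group
        _ = v * (w * (x * v * x⁻¹)) * (x * w * x⁻¹) := by rw [h3]
        _ = _ := by group
    | inv v hv h1 =>
      have h3 := (hV v hv _ (hxV v hv)).eq
      calc y * v⁻¹ * y⁻¹ = (y * v * y⁻¹)⁻¹ := by group
        _ = ((x * v * x⁻¹) * v)⁻¹ := by rw [h1, h3]
        _ = _ := by group
  have h2 := key z hz
  rw [hyz.eq, mul_inv_cancel_right, hxz.eq, mul_inv_cancel_right] at h2
  exact mul_eq_left.1 h2.symm

theorem cu_mem_range (u x : G) (e : ℕ) : Subgroup.closure (cu u x '' {i | i < e}) ≤ Subgroup.closure (Set.range (cu u x)) :=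
  Subgroup.closure_mono (Set.image_subset_range _ _)

end words

section eval
variable {F : Type*} [Field F] {Γ : Type*} [Group Γ] {π : Matrix.SpecialLinearGroup (Fin 2) F →* Γ}

theorem wd_eval (c : ℕ → ℕ) (e : ℕ) (t : Fˣ) (a : F) :
    wd c e (π (Hh t)) (π (U a)) = π (U ((∑ j ∈ Finset.range e, (c j : F) * ((t : F) ^ 2) ^ j) * a)) := by
  rw [← map_wd]
  congr 1
  unfold wd
  induction e with
  | zero => simp [U_zero]
  | succ e ih =>
    rw [List.range_succ, List.map_append, List.prod_append, ih, List.map_singleton, List.prod_singleton,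
      Finset.sum_range_succ, add_mul, U_add, U_pow, ← Hh_pow, Hh_U]
    congr 2
    rw [Units.val_pow_eq_pow_val]
    ring

theorem cu_eval (t : Fˣ) (a : F) (j : ℕ) : cu (π (U a)) (π (Hh t)) j = π (U (((t : F) ^ 2) ^ j * a)) := by
  rw [← map_cu]
  congr 1
  unfold cu
  rw [← Hh_pow, Hh_U, Units.val_pow_eq_pow_val]
  congr 1
  ring
end eval

end H43.SL2R
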