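import Cfsg.Agent.Lib.H43.SLRels

/-!
Consequences of the relations for `SL_n`, `n ≥ 4`.
-/
set_option autoImplicit false

namespace H43.SLRels

open Equiv H43.Borel H43.SL2R H43.FieldStr H43.SteinHom H43.SDM H43.AltTrans H43.SLPerm H43.Tietze

variable {n : ℕ} {G : Type*} [Group G]

/-- equivariance -/
theorem equi (hn : 4 ≤ n) {s : Fin n → Fin n → alternatingGroup (Fin n)} (hs : GoodS hn s)
    {α : alternatingGroup (Fin n) →* G} {u : G}
    (hst : ∀ ρ : alternatingGroup (Fin n), (ρ : Perm (Fin n)) (o hn 0) = o hn 0 → (ρ : Perm (Fin n)) (o hn 1) = o hn 1 →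
      Commute (α ρ) u) (σ : alternatingGroup (Fin n)) {i j : Fin n} (hij : i ≠ j) :
    α σ * cj α s u i j * (α σ)⁻¹ = cj α s u ((σ : Perm (Fin n)) i) ((σ : Perm (Fin n)) j) := by
  have hij' : (σ : Perm (Fin n)) i ≠ (σ : Perm (Fin n)) j := fun h => hij ((σ : Perm (Fin n)).injective h)
  obtain ⟨a0, a1⟩ := hs i j hij
  obtain ⟨b0, b1⟩ := hs _ _ hij'
  set τ := s ((σ : Perm (Fin n)) i) ((σ : Perm (Fin n)) j) with hτ
  set ρ := τ⁻¹ * σ * s i j with hρ
  have h0 : (ρ : Perm (Fin n)) (o hn 0) = o hn 0 := by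
    change (τ : Perm (Fin n))⁻¹ ((σ : Perm (Fin n)) ((s i j : Perm (Fin n)) (o hn 0))) = _
    rw [a0, ← b0, pa]
  have h1 : (ρ : Perm (Fin n)) (o hn 1) = o hn 1 := by
    change (τ : Perm (Fin n))⁻¹ ((σ : Perm (Fin n)) ((s i j : Perm (Fin n)) (o hn 1))) = _
    rw [a1, ← b1, pa]
  have h2 := hst ρ h0 h1
  have h3 : σ * s i j = τ * ρ := by rw [hρ]; group
  have h4 : α σ * α (s i j) = α τ * α ρ := by rw [← map_mul, h3, map_mul]
  unfold cj
  calc α σ * (α (s i j) * u * (α (s i j))⁻¹) * (α σ)⁻¹ = (α σ * α (s i j)) * u * (α σ * α (s i j))⁻¹ := by group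
    _ = α τ * (α ρ * u) * (α ρ)⁻¹ * (α τ)⁻¹ := by rw [h4]; group
    _ = _ := by rw [h2.eq, hτ]; group

/-- the full set of universal relations -/
structure Full (U T : Fin n → Fin n → G) (p e : ℕ) (c : ℕ → ℕ) : Prop where
  sd : SD U T
  up : ∀ i j, i ≠ j → U i j ^ p = 1
  mp : ∀ i j k, i ≠ j → j ≠ k → i ≠ k → cu (U i j) (T i k) e = wd c e (T i k) (U i j)

theorem hcomm_of {T : Fin n → Fin n → G} (hinv : ∀ i j, i ≠ j → T j i = (T i j)⁻¹)
    (htri : ∀ i j k, i ≠ j → j ≠ k → i ≠ k → T i j * T j k = T i k)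
    (h9 : ∀ i j k, i ≠ j → j ≠ k → i ≠ k → Commute (T i j) (T j k)) :
    ∀ i j k l, i ≠ j → k ≠ l → Commute (T i j) (T k l) := by
  have q1 : ∀ i j k, i ≠ j → j ≠ k → i ≠ k → Commute (T i j) (T k i) := fun i j k hij hjk hik =>
    (h9 k i j hik.symm hij hjk.symm).symm
  have q2 : ∀ i j k, i ≠ j → j ≠ k → i ≠ k → Commute (T i j) (T i k) := by
    intro i j k hij hjk hik
    rw [hinv k i hik.symm]
    exact (q1 i j k hij hjk hik).inv_right
  have q3 : ∀ i j k, i ≠ j → j ≠ k → i ≠ k → Commute (T i j) (T k j) := by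
    intro i j k hij hjk hik
    rw [hinv j k hjk]
    exact (h9 i j k hij hjk hik).inv_right
  intro i j k l hij hkl
  by_cases hik : i = k
  · subst hik
    by_cases hjl : j = l
    · subst hjl; exact Commute.refl _
    · exact q2 i j l hij hjl hkl
  by_cases hjl : j = l
  · subst hjl
    exact q3 i j k hij hkl.symm hik
  by_cases hil : i = l
  · subst hil
    by_cases hjk : j = k
    · subst hjk
      rw [hinv i j hij]; exact (Commute.refl _).inv_right
    · exact q1 i j k hij hjk hik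
  by_cases hjk : j = k
  · subst hjk; exact h9 i j l hij hjl hil
  · rw [← htri k i l (Ne.symm hik) hil hkl]
    exact (q1 i j k hij hjk hik).mul_right (q2 i j l hij hjl hil)

section
variable {hn : 4 ≤ n} {s : Fin n → Fin n → alternatingGroup (Fin n)} (hs : GoodS hn s) {p e : ℕ} {c : ℕ → ℕ}
  {α : alternatingGroup (Fin n) →* G} {u h : G}
  (hu : ∀ ρ : alternatingGroup (Fin n), (ρ : Perm (Fin n)) (o hn 0) = o hn 0 → (ρ : Perm (Fin n)) (o hn 1) = o hn 1 →
      Commute (α ρ) u)
  (hh : ∀ ρ : alternatingGroup (Fin n), (ρ : Perm (Fin n)) (o hn 0) = o hn 0 → (ρ : Perm (Fin n)) (o hn 1) = o hn 1 →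
      Commute (α ρ) h)
  (R : RR hn s p e c α u h)

theorem on_ne {hn : 4 ≤ n} {a b : Fin 4} (h : a ≠ b := by decide) : o hn a ≠ o hn b := o_ne hn h

include hs hu hh R

/-- transported relations -/
theorem transport (σ : alternatingGroup (Fin n)) :
    let x := fun a : Fin 4 => (σ : Perm (Fin n)) (o hn a)
    let U := cj α s u
    let T := cj α s h
    cu (U (x 0) (x 1)) (T (x 0) (x 2)) e = wd c e (T (x 0) (x 2)) (U (x 0) (x 1)) ∧
    U (x 0) (x 1) * U (x 1) (x 2) = U (x 0) (x 2) * U (x 1) (x 2) * U (x 0) (x 1) ∧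
    Commute (U (x 2) (x 0)) (U (x 2) (x 1)) ∧
    Commute (U (x 0) (x 2)) (U (x 1) (x 2)) ∧
    Commute (U (x 0) (x 1)) (U (x 2) (x 3)) ∧
    Commute (T (x 0) (x 2) * T (x 1) (x 2)) (U (x 0) (x 1)) ∧
    Commute (T (x 2) (x 3)) (U (x 0) (x 1)) ∧
    T (x 0) (x 1) * T (x 1) (x 2) = T (x 0) (x 2) ∧
    Commute (T (x 0) (x 1)) (T (x 1) (x 2)) := by
  intro x U T
  let φ : G →* G := (MulAut.conj (α σ)).toMonoidHom
  have eU : ∀ a b : Fin 4, a ≠ b → φ (U (o hn a) (o hn b)) = U (x a) (x b) := by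
    intro a b hab
    exact equi hn hs hu σ (o_ne hn hab)
  have eT : ∀ a b : Fin 4, a ≠ b → φ (T (o hn a) (o hn b)) = T (x a) (x b) := by
    intro a b hab
    exact equi hn hs hh σ (o_ne hn hab)
  refine ⟨?_, ?_, ?_, ?_, ?_, ?_, ?_, ?_, ?_⟩
  · have := congrArg φ R.r1
    rw [map_cu, map_wd, eU 0 1 (by decide), eT 0 2 (by decide)] at this
    exact this
  · have := congrArg φ R.r2
    rw [map_mul, map_mul, map_mul, eU 0 1 (by decide), eU 1 2 (by decide), eU 0 2 (by decide)] at this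
    exact this
  · have := R.r3.map φ
    rw [eU 2 0 (by decide), eU 2 1 (by decide)] at this
    exact this
  · have := R.r4.map φ
    rw [eU 0 2 (by decide), eU 1 2 (by decide)] at this
    exact this
  · have := R.r5.map φ
    rw [eU 0 1 (by decide), eU 2 3 (by decide)] at this
    exact this
  · have := R.r6.map φ
    rw [map_mul, eT 0 2 (by decide), eT 1 2 (by decide), eU 0 1 (by decide)] at this
    exact this
  · have := R.r7.map φ
    rw [eT 2 3 (by decide), eU 0 1 (by decide)] at this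
    exact this
  · have := congrArg φ R.r8
    rw [map_mul, eT 0 1 (by decide), eT 1 2 (by decide), eT 0 2 (by decide)] at this
    exact this
  · have := R.r9.map φ
    rw [eT 0 1 (by decide), eT 1 2 (by decide)] at this
    exact this

theorem full5 (hn5 : 5 ≤ n) : Full (cj α s u) (cj α s h) p e c := by
  set U := cj α s u with hU
  set T := cj α s h with hT
  have t3 : ∀ {i j k : Fin n}, i ≠ j → j ≠ k → i ≠ k →
      cu (U i j) (T i k) e = wd c e (T i k) (U i j) ∧
      U i j * U j k = U i k * U j k * U i j ∧ Commute (U k i) (U k j) ∧ Commute (U i k) (U j k) ∧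
      Commute (T i k * T j k) (U i j) ∧ T i j * T j k = T i k ∧ Commute (T i j) (T j k) := by
    intro i j k hij hjk hik
    obtain ⟨σ, h0, h1, h2⟩ := alt3 hn5 hij hik hjk
    have t := transport hs hu hh R σ
    dsimp only at t
    rw [h0, h1, h2] at t
    obtain ⟨q0, q1, q2, q3, q4, q5, q6, q7, q8⟩ := t
    exact ⟨q0, q1, q2, q3, q5, q7, q8⟩
  have htri : ∀ i j k, i ≠ j → j ≠ k → i ≠ k → T i j * T j k = T i k := fun i j k a b c => (t3 a b c).2.2.2.2.2.1
  have hinv : ∀ i j, i ≠ j → T j i = (T i j)⁻¹ := by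
    intro i j hij
    obtain ⟨k, hik, hjk⟩ := exists_third (by omega : 3 ≤ n) i j
    have e1 := htri i j k hij hjk hik
    have e2 := htri j i k hij.symm hik hjk
    rw [← e1, ← mul_assoc] at e2
    exact eq_inv_of_mul_eq_one_left (mul_eq_right.1 e2)
  have hcomm := hcomm_of hinv htri (fun i j k a b c => (t3 a b c).2.2.2.2.2.2)
  have B1 : ∀ i j k, i ≠ j → j ≠ k → i ≠ k → U i j * U j k = U i k * U j k * U i j := fun i j k a b c => (t3 a b c).2.1
  have exm : ∀ i j k l : Fin n, ∃ m, i ≠ m ∧ j ≠ m ∧ k ≠ m ∧ l ≠ m := by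
    intro i j k l
    by_contra hc
    push Not at hc
    have : (Finset.univ : Finset (Fin n)) ⊆ {i, j, k, l} := by
      intro m _
      simp only [Finset.mem_insert, Finset.mem_singleton]
      by_cases h1 : i = m
      · exact Or.inl h1.symm
      · by_cases h2 : j = m
        · exact Or.inr (Or.inl h2.symm)
        · by_cases h3 : k = m
          · exact Or.inr (Or.inr (Or.inl h3.symm))
          · exact Or.inr (Or.inr (Or.inr (hc m h1 h2 h3).symm))
    have h1 := Finset.card_le_card this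
    have h2 : ({i, j, k, l} : Finset (Fin n)).card ≤ 4 := Finset.card_le_four
    rw [Finset.card_univ, Fintype.card_fin] at h1
    omega
  refine ⟨⟨hcomm, hinv, htri, fun i j k a b c => (t3 a b c).2.2.2.2.1, ?_, B1, ?_, ?_, ?_⟩, ?_, ?_⟩
  · intro i j k l hij hik hil hjk hjl hkl
    obtain ⟨m, him, hjm, hkm, hlm⟩ := exm i j k l
    have key : ∀ k' l' : Fin n, (∃ σ : alternatingGroup (Fin n), (σ : Perm (Fin n)) (o hn 0) = i ∧
        (σ : Perm (Fin n)) (o hn 1) = j ∧ (σ : Perm (Fin n)) (o hn 2) = k' ∧ (σ : Perm (Fin n)) (o hn 3) = l') →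
        Commute (T k' l') (U i j) := by
      rintro k' l' ⟨σ, h0, h1, h2, h3⟩
      have t := transport hs hu hh R σ
      dsimp only at t
      rw [h0, h1, h2, h3] at t
      exact t.2.2.2.2.2.2.1
    rcases alt5 hn5 hij hik hil hjk hjl hkl him hjm hkm hlm with hA | ⟨hA, hB⟩
    · exact key k l hA
    · rw [← htri k m l hkm hlm.symm hkl]
      exact (key k m hA).mul_left (key m l hB)
  · intro i j k hij hjk hik
    exact (t3 hjk hik.symm hij.symm).2.2.1
  · intro i j k hij hjk hik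
    exact (t3 hij hjk hik).2.2.2.1
  · intro i j k l hij hik hil hjk hjl hkl
    obtain ⟨m, him, hjm, hkm, hlm⟩ := exm i j k l
    have key : ∀ k' l' : Fin n, (∃ σ : alternatingGroup (Fin n), (σ : Perm (Fin n)) (o hn 0) = i ∧
        (σ : Perm (Fin n)) (o hn 1) = j ∧ (σ : Perm (Fin n)) (o hn 2) = k' ∧ (σ : Perm (Fin n)) (o hn 3) = l') →
        Commute (U i j) (U k' l') := by
      rintro k' l' ⟨σ, h0, h1, h2, h3⟩
      have t := transport hs hu hh R σ
      dsimp only at t
      rw [h0, h1, h2, h3] at t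
      exact t.2.2.2.2.1
    rcases alt5 hn5 hij hik hil hjk hjl hkl him hjm hkm hlm with hA | ⟨hA, hB⟩
    · exact key k l hA
    · have e1 := B1 k m l hkm hlm.symm hkl
      have e2 : U k l = U k m * U m l * (U k m)⁻¹ * (U m l)⁻¹ := by rw [e1]; group
      have c1 := key k m hA
      have c2 := key m l hB
      rw [e2]
      exact ((c1.mul_right c2).mul_right c1.inv_right).mul_right c2.inv_right
  · intro i j hij
    rw [hU]
    unfold cj
    rw [conj_pow, R.r0]; group
  · intro i j k hij hjk hik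
    exact (t3 hij hjk hik).1

end

theorem cu_mul_right' {u x t : G} (h1 : Commute t u) (h2 : Commute t x) (j : ℕ) : cu u (x * t) j = cu u x j := by
  unfold cu
  rw [h2.symm.mul_pow]
  have h3 : t ^ j * u = u * t ^ j := (h1.pow_left j).eq
  calc x ^ j * t ^ j * u * (x ^ j * t ^ j)⁻¹ = x ^ j * (t ^ j * u) * (t ^ j)⁻¹ * (x ^ j)⁻¹ := by group
    _ = _ := by rw [h3]; group

theorem wd_mul_right {c : ℕ → ℕ} {e : ℕ} {u x t : G} (h1 : Commute t u) (h2 : Commute t x) : wd c e (x * t) u = wd c e x u := by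
  unfold wd
  congr 1
  apply List.map_congr_left
  intro j _
  exact cu_mul_right' (h1.pow_right _) h2 j

section
variable {hn : 4 ≤ n} {s : Fin n → Fin n → alternatingGroup (Fin n)} (hs : GoodS hn s) {p e : ℕ} {c : ℕ → ℕ}
  {α : alternatingGroup (Fin n) →* G} {u h : G}
  (hu : ∀ ρ : alternatingGroup (Fin n), (ρ : Perm (Fin n)) (o hn 0) = o hn 0 → (ρ : Perm (Fin n)) (o hn 1) = o hn 1 →
      Commute (α ρ) u)
  (hh : ∀ ρ : alternatingGroup (Fin n), (ρ : Perm (Fin n)) (o hn 0) = o hn 0 → (ρ : Perm (Fin n)) (o hn 1) = o hn 1 →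
      Commute (α ρ) h)
  (R : RR hn s p e c α u h)
include hs hu hh R

theorem full4 (x0 : cj α s u (o hn 1) (o hn 0) * cj α s u (o hn 0) (o hn 2) =
      cj α s u (o hn 1) (o hn 2) * cj α s u (o hn 0) (o hn 2) * cj α s u (o hn 1) (o hn 0))
    (x1 : Commute (cj α s u (o hn 0) (o hn 1)) (cj α s u (o hn 3) (o hn 2)))
    (x2 : cj α s h (o hn 0) (o hn 1) * cj α s h (o hn 1) (o hn 0) = 1) : Full (cj α s u) (cj α s h) p e c := by
  set U := cj α s u with hU
  set T := cj α s h with hT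
  have tr := transport hs hu hh R
  have eU : ∀ (σ : alternatingGroup (Fin n)) (a b : Fin 4), a ≠ b → (MulAut.conj (α σ)).toMonoidHom (U (o hn a) (o hn b)) =
      U ((σ : Perm (Fin n)) (o hn a)) ((σ : Perm (Fin n)) (o hn b)) := by
    intro σ a b hab
    exact equi hn hs hu σ (o_ne hn hab)
  have eT : ∀ (σ : alternatingGroup (Fin n)) (a b : Fin 4), a ≠ b → (MulAut.conj (α σ)).toMonoidHom (T (o hn a) (o hn b)) =
      T ((σ : Perm (Fin n)) (o hn a)) ((σ : Perm (Fin n)) (o hn b)) := by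
    intro σ a b hab
    exact equi hn hs hh σ (o_ne hn hab)
  have hinv : ∀ i j, i ≠ j → T j i = (T i j)⁻¹ := by
    intro i j hij
    obtain ⟨σi, si⟩ := hs i j hij
    have := congrArg (MulAut.conj (α (s i j))).toMonoidHom x2
    rw [map_mul, map_one, eT _ 0 1 (by decide), eT _ 1 0 (by decide), σi, si] at this
    exact eq_inv_of_mul_eq_one_right this
  -- relations at quadruples
  have htri : ∀ i j k, i ≠ j → j ≠ k → i ≠ k → T i j * T j k = T i k := by
    intro i j k hij hjk hik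
    obtain ⟨l, hil, hjl, hkl⟩ := exists_fourth hn i j k
    obtain ⟨σ, h2, h3, ⟨h0, h1⟩ | ⟨h0, h1⟩⟩ := alt4' hn hij hik hil hjk hjl hkl
    · have t := tr σ
      dsimp only at t
      rw [h0, h1, h2] at t
      exact t.2.2.2.2.2.2.2.1
    · have t := tr σ
      dsimp only at t
      rw [h0, h1, h2] at t
      have h8 : T j i * T i k = T j k := t.2.2.2.2.2.2.2.1
      rw [← h8, hinv i j hij, mul_inv_cancel_left]
  have hcomm := hcomm_of hinv htri (by
    intro i j k hij hjk hik
    obtain ⟨l, hil, hjl, hkl⟩ := exists_fourth hn i j k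
    obtain ⟨σ, h2, h3, ⟨h0, h1⟩ | ⟨h0, h1⟩⟩ := alt4' hn hij hik hil hjk hjl hkl
    · have t := tr σ
      dsimp only at t
      rw [h0, h1, h2] at t
      exact t.2.2.2.2.2.2.2.2
    · have t := tr σ
      dsimp only at t
      rw [h0, h1, h2] at t
      have h5 : Commute (T j i) (T i k) := t.2.2.2.2.2.2.2.2
      rw [← htri j i k hij.symm hik hjk, hinv j i hij.symm]
      exact (Commute.mul_right (Commute.refl _) h5).inv_left)
  have act0 : ∀ i j k l, i ≠ j → i ≠ k → i ≠ l → j ≠ k → j ≠ l → k ≠ l → Commute (T k l) (U i j) := by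
    intro i j k l hij hik hil hjk hjl hkl
    obtain ⟨σ, h0, h1, ⟨h2, h3⟩ | ⟨h2, h3⟩⟩ := alt4 hn hij hik hil hjk hjl hkl
    · have t := tr σ
      dsimp only at t
      rw [h0, h1, h2, h3] at t
      exact t.2.2.2.2.2.2.1
    · have t := tr σ
      dsimp only at t
      rw [h0, h1, h2, h3] at t
      have h8 : Commute (T l k) (U i j) := t.2.2.2.2.2.2.1
      rw [hinv l k hkl.symm]
      exact h8.inv_left
  refine ⟨⟨hcomm, hinv, htri, ?_, act0, ?_, ?_, ?_, ?_⟩, ?_, ?_⟩
  · intro i j k hij hjk hik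
    obtain ⟨l, hil, hjl, hkl⟩ := exists_fourth hn i j k
    obtain ⟨σ, h0, h1, ⟨h2, h3⟩ | ⟨h2, h3⟩⟩ := alt4 hn hij hik hil hjk hjl hkl
    · have t := tr σ
      dsimp only at t
      rw [h0, h1, h2] at t
      exact t.2.2.2.2.2.1
    · have t := tr σ
      dsimp only at t
      rw [h0, h1, h2] at t
      have h5 : Commute (T i l * T j l) (U i j) := t.2.2.2.2.2.1
      have h6 := act0 i j l k hij hil hik hjl hjk hkl.symm
      have h7 : T i k * T j k = T i l * T j l * (T l k * T l k) := by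
        rw [← htri i l k hil hkl.symm hik, ← htri j l k hjl hkl.symm hjk]
        have := (hcomm l k j l hkl.symm hjl).eq
        calc T i l * T l k * (T j l * T l k) = T i l * (T l k * T j l) * T l k := by group
          _ = _ := by rw [this]; group
      rw [h7]
      exact h5.mul_left (h6.mul_left h6)
  · intro i j k hij hjk hik
    obtain ⟨l, hil, hjl, hkl⟩ := exists_fourth hn i j k
    obtain ⟨σ, h2, h3, ⟨h0, h1⟩ | ⟨h0, h1⟩⟩ := alt4' hn hij hik hil hjk hjl hkl
    · have t := tr σ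
      dsimp only at t
      rw [h0, h1, h2] at t
      exact t.2.1
    · have t := congrArg (MulAut.conj (α σ)).toMonoidHom x0
      rw [map_mul, map_mul, map_mul, eU σ 1 0 (by decide), eU σ 0 2 (by decide), eU σ 1 2 (by decide), h0, h1, h2] at t
      exact t
  · intro i j k hij hjk hik
    obtain ⟨l, hil, hjl, hkl⟩ := exists_fourth hn i j k
    obtain ⟨σ, h2, h3, ⟨h0, h1⟩ | ⟨h0, h1⟩⟩ := alt4' hn hjk hij.symm hjl hik.symm hkl hil
    · have t := tr σ
      dsimp only at t
      rw [h0, h1, h2] at t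
      exact t.2.2.1
    · have t := tr σ
      dsimp only at t
      rw [h0, h1, h2] at t
      exact t.2.2.1.symm
  · intro i j k hij hjk hik
    obtain ⟨l, hil, hjl, hkl⟩ := exists_fourth hn i j k
    obtain ⟨σ, h2, h3, ⟨h0, h1⟩ | ⟨h0, h1⟩⟩ := alt4' hn hij hik hil hjk hjl hkl
    · have t := tr σ
      dsimp only at t
      rw [h0, h1, h2] at t
      exact t.2.2.2.1
    · have t := tr σ
      dsimp only at t
      rw [h0, h1, h2] at t
      exact t.2.2.2.1.symm
  · intro i j k l hij hik hil hjk hjl hkl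
    obtain ⟨σ, h0, h1, ⟨h2, h3⟩ | ⟨h2, h3⟩⟩ := alt4 hn hij hik hil hjk hjl hkl
    · have t := tr σ
      dsimp only at t
      rw [h0, h1, h2, h3] at t
      exact t.2.2.2.2.1
    · have t := x1.map (MulAut.conj (α σ)).toMonoidHom
      rw [eU σ 0 1 (by decide), eU σ 3 2 (by decide), h0, h1, h2, h3] at t
      exact t
  · intro i j hij
    rw [hU]
    unfold cj
    rw [conj_pow, R.r0]; group
  · intro i j k hij hjk hik
    obtain ⟨l, hil, hjl, hkl⟩ := exists_fourth hn i j k
    obtain ⟨σ, h0, h1, ⟨h2, h3⟩ | ⟨h2, h3⟩⟩ := alt4 hn hij hik hil hjk hjl hkl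
    · have t := tr σ
      dsimp only at t
      rw [h0, h1, h2] at t
      exact t.1
    · have t := tr σ
      dsimp only at t
      rw [h0, h1, h2] at t
      have h6 := act0 i j l k hij hil hik hjl hjk hkl.symm
      have h7 := hcomm l k i l hkl.symm hil
      rw [← htri i l k hil hkl.symm hik, cu_mul_right' h6 h7, wd_mul_right h6 h7]
      exact t.1

end

end H43.SLRels
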