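import Cfsg.Agent.Lib.H43.SteinHom

/-!
Permutation matrices, diagonal matrices and transvections in `SL_n`.
-/
set_option autoImplicit false

namespace H43.SLPerm

open Matrix H43.SteinHom Equiv

variable {n : ℕ} {F : Type*} [Field F]

theorem ap {α : Type*} (σ : Perm α) (x : α) : σ (σ⁻¹ x) = x := σ.apply_symm_apply x
theorem pa {α : Type*} (σ : Perm α) (x : α) : σ⁻¹ (σ x) = x := σ.symm_apply_apply x

/-- permutation matrix -/
def pm (σ : Perm (Fin n)) : Matrix (Fin n) (Fin n) F := Matrix.of fun i j => if i = σ j then 1 else 0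

theorem pm_apply (σ : Perm (Fin n)) (i j : Fin n) : (pm σ : Matrix (Fin n) (Fin n) F) i j = if i = σ j then 1 else 0 := rfl

theorem pm_mulVec (σ : Perm (Fin n)) (v : Fin n → F) (i : Fin n) : (pm σ).mulVec v (σ i) = v i := by
  rw [Matrix.mulVec, dotProduct]
  rw [Finset.sum_eq_single i]
  · rw [pm_apply, if_pos rfl, one_mul]
  · intro j _ hj
    rw [pm_apply, if_neg (fun h => hj (σ.injective h).symm), zero_mul]
  · intro h; exact absurd (Finset.mem_univ _) h

theorem pm_mulVec' (σ : Perm (Fin n)) (v : Fin n → F) (i : Fin n) : (pm σ).mulVec v i = v (σ⁻¹ i) := by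
  have := pm_mulVec σ v (σ⁻¹ i)
  rwa [ap] at this

theorem ext_mulVec {A B : Matrix (Fin n) (Fin n) F} (h : ∀ v, A.mulVec v = B.mulVec v) : A = B := by
  apply Matrix.toLin'.injective
  apply LinearMap.ext
  intro v
  rw [Matrix.toLin'_apply, Matrix.toLin'_apply, h]

theorem pm_one : (pm 1 : Matrix (Fin n) (Fin n) F) = 1 := by
  apply ext_mulVec
  intro v
  funext i
  rw [pm_mulVec', Matrix.one_mulVec, inv_one]; rfl

theorem pm_mul (σ τ : Perm (Fin n)) : (pm (σ * τ) : Matrix (Fin n) (Fin n) F) = pm σ * pm τ := by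
  apply ext_mulVec
  intro v
  funext i
  rw [pm_mulVec', ← Matrix.mulVec_mulVec, pm_mulVec', pm_mulVec', _root_.mul_inv_rev]; rfl

theorem det_pm (σ : Perm (Fin n)) : (pm σ : Matrix (Fin n) (Fin n) F).det = ((Perm.sign σ : ℤ) : F) := by
  have h1 : (pm σ : Matrix (Fin n) (Fin n) F) = (1 : Matrix (Fin n) (Fin n) F).submatrix id σ := by
    ext i j
    rw [Matrix.submatrix_apply, Matrix.one_apply, pm_apply]; rfl
  rw [h1, Matrix.det_permute', Matrix.det_one, mul_one]

/-- the permutation matrices of even permutations -/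
def P : alternatingGroup (Fin n) →* SpecialLinearGroup (Fin n) F where
  toFun σ := ⟨pm (σ : Perm (Fin n)), by
    rw [det_pm, Perm.mem_alternatingGroup.1 σ.2]; simp⟩
  map_one' := Subtype.ext pm_one
  map_mul' σ τ := Subtype.ext (pm_mul _ _)

theorem tr_mulVec {i j : Fin n} (_ : i ≠ j) (t : F) (v : Fin n → F) (k : Fin n) :
    (transvection i j t).mulVec v k = v k + if k = i then t * v j else 0 := by
  rw [transvection, Matrix.add_mulVec, Matrix.one_mulVec]
  rw [Pi.add_apply]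
  congr 1
  rw [Matrix.mulVec, dotProduct]
  by_cases hk : k = i
  · rw [if_pos hk, Finset.sum_eq_single j]
    · rw [Matrix.single_apply, if_pos ⟨hk.symm, rfl⟩]
    · intro l _ hl
      rw [Matrix.single_apply, if_neg (fun h => hl h.2.symm), zero_mul]
    · intro h; exact absurd (Finset.mem_univ _) h
  · rw [if_neg hk]
    apply Finset.sum_eq_zero
    intro l _
    rw [Matrix.single_apply, if_neg (fun h => hk h.1.symm), zero_mul]

theorem P_tr (σ : alternatingGroup (Fin n)) {i j : Fin n} (hij : i ≠ j) (t : F) :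
    P σ * Tr i j hij t * (P σ)⁻¹ = Tr ((σ : Perm (Fin n)) i) ((σ : Perm (Fin n)) j) (fun h => hij ((σ : Perm (Fin n)).injective h)) t := by
  rw [mul_inv_eq_iff_eq_mul]
  apply Subtype.ext
  change pm (σ : Perm (Fin n)) * transvection i j t = transvection _ _ t * pm (σ : Perm (Fin n))
  apply ext_mulVec
  intro v
  funext k
  obtain ⟨k, rfl⟩ := (σ : Perm (Fin n)).surjective k
  rw [← Matrix.mulVec_mulVec, ← Matrix.mulVec_mulVec, pm_mulVec, tr_mulVec hij,
    tr_mulVec (fun h => hij ((σ : Perm (Fin n)).injective h)), pm_mulVec, pm_mulVec]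
  congr 1
  by_cases hk : k = i
  · rw [if_pos hk, if_pos (by rw [hk])]
  · rw [if_neg hk, if_neg (fun h => hk ((σ : Perm (Fin n)).injective h))]

/-- diagonal matrices -/
def Dg (d : Fin n → Fˣ) (hd : ∏ i, d i = 1) : SpecialLinearGroup (Fin n) F :=
  ⟨Matrix.diagonal (fun i => (d i : F)), by
    rw [Matrix.det_diagonal]
    have := congrArg (fun y : Fˣ => (y : F)) hd
    simpa using this⟩

theorem Dg_ext {d d' : Fin n → Fˣ} {hd : ∏ i, d i = 1} {hd' : ∏ i, d' i = 1} (h : d = d') : Dg d hd = Dg d' hd' := by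
  subst h; rfl

theorem Dg_mul {d d' : Fin n → Fˣ} (hd : ∏ i, d i = 1) (hd' : ∏ i, d' i = 1) :
    Dg d hd * Dg d' hd' = Dg (d * d') (by rw [← mul_one (1 : Fˣ)]; nth_rw 1 [← hd]; rw [← hd', ← Finset.prod_mul_distrib]; rfl) := by
  apply Subtype.ext
  change Matrix.diagonal _ * Matrix.diagonal _ = Matrix.diagonal _
  rw [Matrix.diagonal_mul_diagonal]
  congr 1

theorem dg_mulVec (d : Fin n → F) (v : Fin n → F) (k : Fin n) : (Matrix.diagonal d).mulVec v k = d k * v k :=
  Matrix.mulVec_diagonal d v k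

theorem Dg_tr {d : Fin n → Fˣ} (hd : ∏ i, d i = 1) {i j : Fin n} (hij : i ≠ j) (t : F) :
    Dg d hd * Tr i j hij t * (Dg d hd)⁻¹ = Tr i j hij ((d i : F) * ((d j)⁻¹ : Fˣ) * t) := by
  rw [mul_inv_eq_iff_eq_mul]
  apply Subtype.ext
  change Matrix.diagonal _ * transvection i j t = transvection _ _ _ * Matrix.diagonal _
  apply ext_mulVec
  intro v
  funext k
  rw [← Matrix.mulVec_mulVec, ← Matrix.mulVec_mulVec, dg_mulVec, tr_mulVec hij, tr_mulVec hij, dg_mulVec, dg_mulVec]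
  by_cases hk : k = i
  · rw [if_pos hk, if_pos hk, hk]
    have : ((d j)⁻¹ : Fˣ) * (d j : F) = 1 := by simp
    linear_combination (- (d i : F) * t * v j) * this
  · rw [if_neg hk, if_neg hk]; ring

theorem P_Dg (σ : alternatingGroup (Fin n)) {d : Fin n → Fˣ} (hd : ∏ i, d i = 1) :
    P σ * Dg d hd * (P σ)⁻¹ = Dg (fun i => d ((σ : Perm (Fin n))⁻¹ i)) (by
      rw [Equiv.prod_comp]; exact hd) := by
  rw [mul_inv_eq_iff_eq_mul]
  apply Subtype.ext
  change pm (σ : Perm (Fin n)) * Matrix.diagonal _ = Matrix.diagonal _ * pm (σ : Perm (Fin n))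
  apply ext_mulVec
  intro v
  funext k
  obtain ⟨k, rfl⟩ := (σ : Perm (Fin n)).surjective k
  rw [← Matrix.mulVec_mulVec, ← Matrix.mulVec_mulVec, pm_mulVec, dg_mulVec, dg_mulVec, pm_mulVec]
  dsimp only
  rw [pa]

/-- coroot elements -/
def Hf (i j : Fin n) (t : Fˣ) : Fin n → Fˣ := Pi.mulSingle i t * (Pi.mulSingle j t)⁻¹

theorem ms_prod (i : Fin n) (t : Fˣ) : ∏ k, (Pi.mulSingle i t : Fin n → Fˣ) k = t := by
  rw [Finset.prod_eq_single i]
  · rw [Pi.mulSingle_apply, if_pos rfl]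
  · intro k _ hk; rw [Pi.mulSingle_apply, if_neg hk]
  · intro h; exact absurd (Finset.mem_univ _) h

theorem Hf_prod (i j : Fin n) (t : Fˣ) : ∏ k, Hf i j t k = 1 := by
  unfold Hf
  have : ∀ k, (Pi.mulSingle i t * (Pi.mulSingle j t)⁻¹ : Fin n → Fˣ) k =
      (Pi.mulSingle i t : Fin n → Fˣ) k * ((Pi.mulSingle j t : Fin n → Fˣ) k)⁻¹ := fun k => rfl
  rw [Finset.prod_congr rfl (fun k _ => this k), Finset.prod_mul_distrib, Finset.prod_inv_distrib,
    ms_prod, ms_prod, mul_inv_cancel]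

/-- coroot elements -/
def Hd (i j : Fin n) (t : Fˣ) : SpecialLinearGroup (Fin n) F := Dg (Hf i j t) (Hf_prod i j t)

theorem Hd_comm (i j k l : Fin n) (s t : Fˣ) : Commute (Hd i j s : SpecialLinearGroup (Fin n) F) (Hd k l t) := by
  change Hd i j s * Hd k l t = Hd k l t * Hd i j s
  unfold Hd
  rw [Dg_mul, Dg_mul]
  exact Dg_ext (mul_comm _ _)

theorem Hd_tri (i j k : Fin n) (t : Fˣ) : (Hd i j t : SpecialLinearGroup (Fin n) F) * Hd j k t = Hd i k t := by
  unfold Hd
  rw [Dg_mul]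
  apply Dg_ext
  unfold Hf
  rw [mul_assoc, inv_mul_cancel_left]

theorem Hd_one_of (i j : Fin n) (t : Fˣ) : (Hd i j t : SpecialLinearGroup (Fin n) F) * Hd j i t = 1 := by
  unfold Hd
  rw [Dg_mul]
  apply Subtype.ext
  change Matrix.diagonal _ = (1 : Matrix (Fin n) (Fin n) F)
  have : Hf i j t * Hf j i t = 1 := by
    unfold Hf; rw [mul_assoc, inv_mul_cancel_left, mul_inv_cancel]
  rw [this]
  simp

theorem P_Hd (σ : alternatingGroup (Fin n)) (i j : Fin n) (t : Fˣ) :
    P σ * Hd i j t * (P σ)⁻¹ = (Hd ((σ : Perm (Fin n)) i) ((σ : Perm (Fin n)) j) t : SpecialLinearGroup (Fin n) F) := by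
  unfold Hd
  rw [P_Dg]
  apply Dg_ext
  funext k
  unfold Hf
  have h1 : ∀ a, (Pi.mulSingle a t : Fin n → Fˣ) ((σ : Perm (Fin n))⁻¹ k) = (Pi.mulSingle ((σ : Perm (Fin n)) a) t : Fin n → Fˣ) k := by
    intro a
    by_cases h : k = (σ : Perm (Fin n)) a
    · rw [h, pa, Pi.mulSingle_eq_same, Pi.mulSingle_eq_same]
    · rw [Pi.mulSingle_eq_of_ne h, Pi.mulSingle_eq_of_ne]
      intro h'
      apply h
      rw [← h', ap]
  rw [Pi.mul_apply, Pi.mul_apply, Pi.inv_apply, Pi.inv_apply, h1, h1]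

theorem Tr_add {i j : Fin n} (hij : i ≠ j) (s t : F) : Tr i j hij (s + t) = Tr i j hij s * Tr i j hij t := by
  apply Subtype.ext
  change _ = transvection _ _ _ * transvection _ _ _
  rw [transvection_mul_transvection_same i j hij]; rfl

/-- evaluation of the torus action -/
theorem Hd_tr (a b : Fin n) (s : Fˣ) {i j : Fin n} (hij : i ≠ j) (t : F) :
    Hd a b s * Tr i j hij t * (Hd a b s)⁻¹ = Tr i j hij ((Hf a b s i : F) * ((Hf a b s j)⁻¹ : Fˣ) * t) :=
  Dg_tr _ hij t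

theorem Hf_left {a b : Fin n} (h : a ≠ b) (s : Fˣ) : Hf a b s a = s := by
  unfold Hf
  rw [Pi.mul_apply, Pi.inv_apply, Pi.mulSingle_eq_same, Pi.mulSingle_eq_of_ne h, inv_one, mul_one]
theorem Hf_right {a b : Fin n} (h : a ≠ b) (s : Fˣ) : Hf a b s b = s⁻¹ := by
  unfold Hf
  rw [Pi.mul_apply, Pi.inv_apply, Pi.mulSingle_eq_same, Pi.mulSingle_eq_of_ne h.symm, one_mul]
theorem Hf_ne {a b c : Fin n} (h : c ≠ a) (h' : c ≠ b) (s : Fˣ) : Hf a b s c = 1 := by
  unfold Hf
  rw [Pi.mul_apply, Pi.inv_apply, Pi.mulSingle_eq_of_ne h, Pi.mulSingle_eq_of_ne h', inv_one, mul_one]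

/-- Weyl elements -/
def nn (i j : Fin n) (hij : i ≠ j) (t : Fˣ) : SpecialLinearGroup (Fin n) F :=
  Tr i j hij (t : F) * Tr j i hij.symm (-((t⁻¹ : Fˣ) : F)) * Tr i j hij (t : F)

theorem nn_mulVec (i j : Fin n) (hij : i ≠ j) (t : Fˣ) (v : Fin n → F) (k : Fin n) :
    (nn i j hij t : SpecialLinearGroup (Fin n) F).1.mulVec v k = if k = i then (t : F) * v j else if k = j then -((t⁻¹ : Fˣ) : F) * v i else v k := by
  have ht : (t : F) ≠ 0 := t.ne_zero
  have ht' : (t : F) * ((t⁻¹ : Fˣ) : F) = 1 := by simp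
  change ((transvection i j (t : F)) * (transvection j i (-((t⁻¹ : Fˣ) : F))) * (transvection i j (t : F))).mulVec v k = _
  rw [← Matrix.mulVec_mulVec, ← Matrix.mulVec_mulVec, tr_mulVec hij, tr_mulVec hij.symm, tr_mulVec hij.symm,
    tr_mulVec hij, tr_mulVec hij, tr_mulVec hij, if_pos rfl, if_pos rfl, if_neg hij.symm]
  by_cases hk : k = i
  · subst hk
    rw [if_pos rfl, if_pos rfl, if_pos rfl, if_neg hij]
    linear_combination (-(v k) - (t : F) * v j) * ht'
  · rw [if_neg hk, if_neg hk, if_neg hk]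
    by_cases hk' : k = j
    · subst hk'
      rw [if_pos rfl, if_pos rfl]
      linear_combination (-(v k)) * ht'
    · rw [if_neg hk', if_neg hk']; ring

theorem Hd_mulVec (i j : Fin n) (hij : i ≠ j) (t : Fˣ) (v : Fin n → F) (k : Fin n) :
    (Hd i j t).1.mulVec v k = if k = i then (t : F) * v k else if k = j then ((t⁻¹ : Fˣ) : F) * v k else v k := by
  change (Matrix.diagonal _).mulVec v k = _
  rw [dg_mulVec]
  by_cases hk : k = i
  · rw [if_pos hk, hk, Hf_left hij]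
  · rw [if_neg hk]
    by_cases hk' : k = j
    · rw [if_pos hk', hk', Hf_right hij]
    · rw [if_neg hk', Hf_ne hk hk', Units.val_one, one_mul]

theorem Hd_word (i j : Fin n) (hij : i ≠ j) (t : Fˣ) : (Hd i j t : SpecialLinearGroup (Fin n) F) = nn i j hij t * nn i j hij (-1) := by
  apply Subtype.ext
  apply ext_mulVec
  intro v
  funext k
  change _ = ((nn i j hij t).1 * (nn i j hij (-1)).1).mulVec v k
  rw [Hd_mulVec i j hij, ← Matrix.mulVec_mulVec, nn_mulVec, nn_mulVec, nn_mulVec, nn_mulVec, if_pos rfl, if_neg hij.symm,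
    if_pos rfl]
  by_cases hk : k = i
  · rw [if_pos hk, if_pos hk, hk]; simp
  · rw [if_neg hk, if_neg hk]
    by_cases hk' : k = j
    · rw [if_pos hk', if_pos hk', hk']; simp
    · rw [if_neg hk', if_neg hk', if_neg hk, if_neg hk']

/-- three-cycles -/
theorem P_word (σ : alternatingGroup (Fin n)) {i j k : Fin n} (hij : i ≠ j) (hjk : j ≠ k) (hik : i ≠ k)
    (h1 : (σ : Perm (Fin n)) i = j) (h2 : (σ : Perm (Fin n)) j = k) (h3 : (σ : Perm (Fin n)) k = i)
    (h4 : ∀ l, l ≠ i → l ≠ j → l ≠ k → (σ : Perm (Fin n)) l = l) :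
    (P σ : SpecialLinearGroup (Fin n) F) = nn i j hij (-1) * nn j k hjk (-1) := by
  apply Subtype.ext
  apply ext_mulVec
  intro v
  funext a
  obtain ⟨a, rfl⟩ := (σ : Perm (Fin n)).surjective a
  change (pm (σ : Perm (Fin n))).mulVec v _ =
    ((nn i j hij (-1) : SpecialLinearGroup (Fin n) F).1 * (nn j k hjk (-1) : SpecialLinearGroup (Fin n) F).1).mulVec v _
  rw [pm_mulVec, ← Matrix.mulVec_mulVec, nn_mulVec, nn_mulVec, nn_mulVec, nn_mulVec]
  by_cases ha : a = i
  · subst ha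
    rw [h1, if_neg hij.symm, if_pos rfl, if_neg hij, if_neg hik]; simp
  by_cases hb : a = j
  · subst hb
    rw [h2, if_neg hik.symm, if_neg hjk.symm, if_neg hjk.symm, if_pos rfl]; simp
  by_cases hc : a = k
  · subst hc
    rw [h3, if_pos rfl, if_pos rfl]; simp
  · rw [h4 a ha hb hc, if_neg ha, if_neg hb, if_neg hb, if_neg hc]

/-- generation by transvections -/
theorem closure_tr [Finite F] (hn : 3 ≤ n) {K : Subgroup (SpecialLinearGroup (Fin n) F)}
    (h : ∀ i j (hij : i ≠ j) t, Tr i j hij t ∈ K) : K = ⊤ := by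
  obtain ⟨e, he⟩ := Cfsg.Agent.S2401.result (K := F) n hn
  rw [eq_top_iff]
  rintro x -
  obtain ⟨y, rfl⟩ := e.surjective x
  obtain ⟨w, rfl⟩ := PresentedGroup.mk_surjective _ y
  induction w using FreeGroup.induction_on with
  | C1 => rw [map_one, map_one]; exact one_mem _
  | of z =>
    obtain ⟨⟨⟨i, j⟩, hij⟩, t⟩ := z
    have : e (PresentedGroup.mk _ (FreeGroup.of (⟨(i, j), hij⟩, t))) = Tr i j hij t := Subtype.ext (he ⟨(i, j), hij⟩ t)
    rw [this]; exact h i j hij t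
  | inv_of z hz => rw [map_inv, map_inv]; exact inv_mem hz
  | mul x y hx hy => rw [map_mul, map_mul]; exact mul_mem hx hy

end H43.SLPerm
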