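import Cfsg.Agent.Lib.H43.SDMach
import Cfsg.Agent.Lib.H43.SLPerm
import Cfsg.Agent.Lib.H43.AltPres

/-!
The relations for `SL_n`, `n ≥ 4`.
-/
set_option autoImplicit false

namespace H43.SLRels

open Equiv H43.Borel H43.SL2R H43.FieldStr H43.SteinHom H43.SDM H43.AltTrans H43.SLPerm H43.Tietze

variable {n : ℕ} {G H : Type*} [Group G] [Group H]

/-- the chosen even permutations -/
def GoodS (hn : 4 ≤ n) (s : Fin n → Fin n → alternatingGroup (Fin n)) : Prop :=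
  ∀ i j, i ≠ j → (s i j : Perm (Fin n)) (o hn 0) = i ∧ (s i j : Perm (Fin n)) (o hn 1) = j

theorem exists_goodS (hn : 4 ≤ n) : ∃ s, GoodS hn s := by
  have : ∀ i j : Fin n, ∃ σ : alternatingGroup (Fin n), i ≠ j →
      (σ : Perm (Fin n)) (o hn 0) = i ∧ (σ : Perm (Fin n)) (o hn 1) = j := by
    intro i j
    by_cases hij : i = j
    · exact ⟨1, fun h => absurd hij h⟩
    · obtain ⟨k, hik, hjk⟩ := exists_third (by omega : 3 ≤ n) i j
      obtain ⟨l, hil, hjl, hkl⟩ := exists_fourth hn i j k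
      obtain ⟨σ, h0, h1, -⟩ := alt4 hn hij hik hil hjk hjl hkl
      exact ⟨σ, fun _ => ⟨h0, h1⟩⟩
  choose s hs using this
  exact ⟨s, hs⟩

/-- conjugates -/
def cj (α : alternatingGroup (Fin n) →* G) (s : Fin n → Fin n → alternatingGroup (Fin n)) (u : G) (i j : Fin n) : G :=
  α (s i j) * u * (α (s i j))⁻¹

theorem map_cj (f : G →* H) (α : alternatingGroup (Fin n) →* G) (s : Fin n → Fin n → alternatingGroup (Fin n)) (u : G)
    (i j : Fin n) : f (cj α s u i j) = cj (f.comp α) s (f u) i j := by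
  simp [cj]

/-- the base three-cycle -/
def c0 (hn : 4 ≤ n) : alternatingGroup (Fin n) := ⟨swap (o hn 0) (o hn 1) * swap (o hn 1) (o hn 2), by
  rw [Perm.mem_alternatingGroup, map_mul, Perm.sign_swap (o_ne hn (by decide)), Perm.sign_swap (o_ne hn (by decide))]; rfl⟩

section rels
variable (hn : 4 ≤ n) (s : Fin n → Fin n → alternatingGroup (Fin n)) (p e : ℕ) (c : ℕ → ℕ)

/-- left sides -/
def relL (α : alternatingGroup (Fin n) →* G) (u h : G) : Fin 12 → G :=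
  let U := fun a b : Fin 4 => cj α s u (o hn a) (o hn b)
  let T := fun a b : Fin 4 => cj α s h (o hn a) (o hn b)
  ![u ^ p, cu (U 0 1) (T 0 2) e, U 0 1 * U 1 2, U 2 0 * U 2 1, U 0 2 * U 1 2, U 0 1 * U 2 3, T 0 2 * T 1 2 * U 0 1,
    T 2 3 * U 0 1, T 0 1 * T 1 2, T 0 1 * T 1 2, T 0 1, α (c0 hn)]

/-- right sides -/
def relR (α : alternatingGroup (Fin n) →* G) (u h : G) : Fin 12 → G :=
  let U := fun a b : Fin 4 => cj α s u (o hn a) (o hn b)
  let T := fun a b : Fin 4 => cj α s h (o hn a) (o hn b)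
  ![1, wd c e (T 0 2) (U 0 1), U 0 2 * U 1 2 * U 0 1, U 2 1 * U 2 0, U 1 2 * U 0 2, U 2 3 * U 0 1, U 0 1 * (T 0 2 * T 1 2),
    U 0 1 * T 2 3, T 0 2, T 1 2 * T 0 1,
    (T 0 2 * U 0 1 * (T 0 2)⁻¹) * ((T 1 2)⁻¹ * U 1 0 * T 1 2)⁻¹ * (T 0 2 * U 0 1 * (T 0 2)⁻¹) *
      ((U 0 1)⁻¹ * U 1 0 * (U 0 1)⁻¹),
    ((U 0 1)⁻¹ * U 1 0 * (U 0 1)⁻¹) * ((U 1 2)⁻¹ * U 2 1 * (U 1 2)⁻¹)]

/-- extra relations for `n ≥ 5` -/
def relL5 (a b : alternatingGroup (Fin n)) (α : alternatingGroup (Fin n) →* G) (u h : G) : Fin 4 → G :=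
  ![α a * u, α b * u, α a * h, α b * h]
/-- extra relations for `n ≥ 5` -/
def relR5 (a b : alternatingGroup (Fin n)) (α : alternatingGroup (Fin n) →* G) (u h : G) : Fin 4 → G :=
  ![u * α a, u * α b, h * α a, h * α b]
/-- extra relations for `n = 4` -/
def relL4 (α : alternatingGroup (Fin n) →* G) (u h : G) : Fin 3 → G :=
  let U := fun a b : Fin 4 => cj α s u (o hn a) (o hn b)
  let T := fun a b : Fin 4 => cj α s h (o hn a) (o hn b)
  ![U 1 0 * U 0 2, U 0 1 * U 3 2, T 0 1 * T 1 0]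
/-- extra relations for `n = 4` -/
def relR4 (α : alternatingGroup (Fin n) →* G) (u h : G) : Fin 3 → G :=
  let U := fun a b : Fin 4 => cj α s u (o hn a) (o hn b)
  ![U 1 2 * U 0 2 * U 1 0, U 3 2 * U 0 1, 1]

theorem map_relL (f : G →* H) (α : alternatingGroup (Fin n) →* G) (u h : G) (i : Fin 12) :
    f (relL hn s p e α u h i) = relL hn s p e (f.comp α) (f u) (f h) i := by
  fin_cases i <;> simp [relL, map_cj, map_cu]

theorem map_relR (f : G →* H) (α : alternatingGroup (Fin n) →* G) (u h : G) (i : Fin 12) :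
    f (relR hn s e c α u h i) = relR hn s e c (f.comp α) (f u) (f h) i := by
  fin_cases i <;> simp [relR, map_cj, map_wd]

theorem map_relL5 (a b : alternatingGroup (Fin n)) (f : G →* H) (α : alternatingGroup (Fin n) →* G) (u h : G) (i : Fin 4) :
    f (relL5 a b α u h i) = relL5 a b (f.comp α) (f u) (f h) i := by
  fin_cases i <;> simp [relL5]
theorem map_relR5 (a b : alternatingGroup (Fin n)) (f : G →* H) (α : alternatingGroup (Fin n) →* G) (u h : G) (i : Fin 4) :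
    f (relR5 a b α u h i) = relR5 a b (f.comp α) (f u) (f h) i := by
  fin_cases i <;> simp [relR5]
theorem map_relL4 (f : G →* H) (α : alternatingGroup (Fin n) →* G) (u h : G) (i : Fin 3) :
    f (relL4 hn s α u h i) = relL4 hn s (f.comp α) (f u) (f h) i := by
  fin_cases i <;> simp [relL4, map_cj]
theorem map_relR4 (f : G →* H) (α : alternatingGroup (Fin n) →* G) (u h : G) (i : Fin 3) :
    f (relR4 hn s α u h i) = relR4 hn s (f.comp α) (f u) (f h) i := by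
  fin_cases i <;> simp [relR4, map_cj]

/-- readable form -/
structure RR (α : alternatingGroup (Fin n) →* G) (u h : G) : Prop where
  r0 : u ^ p = 1
  r1 : cu (cj α s u (o hn 0) (o hn 1)) (cj α s h (o hn 0) (o hn 2)) e =
    wd c e (cj α s h (o hn 0) (o hn 2)) (cj α s u (o hn 0) (o hn 1))
  r2 : cj α s u (o hn 0) (o hn 1) * cj α s u (o hn 1) (o hn 2) =
    cj α s u (o hn 0) (o hn 2) * cj α s u (o hn 1) (o hn 2) * cj α s u (o hn 0) (o hn 1)
  r3 : Commute (cj α s u (o hn 2) (o hn 0)) (cj α s u (o hn 2) (o hn 1))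
  r4 : Commute (cj α s u (o hn 0) (o hn 2)) (cj α s u (o hn 1) (o hn 2))
  r5 : Commute (cj α s u (o hn 0) (o hn 1)) (cj α s u (o hn 2) (o hn 3))
  r6 : Commute (cj α s h (o hn 0) (o hn 2) * cj α s h (o hn 1) (o hn 2)) (cj α s u (o hn 0) (o hn 1))
  r7 : Commute (cj α s h (o hn 2) (o hn 3)) (cj α s u (o hn 0) (o hn 1))
  r8 : cj α s h (o hn 0) (o hn 1) * cj α s h (o hn 1) (o hn 2) = cj α s h (o hn 0) (o hn 2)
  r9 : Commute (cj α s h (o hn 0) (o hn 1)) (cj α s h (o hn 1) (o hn 2))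
  r10 : cj α s h (o hn 0) (o hn 1) = (cj α s h (o hn 0) (o hn 2) * cj α s u (o hn 0) (o hn 1) * (cj α s h (o hn 0) (o hn 2))⁻¹) *
    ((cj α s h (o hn 1) (o hn 2))⁻¹ * cj α s u (o hn 1) (o hn 0) * cj α s h (o hn 1) (o hn 2))⁻¹ *
    (cj α s h (o hn 0) (o hn 2) * cj α s u (o hn 0) (o hn 1) * (cj α s h (o hn 0) (o hn 2))⁻¹) *
      ((cj α s u (o hn 0) (o hn 1))⁻¹ * cj α s u (o hn 1) (o hn 0) * (cj α s u (o hn 0) (o hn 1))⁻¹)
  r11 : α (c0 hn) = ((cj α s u (o hn 0) (o hn 1))⁻¹ * cj α s u (o hn 1) (o hn 0) * (cj α s u (o hn 0) (o hn 1))⁻¹) *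
    ((cj α s u (o hn 1) (o hn 2))⁻¹ * cj α s u (o hn 2) (o hn 1) * (cj α s u (o hn 1) (o hn 2))⁻¹)

theorem RR_iff (α : alternatingGroup (Fin n) →* G) (u h : G) :
    (∀ i, relL hn s p e α u h i = relR hn s e c α u h i) ↔ RR hn s p e c α u h := by
  constructor
  · intro H
    exact ⟨H 0, H 1, H 2, H 3, H 4, H 5, H 6, H 7, H 8, H 9, H 10, H 11⟩
  · rintro ⟨h0, h1, h2, h3, h4, h5, h6, h7, h8, h9, h10, h11⟩ i
    fin_cases i
    · exact h0
    · exact h1
    · exact h2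
    · exact h3
    · exact h4
    · exact h5
    · exact h6
    · exact h7
    · exact h8
    · exact h9
    · exact h10
    · exact h11

end rels

end H43.SLRels
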