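import Cfsg.Agent.Lib.H43.SLCons

/-!
The relations hold in `SL_n`.
-/
set_option autoImplicit false

namespace H43.SLRels

open Equiv Matrix H43.Borel H43.SL2R H43.FieldStr H43.SteinHom H43.SDM H43.AltTrans H43.SLPerm H43.Tietze

section
variable {n : ℕ} {F : Type*} [Field F]

theorem Tr_zero {i j : Fin n} (hij : i ≠ j) : Tr i j hij (0 : F) = 1 := by
  have := Tr_add (F := F) hij 0 0
  rw [add_zero] at this
  exact mul_eq_left.1 this.symm

theorem Tr_neg {i j : Fin n} (hij : i ≠ j) (t : F) : Tr i j hij (-t) = (Tr i j hij t)⁻¹ := by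
  rw [eq_inv_iff_mul_eq_one, ← Tr_add, neg_add_cancel, Tr_zero]

theorem Tr_comm {i j k l : Fin n} (hij : i ≠ j) (hkl : k ≠ l) (hil : i ≠ l) (hjk : j ≠ k) (a b : F) :
    Commute (Tr i j hij a) (Tr k l hkl b) := by
  apply Subtype.ext
  change transvection i j a * transvection k l b = transvection k l b * transvection i j a
  apply ext_mulVec
  intro v
  funext m
  rw [← Matrix.mulVec_mulVec, ← Matrix.mulVec_mulVec, tr_mulVec hij, tr_mulVec hkl, tr_mulVec hkl, tr_mulVec hkl,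
    tr_mulVec hij, tr_mulVec hij, if_neg hjk, if_neg hil.symm]
  split_ifs <;> ring

theorem Tr_B {i j k : Fin n} (hij : i ≠ j) (hjk : j ≠ k) (hik : i ≠ k) (a b : F) :
    Tr i j hij a * Tr j k hjk b = Tr i k hik (a * b) * Tr j k hjk b * Tr i j hij a := by
  apply Subtype.ext
  change transvection i j a * transvection j k b = transvection i k (a * b) * transvection j k b * transvection i j a
  apply ext_mulVec
  intro v
  funext m
  rw [← Matrix.mulVec_mulVec, ← Matrix.mulVec_mulVec, ← Matrix.mulVec_mulVec, tr_mulVec hij, tr_mulVec hjk, tr_mulVec hjk,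
    tr_mulVec hik, tr_mulVec hjk, tr_mulVec hjk, tr_mulVec hij, tr_mulVec hij, if_pos rfl, if_neg hik.symm, if_neg hjk.symm]
  split_ifs <;> ring

theorem Hd_Hd_tr {i j k : Fin n} (hij : i ≠ j) (hjk : j ≠ k) (hik : i ≠ k) (t : Fˣ) (a : F) :
    Commute (Hd i k t * Hd j k t) (Tr i j hij a) := by
  have h1 : Hd i k t * Hd j k t * Tr i j hij a * (Hd i k t * Hd j k t)⁻¹ = Tr i j hij a := by
    have e : Hd i k t * Hd j k t * Tr i j hij a * (Hd i k t * Hd j k t)⁻¹ =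
      Hd i k t * (Hd j k t * Tr i j hij a * (Hd j k t)⁻¹) * (Hd i k t)⁻¹ := by group
    rw [e, Hd_tr, Hd_tr, Hf_left hik, Hf_left hjk, Hf_ne hij hik, Hf_ne hij.symm hjk]
    congr 1
    simp
  exact mul_inv_eq_iff_eq_mul.1 h1

theorem Hd_tr_one {i j k l : Fin n} (hij : i ≠ j) (hik : i ≠ k) (hil : i ≠ l) (hjk : j ≠ k) (hjl : j ≠ l) (t : Fˣ) (a : F) :
    Commute (Hd k l t) (Tr i j hij a) := by
  have h1 : Hd k l t * Tr i j hij a * (Hd k l t)⁻¹ = Tr i j hij a := by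
    rw [Hd_tr, Hf_ne hik hil, Hf_ne hjk hjl]
    congr 1
    simp
  exact mul_inv_eq_iff_eq_mul.1 h1

theorem Hd_tr_left {i j k : Fin n} (hij : i ≠ j) (hik : i ≠ k) (hjk : j ≠ k) (t : Fˣ) (a : F) :
    Hd i k t * Tr i j hij a * (Hd i k t)⁻¹ = Tr i j hij (t * a) := by
  rw [Hd_tr, Hf_left hik, Hf_ne hij.symm hjk]
  congr 1
  simp

theorem cu_tr {i j k : Fin n} (hij : i ≠ j) (hik : i ≠ k) (hjk : j ≠ k) (t : Fˣ) (a : F) (m : ℕ) :
    cu (Tr i j hij a) (Hd i k t) m = Tr i j hij ((t : F) ^ m * a) := by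
  induction m with
  | zero => rw [cu_zero, pow_zero, one_mul]
  | succ m ih => rw [← cu_succ, ih, Hd_tr_left hij hik hjk, pow_succ', mul_assoc]

theorem nn_neg_one {i j : Fin n} (hij : i ≠ j) : (nn i j hij (-1) : SpecialLinearGroup (Fin n) F) =
    (Tr i j hij 1)⁻¹ * Tr j i hij.symm 1 * (Tr i j hij 1)⁻¹ := by
  unfold nn
  rw [← Tr_neg]
  have h1 : (((-1 : Fˣ) : Fˣ) : F) = -1 := rfl
  have h2 : -((((-1 : Fˣ)⁻¹ : Fˣ)) : F) = 1 := by simp
  rw [h1, h2]

theorem nn_word {i j k : Fin n} (hij : i ≠ j) (hik : i ≠ k) (hjk : j ≠ k) (t : Fˣ) :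
    (nn i j hij t : SpecialLinearGroup (Fin n) F) =
    (Hd i k t * Tr i j hij 1 * (Hd i k t)⁻¹) * ((Hd j k t)⁻¹ * Tr j i hij.symm 1 * Hd j k t)⁻¹ *
      (Hd i k t * Tr i j hij 1 * (Hd i k t)⁻¹) := by
  have h1 : (Hd j k t)⁻¹ * Tr j i hij.symm 1 * Hd j k t = Tr j i hij.symm ((t⁻¹ : Fˣ) : F) := by
    have := Hd_tr_left hij.symm hjk hik t ((t⁻¹ : Fˣ) : F)
    rw [Units.mul_inv] at this
    rw [← this]; group
  rw [h1, Hd_tr_left hij hik hjk, mul_one, ← Tr_neg]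
  rfl
end

theorem exists_nat_pow {F : Type*} [Field F] [Finite F] {ζ : Fˣ} (hζ : ∀ t : Fˣ, t ∈ Subgroup.zpowers ζ) {a : F}
    (ha : a ≠ 0) : ∃ i : ℕ, (ζ : F) ^ i = a := by
  have h1 := hζ (Units.mk0 a ha)
  rw [← mem_powers_iff_mem_zpowers] at h1
  obtain ⟨i, hi⟩ := h1
  refine ⟨i, ?_⟩
  have := congrArg (fun y : Fˣ => (y : F)) hi
  simpa using this

section
variable {n : ℕ} {F : Type*} [Field F] (hn : 4 ≤ n) {s : Fin n → Fin n → alternatingGroup (Fin n)} (hs : GoodS hn s)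
include hs

theorem cj_tr (a : F) {i j : Fin n} (hij : i ≠ j) :
    cj P s (Tr (o hn 0) (o hn 1) (o_ne hn (by decide)) a) i j = Tr i j hij a := by
  obtain ⟨h0, h1⟩ := hs i j hij
  unfold cj
  rw [P_tr]
  congr 1

theorem cj_hd (t : Fˣ) {i j : Fin n} (hij : i ≠ j) :
    cj (P (F := F)) s (Hd (o hn 0) (o hn 1) t) i j = Hd i j t := by
  obtain ⟨h0, h1⟩ := hs i j hij
  unfold cj
  rw [P_Hd, h0, h1]

theorem RR_target {p : ℕ} [CharP F p] (ζ : Fˣ) {e : ℕ} {c : ℕ → ℕ}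
    (hc : (ζ : F) ^ e = ∑ j ∈ Finset.range e, (c j : F) * (ζ : F) ^ j) :
    RR hn s p e c (P (F := F)) (Tr (o hn 0) (o hn 1) (o_ne hn (by decide)) 1) (Hd (o hn 0) (o hn 1) ζ) := by
  have n01 : o hn 0 ≠ o hn 1 := o_ne hn (by decide)
  have n02 : o hn 0 ≠ o hn 2 := o_ne hn (by decide)
  have n03 : o hn 0 ≠ o hn 3 := o_ne hn (by decide)
  have n12 : o hn 1 ≠ o hn 2 := o_ne hn (by decide)
  have n13 : o hn 1 ≠ o hn 3 := o_ne hn (by decide)
  have n23 : o hn 2 ≠ o hn 3 := o_ne hn (by decide)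
  have T := fun {i j : Fin n} (hij : i ≠ j) => cj_tr hn hs (1 : F) hij
  have D := fun {i j : Fin n} (hij : i ≠ j) => cj_hd hn hs ζ hij
  constructor
  · have hpow : ∀ k : ℕ, Tr (o hn 0) (o hn 1) n01 (1 : F) ^ k = Tr (o hn 0) (o hn 1) n01 ((k : F)) := by
      intro k
      induction k with
      | zero => rw [pow_zero, Nat.cast_zero, Tr_zero]
      | succ k ih => rw [pow_succ, ih, ← Tr_add]; push_cast; rfl
    rw [hpow, CharP.cast_eq_zero, Tr_zero]
  · rw [T n01, D n02, cu_tr n01 n02 n12, mul_one, hc]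
    apply theta_wd (θ := fun a => Tr (o hn 0) (o hn 1) n01 a) (fun a b => Tr_add n01 a b)
    intro j _
    rw [cu_tr n01 n02 n12, mul_one]
  · rw [T n01, T n12, T n02]
    have := Tr_B n01 n12 n02 (1 : F) 1
    rwa [mul_one] at this
  · rw [T n02.symm, T n12.symm]
    exact Tr_comm _ _ n12.symm n02 _ _
  · rw [T n02, T n12]
    exact Tr_comm _ _ n02 n12.symm _ _
  · rw [T n01, T n23]
    exact Tr_comm _ _ n03 n12 _ _
  · rw [T n01, D n02, D n12]
    exact Hd_Hd_tr n01 n12 n02 _ _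
  · rw [T n01, D n23]
    exact Hd_tr_one n01 n02 n03 n12 n13 _ _
  · rw [D n01, D n12, D n02, Hd_tri]
  · rw [D n01, D n12]
    exact Hd_comm _ _ _ _ _ _
  · rw [D n01, D n02, D n12, T n01, T n01.symm, ← nn_word n01 n02 n12, ← nn_neg_one n01, Hd_word _ _ n01]
  · rw [T n01, T n12, T n01.symm, T n12.symm, ← nn_neg_one n01, ← nn_neg_one n12]
    apply P_word (c0 hn) n01 n12 n02
    · change swap (o hn 0) (o hn 1) (swap (o hn 1) (o hn 2) (o hn 0)) = _
      rw [swap_apply_of_ne_of_ne n01 n02, swap_apply_left]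
    · change swap (o hn 0) (o hn 1) (swap (o hn 1) (o hn 2) (o hn 1)) = _
      rw [swap_apply_left, swap_apply_of_ne_of_ne n02.symm n12.symm]
    · change swap (o hn 0) (o hn 1) (swap (o hn 1) (o hn 2) (o hn 2)) = _
      rw [swap_apply_right, swap_apply_right]
    · intro l h0 h1 h2
      change swap (o hn 0) (o hn 1) (swap (o hn 1) (o hn 2) l) = l
      rw [swap_apply_of_ne_of_ne h1 h2, swap_apply_of_ne_of_ne h0 h1]

theorem gen_target [Finite F] {ζ : Fˣ} (hζ : ∀ t : Fˣ, t ∈ Subgroup.zpowers ζ) :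
    Subgroup.closure (Set.range (P (F := F)) ∪
      Set.range ![Tr (o hn 0) (o hn 1) (o_ne hn (by decide)) 1, Hd (o hn 0) (o hn 1) ζ]) = ⊤ := by
  apply closure_tr (by omega : 3 ≤ n)
  set K := Subgroup.closure (Set.range (P (F := F)) ∪
      Set.range ![Tr (o hn 0) (o hn 1) (o_ne hn (by decide)) 1, Hd (o hn 0) (o hn 1) ζ]) with hK
  have hP : ∀ σ, P σ ∈ K := fun σ => Subgroup.subset_closure (Or.inl ⟨σ, rfl⟩)
  have hcj : ∀ x ∈ K, ∀ i j, cj (P (F := F)) s x i j ∈ K := by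
    intro x hx i j
    exact mul_mem (mul_mem (hP _) hx) (inv_mem (hP _))
  have h1 : ∀ i j (hij : i ≠ j), Tr i j hij (1 : F) ∈ K := by
    intro i j hij
    rw [← cj_tr hn hs (1 : F) hij]
    exact hcj _ (Subgroup.subset_closure (Or.inr ⟨0, rfl⟩)) i j
  have h2 : ∀ i j, i ≠ j → (Hd i j ζ : SpecialLinearGroup (Fin n) F) ∈ K := by
    intro i j hij
    rw [← cj_hd hn hs ζ hij]
    exact hcj _ (Subgroup.subset_closure (Or.inr ⟨1, rfl⟩)) i j
  intro i j hij t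
  by_cases ht : t = 0
  · rw [ht, Tr_zero]; exact one_mem _
  · obtain ⟨m, hm⟩ := exists_nat_pow hζ ht
    obtain ⟨k, hik, hjk⟩ := exists_third (by omega : 3 ≤ n) i j
    have := cu_tr hij hik hjk ζ (1 : F) m
    rw [mul_one, hm] at this
    rw [← this]
    unfold cu
    exact mul_mem (mul_mem (pow_mem (h2 i k hik) _) (h1 i j hij)) (inv_mem (pow_mem (h2 i k hik) _))

end

end H43.SLRels
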