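import Cfsg.Agent.Lib.H43.Cons3

/-!
The short relations hold in `SL_3`.
-/
set_option autoImplicit false

namespace H43.Rel3

open Matrix Equiv H43.Borel H43.SL2R H43.FieldStr H43.SteinHom H43.SDM H43.SLPerm H43.Hom3 H43.SLRels

section general
variable {n : ℕ} {F : Type*} [Field F]

theorem nn_hd (i j : Fin n) (hij : i ≠ j) (s t : Fˣ) :
    (nn i j hij s : SpecialLinearGroup (Fin n) F) * Hd i j t = Hd j i t * nn i j hij s := by
  apply Subtype.ext
  change (nn i j hij s).1 * (Hd i j t).1 = (Hd j i t).1 * (nn i j hij s).1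
  apply ext_mulVec
  intro v
  funext k
  rw [← Matrix.mulVec_mulVec, ← Matrix.mulVec_mulVec, nn_mulVec, Hd_mulVec i j hij, Hd_mulVec i j hij, Hd_mulVec i j hij,
    Hd_mulVec j i hij.symm, nn_mulVec, if_pos rfl, if_pos rfl, if_neg hij.symm]
  by_cases hk : k = i
  · subst hk
    rw [if_pos rfl, if_pos rfl, if_neg hij, if_pos rfl]; ring
  · rw [if_neg hk, if_neg hk]
    by_cases hk' : k = j
    · subst hk'
      rw [if_pos rfl, if_pos rfl, if_pos rfl, if_neg hk]; ring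
    · rw [if_neg hk', if_neg hk', if_neg hk', if_neg hk, if_neg hk, if_neg hk']

theorem nn_tr (i j : Fin n) (hij : i ≠ j) (a : F) :
    (nn i j hij (-1) : SpecialLinearGroup (Fin n) F) * Tr i j hij a = Tr j i hij.symm (-a) * nn i j hij (-1) := by
  apply Subtype.ext
  change (nn i j hij (-1) : SpecialLinearGroup (Fin n) F).1 * transvection i j a =
    transvection j i (-a) * (nn i j hij (-1) : SpecialLinearGroup (Fin n) F).1
  apply ext_mulVec
  intro v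
  funext k
  rw [← Matrix.mulVec_mulVec, ← Matrix.mulVec_mulVec, nn_mulVec, tr_mulVec hij, tr_mulVec hij, tr_mulVec hij,
    tr_mulVec hij.symm, nn_mulVec, nn_mulVec, if_pos rfl, if_pos rfl, if_neg hij.symm]
  by_cases hk : k = i
  · subst hk
    rw [if_pos rfl, if_pos rfl, if_neg hij] <;> simp
  · rw [if_neg hk, if_neg hk, if_neg hk]
    by_cases hk' : k = j
    · subst hk'
      rw [if_pos rfl, if_pos rfl, if_pos rfl] <;> simp
    · rw [if_neg hk', if_neg hk', if_neg hk']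

theorem nn_tr' (i j : Fin n) (hij : i ≠ j) (a : F) :
    (nn i j hij (-1) : SpecialLinearGroup (Fin n) F) * Tr i j hij a * (nn i j hij (-1))⁻¹ = Tr j i hij.symm (-a) :=
  mul_inv_eq_iff_eq_mul.2 (nn_tr i j hij a)

theorem Hd_pow (i j : Fin n) (t : Fˣ) (m : ℕ) : (Hd i j t : SpecialLinearGroup (Fin n) F) ^ m = Hd i j (t ^ m) := by
  have h1 : ∀ s t : Fˣ, (Hd i j (s * t) : SpecialLinearGroup (Fin n) F) = Hd i j s * Hd i j t := by
    intro s t
    unfold Hd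
    rw [Dg_mul]
    apply Dg_ext
    unfold Hf
    rw [Pi.mulSingle_mul, Pi.mulSingle_mul, mul_inv, mul_mul_mul_comm]
  have h0 : (Hd i j 1 : SpecialLinearGroup (Fin n) F) = 1 := by
    have := h1 1 1
    rw [one_mul] at this
    exact mul_eq_left.1 this.symm
  induction m with
  | zero => rw [pow_zero, pow_zero, h0]
  | succ m ih => rw [pow_succ, ih, ← h1, pow_succ]

theorem Hd_inv (i j : Fin n) (t : Fˣ) : (Hd i j t : SpecialLinearGroup (Fin n) F)⁻¹ = Hd j i t :=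
  inv_eq_of_mul_eq_one_right (Hd_one_of i j t)

end general

variable {F : Type*} [Field F]

/-- the generators -/
abbrev gu (F : Type*) [Field F] : SpecialLinearGroup (Fin 3) F := Tr 0 1 (by decide) 1
/-- the generators -/
abbrev gn (F : Type*) [Field F] : SpecialLinearGroup (Fin 3) F := nn 0 1 (by decide) (-1)
/-- the generators -/
abbrev gh (ζ : Fˣ) : SpecialLinearGroup (Fin 3) F := Hd 0 1 ζ
/-- the generators -/
abbrev gc (F : Type*) [Field F] : SpecialLinearGroup (Fin 3) F := P s3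

theorem kk_eq (ζ : Fˣ) : kk (gh ζ) (gc F) = Hd 2 1 ζ := by
  unfold kk
  rw [P_Hd, Hd_inv]
  rfl

theorem cinv_conj_hd (ζ : Fˣ) : (gc F)⁻¹ * gh ζ * gc F = Hd 2 0 ζ := by
  have := P_Hd (F := F) s3⁻¹ 0 1 ζ
  rw [map_inv, inv_inv] at this
  rw [this]; rfl

theorem cinv_conj_tr (a : F) : (gc F)⁻¹ * Tr 1 0 (by decide) a * gc F = Tr 0 2 (by decide) a := by
  have := P_tr (F := F) s3⁻¹ (by decide : (1 : Fin 3) ≠ 0) a
  rw [map_inv, inv_inv] at this
  rw [this]; rfl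

theorem c_conj_tr (a : F) : gc F * Tr 0 1 (by decide) a * (gc F)⁻¹ = Tr 1 2 (by decide) a := by
  rw [P_tr]; rfl

theorem kk_tr (ζ : Fˣ) (m : ℕ) (a : F) : Hd 2 1 ζ ^ m * Tr 0 1 (by decide) a * (Hd 2 1 ζ ^ m)⁻¹ =
    (Tr 0 1 (by decide) ((ζ : F) ^ m * a) : SpecialLinearGroup (Fin 3) F) := by
  rw [Hd_pow, Hd_tr, Hf_ne (by decide) (by decide), Hf_right (by decide)]
  congr 1
  simp

theorem R3_target {ζ : Fˣ} {M : ℕ} (hM : ζ ^ M = -1) : R3 (gu F) (gh ζ) (gn F) (gc F) M := by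
  have h01 : (0 : Fin 3) ≠ 1 := by decide
  have hcube : gc F * gc F * gc F = 1 := by
    rw [← map_mul, ← map_mul]
    have : s3 * s3 * s3 = 1 := by decide
    rw [this, map_one]
  have hcn : gc F = gn F * (gc F * gn F * (gc F)⁻¹) := by
    obtain ⟨c1, c2, c3, c4⟩ := s3_apply
    have e1 := P_word (F := F) s3 (by decide : (0 : Fin 3) ≠ 1) (by decide : (1 : Fin 3) ≠ 2) (by decide : (0 : Fin 3) ≠ 2) c1 c2 c3 c4
    have e2 : gc F * gn F * (gc F)⁻¹ = nn 1 2 (by decide) (-1) := by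
      have e3 : gc F * gn F * (gc F)⁻¹ = (gc F * Tr 0 1 (by decide) (((-1 : Fˣ) : Fˣ) : F) * (gc F)⁻¹) *
        (gc F * Tr 1 0 (by decide) (-(((-1 : Fˣ)⁻¹ : Fˣ) : F)) * (gc F)⁻¹) *
        (gc F * Tr 0 1 (by decide) (((-1 : Fˣ) : Fˣ) : F) * (gc F)⁻¹) := by
        unfold gn nn; group
      rw [e3, P_tr, P_tr]; rfl
    rw [e2]; exact e1
  constructor
  · rw [Hd_pow, hM, ← Hd_word 0 1 h01]
  · rw [mul_inv_eq_iff_eq_mul, Hd_inv]
    exact nn_hd 0 1 h01 (-1) ζ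
  · have e1 : (gu F)⁻¹ = Tr 0 1 h01 (-1) := (Tr_neg h01 1).symm
    rw [e1, nn_tr', neg_neg]
    change _ = gu F * nn 0 1 h01 (-1) * gu F
    rw [nn_neg_one]; group
  · rw [kk_eq]
    have e2 := kk_tr ζ 2 (1 : F)
    rw [e2]
    have e3 := Hd_tr (F := F) 0 1 ζ h01 1
    rw [e3, Hf_left h01, Hf_right h01, inv_inv]
    congr 1; ring
  · rw [kk_eq]; exact Hd_comm _ _ _ _ _ _
  · rw [cinv_conj_hd, P_Hd]
    change Hd 0 1 ζ * Hd 1 2 ζ * Hd 2 0 ζ = 1
    rw [Hd_tri, Hd_one_of]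
  · exact hcube
  · -- `(cn)² = 1`
    have e1 : gc F * gc F = gn F * gc F * gn F := by
      calc gc F * gc F = (gn F * (gc F * gn F * (gc F)⁻¹)) * gc F := by rw [← hcn]
        _ = _ := by group
    calc gc F * gn F * gc F * gn F = gc F * (gn F * gc F * gn F) := by group
      _ = gc F * gc F * gc F := by rw [← e1]; group
      _ = 1 := hcube

theorem x02_target (a : F) : (gc F)⁻¹ * (gn F * (Tr 0 1 (by decide) a)⁻¹ * (gn F)⁻¹) * gc F = Tr 0 2 (by decide) a := by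
  rw [← Tr_neg, nn_tr', neg_neg, cinv_conj_tr]

theorem gen3 [Finite F] {ζ : Fˣ} (hζ : ∀ t : Fˣ, t ∈ Subgroup.zpowers ζ) :
    Subgroup.closure (Set.range ![gu F, gh ζ, gn F, gc F]) = ⊤ := by
  apply closure_tr (le_refl 3)
  set K := Subgroup.closure (Set.range ![gu F, gh ζ, gn F, gc F]) with hK
  have hu : gu F ∈ K := Subgroup.subset_closure ⟨0, rfl⟩
  have hh : gh ζ ∈ K := Subgroup.subset_closure ⟨1, rfl⟩
  have hn : gn F ∈ K := Subgroup.subset_closure ⟨2, rfl⟩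
  have hc : gc F ∈ K := Subgroup.subset_closure ⟨3, rfl⟩
  have hk : (Hd 2 1 ζ : SpecialLinearGroup (Fin 3) F) ∈ K := by
    rw [← kk_eq]
    exact inv_mem (mul_mem (mul_mem hc hh) (inv_mem hc))
  have h01 : ∀ t : F, (Tr 0 1 (by decide) t : SpecialLinearGroup (Fin 3) F) ∈ K := by
    intro t
    by_cases ht : t = 0
    · rw [ht, Tr_zero]; exact one_mem _
    · obtain ⟨m, hm⟩ := exists_nat_pow hζ ht
      have := kk_tr ζ m (1 : F)
      rw [mul_one, hm] at this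
      rw [← this]
      exact mul_mem (mul_mem (pow_mem hk _) hu) (inv_mem (pow_mem hk _))
  have h10 : ∀ t : F, (Tr 1 0 (by decide) t : SpecialLinearGroup (Fin 3) F) ∈ K := by
    intro t
    have := nn_tr' (F := F) (0 : Fin 3) 1 (by decide) (-t)
    rw [neg_neg] at this
    rw [← this]
    exact mul_mem (mul_mem hn (h01 _)) (inv_mem hn)
  have hcc : ∀ (i j : Fin 3) (hij : i ≠ j), (∀ t : F, (Tr i j hij t : SpecialLinearGroup (Fin 3) F) ∈ K) →
      ∀ t : F, (Tr ((s3 : Perm (Fin 3)) i) ((s3 : Perm (Fin 3)) j) (fun h => hij ((s3 : Perm (Fin 3)).injective h)) t :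
        SpecialLinearGroup (Fin 3) F) ∈ K := by
    intro i j hij h t
    rw [← P_tr]
    exact mul_mem (mul_mem hc (h t)) (inv_mem hc)
  have h12 : ∀ t : F, (Tr 1 2 (by decide) t : SpecialLinearGroup (Fin 3) F) ∈ K := hcc 0 1 (by decide) h01
  have h20 : ∀ t : F, (Tr 2 0 (by decide) t : SpecialLinearGroup (Fin 3) F) ∈ K := hcc 1 2 (by decide) h12
  have h21 : ∀ t : F, (Tr 2 1 (by decide) t : SpecialLinearGroup (Fin 3) F) ∈ K := hcc 1 0 (by decide) h10
  have h02 : ∀ t : F, (Tr 0 2 (by decide) t : SpecialLinearGroup (Fin 3) F) ∈ K := hcc 2 1 (by decide) h21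
  intro i j hij t
  fin_cases i <;> fin_cases j
  · exact absurd rfl hij
  · exact h01 t
  · exact h02 t
  · exact h10 t
  · exact absurd rfl hij
  · exact h12 t
  · exact h20 t
  · exact h21 t
  · exact absurd rfl hij

theorem RB_target {ζ : Fˣ} {M : ℕ} (hM : ζ ^ M = -1) {p : ℕ} [CharP F p] {e : ℕ} {cf df : ℕ → ℕ}
    (hc : ((ζ : F) ^ 3) ^ e = ∑ j ∈ Finset.range e, (cf j : F) * ((ζ : F) ^ 3) ^ j)
    (hd : (ζ : F) = ∑ j ∈ Finset.range e, (df j : F) * ((ζ : F) ^ 3) ^ j) :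
    RB (gu F) (gh ζ) (gn F) (gc F) M p e cf df := by
  have h01 : (0 : Fin 3) ≠ 1 := by decide
  have hcu : ∀ j, cu (gu F) (Hd 2 1 ζ ^ 3) j = Tr 0 1 h01 (((ζ : F) ^ 3) ^ j) := by
    intro j
    unfold cu
    have := kk_tr ζ (3 * j) (1 : F)
    rw [mul_one, pow_mul] at this
    rw [this, pow_mul]
  have hw : ∀ g : ℕ → ℕ, wd g e (Hd 2 1 ζ ^ 3) (gu F) = Tr 0 1 h01 (∑ j ∈ Finset.range e, (g j : F) * ((ζ : F) ^ 3) ^ j) := by
    intro g
    exact (theta_wd (θ := fun a => Tr 0 1 h01 a) (fun a b => Tr_add h01 a b) (fun j _ => (hcu j).symm) g).symm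
  constructor
  · exact R3_target hM
  · have hpow : ∀ k : ℕ, gu F ^ k = Tr 0 1 h01 ((k : F)) := by
      intro k
      induction k with
      | zero => rw [pow_zero, Nat.cast_zero, Tr_zero]
      | succ k ih => rw [pow_succ, ih, ← Tr_add]; push_cast; rfl
    rw [hpow, CharP.cast_eq_zero, Tr_zero]
  · rw [kk_eq, hcu, hw, hc]
  · rw [kk_eq, hw, ← hd]
    have := kk_tr ζ 1 (1 : F)
    rwa [pow_one, pow_one, mul_one] at this
  · rw [x02_target, c_conj_tr]
    have := Tr_B h01 (by decide : (1 : Fin 3) ≠ 2) (by decide : (0 : Fin 3) ≠ 2) (1 : F) 1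
    rwa [mul_one] at this
  · rw [x02_target]
    exact Tr_comm _ _ (by decide) (by decide) _ _
  · rw [x02_target, c_conj_tr]
    exact Tr_comm _ _ (by decide) (by decide) _ _

theorem RC_target {ζ : Fˣ} (h2 : (2 : F) = 0) (hζ2 : (ζ : F) ^ 2 = 1 + ζ) :
    RC (gu F) (gh ζ) (gn F) (gc F) := by
  have h01 : (0 : Fin 3) ≠ 1 := by decide
  have hM : ζ ^ 0 = -1 := by
    apply Units.ext
    rw [pow_zero, Units.val_neg, Units.val_one]
    linear_combination h2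
  have k1 : Hd 2 1 ζ * gu F * (Hd 2 1 ζ)⁻¹ = Tr 0 1 h01 (ζ : F) := by
    have := kk_tr ζ 1 (1 : F)
    rwa [pow_one, pow_one, mul_one] at this
  have k2 : Hd 2 1 ζ ^ 2 * gu F * (Hd 2 1 ζ ^ 2)⁻¹ = Tr 0 1 h01 ((ζ : F) ^ 2) := by
    have := kk_tr ζ 2 (1 : F)
    rwa [mul_one] at this
  have hl : ∀ a : F, gu F * (gc F * Tr 0 1 h01 a * (gc F)⁻¹) =
      ((gc F)⁻¹ * (gn F * (Tr 0 1 h01 a)⁻¹ * (gn F)⁻¹) * gc F) * (gc F * Tr 0 1 h01 a * (gc F)⁻¹) * gu F := by
    intro a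
    rw [x02_target, c_conj_tr]
    have := Tr_B h01 (by decide : (1 : Fin 3) ≠ 2) (by decide : (0 : Fin 3) ≠ 2) (1 : F) a
    rwa [one_mul] at this
  constructor
  · exact R3_target hM
  · rw [sq, ← Tr_add]
    have : (1 : F) + 1 = 0 := by rw [← h2]; norm_num
    rw [this, Tr_zero]
  · rw [kk_eq, k1, k2, ← Tr_add, hζ2]
  · exact hl 1
  · rw [kk_eq, k1]; exact hl _
  · rw [kk_eq, k2]; exact hl _

end H43.Rel3
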