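import Cfsg.Agent.Lib.H43.U3Pres

/-!
`SU_3(q)`: field generation by torus eigenvalues.
-/
set_option autoImplicit false

namespace H43.U3

open Matrix H43.SU3 H43.Borel H49.Unitary H43.Tietze

variable {K : Type*} [Field K] [Fintype K] {p : ℕ} [Fact p.Prime]

theorem adjoin_top [Algebra (ZMod p) K] {x : K} (hx : ∀ r m : ℕ, 2 ≤ r → 2 ≤ m → Fintype.card K = r ^ m → x ^ r ≠ x) :
    Algebra.adjoin (ZMod p) {x} = ⊤ := by
  set E := IntermediateField.adjoin (ZMod p) {x} with hE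
  have hEA : E.toSubalgebra = Algebra.adjoin (ZMod p) {x} :=
    IntermediateField.adjoin_simple_toSubalgebra_of_isAlgebraic (Algebra.IsAlgebraic.isAlgebraic x)
  have hfE : Fintype E := Fintype.ofFinite E
  set r := Fintype.card E with hr
  have hcF : Fintype.card K = r ^ Module.finrank E K := Module.card_eq_pow_finrank
  have hxE : x ∈ E := IntermediateField.mem_adjoin_simple_self _ x
  have hxr : x ^ r = x := congrArg Subtype.val (FiniteField.pow_card (⟨x, hxE⟩ : E))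
  have hr2 : 2 ≤ r := Fintype.one_lt_card
  have hfin : Module.finrank E K = 1 := by
    have h0 : 0 < Module.finrank E K := Module.finrank_pos
    by_contra hne
    exact hx r _ hr2 (by omega) hcF hxr
  have hbt : E = ⊤ := by
    rw [← IntermediateField.finrank_eq_one_iff_eq_top]
    exact hfin
  rw [← hEA, hbt, IntermediateField.top_toSubalgebra]

variable {q : ℕ}

theorem ord_zeta (hK : Nat.card K = q ^ 2) {ζ : Kˣ} (hζ : ∀ t : Kˣ, t ∈ Subgroup.zpowers ζ) : orderOf ζ = q ^ 2 - 1 := by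
  rw [orderOf_eq_card_of_forall_mem_zpowers hζ, Nat.card_units, hK]

/-- arithmetic for the first type -/
theorem arithI {r m : ℕ} (hr : 2 ≤ r) (hm : 2 ≤ m) (h : q ^ 2 = r ^ m) (hd : q + 1 ∣ 3 * (r - 1)) (h2 : q ≠ 2) (h5 : q ≠ 5)
    (h8 : q ≠ 8) : False := by
  rcases Nat.even_or_odd' m with ⟨m', hm' | hm'⟩
  · have h1 : q = r ^ m' := by
      rw [hm', mul_comm, pow_mul] at h
      exact Nat.pow_left_injective (by norm_num : (2 : ℕ) ≠ 0) h
    have h3 : r - 1 ∣ q - 1 := by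
      rw [h1]
      simpa using Nat.sub_dvd_pow_sub_pow r 1 m'
    have h4 : q + 1 ∣ 3 * (q - 1) := hd.trans (Nat.mul_dvd_mul_left 3 h3)
    have hq1 : 1 ≤ q := by rw [h1]; exact Nat.one_le_pow _ _ (by omega)
    have h6 : q + 1 ∣ 6 := by
      have h7 : 3 * (q + 1) - 3 * (q - 1) = 6 := by omega
      rw [← h7]
      exact Nat.dvd_sub (Dvd.intro_left 3 rfl) h4
    have h7 := Nat.le_of_dvd (by norm_num) h6
    have h7' : q ≤ 5 := by omega
    have h10 : 2 ^ 2 ≤ q ^ 2 := by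
      rw [h]; exact le_trans (Nat.pow_le_pow_left hr 2) (Nat.pow_le_pow_right (by omega) hm)
    have h11 : 2 ≤ q := (Nat.pow_le_pow_iff_left (by norm_num)).1 h10
    have h12 : q = 2 ∨ q = 3 ∨ q = 4 ∨ q = 5 := by omega
    rcases h12 with h12 | h12 | h12 | h12
    · exact h2 h12
    · rw [h12] at h6; revert h6; decide
    · rw [h12] at h6; revert h6; decide
    · exact h5 h12
  · have hm3 : 3 ≤ m := by omega
    have h1 : r ^ 3 ≤ q ^ 2 := by rw [h]; exact Nat.pow_le_pow_right (by omega) hm3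
    have h3 := Nat.le_of_dvd (by omega) hd
    have h4 : q + 4 ≤ 3 * r := by omega
    have h5' : (q + 4) ^ 3 ≤ 27 * q ^ 2 := by
      calc (q + 4) ^ 3 ≤ (3 * r) ^ 3 := Nat.pow_le_pow_left h4 3
        _ = 27 * r ^ 3 := by ring
        _ ≤ 27 * q ^ 2 := Nat.mul_le_mul_left 27 h1
    have h6 : ((q : ℤ) - 8) ^ 2 * (q + 1) ≤ 0 := by
      have : ((q : ℤ) + 4) ^ 3 ≤ 27 * (q : ℤ) ^ 2 := by exact_mod_cast h5'
      nlinarith
    have h7 : (0 : ℤ) < ((q : ℤ) - 8) ^ 2 := by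
      have : (q : ℤ) - 8 ≠ 0 := by
        intro h
        apply h8
        omega
      positivity
    have h9 : (0 : ℤ) < (q : ℤ) + 1 := by positivity
    nlinarith

theorem adjoin_I (hF : Fintype.card K = q ^ 2) (hK : Nat.card K = q ^ 2) {ζ : Kˣ} (hζ : ∀ t : Kˣ, t ∈ Subgroup.zpowers ζ)
    [Algebra (ZMod p) K] (h2 : q ≠ 2) (h5 : q ≠ 5) (h8 : q ≠ 8) :
    Algebra.adjoin (ZMod p) {((ζ : K) ^ (q - 1)) ^ 3} = ⊤ := by
  apply adjoin_top
  intro r m hr hm hc hx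
  rw [hF] at hc
  have hq := H7.QuadExt.one_lt_q hF
  have hz0 : (((ζ : K) ^ (q - 1)) ^ 3) ≠ 0 := pow_ne_zero _ (pow_ne_zero _ ζ.ne_zero)
  have h3 : ζ ^ ((q - 1) * (3 * (r - 1))) = 1 := by
    apply Units.ext
    rw [Units.val_pow_eq_pow_val, Units.val_one, ← mul_assoc, pow_mul, pow_mul]
    have h6 : (((ζ : K) ^ (q - 1)) ^ 3) ^ (r - 1) * (((ζ : K) ^ (q - 1)) ^ 3) = 1 * (((ζ : K) ^ (q - 1)) ^ 3) := by
      rw [← pow_succ, Nat.sub_add_cancel (by omega), one_mul]; exact hx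
    exact mul_right_cancel₀ hz0 h6
  have h4 := orderOf_dvd_of_pow_eq_one h3
  rw [ord_zeta hK hζ] at h4
  have h6 : q ^ 2 - 1 = (q - 1) * (q + 1) := by
    obtain ⟨a, rfl⟩ : ∃ a, q = a + 1 := ⟨q - 1, by omega⟩
    rw [Nat.sub_eq_iff_eq_add (Nat.one_le_pow _ _ (by omega))]
    simp; ring
  rw [h6] at h4
  exact arithI hr hm hc (Nat.dvd_of_mul_dvd_mul_left (by omega) h4) h2 h5 h8

theorem adjoin_II (hF : Fintype.card K = q ^ 2) (hK : Nat.card K = q ^ 2) {ζ : Kˣ} (hζ : ∀ t : Kˣ, t ∈ Subgroup.zpowers ζ)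
    [Algebra (ZMod p) K] (h3 : 3 ≤ q) : Algebra.adjoin (ZMod p) {(ζ : K) ^ 2 / frob hK ζ} = ⊤ := by
  apply adjoin_top
  intro r m hr hm hc hx
  rw [hF] at hc
  have hrq : r ≤ q := by
    have : r ^ 2 ≤ q ^ 2 := by rw [hc]; exact Nat.pow_le_pow_right (by omega) hm
    exact (Nat.pow_le_pow_iff_left (by norm_num)).1 this
  rw [frob_apply] at hx
  have hz := ζ.ne_zero
  have h4 : ζ ^ ((q - 2) * (r - 1)) = 1 := by
    apply Units.ext
    rw [Units.val_pow_eq_pow_val, Units.val_one, pow_mul]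
    have e1 : (ζ : K) ^ 2 / (ζ : K) ^ q = ((ζ : K) ^ (q - 2))⁻¹ := by
      rw [div_eq_iff (pow_ne_zero _ hz), eq_inv_mul_iff_mul_eq₀ (pow_ne_zero _ hz), ← pow_add]
      congr 1; omega
    rw [e1] at hx
    have hy0 : ((ζ : K) ^ (q - 2)) ≠ 0 := pow_ne_zero _ hz
    set y := (ζ : K) ^ (q - 2) with hy
    have h5 : y ^ r = y := by
      rw [inv_pow] at hx
      exact inv_injective hx
    have h6 : y ^ (r - 1) * y = 1 * y := by
      rw [← pow_succ, Nat.sub_add_cancel (by omega), one_mul]; exact h5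
    exact mul_right_cancel₀ hy0 h6
  have h5 := Nat.le_of_dvd (Nat.mul_pos (by omega) (by omega)) (orderOf_dvd_of_pow_eq_one h4)
  rw [ord_zeta hK hζ] at h5
  have h6 : (q - 2) * (r - 1) ≤ (q - 2) * (q - 1) := Nat.mul_le_mul_left _ (by omega)
  have h7 : (q - 2) * (q - 1) + 3 * q = q ^ 2 + 2 := by
    obtain ⟨a, rfl⟩ : ∃ a, q = a + 2 := ⟨q - 2, by omega⟩
    simp; ring
  omega

end H43.U3
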