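import Cfsg.Agent.Lib.H43.BorelPres

/-!
Order bounds for Borel subgroups with a two-step unipotent part.
-/
set_option autoImplicit false

namespace H43.U3

open H43.Borel

variable {G : Type*} [Group G]

theorem map_cu' {H : Type*} [Group H] (f : G →* H) (u x : G) (j : ℕ) : f (cu u x j) = cu (f u) (f x) j := by
  unfold cu; simp only [map_mul, map_inv, map_pow]

/-- all conjugates lie in the group generated by the first ones -/
theorem cu_mem_all {u x : G} {d : ℕ} {N : Subgroup G} (hsub : ∀ i < d, cu u x i ∈ N) (hN : ∀ y ∈ N, x * y * x⁻¹ ∈ N)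
    (hd : 0 < d) (j : ℕ) : cu u x j ∈ N := by
  induction j with
  | zero => exact hsub 0 hd
  | succ j ih => rw [← cu_succ]; exact hN _ ih

theorem stable_closure {u x : G} {d : ℕ} (hd' : cu u x d ∈ Subgroup.closure (cu u x '' {i | i < d})) :
    ∀ y ∈ Subgroup.closure (cu u x '' {i | i < d}), x * y * x⁻¹ ∈ Subgroup.closure (cu u x '' {i | i < d}) := by
  apply conj_closure_le
  rintro _ ⟨i, hi, rfl⟩
  rw [cu_succ]
  have hi' : i < d := hi
  rcases Nat.lt_or_ge (i + 1) d with h1 | h1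
  · exact Subgroup.subset_closure ⟨i + 1, h1, rfl⟩
  · rw [show i + 1 = d by omega]; exact hd'

theorem closure_all {u x : G} {d : ℕ} (hd : 0 < d) (hd' : cu u x d ∈ Subgroup.closure (cu u x '' {i | i < d})) :
    Subgroup.closure (Set.range (cu u x)) = Subgroup.closure (cu u x '' {i | i < d}) := by
  apply le_antisymm
  · rw [Subgroup.closure_le]
    rintro _ ⟨j, rfl⟩
    exact cu_mem_all (N := Subgroup.closure (cu u x '' {i | i < d}))
      (fun i hi => Subgroup.subset_closure ⟨i, hi, rfl⟩) (stable_closure hd') hd j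
  · apply Subgroup.closure_mono
    rintro _ ⟨i, -, rfl⟩
    exact ⟨i, rfl⟩

theorem card_core {u h x z : G} {p d k N : ℕ} (hp : 0 < p) (hd : 0 < d) (hk : 0 < k) (hN : 0 < N)
    (hgen : Subgroup.closure {u, h} = ⊤) (hx : x ∈ Subgroup.zpowers h) (hhN : h ^ N = 1)
    (hzV : z ∈ Subgroup.closure (Set.range (cu u x))) (hzc : ∀ v ∈ Subgroup.closure (Set.range (cu u x)), Commute z v)
    (hhV : ∀ v ∈ Subgroup.closure (Set.range (cu u x)), h * v * h⁻¹ ∈ Subgroup.closure (Set.range (cu u x)))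
    (hzp : z ^ p = 1) (hzk : cu z h k ∈ Subgroup.closure (cu z h '' {i | i < k}))
    (hup : u ^ p ∈ Subgroup.closure (Set.range (cu z h)))
    (hcomm : ∀ j < d, u * cu u x j * (cu u x j * u)⁻¹ ∈ Subgroup.closure (Set.range (cu z h)))
    (hd' : cu u x d ∈ Subgroup.closure (cu u x '' {i | i < d}) ⊔ Subgroup.closure (Set.range (cu z h))) :
    Finite G ∧ Nat.card G ≤ p ^ d * p ^ k * N := by
  set V := Subgroup.closure (Set.range (cu u x)) with hV
  set Z := Subgroup.closure (Set.range (cu z h)) with hZ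
  have huV : u ∈ V := Subgroup.subset_closure ⟨0, cu_zero u x⟩
  have hhVj : ∀ j : ℕ, ∀ v ∈ V, h ^ j * v * (h ^ j)⁻¹ ∈ V := by
    intro j
    induction j with
    | zero => intro v hv; simpa using hv
    | succ j ih =>
      intro v hv
      have := hhV _ (ih v hv)
      rw [pow_succ']
      have e : h * h ^ j * v * (h * h ^ j)⁻¹ = h * (h ^ j * v * (h ^ j)⁻¹) * h⁻¹ := by group
      rw [e]; exact this
  have hhVi : ∀ j : ℕ, ∀ v ∈ V, (h ^ j)⁻¹ * v * h ^ j ∈ V := by
    intro j v hv
    have e : (h ^ j)⁻¹ = h ^ ((N - 1) * j) := by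
      rw [inv_eq_iff_mul_eq_one, ← pow_add]
      have : j + (N - 1) * j = N * j := by
        obtain ⟨m, rfl⟩ : ∃ m, N = m + 1 := ⟨N - 1, by omega⟩
        simp; ring
      rw [this, pow_mul, hhN, one_pow]
    have := hhVj ((N - 1) * j) v hv
    rw [← e, inv_inv] at this
    exact this
  have hZc : ∀ i, ∀ v ∈ V, Commute (cu z h i) v := by
    intro i v hv
    have h1 := (hzc _ (hhVi i v hv)).map (MulAut.conj (h ^ i))
    have e1 : (MulAut.conj (h ^ i)) z = cu z h i := rfl
    have e2 : (MulAut.conj (h ^ i)) ((h ^ i)⁻¹ * v * h ^ i) = v := by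
      rw [MulAut.conj_apply]; group
    rwa [e1, e2] at h1
  have hZV : Z ≤ V := by
    rw [hZ, Subgroup.closure_le]
    rintro _ ⟨i, rfl⟩
    exact hhVj i z hzV
  have hZk := closure_all hk hzk
  obtain ⟨hZf, hZcard⟩ := card_abelian p hp k (cu z h) (fun i _ j _ => hZc i _ (hZV (Subgroup.subset_closure ⟨j, rfl⟩)))
    (fun i _ => by unfold cu; rw [conj_pow, hzp]; group)
  rw [← hZk] at hZf hZcard
  have hZf' : Finite Z := hZf
  have hhn : h ∈ Subgroup.normalizer (Z : Set G) := by
    apply mem_normalizer_of_le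
    apply conj_closure_le
    rintro _ ⟨i, rfl⟩
    rw [cu_succ]
    exact Subgroup.subset_closure ⟨i + 1, rfl⟩
  have hun : u ∈ Subgroup.normalizer (Z : Set G) := by
    apply mem_normalizer_of_le
    apply conj_closure_le
    rintro _ ⟨i, rfl⟩
    rw [← (hZc i u huV).eq, mul_inv_cancel_right]
    exact Subgroup.subset_closure ⟨i, rfl⟩
  have hZn : Z.Normal := by
    rw [← Subgroup.normalizer_eq_top_iff, eq_top_iff, ← hgen, Subgroup.closure_le]
    rintro _ (rfl | rfl)
    · exact hun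
    · exact hhn
  let φ := QuotientGroup.mk' Z
  have hφ : ∀ g ∈ Z, φ g = 1 := fun g hg => (QuotientGroup.eq_one_iff g).2 hg
  have hmapd : ∀ g, g ∈ Subgroup.closure (cu u x '' {i | i < d}) ⊔ Z →
      φ g ∈ Subgroup.closure (cu (φ u) (φ x) '' {i | i < d}) := by
    intro g hg
    have h1 : Subgroup.closure (cu u x '' {i | i < d}) ⊔ Z ≤ (Subgroup.closure (cu (φ u) (φ x) '' {i | i < d})).comap φ := by
      apply sup_le
      · rw [Subgroup.closure_le]
        rintro _ ⟨i, hi, rfl⟩
        refine Subgroup.subset_closure ⟨i, hi, ?_⟩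
        rw [map_cu']
      · intro g hg
        rw [Subgroup.mem_comap, hφ g hg]; exact one_mem _
    exact h1 hg
  have hd2 : cu (φ u) (φ x) d ∈ Subgroup.closure (cu (φ u) (φ x) '' {i | i < d}) := by
    rw [← map_cu']; exact hmapd _ hd'
  have hb := card_borel (u := φ u) (h := φ h) (x := φ x) (p := p) (e := d) (N := N) hp hd hN (by
      obtain ⟨m, rfl⟩ := hx
      exact ⟨m, (map_zpow φ h m).symm⟩) (by
      intro j hj
      have h1 := hφ _ (hcomm j hj)
      rw [map_mul, map_inv, mul_inv_eq_one, map_mul, map_mul, map_cu'] at h1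
      exact h1) (by
      rw [← map_pow]; exact hφ _ hup) hd2 (by
      rw [← closure_all hd hd2, ← map_inv, ← map_mul, ← map_mul]
      have h1 : V ≤ (Subgroup.closure (Set.range (cu (φ u) (φ x)))).comap φ := by
        rw [hV, Subgroup.closure_le]
        rintro _ ⟨i, rfl⟩
        exact Subgroup.subset_closure ⟨i, (map_cu' φ u x i).symm⟩
      exact h1 (hhV u huV)) (by rw [← map_pow, hhN, map_one])
  have htop : Subgroup.closure {φ u, φ h} = ⊤ := by
    have := congrArg (Subgroup.map φ) hgen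
    rw [MonoidHom.map_closure, Set.image_pair, ← MonoidHom.range_eq_map,
      MonoidHom.range_eq_top.2 (QuotientGroup.mk'_surjective Z)] at this
    exact this
  rw [htop] at hb
  obtain ⟨hbf, hbc⟩ := hb
  have hQf : Finite (G ⧸ Z) := Finite.of_equiv _ (Subgroup.topEquiv (G := G ⧸ Z)).toEquiv
  rw [Nat.card_congr (Subgroup.topEquiv (G := G ⧸ Z)).toEquiv] at hbc
  have hfin : Finite G := by
    have : Finite ((G ⧸ Z) × Z) := inferInstance
    exact Finite.of_equiv _ (Subgroup.groupEquivQuotientProdSubgroup (s := Z)).symm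
  refine ⟨hfin, ?_⟩
  rw [Subgroup.card_eq_card_quotient_mul_card_subgroup Z]
  calc Nat.card (G ⧸ Z) * Nat.card Z ≤ (p ^ d * N) * p ^ k := Nat.mul_le_mul hbc hZcard
    _ = _ := by ring

/-- relations of the first type -/
theorem card_typeI {u h x y : G} {p d k N : ℕ} (hp : 0 < p) (hd : 0 < d) (hk : 0 < k) (hN : 0 < N)
    (hgen : Subgroup.closure {u, h} = ⊤) (hx : x ∈ Subgroup.zpowers h) (hy : y ∈ Subgroup.zpowers h) {z : G}
    (hz : z = u * cu u x 1 * (cu u x 1 * u)⁻¹)
    (c1 : Commute z u) (c2 : Commute z x) (c3 : h * u * h⁻¹ ∈ Subgroup.closure (Set.range (cu u x)))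
    (c4 : y * u * y⁻¹ * (u * cu u x 1)⁻¹ ∈ Subgroup.closure (Set.range (cu z h)))
    (c5 : cu u x d ∈ Subgroup.closure (cu u x '' {i | i < d}) ⊔ Subgroup.closure (Set.range (cu z h)))
    (c6 : u ^ p ∈ Subgroup.closure (Set.range (cu z h)))
    (c7 : cu z h k ∈ Subgroup.closure (cu z h '' {i | i < k})) (c8 : h ^ N = 1) (c9 : z ^ p = 1) :
    Finite G ∧ Nat.card G ≤ p ^ d * p ^ k * N := by
  set V := Subgroup.closure (Set.range (cu u x)) with hV
  set Z := Subgroup.closure (Set.range (cu z h)) with hZ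
  have hcj : ∀ j, cu u x j ∈ V := fun j => Subgroup.subset_closure ⟨j, rfl⟩
  have huV : u ∈ V := Subgroup.subset_closure ⟨0, cu_zero u x⟩
  have hzV : z ∈ V := by
    rw [hz]; exact mul_mem (mul_mem huV (hcj 1)) (inv_mem (mul_mem (hcj 1) huV))
  have hzc : ∀ v ∈ V, Commute z v := by
    have h1 : V ≤ Subgroup.centralizer {z} := by
      rw [hV, Subgroup.closure_le]
      rintro _ ⟨i, rfl⟩
      rw [SetLike.mem_coe, Subgroup.mem_centralizer_singleton_iff]
      have h2 : Commute z (x ^ i) := c2.pow_right i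
      exact ((h2.mul_right c1).mul_right h2.inv_right).symm.eq
    intro v hv
    exact (Subgroup.mem_centralizer_singleton_iff.1 (h1 hv)).symm
  have hhx : Commute h x := by
    obtain ⟨m, rfl⟩ := hx
    exact (Commute.refl h).zpow_right m
  have hhy : Commute h y := by
    obtain ⟨m, rfl⟩ := hy
    exact (Commute.refl h).zpow_right m
  have hxy : Commute x y := by
    obtain ⟨m, rfl⟩ := hx
    exact hhy.zpow_left m
  have hxVj : ∀ j : ℕ, ∀ v ∈ V, x ^ j * v * (x ^ j)⁻¹ ∈ V := by
    intro j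
    apply conj_closure_le
    rintro _ ⟨i, rfl⟩
    rw [cu_add]; exact hcj _
  have hhV : ∀ v ∈ V, h * v * h⁻¹ ∈ V := by
    apply conj_closure_le
    rintro _ ⟨i, rfl⟩
    have e1 : h * x ^ i = x ^ i * h := (hhx.pow_right i).eq
    have e2 : (x ^ i)⁻¹ * h⁻¹ = h⁻¹ * (x ^ i)⁻¹ := by rw [← mul_inv_rev, e1, mul_inv_rev]
    have e3 : h * cu u x i * h⁻¹ = x ^ i * (h * u * h⁻¹) * (x ^ i)⁻¹ := by
      calc h * cu u x i * h⁻¹ = (h * x ^ i) * u * ((x ^ i)⁻¹ * h⁻¹) := by unfold cu; group
        _ = _ := by rw [e1, e2]; group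
    rw [e3]
    exact hxVj i _ c3
  apply card_core hp hd hk hN hgen hx c8 hzV hzc hhV c9 c7 c6 _ c5
  intro j _
  -- pass to the quotient by `Z`
  have hhVj : ∀ j : ℕ, ∀ v ∈ V, h ^ j * v * (h ^ j)⁻¹ ∈ V := by
    intro j
    induction j with
    | zero => intro v hv; simpa using hv
    | succ j ih =>
      intro v hv
      have := hhV _ (ih v hv)
      rw [pow_succ']
      have e : h * h ^ j * v * (h * h ^ j)⁻¹ = h * (h ^ j * v * (h ^ j)⁻¹) * h⁻¹ := by group
      rw [e]; exact this
  have hhVi : ∀ j : ℕ, ∀ v ∈ V, (h ^ j)⁻¹ * v * h ^ j ∈ V := by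
    intro j v hv
    have e : (h ^ j)⁻¹ = h ^ ((N - 1) * j) := by
      rw [inv_eq_iff_mul_eq_one, ← pow_add]
      have : j + (N - 1) * j = N * j := by
        obtain ⟨m, rfl⟩ : ∃ m, N = m + 1 := ⟨N - 1, by omega⟩
        simp; ring
      rw [this, pow_mul, c8, one_pow]
    have := hhVj ((N - 1) * j) v hv
    rw [← e, inv_inv] at this
    exact this
  have hZc : ∀ i, ∀ v ∈ V, Commute (cu z h i) v := by
    intro i v hv
    have h1 := (hzc _ (hhVi i v hv)).map (MulAut.conj (h ^ i))
    have e1 : (MulAut.conj (h ^ i)) z = cu z h i := rfl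
    have e2 : (MulAut.conj (h ^ i)) ((h ^ i)⁻¹ * v * h ^ i) = v := by
      rw [MulAut.conj_apply]; group
    rwa [e1, e2] at h1
  have hZV : Z ≤ V := by
    rw [hZ, Subgroup.closure_le]
    rintro _ ⟨i, rfl⟩
    exact hhVj i z hzV
  have hZk := closure_all hk c7
  obtain ⟨hZf, hZcard⟩ := card_abelian p hp k (cu z h) (fun i _ j _ => hZc i _ (hZV (Subgroup.subset_closure ⟨j, rfl⟩)))
    (fun i _ => by unfold cu; rw [conj_pow, c9]; group)
  rw [← hZk] at hZf hZcard
  have hZf' : Finite Z := hZf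
  have hhn : h ∈ Subgroup.normalizer (Z : Set G) := by
    apply mem_normalizer_of_le
    apply conj_closure_le
    rintro _ ⟨i, rfl⟩
    rw [cu_succ]
    exact Subgroup.subset_closure ⟨i + 1, rfl⟩
  have hun : u ∈ Subgroup.normalizer (Z : Set G) := by
    apply mem_normalizer_of_le
    apply conj_closure_le
    rintro _ ⟨i, rfl⟩
    rw [← (hZc i u huV).eq, mul_inv_cancel_right]
    exact Subgroup.subset_closure ⟨i, rfl⟩
  have hZn : Z.Normal := by
    rw [← Subgroup.normalizer_eq_top_iff, eq_top_iff, ← hgen, Subgroup.closure_le]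
    rintro _ (rfl | rfl)
    · exact hun
    · exact hhn
  let φ := QuotientGroup.mk' Z
  have hφ : ∀ g ∈ Z, φ g = 1 := fun g hg => (QuotientGroup.eq_one_iff g).2 hg
  have key := all_commute (u := φ u) (x := φ x) (y := φ y) (hxy.map φ) (by
    have h1 : z ∈ Z := Subgroup.subset_closure ⟨0, cu_zero z h⟩
    have h2 := hφ _ h1
    rw [hz, map_mul, map_inv, mul_inv_eq_one, map_mul, map_mul, map_cu'] at h2
    exact h2) (by
    have h2 := hφ _ c4
    rw [map_mul, map_inv, mul_inv_eq_one, map_mul, map_mul, map_inv, map_mul, map_cu'] at h2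
    exact h2) j
  rw [← QuotientGroup.eq_one_iff]
  change φ (u * cu u x j * (cu u x j * u)⁻¹) = 1
  rw [map_mul, map_inv, mul_inv_eq_one, map_mul, map_mul, map_cu']
  exact key

/-- relations of the second type -/
theorem card_typeII {u h : G} {p d k N : ℕ} (hp : 0 < p) (hd : 2 ≤ d) (hk : 0 < k) (hkd : k < d) (hN : 0 < N)
    (hgen : Subgroup.closure {u, h} = ⊤) {z : G} (hz : z = u * cu u h 1 * (cu u h 1 * u)⁻¹)
    (c1 : ∀ j < d, Commute z (cu u h j))
    (c2 : ∀ j < d, u * cu u h j * (cu u h j * u)⁻¹ ∈ Subgroup.closure (Set.range (cu z h)))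
    (c5 : cu u h d ∈ Subgroup.closure (cu u h '' {i | i < d}) ⊔ Subgroup.closure (cu z h '' {i | i < k}))
    (c6 : u ^ p ∈ Subgroup.closure (Set.range (cu z h)))
    (c7 : cu z h k ∈ Subgroup.closure (cu z h '' {i | i < k})) (c8 : h ^ N = 1) (c9 : z ^ p = 1) :
    Finite G ∧ Nat.card G ≤ p ^ d * p ^ k * N := by
  set V := Subgroup.closure (Set.range (cu u h)) with hV
  set Z := Subgroup.closure (Set.range (cu z h)) with hZ
  have hcj : ∀ j, cu u h j ∈ V := fun j => Subgroup.subset_closure ⟨j, rfl⟩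
  have huV : u ∈ V := Subgroup.subset_closure ⟨0, cu_zero u h⟩
  have hzV : z ∈ V := by
    rw [hz]; exact mul_mem (mul_mem huV (hcj 1)) (inv_mem (mul_mem (hcj 1) huV))
  have hZk := closure_all hk c7
  have hz1 : ∀ i, cu z h i = cu u h i * cu u h (i + 1) * (cu u h (i + 1) * cu u h i)⁻¹ := by
    intro i
    have e1 := (cu_add u h i 1).symm
    unfold cu at e1 ⊢
    rw [hz, e1]
    unfold cu
    group
  -- `C(z)`
  set C := Subgroup.centralizer {z} with hC
  have hCz : ∀ i < k, cu z h i ∈ C := by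
    intro i hi
    rw [hz1]
    have h1 : ∀ j < d, cu u h j ∈ C := fun j hj => Subgroup.mem_centralizer_singleton_iff.2 (c1 j hj).symm.eq
    have h2 := h1 i (by omega)
    have h3 := h1 (i + 1) (by omega)
    exact mul_mem (mul_mem h2 h3) (inv_mem (mul_mem h3 h2))
  have hZC : Z ≤ C := by
    rw [hZ, hZk, Subgroup.closure_le]
    rintro _ ⟨i, hi, rfl⟩
    exact hCz i hi
  have hall : ∀ j, cu u h j ∈ C := by
    intro j
    induction j using Nat.strong_induction_on with
    | _ j ih =>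
      rcases Nat.lt_or_ge j d with hj | hj
      · exact Subgroup.mem_centralizer_singleton_iff.2 (c1 j hj).symm.eq
      · obtain ⟨m, rfl⟩ : ∃ m, j = m + d := ⟨j - d, by omega⟩
        rw [← cu_add]
        have h1 : Subgroup.closure (cu u h '' {i | i < d}) ⊔ Subgroup.closure (cu z h '' {i | i < k}) ≤
            C.comap (MulAut.conj (h ^ m)).toMonoidHom := by
          apply sup_le
          · rw [Subgroup.closure_le]
            rintro _ ⟨i, hi, rfl⟩
            change h ^ m * cu u h i * (h ^ m)⁻¹ ∈ C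
            rw [cu_add]
            have hi' : i < d := hi
            exact ih _ (by omega)
          · rw [Subgroup.closure_le]
            rintro _ ⟨i, hi, rfl⟩
            change h ^ m * cu z h i * (h ^ m)⁻¹ ∈ C
            rw [cu_add]
            exact hZC (Subgroup.subset_closure ⟨_, rfl⟩)
        exact h1 c5
  have hzc : ∀ v ∈ V, Commute z v := by
    have h1 : V ≤ C := by
      rw [hV, Subgroup.closure_le]
      rintro _ ⟨i, rfl⟩
      exact hall i
    intro v hv
    exact (Subgroup.mem_centralizer_singleton_iff.1 (h1 hv)).symm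
  have hhV : ∀ v ∈ V, h * v * h⁻¹ ∈ V := by
    apply conj_closure_le
    rintro _ ⟨i, rfl⟩
    rw [cu_succ]; exact hcj _
  exact card_core hp (by omega) hk hN hgen (Subgroup.mem_zpowers h) c8 hzV hzc hhV c9 c7 c6 c2
    (by rw [hZk]; exact c5)

end H43.U3
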