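import Cfsg.Agent.Lib.H43.U3Adj

/-!
`SU_3(q)`: presentation with three generators.
-/
set_option autoImplicit false

namespace H43.U3

open Matrix H43.SU3 H43.Borel H49.Unitary H43.Tietze

universe u

section words
variable {G H : Type*} [Group G] [Group H]

/-- the commutator -/
def zz (u x : G) : G := u * cu u x 1 * (cu u x 1 * u)⁻¹

theorem map_zz (f : G →* H) (u x : G) : f (zz u x) = zz (f u) (f x) := by
  unfold zz; simp only [map_mul, map_inv, map_cu']

theorem map_clR (f : G →* H) (a b : G) :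
    (Subgroup.closure (Set.range (cu a b))).map f = Subgroup.closure (Set.range (cu (f a) (f b))) := by
  rw [MonoidHom.map_closure]
  congr 1
  ext y
  constructor
  · rintro ⟨_, ⟨i, rfl⟩, rfl⟩; exact ⟨i, (map_cu' f a b i).symm⟩
  · rintro ⟨i, rfl⟩; exact ⟨_, ⟨i, rfl⟩, map_cu' f a b i⟩

theorem map_clI (f : G →* H) (a b : G) (d : ℕ) :
    (Subgroup.closure (cu a b '' {i | i < d})).map f = Subgroup.closure (cu (f a) (f b) '' {i | i < d}) := by
  rw [MonoidHom.map_closure]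
  congr 1
  ext y
  constructor
  · rintro ⟨_, ⟨i, hi, rfl⟩, rfl⟩; exact ⟨i, hi, (map_cu' f a b i).symm⟩
  · rintro ⟨i, hi, rfl⟩; exact ⟨_, ⟨i, hi, rfl⟩, map_cu' f a b i⟩

/-- the value of a list of relators of the first type -/
def rlI (i b p d k N : ℕ) (W3 W4 W5 W6 W7 : G) (u h : G) : Fin 9 → G :=
  ![zz u (h ^ i) * u * (u * zz u (h ^ i))⁻¹, zz u (h ^ i) * h ^ i * (h ^ i * zz u (h ^ i))⁻¹, h * u * h⁻¹ * W3⁻¹,
    h ^ b * u * (h ^ b)⁻¹ * (u * cu u (h ^ i) 1)⁻¹ * W4⁻¹, cu u (h ^ i) d * W5⁻¹, u ^ p * W6⁻¹,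
    cu (zz u (h ^ i)) h k * W7⁻¹, h ^ N, zz u (h ^ i) ^ p]

theorem map_rlI (f : G →* H) (i b p d k N : ℕ) (W3 W4 W5 W6 W7 u h : G) (j : Fin 9) :
    f (rlI i b p d k N W3 W4 W5 W6 W7 u h j) = rlI i b p d k N (f W3) (f W4) (f W5) (f W6) (f W7) (f u) (f h) j := by
  fin_cases j <;> simp [rlI, map_zz, map_cu']

/-- small relators of the second type -/
def rlII (p d k N : ℕ) (WB : Fin d → G) (W5 W6 W7 : G) (u h : G) : (Fin d ⊕ Fin d) ⊕ Fin 5 → G :=
  Sum.elim (Sum.elim (fun j => zz u h * cu u h j * (cu u h j * zz u h)⁻¹)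
    (fun j => u * cu u h j * (cu u h j * u)⁻¹ * (WB j)⁻¹))
    ![cu u h d * W5⁻¹, u ^ p * W6⁻¹, cu (zz u h) h k * W7⁻¹, h ^ N, zz u h ^ p]

theorem map_rlII (f : G →* H) (p d k N : ℕ) (WB : Fin d → G) (W5 W6 W7 u h : G) (j : (Fin d ⊕ Fin d) ⊕ Fin 5) :
    f (rlII p d k N WB W5 W6 W7 u h j) = rlII p d k N (fun i => f (WB i)) (f W5) (f W6) (f W7) (f u) (f h) j := by
  rcases j with (j | j) | j
  · simp [rlII, map_zz, map_cu']
  · simp [rlII, map_cu']
  · fin_cases j <;> simp [rlII, map_zz, map_cu']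

theorem rlI_one {i b p d k N : ℕ} {u h : G} (h0 : zz u (h ^ i) * u = u * zz u (h ^ i))
    (h1 : zz u (h ^ i) * h ^ i = h ^ i * zz u (h ^ i)) (h7 : h ^ N = 1) (h8 : zz u (h ^ i) ^ p = 1) (j : Fin 9) :
    rlI i b p d k N (h * u * h⁻¹) (h ^ b * u * (h ^ b)⁻¹ * (u * cu u (h ^ i) 1)⁻¹) (cu u (h ^ i) d) (u ^ p)
      (cu (zz u (h ^ i)) h k) u h j = 1 := by
  fin_cases j
  · exact mul_inv_eq_one.2 h0
  · exact mul_inv_eq_one.2 h1
  · exact mul_inv_cancel _
  · exact mul_inv_cancel _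
  · exact mul_inv_cancel _
  · exact mul_inv_cancel _
  · exact mul_inv_cancel _
  · exact h7
  · exact h8

theorem rlII_one {p d k N : ℕ} {u h : G} (h0 : ∀ j, zz u h * cu u h j = cu u h j * zz u h)
    (h7 : h ^ N = 1) (h8 : zz u h ^ p = 1) (j : (Fin d ⊕ Fin d) ⊕ Fin 5) :
    rlII p d k N (fun j => u * cu u h j * (cu u h j * u)⁻¹) (cu u h d) (u ^ p) (cu (zz u h) h k) u h j = 1 := by
  rcases j with (j | j) | j
  · exact mul_inv_eq_one.2 (h0 _)
  · exact mul_inv_cancel _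
  · fin_cases j
    · exact mul_inv_cancel _
    · exact mul_inv_cancel _
    · exact mul_inv_cancel _
    · exact h7
    · exact h8

end words

variable {K : Type u} [Field K] [Fintype K] {q : ℕ}

section
variable {σ : K →+* K}

theorem wL_pow (hσ : ∀ x, σ (σ x) = x) {s r : K} (h : Cd σ s r) (m : ℕ) :
    ∃ r', Cd σ ((m : K) * s) r' ∧ wL σ s r ^ m = wL σ ((m : K) * s) r' := by
  induction m with
  | zero => exact ⟨0, by simpa using (Cd_zero (σ := σ)), by simp [wL_zero]⟩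
  | succ m ih =>
    obtain ⟨r', h1, h2⟩ := ih
    refine ⟨r' + r - σ ((m : K) * s) * s, ?_, ?_⟩
    · have := wL_mul_cond h1 h hσ
      have e : ((m + 1 : ℕ) : K) * s = (m : K) * s + s := by push_cast; ring
      unfold Cd; rw [e]; exact this
    · have e : ((m + 1 : ℕ) : K) * s = (m : K) * s + s := by push_cast; ring
      rw [pow_succ, h2, wL_mul, e]

theorem cu_hT' (hσ : ∀ x, σ (σ x) = x) {s r : K} (h : Cd σ s r) (t : Kˣ) (j : ℕ) :
    ∃ r', Cd σ (s * ((t : K) ^ 2 / σ t) ^ j) r' ∧ cu (wL σ s r) (hT σ t) j = wL σ (s * ((t : K) ^ 2 / σ t) ^ j) r' := by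
  have h1 := Cd_tor hσ h (t ^ j)
  have e : (((t ^ j : Kˣ) : K) ^ 2 / σ ((t ^ j : Kˣ) : K)) = ((t : K) ^ 2 / σ t) ^ j := by
    rw [Units.val_pow_eq_pow_val, map_pow, div_pow, ← pow_mul, ← pow_mul, mul_comm j 2]
  rw [e] at h1
  refine ⟨_, h1, ?_⟩
  unfold cu
  rw [← hT_pow, hT_wL hσ, e]

theorem wL0_pow (c : K) (m : ℕ) : wL σ 0 c ^ m = wL σ 0 ((m : K) * c) := by
  induction m with
  | zero => simp [wL_zero]
  | succ m ih => rw [pow_succ, ih, wL0_mul]; congr 1; push_cast; ring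

theorem wL_comm0 {s r c : K} : wL σ 0 c * wL σ s r = wL σ s r * wL σ 0 c := by
  rw [wL_mul, wL_mul]; congr 1
  · ring
  · rw [map_zero]; ring

end

set_option maxHeartbeats 1000000 in
theorem presI (hF : Fintype.card K = q ^ 2) (hK : Nat.card K = q ^ 2) (h2 : q ≠ 2) (h5 : q ≠ 5) (h8 : q ≠ 8) :
    HasPres (SJ (frob hK)) 3 13 := by
  obtain ⟨p, hpK⟩ := CharP.exists K
  have hp : p.Prime := (CharP.char_is_prime_or_zero K p).resolve_right (CharP.char_ne_zero_of_finite K p)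
  have : Fact p.Prime := ⟨hp⟩
  let _ := ZMod.algebra K p
  obtain ⟨ζ, hζ⟩ : ∃ ζ : Kˣ, ∀ t : Kˣ, t ∈ Subgroup.zpowers ζ := IsCyclic.exists_generator
  have hq := H7.QuadExt.one_lt_q hF
  set σ := frob hK with hσdef
  have hσ : ∀ x, σ (σ x) = x := frob_frob hK
  obtain ⟨θ, hθ⟩ := exists_theta hK
  set δ := θ - σ θ with hδdef
  have hδ : σ δ = -δ := by rw [hδdef, map_sub, hσ]; ring
  have hzn := ζ.ne_zero
  have hσz : σ (ζ : K) = (ζ : K) ^ q := frob_apply hK _
  have hordζ := ord_zeta hK hζ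
  have hζf : σ ζ ≠ ζ := by
    intro h
    rw [hσz] at h
    have h1 : ζ ^ (q - 1) = 1 := by
      apply Units.ext
      rw [Units.val_pow_eq_pow_val, Units.val_one]
      have h6 : (ζ : K) ^ (q - 1) * ζ = 1 * ζ := by
        rw [← pow_succ, Nat.sub_add_cancel (by omega), one_mul]; exact h
      exact mul_right_cancel₀ hzn h6
    have h3 := Nat.le_of_dvd (by omega) (orderOf_dvd_of_pow_eq_one h1)
    rw [hordζ] at h3
    have h4 : q * 2 ≤ q ^ 2 := by rw [sq]; exact Nat.mul_le_mul_left q (by omega)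
    omega
  have htr : Bf σ δ (ζ : K) + σ (Bf σ δ (ζ : K)) = -1 := Bf_trace hσ hθ hδ hζf
  set β := Bf σ δ (ζ : K) with hβdef
  have hcdu : Cd σ 1 β := by unfold Cd; rw [map_one]; linear_combination htr
  set gu := wL σ 1 β with hgu
  set gh := hT σ ζ with hgh
  -- the norm one element
  set w : Kˣ := ζ ^ (q - 1) with hw
  have hwv : (w : K) = (ζ : K) ^ (q - 1) := Units.val_pow_eq_pow_val _ _
  have hwz : (w : K) * ζ = σ ζ := by
    rw [hwv, ← pow_succ, Nat.sub_add_cancel (by omega), hσz]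
  have hwn : (w : K) * σ w = 1 := by
    have h1 : σ (w : K) * σ ζ = ζ := by rw [← map_mul, hwz, hσ]
    have h3 : σ (ζ : K) ≠ 0 := sp ζ
    apply mul_right_cancel₀ (mul_ne_zero hzn h3)
    calc (w : K) * σ w * ((ζ : K) * σ ζ) = ((w : K) * ζ) * (σ w * σ ζ) := by ring
      _ = _ := by rw [hwz, h1]; ring
  have hw0 := w.ne_zero
  have hσw : σ (w : K) = (w : K)⁻¹ := eq_inv_of_mul_eq_one_right hwn
  set e : K := (w : K) ^ 2 / σ w with he
  have he3 : e = ((ζ : K) ^ (q - 1)) ^ 3 := by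
    rw [he, hσw, ← hwv]; field_simp
  have hadj : Algebra.adjoin (ZMod p) {e} = ⊤ := by rw [he3]; exact adjoin_I hF hK hζ h2 h5 h8
  obtain ⟨d, hd, hKd, hco⟩ := H43.FieldGen.exists_coeffs hadj
  obtain ⟨k, hk, hqk, hcok⟩ := exists_fixed_coeffs hF hK hζ (p := p)
  have hσe : σ e ≠ e := by
    intro h
    have hsub : ∀ a : K, σ a = a := by
      intro a
      obtain ⟨g, hg⟩ := hco a
      rw [hg, map_sum]
      apply Finset.sum_congr rfl
      intro j _
      rw [map_mul, map_pow, h, map_natCast]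
    exact hθ (by rw [hδdef, hsub θ, sub_self])
  have hgx : gh ^ (q - 1) = hT σ w := by rw [hgh, ← hT_pow]
  have hzzv : zz gu (gh ^ (q - 1)) = wL σ 0 (σ e - e) := by
    rw [hgx]
    unfold zz
    obtain ⟨r', h1, h3⟩ := cu_hT' hσ hcdu w 1
    rw [h3, wL_comm, pow_one, one_mul, map_one, mul_one, one_mul]
  set c1 := σ e - e with hc1def
  have hc1 : c1 ≠ 0 := sub_ne_zero.2 hσe
  have hct : c1 + σ c1 = 0 := by rw [hc1def, map_sub, hσ]; ring
  -- the full unipotent group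
  have hfull0 : ∀ s r, Cd σ s r → wL σ s r ∈ Subgroup.closure (Set.range (cu gu (gh ^ (q - 1)))) := by
    intro s r hr
    refine unip_full hF hK hco (fun j => ?_) hr
    obtain ⟨r', h1, h3⟩ := cu_hT' hσ hcdu w j
    rw [one_mul] at h1 h3
    refine ⟨r', h1, ?_⟩
    change wL σ (e ^ j) r' ∈ _
    rw [← h3]
    refine Subgroup.subset_closure ⟨j, ?_⟩
    rw [hgx]
  have hfull : ∀ s r, Cd σ s r → wL σ s r ∈ Subgroup.closure (Set.range ![gu, gh]) := by
    intro s r hr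
    have h0 : gu ∈ Subgroup.closure (Set.range ![gu, gh]) := Subgroup.subset_closure ⟨0, rfl⟩
    have h1 : gh ∈ Subgroup.closure (Set.range ![gu, gh]) := Subgroup.subset_closure ⟨1, rfl⟩
    have h3 : Subgroup.closure (Set.range (cu gu (gh ^ (q - 1)))) ≤ Subgroup.closure (Set.range ![gu, gh]) := by
      rw [Subgroup.closure_le]
      rintro _ ⟨j, rfl⟩
      have hx := pow_mem (pow_mem h1 (q - 1)) j
      exact mul_mem (mul_mem hx h0) (inv_mem hx)
    exact h3 (hfull0 s r hr)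
  have hcen : ∀ c, c + σ c = 0 → wL σ 0 c ∈ Subgroup.closure (Set.range (cu (zz gu (gh ^ (q - 1))) gh)) := by
    intro c hc
    rw [hzzv]; exact center_mem hF hK hζ hc1 hct hc
  -- `1 + e`
  obtain ⟨b, hb⟩ : ∃ b : ℕ, ((ζ : K) ^ b) ^ 2 / σ ((ζ : K) ^ b) = 1 + e := by
    set T : K := (ζ : K) ^ 3 + σ ((ζ : K) ^ 3) with hT'
    have hσT : σ T = T := by rw [hT', map_add, hσ, add_comm]
    have h3 : σ (ζ : K) ≠ 0 := sp ζ
    have hwq : (w : K) = σ ζ / ζ := by rw [← hwz]; field_simp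
    have heT : 1 + e = T * ((ζ : K) ^ 3)⁻¹ := by
      rw [he3, ← hwv, hwq, hT', map_pow]; field_simp
    have hT0 : T ≠ 0 := by
      intro h
      rw [h, zero_mul] at heT
      apply hσe
      have : e = -1 := by linear_combination heT
      rw [this, map_neg, map_one]
    have ht0 : T * (ζ : K)⁻¹ * (ζ : K)⁻¹ * (σ (ζ : K))⁻¹ ≠ 0 :=
      mul_ne_zero (mul_ne_zero (mul_ne_zero hT0 (inv_ne_zero hzn)) (inv_ne_zero hzn)) (inv_ne_zero h3)
    obtain ⟨b, hb⟩ := exists_npow hζ (Units.mk0 _ ht0)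
    have hb' : (ζ : K) ^ b = T * (ζ : K)⁻¹ * (ζ : K)⁻¹ * (σ (ζ : K))⁻¹ := by
      have := congrArg Units.val hb
      rwa [Units.val_pow_eq_pow_val, Units.val_mk0] at this
    refine ⟨b, ?_⟩
    rw [hb', heT]
    simp only [map_mul, map_inv₀, hσ, hσT]
    field_simp
  -- memberships
  have m3 : gh * gu * gh⁻¹ ∈ Subgroup.closure (Set.range (cu gu (gh ^ (q - 1)))) := by
    rw [hgh, hgu, hT_wL hσ]; exact hfull0 _ _ (Cd_tor hσ hcdu ζ)
  have m4 : gh ^ b * gu * (gh ^ b)⁻¹ * (gu * cu gu (gh ^ (q - 1)) 1)⁻¹ ∈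
      Subgroup.closure (Set.range (cu (zz gu (gh ^ (q - 1))) gh)) := by
    obtain ⟨r', h1, h3⟩ := cu_hT' hσ hcdu w 1
    rw [one_mul, pow_one] at h1 h3
    change Cd σ e r' at h1
    change _ = wL σ e r' at h3
    have h4 := Cd_tor hσ hcdu (ζ ^ b)
    have e4 : (1 : K) * (((ζ ^ b : Kˣ) : K) ^ 2 / σ ((ζ ^ b : Kˣ) : K)) = 1 + e := by
      rw [one_mul, Units.val_pow_eq_pow_val, hb]
    rw [e4] at h4
    have e5 : gh ^ b * gu * (gh ^ b)⁻¹ = wL σ (1 + e) (β * (((ζ ^ b : Kˣ) : K) * σ ((ζ ^ b : Kˣ) : K))) := by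
      rw [hgh, ← hT_pow, hgu, hT_wL hσ, e4]
    have h6 := wL_mul_cond hcdu h1 hσ
    have e7 : gh ^ b * gu * (gh ^ b)⁻¹ * (gu * cu gu (gh ^ (q - 1)) 1)⁻¹ =
        wL σ 0 (β * (((ζ ^ b : Kˣ) : K) * σ ((ζ ^ b : Kˣ) : K)) - (β + r' - σ 1 * e)) := by
      rw [e5, hgx, h3, hgu, wL_mul, wL_div h4 h6]
    rw [e7]
    apply hcen
    rw [map_sub]
    unfold Cd at h4
    linear_combination h4 - h6
  have m5 : cu gu (gh ^ (q - 1)) d ∈ Subgroup.closure (cu gu (gh ^ (q - 1)) '' {i | i < d}) ⊔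
      Subgroup.closure (Set.range (cu (zz gu (gh ^ (q - 1))) gh)) := by
    obtain ⟨r', h1, h3⟩ := cu_hT' hσ hcdu w d
    rw [one_mul] at h1 h3
    change Cd σ (e ^ d) r' at h1
    change _ = wL σ (e ^ d) r' at h3
    obtain ⟨g, hg⟩ := hco (e ^ d)
    rw [hgx, h3]
    rw [hg] at h1 ⊢
    apply full_of hσ (fun c hc => Subgroup.mem_sup_right (by rw [← hgx]; exact hcen c hc)) _ g h1
    intro j hj
    obtain ⟨r'', h1', h3'⟩ := cu_hT' hσ hcdu w j
    rw [one_mul] at h1' h3'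
    refine ⟨r'', h1', Subgroup.mem_sup_left (Subgroup.subset_closure ⟨j, hj, h3'⟩)⟩
  have hpz : (p : K) = 0 := CharP.cast_eq_zero K p
  have m6 : gu ^ p ∈ Subgroup.closure (Set.range (cu (zz gu (gh ^ (q - 1))) gh)) := by
    obtain ⟨r', h1, h3⟩ := wL_pow hσ hcdu p
    rw [hpz, zero_mul] at h1 h3
    have e7 : gu ^ p = wL σ 0 r' := by rw [hgu, h3]
    rw [e7]
    apply hcen
    unfold Cd at h1
    simpa using h1
  have m7 : cu (zz gu (gh ^ (q - 1))) gh k ∈ Subgroup.closure (cu (zz gu (gh ^ (q - 1))) gh '' {i | i < k}) := by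
    rw [hzzv]; exact center_minpoly hF hK hcok _
  -- words
  set U : FreeGroup (Fin 2) := FreeGroup.of 0 with hU
  set H : FreeGroup (Fin 2) := FreeGroup.of 1 with hH
  let f : FreeGroup (Fin 2) →* Matrix.SpecialLinearGroup (Fin 3) K := FreeGroup.lift ![gu, gh]
  have fU : f U = gu := by change FreeGroup.lift ![gu, gh] (FreeGroup.of 0) = gu; rw [FreeGroup.lift_apply_of]; rfl
  have fH : f H = gh := by change FreeGroup.lift ![gu, gh] (FreeGroup.of 1) = gh; rw [FreeGroup.lift_apply_of]; rfl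
  have fX : f (H ^ (q - 1)) = gh ^ (q - 1) := by rw [map_pow, fH]
  have fZ : f (zz U (H ^ (q - 1))) = zz gu (gh ^ (q - 1)) := by rw [map_zz, fU, fX]
  obtain ⟨W3, w3, e3⟩ : gh * gu * gh⁻¹ ∈ (Subgroup.closure (Set.range (cu U (H ^ (q - 1))))).map f := by
    rw [map_clR, fU, fX]; exact m3
  obtain ⟨W4, w4, e4⟩ : gh ^ b * gu * (gh ^ b)⁻¹ * (gu * cu gu (gh ^ (q - 1)) 1)⁻¹ ∈
      (Subgroup.closure (Set.range (cu (zz U (H ^ (q - 1))) H))).map f := by
    rw [map_clR, fZ, fH]; exact m4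
  obtain ⟨W5, w5, e5⟩ : cu gu (gh ^ (q - 1)) d ∈ (Subgroup.closure (cu U (H ^ (q - 1)) '' {i | i < d}) ⊔
      Subgroup.closure (Set.range (cu (zz U (H ^ (q - 1))) H))).map f := by
    rw [Subgroup.map_sup, map_clR, map_clI, fU, fX, fZ, fH]; exact m5
  obtain ⟨W6, w6, e6⟩ : gu ^ p ∈ (Subgroup.closure (Set.range (cu (zz U (H ^ (q - 1))) H))).map f := by
    rw [map_clR, fZ, fH]; exact m6
  obtain ⟨W7, w7, e7⟩ : cu (zz gu (gh ^ (q - 1))) gh k ∈ (Subgroup.closure (cu (zz U (H ^ (q - 1))) H '' {i | i < k})).map f := by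
    rw [map_clI, fZ, fH]; exact m7
  have key := main_pres hF hK hζ hθ hδ hζf hc1 hct hfull
    (RB := rlI (q - 1) b p d k (q ^ 2 - 1) W3 W4 W5 W6 W7 U H) (by
      intro j
      change f _ = 1
      rw [map_rlI, e3, e4, e5, e6, e7, fU, fH]
      apply rlI_one
      · rw [hzzv]; exact wL_comm0
      · rw [hzzv, hgx]
        have h1 := hT_wL hσ w 0 c1
        rw [zero_mul, hwn, mul_one, mul_inv_eq_iff_eq_mul] at h1
        exact h1.symm
      · rw [hgh, ← hT_pow, ← hordζ, pow_orderOf_eq_one, hT_one]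
      · rw [hzzv, wL0_pow, hpz, zero_mul, wL_zero]) (by
      intro G _ u h hgen hrel
      have hq2 : q ^ 2 = p ^ d := by rw [← hKd, hF]
      have hN : 0 < q ^ 2 - 1 := by
        have : 2 ^ 2 ≤ q ^ 2 := Nat.pow_le_pow_left (by omega) 2
        omega
      let fG : FreeGroup (Fin 2) →* G := FreeGroup.lift ![u, h]
      have gU : fG U = u := by change FreeGroup.lift ![u, h] (FreeGroup.of 0) = u; rw [FreeGroup.lift_apply_of]; rfl
      have gH : fG H = h := by change FreeGroup.lift ![u, h] (FreeGroup.of 1) = h; rw [FreeGroup.lift_apply_of]; rfl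
      have gX : fG (H ^ (q - 1)) = h ^ (q - 1) := by rw [map_pow, gH]
      have gZ : fG (zz U (H ^ (q - 1))) = zz u (h ^ (q - 1)) := by rw [map_zz, gU, gX]
      have hrel' : ∀ j, rlI (q - 1) b p d k (q ^ 2 - 1) (fG W3) (fG W4) (fG W5) (fG W6) (fG W7) u h j = 1 := by
        intro j
        have := hrel j
        change fG _ = 1 at this
        rwa [map_rlI, gU, gH] at this
      have v3 : fG W3 ∈ Subgroup.closure (Set.range (cu u (h ^ (q - 1)))) := by
        have := Subgroup.mem_map_of_mem fG w3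
        rwa [map_clR, gU, gX] at this
      have v4 : fG W4 ∈ Subgroup.closure (Set.range (cu (zz u (h ^ (q - 1))) h)) := by
        have := Subgroup.mem_map_of_mem fG w4
        rwa [map_clR, gZ, gH] at this
      have v5 : fG W5 ∈ Subgroup.closure (cu u (h ^ (q - 1)) '' {i | i < d}) ⊔
          Subgroup.closure (Set.range (cu (zz u (h ^ (q - 1))) h)) := by
        have := Subgroup.mem_map_of_mem fG w5
        rwa [Subgroup.map_sup, map_clR, map_clI, gU, gX, gZ, gH] at this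
      have v6 : fG W6 ∈ Subgroup.closure (Set.range (cu (zz u (h ^ (q - 1))) h)) := by
        have := Subgroup.mem_map_of_mem fG w6
        rwa [map_clR, gZ, gH] at this
      have v7 : fG W7 ∈ Subgroup.closure (cu (zz u (h ^ (q - 1))) h '' {i | i < k}) := by
        have := Subgroup.mem_map_of_mem fG w7
        rwa [map_clI, gZ, gH] at this
      have hb := card_typeI (u := u) (h := h) (x := h ^ (q - 1)) (y := h ^ b) (p := p) (d := d) (k := k) (N := q ^ 2 - 1)
        hp.pos hd hk hN hgen (Subgroup.npow_mem_zpowers h _) (Subgroup.npow_mem_zpowers h _) (z := zz u (h ^ (q - 1))) rfl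
        (mul_inv_eq_one.1 (hrel' 0)) (mul_inv_eq_one.1 (hrel' 1))
        (by rw [mul_inv_eq_one.1 (hrel' 2)]; exact v3)
        (by rw [mul_inv_eq_one.1 (hrel' 3)]; exact v4)
        (by rw [mul_inv_eq_one.1 (hrel' 4)]; exact v5)
        (by rw [mul_inv_eq_one.1 (hrel' 5)]; exact v6)
        (by rw [mul_inv_eq_one.1 (hrel' 6)]; exact v7) (hrel' 7) (hrel' 8)
      rw [← hq2, ← hqk] at hb
      exact hb)
  rw [Nat.card_eq_fintype_card, Fintype.card_fin] at key
  exact key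

set_option maxHeartbeats 1000000 in
theorem presII (hF : Fintype.card K = q ^ 2) (hK : Nat.card K = q ^ 2) (h3 : 3 ≤ q) {d0 : ℕ}
    (hd0 : ∀ p d : ℕ, p.Prime → q ^ 2 = p ^ d → d ≤ d0) :
    HasPres (SJ (frob hK)) 3 (2 * d0 + 9) := by
  obtain ⟨p, hpK⟩ := CharP.exists K
  have hp : p.Prime := (CharP.char_is_prime_or_zero K p).resolve_right (CharP.char_ne_zero_of_finite K p)
  have : Fact p.Prime := ⟨hp⟩
  let _ := ZMod.algebra K p
  obtain ⟨ζ, hζ⟩ : ∃ ζ : Kˣ, ∀ t : Kˣ, t ∈ Subgroup.zpowers ζ := IsCyclic.exists_generator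
  have hq := H7.QuadExt.one_lt_q hF
  set σ := frob hK with hσdef
  have hσ : ∀ x, σ (σ x) = x := frob_frob hK
  obtain ⟨θ, hθ⟩ := exists_theta hK
  set δ := θ - σ θ with hδdef
  have hδ : σ δ = -δ := by rw [hδdef, map_sub, hσ]; ring
  have hzn := ζ.ne_zero
  have hσz : σ (ζ : K) = (ζ : K) ^ q := frob_apply hK _
  have hordζ := ord_zeta hK hζ
  have hζf : σ ζ ≠ ζ := by
    intro h
    rw [hσz] at h
    have h1 : ζ ^ (q - 1) = 1 := by
      apply Units.ext
      rw [Units.val_pow_eq_pow_val, Units.val_one]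
      have h6 : (ζ : K) ^ (q - 1) * ζ = 1 * ζ := by
        rw [← pow_succ, Nat.sub_add_cancel (by omega), one_mul]; exact h
      exact mul_right_cancel₀ hzn h6
    have h3 := Nat.le_of_dvd (by omega) (orderOf_dvd_of_pow_eq_one h1)
    rw [hordζ] at h3
    have h4 : q * 2 ≤ q ^ 2 := by rw [sq]; exact Nat.mul_le_mul_left q (by omega)
    omega
  have htr : Bf σ δ (ζ : K) + σ (Bf σ δ (ζ : K)) = -1 := Bf_trace hσ hθ hδ hζf
  set β := Bf σ δ (ζ : K) with hβdef
  have hcdu : Cd σ 1 β := by unfold Cd; rw [map_one]; linear_combination htr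
  set gu := wL σ 1 β with hgu
  set gh := hT σ ζ with hgh
  set e : K := (ζ : K) ^ 2 / σ ζ with he
  have hadj : Algebra.adjoin (ZMod p) {e} = ⊤ := adjoin_II hF hK hζ h3
  obtain ⟨d, hd, hKd, hco⟩ := H43.FieldGen.exists_coeffs hadj
  obtain ⟨k, hk, hqk, hcok⟩ := exists_fixed_coeffs hF hK hζ (p := p)
  have hq2 : q ^ 2 = p ^ d := by rw [← hKd, hF]
  have hdk : d = k * 2 := by
    rw [hqk, ← pow_mul] at hq2
    exact (Nat.pow_right_injective hp.two_le hq2).symm
  have hdd0 : d ≤ d0 := hd0 p d hp hq2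
  have hσe : σ e ≠ e := by
    intro h
    have hsub : ∀ a : K, σ a = a := by
      intro a
      obtain ⟨g, hg⟩ := hco a
      rw [hg, map_sum]
      apply Finset.sum_congr rfl
      intro j _
      rw [map_mul, map_pow, h, map_natCast]
    exact hθ (by rw [hδdef, hsub θ, sub_self])
  have hzzv : zz gu gh = wL σ 0 (σ e - e) := by
    unfold zz
    obtain ⟨r', h1, h3⟩ := cu_hT' hσ hcdu ζ 1
    rw [h3, wL_comm, pow_one, one_mul, map_one, mul_one, one_mul]
  set c1 := σ e - e with hc1def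
  have hc1 : c1 ≠ 0 := sub_ne_zero.2 hσe
  have hct : c1 + σ c1 = 0 := by rw [hc1def, map_sub, hσ]; ring
  -- the full unipotent group
  have hfull0 : ∀ s r, Cd σ s r → wL σ s r ∈ Subgroup.closure (Set.range (cu gu gh)) := by
    intro s r hr
    refine unip_full hF hK hco (fun j => ?_) hr
    obtain ⟨r', h1, h3⟩ := cu_hT' hσ hcdu ζ j
    rw [one_mul] at h1 h3
    refine ⟨r', h1, ?_⟩
    change wL σ (e ^ j) r' ∈ _
    rw [← h3]
    exact Subgroup.subset_closure ⟨j, rfl⟩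
  have hfull : ∀ s r, Cd σ s r → wL σ s r ∈ Subgroup.closure (Set.range ![gu, gh]) := by
    intro s r hr
    have h0 : gu ∈ Subgroup.closure (Set.range ![gu, gh]) := Subgroup.subset_closure ⟨0, rfl⟩
    have h1 : gh ∈ Subgroup.closure (Set.range ![gu, gh]) := Subgroup.subset_closure ⟨1, rfl⟩
    have h3 : Subgroup.closure (Set.range (cu gu gh)) ≤ Subgroup.closure (Set.range ![gu, gh]) := by
      rw [Subgroup.closure_le]
      rintro _ ⟨j, rfl⟩
      have hx := pow_mem h1 j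
      exact mul_mem (mul_mem hx h0) (inv_mem hx)
    exact h3 (hfull0 s r hr)
  have hcen : ∀ c, c + σ c = 0 → wL σ 0 c ∈ Subgroup.closure (Set.range (cu (zz gu gh) gh)) := by
    intro c hc
    rw [hzzv]; exact center_mem hF hK hζ hc1 hct hc
  have m7 : cu (zz gu gh) gh k ∈ Subgroup.closure (cu (zz gu gh) gh '' {i | i < k}) := by
    rw [hzzv]; exact center_minpoly hF hK hcok _
  have hcenk : ∀ c, c + σ c = 0 → wL σ 0 c ∈ Subgroup.closure (cu (zz gu gh) gh '' {i | i < k}) := by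
    intro c hc
    rw [← closure_all hk m7]; exact hcen c hc
  have m5 : cu gu gh d ∈ Subgroup.closure (cu gu gh '' {i | i < d}) ⊔ Subgroup.closure (cu (zz gu gh) gh '' {i | i < k}) := by
    obtain ⟨r', h1, h3⟩ := cu_hT' hσ hcdu ζ d
    rw [one_mul] at h1 h3
    change Cd σ (e ^ d) r' at h1
    change _ = wL σ (e ^ d) r' at h3
    obtain ⟨g, hg⟩ := hco (e ^ d)
    rw [h3]
    rw [hg] at h1 ⊢
    apply full_of hσ (fun c hc => Subgroup.mem_sup_right (hcenk c hc)) _ g h1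
    intro j hj
    obtain ⟨r'', h1', h3'⟩ := cu_hT' hσ hcdu ζ j
    rw [one_mul] at h1' h3'
    refine ⟨r'', h1', Subgroup.mem_sup_left (Subgroup.subset_closure ⟨j, hj, h3'⟩)⟩
  have mB : ∀ j, gu * cu gu gh j * (cu gu gh j * gu)⁻¹ ∈ Subgroup.closure (Set.range (cu (zz gu gh) gh)) := by
    intro j
    obtain ⟨r', h1, h3⟩ := cu_hT' hσ hcdu ζ j
    have e7 : gu * cu gu gh j * (cu gu gh j * gu)⁻¹ = wL σ 0 (σ (1 * e ^ j) * 1 - σ 1 * (1 * e ^ j)) := by
      rw [h3, hgu, wL_comm]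
    rw [e7]
    apply hcen
    simp only [map_sub, map_mul, hσ]; ring
  have hpz : (p : K) = 0 := CharP.cast_eq_zero K p
  have m6 : gu ^ p ∈ Subgroup.closure (Set.range (cu (zz gu gh) gh)) := by
    obtain ⟨r', h1, h3⟩ := wL_pow hσ hcdu p
    rw [hpz, zero_mul] at h1 h3
    have e7 : gu ^ p = wL σ 0 r' := by rw [hgu, h3]
    rw [e7]
    apply hcen
    unfold Cd at h1
    simpa using h1
  -- words
  set U : FreeGroup (Fin 2) := FreeGroup.of 0 with hU
  set H : FreeGroup (Fin 2) := FreeGroup.of 1 with hH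
  let f : FreeGroup (Fin 2) →* Matrix.SpecialLinearGroup (Fin 3) K := FreeGroup.lift ![gu, gh]
  have fU : f U = gu := by change FreeGroup.lift ![gu, gh] (FreeGroup.of 0) = gu; rw [FreeGroup.lift_apply_of]; rfl
  have fH : f H = gh := by change FreeGroup.lift ![gu, gh] (FreeGroup.of 1) = gh; rw [FreeGroup.lift_apply_of]; rfl
  have fZ : f (zz U H) = zz gu gh := by rw [map_zz, fU, fH]
  have hWB : ∀ j : Fin d, ∃ W ∈ Subgroup.closure (Set.range (cu (zz U H) H)), f W = gu * cu gu gh j * (cu gu gh j * gu)⁻¹ := by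
    intro j
    have : gu * cu gu gh j * (cu gu gh j * gu)⁻¹ ∈ (Subgroup.closure (Set.range (cu (zz U H) H))).map f := by
      rw [map_clR, fZ, fH]; exact mB j
    exact this
  choose WB wB eB using hWB
  obtain ⟨W5, w5, e5⟩ : cu gu gh d ∈ (Subgroup.closure (cu U H '' {i | i < d}) ⊔
      Subgroup.closure (cu (zz U H) H '' {i | i < k})).map f := by
    rw [Subgroup.map_sup, map_clI, map_clI, fU, fZ, fH]; exact m5
  obtain ⟨W6, w6, e6⟩ : gu ^ p ∈ (Subgroup.closure (Set.range (cu (zz U H) H))).map f := by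
    rw [map_clR, fZ, fH]; exact m6
  obtain ⟨W7, w7, e7⟩ : cu (zz gu gh) gh k ∈ (Subgroup.closure (cu (zz U H) H '' {i | i < k})).map f := by
    rw [map_clI, fZ, fH]; exact m7
  have key := main_pres hF hK hζ hθ hδ hζf hc1 hct hfull
    (RB := rlII p d k (q ^ 2 - 1) WB W5 W6 W7 U H) (by
      intro j
      change f _ = 1
      rw [map_rlII, e5, e6, e7, fU, fH]
      have eB' : (fun i => f (WB i)) = fun j : Fin d => gu * cu gu gh j * (cu gu gh j * gu)⁻¹ := funext eB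
      rw [eB']
      apply rlII_one
      · intro j
        obtain ⟨r', h1, h3⟩ := cu_hT' hσ hcdu ζ j
        rw [hzzv, h3]; exact wL_comm0
      · rw [hgh, ← hT_pow, ← hordζ, pow_orderOf_eq_one, hT_one]
      · rw [hzzv, wL0_pow, hpz, zero_mul, wL_zero]) (by
      intro G _ u h hgen hrel
      have hN : 0 < q ^ 2 - 1 := by
        have : 2 ^ 2 ≤ q ^ 2 := Nat.pow_le_pow_left (by omega) 2
        omega
      let fG : FreeGroup (Fin 2) →* G := FreeGroup.lift ![u, h]
      have gU : fG U = u := by change FreeGroup.lift ![u, h] (FreeGroup.of 0) = u; rw [FreeGroup.lift_apply_of]; rfl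
      have gH : fG H = h := by change FreeGroup.lift ![u, h] (FreeGroup.of 1) = h; rw [FreeGroup.lift_apply_of]; rfl
      have gZ : fG (zz U H) = zz u h := by rw [map_zz, gU, gH]
      have hrel' : ∀ j, rlII p d k (q ^ 2 - 1) (fun i => fG (WB i)) (fG W5) (fG W6) (fG W7) u h j = 1 := by
        intro j
        have := hrel j
        change fG _ = 1 at this
        rwa [map_rlII, gU, gH] at this
      have vB : ∀ j, fG (WB j) ∈ Subgroup.closure (Set.range (cu (zz u h) h)) := by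
        intro j
        have := Subgroup.mem_map_of_mem fG (wB j)
        rwa [map_clR, gZ, gH] at this
      have v5 : fG W5 ∈ Subgroup.closure (cu u h '' {i | i < d}) ⊔ Subgroup.closure (cu (zz u h) h '' {i | i < k}) := by
        have := Subgroup.mem_map_of_mem fG w5
        rwa [Subgroup.map_sup, map_clI, map_clI, gU, gZ, gH] at this
      have v6 : fG W6 ∈ Subgroup.closure (Set.range (cu (zz u h) h)) := by
        have := Subgroup.mem_map_of_mem fG w6
        rwa [map_clR, gZ, gH] at this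
      have v7 : fG W7 ∈ Subgroup.closure (cu (zz u h) h '' {i | i < k}) := by
        have := Subgroup.mem_map_of_mem fG w7
        rwa [map_clI, gZ, gH] at this
      have hb := card_typeII (u := u) (h := h) (p := p) (d := d) (k := k) (N := q ^ 2 - 1)
        hp.pos (by omega) hk (by omega) hN hgen (z := zz u h) rfl
        (fun j hj => mul_inv_eq_one.1 (hrel' (Sum.inl (Sum.inl ⟨j, hj⟩))))
        (fun j hj => by
          have := mul_inv_eq_one.1 (hrel' (Sum.inl (Sum.inr ⟨j, hj⟩)))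
          change u * cu u h j * (cu u h j * u)⁻¹ = _ at this
          rw [this]; exact vB _)
        (by rw [mul_inv_eq_one.1 (hrel' (Sum.inr 0))]; exact v5)
        (by rw [mul_inv_eq_one.1 (hrel' (Sum.inr 1))]; exact v6)
        (by rw [mul_inv_eq_one.1 (hrel' (Sum.inr 2))]; exact v7) (hrel' (Sum.inr 3)) (hrel' (Sum.inr 4))
      rw [← hq2, ← hqk] at hb
      exact hb)
  refine key.mono ?_
  rw [Nat.card_eq_fintype_card, Fintype.card_sum, Fintype.card_sum, Fintype.card_fin, Fintype.card_fin]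
  omega

end H43.U3
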