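import Cfsg.Agent.Lib.H43.U3Mat
import Cfsg.Agent.Lib.H43.U3Bor
import Cfsg.Agent.Lib.H43.FieldGen

/-!
`SU_3(q)`: generation statements in the concrete group.
-/
set_option autoImplicit false

namespace H43.U3

open Matrix H43.SU3 H43.Borel H49.Unitary

section general
variable {K : Type*} [Field K] {σ : K →+* K}

theorem wL0_mul (c c' : K) : wL σ 0 c * wL σ 0 c' = wL σ 0 (c + c') := by
  rw [wL_mul]; congr 1 <;> simp

theorem wL_mul_z (s r c : K) : wL σ s r * wL σ 0 c = wL σ s (r + c) := by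
  rw [wL_mul]; congr 1 <;> simp

theorem wL_div {s r r' : K} (h : r + σ r + s * σ s = 0) (h' : r' + σ r' + s * σ s = 0) :
    wL σ s r * (wL σ s r')⁻¹ = wL σ 0 (r - r') := by
  rw [mul_inv_eq_iff_eq_mul, wL_mul]
  congr 1
  · ring
  · rw [map_zero]; ring

theorem wL_comm {s r s' r' : K} : wL σ s r * wL σ s' r' * (wL σ s' r' * wL σ s r)⁻¹ = wL σ 0 (σ s' * s - σ s * s') := by
  rw [mul_inv_eq_iff_eq_mul, wL_mul, wL_mul, wL_mul]
  congr 1
  · ring
  · rw [map_zero]; ring

theorem wL_mul_cond {s r s' r' : K} (h : r + σ r + s * σ s = 0) (h' : r' + σ r' + s' * σ s' = 0)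
    (hσ : ∀ x, σ (σ x) = x) :
    (r + r' - σ s * s') + σ (r + r' - σ s * s') + (s + s') * σ (s + s') = 0 := by
  simp only [map_add, map_sub, map_mul, hσ]
  linear_combination h + h'

/-- subgroups containing the centre and lifts of the summands -/
theorem full_of (hσ : ∀ x, σ (σ x) = x) {H : Subgroup (Matrix.SpecialLinearGroup (Fin 3) K)}
    (hz : ∀ c, c + σ c = 0 → wL σ 0 c ∈ H) {f : ℕ → K} {d : ℕ}
    (hf : ∀ j < d, ∃ r, r + σ r + f j * σ (f j) = 0 ∧ wL σ (f j) r ∈ H) (g : ℕ → ℕ) {r : K}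
    (hr : r + σ r + (∑ j ∈ Finset.range d, (g j : K) * f j) * σ (∑ j ∈ Finset.range d, (g j : K) * f j) = 0) :
    wL σ (∑ j ∈ Finset.range d, (g j : K) * f j) r ∈ H := by
  let P : K → Prop := fun s => ∃ r, r + σ r + s * σ s = 0 ∧ wL σ s r ∈ H
  have hadd : ∀ s s', P s → P s' → P (s + s') := by
    rintro s s' ⟨r, h1, h2⟩ ⟨r', h1', h2'⟩
    refine ⟨r + r' - σ s * s', wL_mul_cond h1 h1' hσ, ?_⟩
    rw [← wL_mul]; exact mul_mem h2 h2'
  have h0 : P 0 := ⟨0, by simp, by rw [wL_zero]; exact one_mem _⟩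
  have hn : ∀ (m : ℕ) s, P s → P ((m : K) * s) := by
    intro m s hs
    induction m with
    | zero => simpa using h0
    | succ m ih =>
      have : ((m + 1 : ℕ) : K) * s = (m : K) * s + s := by push_cast; ring
      rw [this]; exact hadd _ _ ih hs
  have hall : ∀ d' ≤ d, P (∑ j ∈ Finset.range d', (g j : K) * f j) := by
    intro d' hd'
    induction d' with
    | zero => simpa using h0
    | succ m ih =>
      rw [Finset.sum_range_succ]
      exact hadd _ _ (ih (by omega)) (hn _ _ (hf m (by omega)))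
  obtain ⟨r', h1, h2⟩ := hall d le_rfl
  have : wL σ (∑ j ∈ Finset.range d, (g j : K) * f j) r =
      wL σ (∑ j ∈ Finset.range d, (g j : K) * f j) r' * wL σ 0 (r - r') := by
    rw [wL_mul_z]; congr 1; ring
  rw [this]
  refine mul_mem h2 (hz _ ?_)
  rw [map_sub]
  linear_combination hr - h1

theorem wL0_sum {H : Subgroup (Matrix.SpecialLinearGroup (Fin 3) K)} {f : ℕ → K} {d : ℕ}
    (hf : ∀ j < d, wL σ 0 (f j) ∈ H) (g : ℕ → ℕ) : wL σ 0 (∑ j ∈ Finset.range d, (g j : K) * f j) ∈ H := by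
  have h0 : wL σ 0 (0 : K) ∈ H := by rw [wL_zero]; exact one_mem _
  have hn : ∀ (m : ℕ) c, wL σ 0 c ∈ H → wL σ 0 ((m : K) * c) ∈ H := by
    intro m c hc
    induction m with
    | zero => simpa using h0
    | succ m ih =>
      have : ((m + 1 : ℕ) : K) * c = (m : K) * c + c := by push_cast; ring
      rw [this, ← wL0_mul]; exact mul_mem ih hc
  have hall : ∀ d' ≤ d, wL σ 0 (∑ j ∈ Finset.range d', (g j : K) * f j) ∈ H := by
    intro d' hd'
    induction d' with
    | zero => simpa using h0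
    | succ m ih =>
      rw [Finset.sum_range_succ, ← wL0_mul]
      exact mul_mem (ih (by omega)) (hn _ _ (hf m (by omega)))
  exact hall d le_rfl

theorem cu_hT (hσ : ∀ x, σ (σ x) = x) (s r : K) (t : Kˣ) (j : ℕ) :
    cu (wL σ s r) (hT σ t) j = wL σ (s * ((t : K) ^ 2 / σ t) ^ j) (r * (t * σ t) ^ j) := by
  unfold cu
  rw [← hT_pow, hT_wL hσ]
  simp only [Units.val_pow_eq_pow_val, map_pow]
  congr 1
  · rw [div_pow, ← pow_mul, ← pow_mul, mul_comm j 2]
  · rw [mul_pow]

end general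

section fin
variable {K : Type*} [Field K] [Fintype K] {q : ℕ}

theorem exists_npow {ζ : Kˣ} (hζ : ∀ t : Kˣ, t ∈ Subgroup.zpowers ζ) (t : Kˣ) : ∃ m : ℕ, ζ ^ m = t := by
  have := (mem_powers_iff_mem_zpowers).2 (hζ t)
  exact this

theorem trace_zero_mul (hK : Nat.card K = q ^ 2) {c c0 : K} (h0 : c0 ≠ 0) (hc0 : c0 + frob hK c0 = 0) (hc : c + frob hK c = 0) :
    frob hK (c / c0) = c / c0 := by
  have h1 : frob hK c = -c := by linear_combination hc
  have h2 : frob hK c0 = -c0 := by linear_combination hc0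
  rw [map_div₀, h1, h2, neg_div_neg_eq]

theorem exists_fixed_pow (hF : Fintype.card K = q ^ 2) (hK : Nat.card K = q ^ 2) {ζ : Kˣ}
    (hζ : ∀ t : Kˣ, t ∈ Subgroup.zpowers ζ) {a : K} (ha : a ≠ 0) (hfa : frob hK a = a) :
    ∃ j : ℕ, a = ((ζ : K) * frob hK ζ) ^ j := by
  obtain ⟨s, hs⟩ := (sig_frob hF hK).norm a hfa
  have hs0 : s ≠ 0 := by rintro rfl; apply ha; rw [← hs, zero_mul]
  obtain ⟨j, hj⟩ := exists_npow hζ (Units.mk0 s hs0)
  refine ⟨j, ?_⟩
  have : (ζ : K) ^ j = s := by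
    have := congrArg Units.val hj
    simpa using this
  rw [mul_pow, ← map_pow, this, hs]

/-- the fixed field has `p ^ k` elements with the norm of `ζ` as generator -/
theorem exists_fixed_coeffs (hF : Fintype.card K = q ^ 2) (hK : Nat.card K = q ^ 2) {ζ : Kˣ}
    (hζ : ∀ t : Kˣ, t ∈ Subgroup.zpowers ζ) {p : ℕ} [hp : Fact p.Prime] [Algebra (ZMod p) K] :
    ∃ k : ℕ, 0 < k ∧ q = p ^ k ∧ ∀ a : K, frob hK a = a → ∃ g : ℕ → ℕ,
      a = ∑ j ∈ Finset.range k, (g j : K) * ((ζ : K) * frob hK ζ) ^ j := by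
  classical
  let F0 : Subfield K := RingHom.eqLocusField (frob hK) (RingHom.id K)
  have hmem : ∀ a, a ∈ F0 ↔ frob hK a = a := fun a => Iff.rfl
  have hF0 : Fintype F0 := Fintype.ofFinite F0
  have hcK : CharP K p := charP_of_injective_algebraMap (algebraMap (ZMod p) K).injective p
  have hcF : CharP F0 p := (RingHom.charP_iff (F0.subtype) F0.subtype.injective p).2 hcK
  let _ := ZMod.algebra F0 p
  have hρ : frob hK ((ζ : K) * frob hK ζ) = (ζ : K) * frob hK ζ := by
    rw [map_mul, frob_frob, mul_comm]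
  let ρ : F0 := ⟨(ζ : K) * frob hK ζ, hρ⟩
  have htop : Algebra.adjoin (ZMod p) {ρ} = ⊤ := by
    rw [eq_top_iff]
    rintro a -
    by_cases ha : a = 0
    · rw [ha]; exact Subalgebra.zero_mem _
    · obtain ⟨j, hj⟩ := exists_fixed_pow hF hK hζ (a := (a : K)) (fun h => ha (Subtype.ext h)) a.2
      have : a = ρ ^ j := Subtype.ext hj
      rw [this]
      exact Subalgebra.pow_mem _ (Algebra.subset_adjoin (Set.mem_singleton _)) j
  obtain ⟨k, hk, hcard, hco⟩ := H43.FieldGen.exists_coeffs htop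
  refine ⟨k, hk, ?_, ?_⟩
  · rw [← hcard, ← Nat.card_eq_fintype_card, ← H7.QuadExt.card_fixed hF]
    rfl
  · intro a ha
    obtain ⟨g, hg⟩ := hco ⟨a, ha⟩
    refine ⟨g, ?_⟩
    have := congrArg Subtype.val hg
    push_cast at this
    exact this

/-- the centre -/
theorem center_mem (hF : Fintype.card K = q ^ 2) (hK : Nat.card K = q ^ 2) {ζ : Kˣ}
    (hζ : ∀ t : Kˣ, t ∈ Subgroup.zpowers ζ) {c1 : K} (h1 : c1 ≠ 0) (ht : c1 + frob hK c1 = 0) {c : K}
    (hc : c + frob hK c = 0) : wL (frob hK) 0 c ∈ Subgroup.closure (Set.range (cu (wL (frob hK) 0 c1) (hT (frob hK) ζ))) := by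
  by_cases h0 : c = 0
  · rw [h0, wL_zero]; exact one_mem _
  · obtain ⟨j, hj⟩ := exists_fixed_pow hF hK hζ (div_ne_zero h0 h1) (trace_zero_mul hK h1 ht hc)
    refine Subgroup.subset_closure ⟨j, ?_⟩
    rw [cu_hT (frob_frob hK), zero_mul, ← hj, mul_div_cancel₀ _ h1]

theorem center_minpoly (hF : Fintype.card K = q ^ 2) (hK : Nat.card K = q ^ 2) {ζ : Kˣ} {k : ℕ}
    (hco : ∀ a : K, frob hK a = a → ∃ g : ℕ → ℕ, a = ∑ j ∈ Finset.range k, (g j : K) * ((ζ : K) * frob hK ζ) ^ j)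
    (c1 : K) : cu (wL (frob hK) 0 c1) (hT (frob hK) ζ) k ∈
      Subgroup.closure (cu (wL (frob hK) 0 c1) (hT (frob hK) ζ) '' {i | i < k}) := by
  have hρ : frob hK (((ζ : K) * frob hK ζ) ^ k) = ((ζ : K) * frob hK ζ) ^ k := by
    rw [map_pow, map_mul, frob_frob, mul_comm]
  obtain ⟨g, hg⟩ := hco _ hρ
  rw [cu_hT (frob_frob hK), zero_mul, hg, Finset.mul_sum]
  have : ∑ j ∈ Finset.range k, c1 * ((g j : K) * ((ζ : K) * frob hK ζ) ^ j) =
      ∑ j ∈ Finset.range k, (g j : K) * (c1 * ((ζ : K) * frob hK ζ) ^ j) := by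
    apply Finset.sum_congr rfl; intro j _; ring
  rw [this]
  apply wL0_sum
  intro j hj
  refine Subgroup.subset_closure ⟨j, hj, ?_⟩
  rw [cu_hT (frob_frob hK), zero_mul]

/-- the full unipotent group from an additively generating set -/
theorem unip_full (hF : Fintype.card K = q ^ 2) (hK : Nat.card K = q ^ 2) {H : Subgroup (Matrix.SpecialLinearGroup (Fin 3) K)}
    {x : K} {d : ℕ} (hco : ∀ a : K, ∃ g : ℕ → ℕ, a = ∑ j ∈ Finset.range d, (g j : K) * x ^ j)
    (hf : ∀ j, ∃ r, r + frob hK r + x ^ j * frob hK (x ^ j) = 0 ∧ wL (frob hK) (x ^ j) r ∈ H) {s r : K}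
    (hr : r + frob hK r + s * frob hK s = 0) : wL (frob hK) s r ∈ H := by
  have hσ := sig_frob hF hK
  let P : K → Prop := fun s => ∃ r, r + frob hK r + s * frob hK s = 0 ∧ wL (frob hK) s r ∈ H
  have hadd : ∀ s s', P s → P s' → P (s + s') := by
    rintro s s' ⟨r, h1, h2⟩ ⟨r', h1', h2'⟩
    refine ⟨r + r' - frob hK s * s', wL_mul_cond h1 h1' hσ.inv, ?_⟩
    rw [← wL_mul]; exact mul_mem h2 h2'
  have h0 : P 0 := ⟨0, by simp, by rw [wL_zero]; exact one_mem _⟩
  have hn : ∀ (m : ℕ) s, P s → P ((m : K) * s) := by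
    intro m s hs
    induction m with
    | zero => simpa using h0
    | succ m ih =>
      have : ((m + 1 : ℕ) : K) * s = (m : K) * s + s := by push_cast; ring
      rw [this]; exact hadd _ _ ih hs
  have hP : ∀ s, P s := by
    intro s
    obtain ⟨g, hg⟩ := hco s
    have hall : ∀ d' ≤ d, P (∑ j ∈ Finset.range d', (g j : K) * x ^ j) := by
      intro d' hd'
      induction d' with
      | zero => simpa using h0
      | succ m ih =>
        rw [Finset.sum_range_succ]
        exact hadd _ _ (ih (by omega)) (hn _ _ (hf m))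
    rw [hg]; exact hall d le_rfl
  have hz : ∀ c, c + frob hK c = 0 → wL (frob hK) 0 c ∈ H := by
    intro c hc
    obtain ⟨θ, hθ⟩ := exists_theta hK
    have ht : (θ - frob hK θ) + frob hK (θ - frob hK θ) = 0 := by rw [map_sub, frob_frob]; ring
    have hfix := trace_zero_mul hK hθ ht hc
    set a := c / (θ - frob hK θ) with ha
    obtain ⟨r1, -, h1⟩ := hP (θ * a)
    obtain ⟨r2, -, h2⟩ := hP 1
    have := mul_mem (mul_mem h1 h2) (inv_mem (mul_mem h2 h1))
    rw [wL_comm] at this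
    have e : frob hK 1 * (θ * a) - frob hK (θ * a) * 1 = c := by
      rw [map_one, map_mul, hfix, ha]; field_simp
    rwa [e] at this
  obtain ⟨r', h1, h2⟩ := hP s
  have : wL (frob hK) s r = wL (frob hK) s r' * wL (frob hK) 0 (r - r') := by
    rw [wL_mul_z]; congr 1; ring
  rw [this]
  refine mul_mem h2 (hz _ ?_)
  rw [map_sub]
  linear_combination hr - h1

/-- the order of the Borel subgroup -/
theorem card_borel_ge (hF : Fintype.card K = q ^ 2) (hK : Nat.card K = q ^ 2)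
    {H : Subgroup (Matrix.SpecialLinearGroup (Fin 3) K)}
    (hH : ∀ s r, r + frob hK r + s * frob hK s = 0 → wL (frob hK) s r ∈ H) (hH' : ∀ t, hT (frob hK) t ∈ H) :
    q ^ 2 * q * (q ^ 2 - 1) ≤ Nat.card H := by
  classical
  have hσ := sig_frob hF hK
  have hr0 : ∀ s : K, ∃ r, r + frob hK r + s * frob hK s = 0 := by
    intro s
    obtain ⟨x, hx⟩ := H7.QuadExt.exists_trace_eq hF (c := -(s * frob hK s)) (by
      rw [← frob_apply hK, map_neg, map_mul, frob_frob, mul_comm])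
    exact ⟨x, by rw [frob_apply hK x, hx]; ring⟩
  choose r0 hr0 using hr0
  obtain ⟨θ, hθ⟩ := exists_theta hK
  set δ := θ - frob hK θ with hδ
  have hδt : δ + frob hK δ = 0 := by rw [hδ, map_sub, frob_frob]; ring
  have hcond : ∀ (s a : K), frob hK a = a → (r0 s + a * δ) + frob hK (r0 s + a * δ) + s * frob hK s = 0 := by
    intro s a ha
    rw [map_add, map_mul, ha]
    linear_combination hr0 s + a * hδt
  let f : K × {a : K // a ^ q = a} × Kˣ → H := fun y =>
    ⟨wL (frob hK) y.1 (r0 y.1 + y.2.1 * δ) * hT (frob hK) y.2.2, mul_mem (hH _ _ (hcond _ _ y.2.1.2)) (hH' _)⟩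
  have hf : Function.Injective f := by
    rintro ⟨s, a, t⟩ ⟨s', a', t'⟩ h
    have h1 := congrArg Subtype.val h
    obtain ⟨e1, e2, e3⟩ := wL_hT_inj h1
    dsimp only at e1 e2 e3
    subst e1
    have e4 : (a : K) = a' := by
      have : (a : K) * δ = a' * δ := by linear_combination e2
      exact mul_right_cancel₀ hθ this
    rw [Subtype.ext e4, e3]
  have hHf : Finite H := Subtype.finite
  have h1 := Nat.card_le_card_of_injective f hf
  have hq := H7.QuadExt.one_lt_q hF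
  have h2 : Nat.card Kˣ = q ^ 2 - 1 := by rw [Nat.card_units, hK]
  rw [Nat.card_prod, Nat.card_prod, H7.QuadExt.card_fixed hF, hK, h2, ← mul_assoc] at h1
  exact h1

end fin

end H43.U3
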