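import Cfsg.Agent.Lib.H43.U3Rk

/-!
`SU_3(q)`: all elements are good.
-/
set_option autoImplicit false

namespace H43.U3

open Matrix H43.SU3 H43.Borel H49.Unitary

section
variable {K : Type*} [Field K] {σ : K →+* K} {P : Type*} [Group P] {φ : Matrix.SpecialLinearGroup (Fin 3) K → P} {n : P}

/-- all elements with invariant `β` are good -/
def FG (σ : K →+* K) (φ : Matrix.SpecialLinearGroup (Fin 3) K → P) (n : P) (β : K) : Prop :=
  ∀ s : K, s ≠ 0 → Good σ φ n (wL σ s (β * (s * σ s)))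

theorem Cd_beta (hσ : ∀ x, σ (σ x) = x) {β : K} (hβ : β + σ β = -1) (s : K) : Cd σ s (β * (s * σ s)) := by
  unfold Cd
  simp only [map_mul, hσ]
  linear_combination (s * σ s) * hβ

theorem ne_of_trace {β : K} (hβ : β + σ β = -1) : β ≠ 0 := by
  rintro rfl
  rw [map_zero, add_zero] at hβ
  exact one_ne_zero (neg_eq_zero.1 hβ.symm)

theorem good_tau (R : RK σ φ n) (hσ : ∀ x, σ (σ x) = x) {β : K} (hβ : β + σ β = -1) {s : K}
    (h : Good σ φ n (wL σ s (β * (s * σ s)))) {t : K} (ht : t ≠ 0) :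
    Good σ φ n (wL σ (s * (t ^ 2 / σ t)) (β * ((s * (t ^ 2 / σ t)) * σ (s * (t ^ 2 / σ t))))) := by
  have h1 := h.tor R hσ (Cd_beta hσ hβ s) (Units.mk0 t ht)
  have h2 : σ t ≠ 0 := (map_ne_zero σ).2 ht
  have e : β * (s * σ s) * (t * σ t) = β * ((s * (t ^ 2 / σ t)) * σ (s * (t ^ 2 / σ t))) := by
    simp only [map_mul, map_div₀, map_pow, hσ]
    field_simp
  rw [Units.val_mk0, e] at h1
  exact h1

theorem good_beta (R : RK σ φ n) (hσ : ∀ x, σ (σ x) = x) {β : K} (hβ : β + σ β = -1) {s : K} (hs : s ≠ 0)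
    (h : Good σ φ n (wL σ s (β * (s * σ s)))) :
    Good σ φ n (wL σ (s / β) (β * ((s / β) * σ (s / β)))) := by
  have hβ0 := ne_of_trace hβ
  have hβ1 : σ β ≠ 0 := (map_ne_zero σ).2 hβ0
  have hs1 : σ s ≠ 0 := (map_ne_zero σ).2 hs
  have hr : β * (s * σ s) ≠ 0 := mul_ne_zero hβ0 (mul_ne_zero hs hs1)
  have hc := Cd_beta hσ hβ s
  have h1 := h.wone R hσ hr hc
  have hN : s * σ s ≠ 0 := mul_ne_zero hs hs1
  have hc' : Cd σ (s / (β * (s * σ s))) (1 / σ (β * (s * σ s))) := by
    have := Cd_wone hσ hr hc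
    unfold Cd at *
    simp only [map_div₀, map_neg, map_one, hσ] at this ⊢
    linear_combination this
  have h2 := h1.tor R hσ hc' (Units.mk0 (s * σ s) hN)
  rw [Units.val_mk0] at h2
  have e1 : s / (β * (s * σ s)) * ((s * σ s) ^ 2 / σ (s * σ s)) = s / β := by
    simp only [map_mul, hσ]
    field_simp
  have e2 : 1 / σ (β * (s * σ s)) * (s * σ s * σ (s * σ s)) = β * ((s / β) * σ (s / β)) := by
    simp only [map_mul, map_div₀, hσ]
    field_simp
  rw [e1, e2] at h2
  exact h2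

theorem FG.conj (R : RK σ φ n) (hσ : ∀ x, σ (σ x) = x) {β : K} (hβ : β + σ β = -1) (h : FG σ φ n β) : FG σ φ n (σ β) := by
  intro s hs
  have h1 := (h (-s) (neg_ne_zero.2 hs)).inv R hσ (Cd_beta hσ hβ _)
  have e : σ (β * (-s * σ (-s))) = σ β * (s * σ s) := by
    simp only [map_mul, map_neg, hσ]; ring
  rwa [neg_neg, e] at h1

variable (σ) in
/-- representatives with trace `-1` -/
def Bf (δ a : K) : K := -(a * δ) / (a * δ + σ (a * δ))

theorem Bf_eq {δ a β f : K} (hf : σ f = f) (h : β = f * (a * δ)) (hβ : β + σ β = -1) : Bf σ δ a = β := by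
  have h1 : f * (a * δ + σ (a * δ)) = -1 := by
    rw [h, map_mul, hf] at hβ
    linear_combination hβ
  have h2 : a * δ + σ (a * δ) ≠ 0 := by
    intro h0; rw [h0, mul_zero] at h1; exact one_ne_zero (neg_eq_zero.1 h1.symm)
  unfold Bf
  rw [div_eq_iff h2, h]
  linear_combination (-(a * δ)) * h1

theorem tr_ne {δ a : K} (hδ0 : δ ≠ 0) (hδ : σ δ = -δ) (ha : σ a ≠ a) : a * δ + σ (a * δ) ≠ 0 := by
  intro h
  rw [map_mul, hδ] at h
  apply ha
  have : δ * (σ a - a) = 0 := by linear_combination -h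
  rcases mul_eq_zero.1 this with h1 | h1
  · exact absurd h1 hδ0
  · exact sub_eq_zero.1 h1

theorem Bf_trace (hσ : ∀ x, σ (σ x) = x) {δ a : K} (hδ0 : δ ≠ 0) (hδ : σ δ = -δ) (ha : σ a ≠ a) :
    Bf σ δ a + σ (Bf σ δ a) = -1 := by
  have h1 := tr_ne hδ0 hδ ha
  unfold Bf
  have e : σ (a * δ + σ (a * δ)) = a * δ + σ (a * δ) := by rw [map_add, hσ, add_comm]
  rw [map_div₀, e, map_neg, ← add_div, div_eq_iff h1]
  ring

/-- fixed multiple form -/
theorem Bf_form (hσ : ∀ x, σ (σ x) = x) (δ a : K) : ∃ f, σ f = f ∧ Bf σ δ a = f * (a * δ) := by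
  refine ⟨-(a * δ + σ (a * δ))⁻¹, ?_, ?_⟩
  · rw [map_neg, map_inv₀, map_add, hσ, add_comm]
  · unfold Bf; ring

/-- the goodness predicate on classes -/
def SP (σ : K →+* K) (φ : Matrix.SpecialLinearGroup (Fin 3) K → P) (n : P) (δ a : K) : Prop := σ a = a ∨ FG σ φ n (Bf σ δ a)

theorem SP_div (R : RK σ φ n) (hσ : ∀ x, σ (σ x) = x) {δ : K} (hδ0 : δ ≠ 0) (hδ : σ δ = -δ)
    (hz : ∀ c, c ≠ 0 → c + σ c = 0 → Good σ φ n (wL σ 0 c)) {a0 a1 : K} (h0 : a0 ≠ 0) (h1 : a1 ≠ 0)
    (H0 : SP σ φ n δ a0) (H1 : SP σ φ n δ a1) : SP σ φ n δ (a1 / a0) := by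
  by_cases f0 : σ a0 = a0
  · by_cases f1 : σ a1 = a1
    · left; rw [map_div₀, f0, f1]
    · right
      have H1' : FG σ φ n (Bf σ δ a1) := H1.resolve_left f1
      obtain ⟨f, hf, e⟩ := Bf_form hσ δ a1
      have : Bf σ δ (a1 / a0) = Bf σ δ a1 := by
        apply Bf_eq (f := f * a0) (by rw [map_mul, hf, f0]) _ (Bf_trace hσ hδ0 hδ f1)
        rw [e]; field_simp
      rwa [this]
  · have H0' : FG σ φ n (Bf σ δ a0) := H0.resolve_left f0
    obtain ⟨g0, hg0, e0⟩ := Bf_form hσ δ a0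
    have t0 := Bf_trace hσ hδ0 hδ f0
    have sa0 : σ a0 ≠ 0 := (map_ne_zero σ).2 h0
    by_cases f1 : σ a1 = a1
    · right
      have H2 := H0'.conj R hσ t0
      have : Bf σ δ (a1 / a0) = σ (Bf σ δ a0) := by
        apply Bf_eq (f := -(g0 * (a0 * σ a0) / a1)) _ _ (by rw [hσ, add_comm]; exact t0)
        · simp only [map_neg, map_div₀, map_mul, hg0, hσ, f1]; ring
        · rw [e0]; simp only [map_mul, hg0, hδ]; field_simp
      rwa [this]
    · have H1' : FG σ φ n (Bf σ δ a1) := H1.resolve_left f1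
      obtain ⟨g1, hg1, e1⟩ := Bf_form hσ δ a1
      have t1 := Bf_trace hσ hδ0 hδ f1
      set β0 := Bf σ δ a0 with hβ0
      set β1 := Bf σ δ a1 with hβ1
      have z0 := ne_of_trace t0
      have z1 := ne_of_trace t1
      have sz0 : σ β0 ≠ 0 := (map_ne_zero σ).2 z0
      have sz1 : σ β1 ≠ 0 := (map_ne_zero σ).2 z1
      have g0n : g0 ≠ 0 := by rintro rfl; rw [zero_mul] at e0; exact z0 e0
      have g1n : g1 ≠ 0 := by rintro rfl; rw [zero_mul] at e1; exact z1 e1
      by_cases hβ : β0 = β1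
      · left
        have : a1 / a0 = g0 / g1 := by
          rw [div_eq_div_iff h0 g1n]
          apply mul_right_cancel₀ hδ0
          linear_combination e0 - e1 - hβ
        rw [this, map_div₀, hg0, hg1]
      · right
        have hc0 : β1 - β0 ≠ 0 := sub_ne_zero.2 (Ne.symm hβ)
        have hct : (β1 - β0) + σ (β1 - β0) = 0 := by rw [map_sub]; linear_combination t1 - t0
        have hsc : σ (β1 - β0) = -(β1 - β0) := by linear_combination hct
        have hfix : σ ((β1 - β0) / δ) = (β1 - β0) / δ := by rw [map_div₀, hsc, hδ, neg_div_neg_eq]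
        have hβ2 : Bf σ δ (a1 / a0) = σ β0 * β1 / (β1 - β0) := by
          apply Bf_eq (f := -(g0 * g1 * (a0 * σ a0) / ((β1 - β0) / δ)))
          · simp only [map_neg, map_div₀ σ (g0 * g1 * (a0 * σ a0)), hfix, map_mul, hg0, hg1, hσ]; ring
          · have h5 : σ β0 = -(g0 * (σ a0 * δ)) := by rw [e0]; simp only [map_mul, hg0, hδ]; ring
            rw [h5]
            nth_rw 1 [e1]
            field_simp
          · rw [map_div₀, hsc, map_mul, hσ]
            have h6 : σ β0 = -1 - β0 := by linear_combination t0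
            have h7 : σ β1 = -1 - β1 := by linear_combination t1
            rw [h6, h7]
            field_simp
            ring
        rw [hβ2]
        intro s' hs'
        have ss' : σ s' ≠ 0 := (map_ne_zero σ).2 hs'
        set s := -(1 / (β0 * σ s')) with hs
        have hs0 : s ≠ 0 := neg_ne_zero.2 (one_div_ne_zero (mul_ne_zero z0 ss'))
        have hss : σ s = -(1 / (σ β0 * s')) := by rw [hs, map_neg, map_div₀, map_mul, hσ, map_one]
        have hN : s * σ s ≠ 0 := mul_ne_zero hs0 ((map_ne_zero σ).2 hs0)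
        have hr : β0 * (s * σ s) ≠ 0 := mul_ne_zero z0 hN
        have hc : (β1 - β0) * (s * σ s) ≠ 0 := mul_ne_zero hc0 hN
        have hsum : β0 * (s * σ s) + (β1 - β0) * (s * σ s) = β1 * (s * σ s) := by ring
        have hcd : Cd σ 0 ((β1 - β0) * (s * σ s)) := by
          unfold Cd
          rw [map_mul, map_mul, hσ, hsc]; ring
        have key := Good.rule R hσ (s := s) (r := β0 * (s * σ s)) (c := (β1 - β0) * (s * σ s)) hr hc
          (by rw [hsum]; exact mul_ne_zero z1 hN) (Cd_beta hσ t0 s) hcd (H0' s hs0) (hz _ hc (by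
            unfold Cd at hcd; simpa using hcd)) (by rw [hsum]; exact H1' s hs0)
        have k1 : -s / σ (β0 * (s * σ s)) = s' := by
          rw [map_mul, map_mul, hσ, hss, hs]
          field_simp
        have k2 : 1 / (β0 * (s * σ s)) + 1 / ((β1 - β0) * (s * σ s)) = σ β0 * β1 / (β1 - β0) * (s' * σ s') := by
          rw [hss, hs]
          field_simp
          ring
        rw [k1, k2] at key
        exact key

end

section fin
variable {K : Type*} [Field K] [Fintype K] {q : ℕ} {P : Type*} [Group P] {φ : Matrix.SpecialLinearGroup (Fin 3) K → P} {n : P}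

/-- everything is good -/
theorem all_good (hF : Fintype.card K = q ^ 2) (hK : Nat.card K = q ^ 2) (R : RK (frob hK) φ n) {ζ : Kˣ}
    (hζ : ∀ t : Kˣ, t ∈ Subgroup.zpowers ζ) {δ : K} (hδ0 : δ ≠ 0) (hδ : frob hK δ = -δ) (hζf : frob hK ζ ≠ ζ)
    (hu : Good (frob hK) φ n (wL (frob hK) 1 (Bf (frob hK) δ ζ))) {c1 : K} (hc1 : c1 ≠ 0) (hct : c1 + frob hK c1 = 0)
    (hz : Good (frob hK) φ n (wL (frob hK) 0 c1)) :
    ∀ s r, Cd (frob hK) s r → r ≠ 0 → Good (frob hK) φ n (wL (frob hK) s r) := by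
  set σ := frob hK with hσdef
  have hσ : ∀ x, σ (σ x) = x := frob_frob hK
  have hz' : ∀ c, c ≠ 0 → c + σ c = 0 → Good σ φ n (wL σ 0 c) := by
    intro c hc0 hc
    obtain ⟨y, hy⟩ := (sig_frob hF hK).norm (c / c1) (trace_zero_mul hK hc1 hct hc)
    have hy0 : y ≠ 0 := by
      rintro rfl
      rw [zero_mul] at hy
      exact div_ne_zero hc0 hc1 hy.symm
    have := hz.tor R hσ (by unfold Cd; simpa using hct) (Units.mk0 y hy0)
    rw [Units.val_mk0, zero_mul, hy, mul_div_cancel₀ _ hc1] at this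
    exact this
  -- the first class
  have hB := Bf_trace hσ hδ0 hδ hζf
  have hFG : FG σ φ n (Bf σ δ ζ) := by
    obtain ⟨f, hf, e⟩ := Bf_form hσ δ (ζ : K)
    set β := Bf σ δ (ζ : K) with hβ
    have hβ0 := ne_of_trace hB
    have hf0 : f ≠ 0 := by rintro rfl; rw [zero_mul] at e; exact hβ0 e
    have hz0 := ζ.ne_zero
    have step : ∀ s : K, s ≠ 0 → Good σ φ n (wL σ s (β * (s * σ s))) → Good σ φ n (wL σ (s / ζ) (β * ((s / ζ) * σ (s / ζ)))) := by
      intro s hs h
      have h1 := good_beta R hσ hB hs h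
      have h2 := good_tau R hσ hB h1 hf0
      have h3 := good_tau R hσ hB h2 (neg_ne_zero.2 hδ0)
      have e1 : s / β * (f ^ 2 / σ f) * ((-δ) ^ 2 / σ (-δ)) = s / ζ := by
        rw [hf, map_neg, hδ, neg_neg, e]
        field_simp
      rw [e1] at h3
      exact h3
    have hall : ∀ m : ℕ, Good σ φ n (wL σ (1 / (ζ : K) ^ m) (β * ((1 / (ζ : K) ^ m) * σ (1 / (ζ : K) ^ m)))) := by
      intro m
      induction m with
      | zero =>
        have e : β * ((1 / (ζ : K) ^ 0) * σ (1 / (ζ : K) ^ 0)) = β := by simp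
        rw [e]
        have e2 : (1 / (ζ : K) ^ 0) = 1 := by simp
        rw [e2]; exact hu
      | succ m ih =>
        have := step _ (one_div_ne_zero (pow_ne_zero _ hz0)) ih
        rw [div_div, ← pow_succ] at this
        exact this
    intro s hs
    obtain ⟨m, hm⟩ := exists_npow hζ (Units.mk0 s hs)⁻¹
    have e3 : s = 1 / (ζ : K) ^ m := by
      have := congrArg Units.val hm
      rw [Units.val_pow_eq_pow_val, Units.val_inv_eq_inv_val, Units.val_mk0] at this
      rw [this, one_div, inv_inv]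
    rw [e3]; exact hall m
  have hSζ : SP σ φ n δ ζ := Or.inr hFG
  have hS1 : SP σ φ n δ 1 := Or.inl (map_one σ)
  have hSinv : SP σ φ n δ (1 / ζ) := SP_div R hσ hδ0 hδ hz' ζ.ne_zero one_ne_zero hSζ hS1
  have hSm : ∀ m : ℕ, SP σ φ n δ ((ζ : K) ^ m) := by
    intro m
    induction m with
    | zero => rw [pow_zero]; exact hS1
    | succ m ih =>
      have := SP_div R hσ hδ0 hδ hz' (one_div_ne_zero ζ.ne_zero) (pow_ne_zero m ζ.ne_zero) hSinv ih
      rw [div_div_eq_mul_div, div_one, ← pow_succ] at this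
      exact this
  intro s r hc hr
  by_cases hs : s = 0
  · subst hs
    exact hz' r hr (by unfold Cd at hc; simpa using hc)
  · have hs1 : σ s ≠ 0 := (map_ne_zero σ).2 hs
    have hN : s * σ s ≠ 0 := mul_ne_zero hs hs1
    set β := r / (s * σ s) with hβ
    have hβt : β + σ β = -1 := by
      rw [hβ, map_div₀, map_mul, hσ]
      unfold Cd at hc
      field_simp
      linear_combination hc
    have hβ0 := ne_of_trace hβt
    obtain ⟨m, hm⟩ := exists_npow hζ (Units.mk0 (β / δ) (div_ne_zero hβ0 hδ0))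
    have hm' : (ζ : K) ^ m = β / δ := by
      have := congrArg Units.val hm
      rwa [Units.val_pow_eq_pow_val, Units.val_mk0] at this
    have hB' : Bf σ δ ((ζ : K) ^ m) = β := by
      apply Bf_eq (f := 1) (map_one σ) _ hβt
      rw [hm']; field_simp
    have hnf : σ ((ζ : K) ^ m) ≠ (ζ : K) ^ m := by
      intro h
      rw [hm', map_div₀, hδ] at h
      have : σ β = -β := by
        have h1 : σ β / -δ * (-δ) = β / δ * (-δ) := by rw [h]
        rw [div_mul_cancel₀ _ (neg_ne_zero.2 hδ0)] at h1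
        rw [h1]; field_simp
      rw [this, add_neg_cancel] at hβt
      exact one_ne_zero (neg_eq_zero.1 hβt.symm)
    have hFGβ := (hSm m).resolve_left hnf
    rw [hB'] at hFGβ
    have := hFGβ s hs
    rwa [hβ, div_mul_cancel₀ _ hN] at this

/-- the two-cell decomposition and injectivity -/
theorem inj_of_good (hK : Nat.card K = q ^ 2) (R : RK (frob hK) φ n)
    (hg : ∀ s r, Cd (frob hK) s r → r ≠ 0 → Good (frob hK) φ n (wL (frob hK) s r))
    (π : P →* Matrix.SpecialLinearGroup (Fin 3) K) (hπ : ∀ b, InB (frob hK) b → π (φ b) = b) (hπn : π n = n3 K)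
    (hgen : Subgroup.closure ({g | ∃ b, InB (frob hK) b ∧ g = φ b} ∪ {n}) = ⊤) : Function.Injective π := by
  set σ := frob hK with hσdef
  have hσ : ∀ x, σ (σ x) = x := frob_frob hK
  have h0 : ∀ s r, Cd σ s r → r = 0 → s = 0 := by
    intro s r hc hr
    unfold Cd at hc
    rw [hr, map_zero, add_zero, zero_add] at hc
    rcases mul_eq_zero.1 hc with h | h
    · exact h
    · exact (map_eq_zero σ).1 h
  have key : ∀ g : P, (∃ b, InB σ b ∧ g = φ b) ∨ (∃ b b', InB σ b ∧ InB σ b' ∧ g = φ b * n * φ b') := by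
    have hl : ∀ b, InB σ b → ∀ g : P, ((∃ b, InB σ b ∧ g = φ b) ∨ (∃ b b', InB σ b ∧ InB σ b' ∧ g = φ b * n * φ b')) →
        ((∃ c, InB σ c ∧ φ b * g = φ c) ∨ (∃ c c', InB σ c ∧ InB σ c' ∧ φ b * g = φ c * n * φ c')) := by
      rintro b hb g (⟨c, hc, rfl⟩ | ⟨c, c', hc, hc', rfl⟩)
      · exact Or.inl ⟨b * c, InB_mul hσ hb hc, (R.mul _ _ hb hc).symm⟩
      · exact Or.inr ⟨b * c, c', InB_mul hσ hb hc, hc', by rw [R.mul _ _ hb hc]; group⟩
    have hn' : ∀ g : P, ((∃ b, InB σ b ∧ g = φ b) ∨ (∃ b b', InB σ b ∧ InB σ b' ∧ g = φ b * n * φ b')) →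
        ((∃ c, InB σ c ∧ n * g = φ c) ∨ (∃ c c', InB σ c ∧ InB σ c' ∧ n * g = φ c * n * φ c')) := by
      rintro g (⟨c, hc, rfl⟩ | ⟨c, c', hc, hc', rfl⟩)
      · exact Or.inr ⟨1, c, InB_one, hc, by rw [R.one, one_mul]⟩
      · obtain ⟨s, r, t, hcd, rfl⟩ := hc
        rw [R.mul _ _ (InB_wL hcd) (InB_hT t)]
        set t' := (Units.map (σ : K →* K) t)⁻¹ with ht'
        have e0 : n * (φ (wL σ s r) * φ (hT σ t) * n * φ c') = (n * φ (wL σ s r) * n) * φ (hT σ t' * c') := by
          rw [R.mul _ _ (InB_hT _) hc']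
          calc n * (φ (wL σ s r) * φ (hT σ t) * n * φ c') = n * φ (wL σ s r) * (φ (hT σ t) * n) * φ c' := by group
            _ = _ := by rw [R.hn, ← ht']; group
        rw [e0]
        have hB' : InB σ (hT σ t' * c') := InB_mul hσ (InB_hT _) hc'
        by_cases hr : r = 0
        · have hs := h0 s r hcd hr
          left
          refine ⟨hT σ t' * c', hB', ?_⟩
          rw [hs, hr, wL_zero, R.one, mul_one, R.nn, one_mul]
        · obtain ⟨b, b', hb, hb', -, e2⟩ := hg s r hcd hr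
          right
          refine ⟨b, b' * (hT σ t' * c'), hb, InB_mul hσ hb' hB', ?_⟩
          rw [e2, R.mul _ _ hb' hB']; group
    intro g
    have hg' : g ∈ Subgroup.closure ({g | ∃ b, InB σ b ∧ g = φ b} ∪ {n}) := by rw [hgen]; trivial
    induction hg' using Subgroup.closure_induction_left with
    | one => exact Or.inl ⟨1, InB_one, R.one.symm⟩
    | mul_left x hx y _ ih =>
      rcases hx with ⟨b, hb, rfl⟩ | hx
      · exact hl b hb y ih
      · rw [Set.mem_singleton_iff] at hx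
        rw [hx]; exact hn' y ih
    | inv_mul_cancel x hx y _ ih =>
      rcases hx with ⟨b, hb, rfl⟩ | hx
      · rw [← R.inv hσ hb]; exact hl _ (InB_inv hσ hb) y ih
      · rw [Set.mem_singleton_iff] at hx
        rw [hx, R.ninv]; exact hn' y ih
  rw [injective_iff_map_eq_one]
  intro g hg
  rcases key g with ⟨b, hb, rfl⟩ | ⟨b, b', hb, hb', rfl⟩
  · rw [hπ b hb] at hg
    rw [hg, R.one]
  · exfalso
    rw [map_mul, map_mul, hπ b hb, hπ b' hb', hπn] at hg
    exact n3_not_InB hσ hb hb' hg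

end fin

end H43.U3
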