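import Cfsg.Agent.Lib.H43.U3Fin
import Cfsg.Agent.Lib.H7.UnitSU

/-!
Presentations of `SU_3(q)` and `PSU_3(q)`.
-/
set_option autoImplicit false

namespace H43.U3

open Matrix H43.SU3 H43.Borel H49.Unitary H43.Tietze

universe u

variable {K : Type u} [Field K] [Fintype K] {q : ℕ}

/-- the isomorphism between the two forms -/
theorem exists_equiv (hF : Fintype.card K = q ^ 2) (hK : Nat.card K = q ^ 2) : Nonempty (SJ (frob hK) ≃* Cfsg.SU 3 K q) := by
  obtain ⟨P, P', h1, h2, hJ⟩ := exists_P hK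
  have hmem : ∀ M : Matrix.SpecialLinearGroup (Fin 3) K, M ∈ SJ (frob hK) ↔ cj h1 h2 M ∈ Cfsg.SU 3 K q := by
    intro M
    rw [mem_SJ_iff hK, mem_SU_iff' hF hK, cj_val, unitary_conj hK h1 h2 hJ]
  have hinj : Function.Injective (cj h1 h2) := by
    intro M N h
    have := congrArg (cj h2 h1) h
    rwa [cj_cj, cj_cj] at this
  have hmap : (SJ (frob hK)).map (cj h1 h2) = Cfsg.SU 3 K q := by
    ext x
    constructor
    · rintro ⟨M, hM, rfl⟩; exact (hmem M).1 hM
    · intro hx
      refine ⟨cj h2 h1 x, ?_, cj_cj h1 h2 x⟩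
      change cj h2 h1 x ∈ SJ (frob hK)
      rw [hmem, cj_cj]; exact hx
  exact ⟨((SJ (frob hK)).equivMapOfInjective _ hinj).trans (MulEquiv.subgroupCongr hmap)⟩

/-- the centre of `SU_n(q)` is cyclic -/
theorem su_center_gen (hF : Fintype.card K = q ^ 2) {n : ℕ} (hn : 2 ≤ n) :
    ∃ z : Cfsg.SU n K q, Subgroup.center (Cfsg.SU n K q) = Subgroup.zpowers z := by
  let i0 : Fin n := ⟨0, by omega⟩
  have hsc := fun (z : Subgroup.center (Cfsg.SU n K q)) => H7.UnitSU.center_scalar hF hn z.2
  choose c hc using hsc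
  have hc0 : ∀ z, c z ≠ 0 := by
    intro z h
    have h1 := ((z : Cfsg.SU n K q) : Matrix.SpecialLinearGroup (Fin n) K).det_coe
    rw [hc z, h, Matrix.det_diagonal] at h1
    simp only [Finset.prod_const, Finset.card_univ, Fintype.card_fin] at h1
    rw [zero_pow (by omega)] at h1
    exact zero_ne_one h1
  have hentry : ∀ z, ((((z : Subgroup.center (Cfsg.SU n K q)) : Cfsg.SU n K q) : Matrix.SpecialLinearGroup (Fin n) K) : Matrix (Fin n) (Fin n) K) i0 i0 = c z := by
    intro z; rw [hc z, Matrix.diagonal_apply_eq]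
  let f : Subgroup.center (Cfsg.SU n K q) →* Kˣ :=
    { toFun := fun z => Units.mk0 (c z) (hc0 z)
      map_one' := by
        apply Units.ext
        change c 1 = 1
        rw [← hentry]
        change (1 : Matrix (Fin n) (Fin n) K) i0 i0 = 1
        rw [Matrix.one_apply_eq]
      map_mul' := by
        intro z w
        apply Units.ext
        change c (z * w) = c z * c w
        rw [← hentry]
        change ((((z : Cfsg.SU n K q) : Matrix.SpecialLinearGroup (Fin n) K) : Matrix (Fin n) (Fin n) K) *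
          (((w : Cfsg.SU n K q) : Matrix.SpecialLinearGroup (Fin n) K) : Matrix (Fin n) (Fin n) K)) i0 i0 = _
        rw [hc z, hc w, Matrix.diagonal_mul_diagonal, Matrix.diagonal_apply_eq] }
  have hf : Function.Injective f := by
    intro z w h
    have h1 : c z = c w := congrArg Units.val h
    apply Subtype.ext
    apply Subtype.ext
    apply Subtype.ext
    rw [hc z, hc w, h1]
  have hcyc : IsCyclic (Subgroup.center (Cfsg.SU n K q)) := isCyclic_of_injective f hf
  obtain ⟨z, hz⟩ := hcyc.exists_generator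
  refine ⟨z, ?_⟩
  ext x
  constructor
  · intro hx
    obtain ⟨k, hk⟩ := hz ⟨x, hx⟩
    exact ⟨k, congrArg Subtype.val hk⟩
  · rintro ⟨k, rfl⟩
    exact zpow_mem z.2 k

theorem psu_pres (hF : Fintype.card K = q ^ 2) {n m k : ℕ} (hn : 2 ≤ n) (h : HasPres (Cfsg.SU n K q) m k) :
    HasPres (Cfsg.PSU n K q) m (k + 1) := by
  obtain ⟨z, hz⟩ := su_center_gen hF hn
  exact h.quot _ z hz

/-- `SU_3(q)`, `q ≥ 3`: three generators, 21 relations -/
theorem pres_SU3 (hF : Fintype.card K = q ^ 2) (h3 : 3 ≤ q) : HasPres (Cfsg.SU 3 K q) 3 21 := by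
  have hK : Nat.card K = q ^ 2 := by rw [Nat.card_eq_fintype_card, hF]
  obtain ⟨e⟩ := exists_equiv hF hK
  by_cases h5 : q = 5
  · refine ((presII hF hK h3 (d0 := 6) ?_).map e).mono (by norm_num)
    intro p d hp h
    by_contra hd
    have h1 : 2 ^ 7 ≤ p ^ d := le_trans (Nat.pow_le_pow_left hp.two_le 7) (Nat.pow_le_pow_right hp.pos (by omega))
    rw [← h, h5] at h1
    omega
  · by_cases h8 : q = 8
    · refine ((presII hF hK h3 (d0 := 6) ?_).map e).mono (by norm_num)
      intro p d hp h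
      by_contra hd
      have h1 : 2 ^ 7 ≤ p ^ d := le_trans (Nat.pow_le_pow_left hp.two_le 7) (Nat.pow_le_pow_right hp.pos (by omega))
      rw [← h, h8] at h1
      omega
    · exact ((presI hF hK (by omega) h5 h8).map e).mono (by norm_num)

end H43.U3
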