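import Cfsg.Agent.Lib.H43.SU3Fin

/-!
`SU_3`: torus and Weyl element, matrix identities.
-/
set_option autoImplicit false

namespace H43.U3

open Matrix H43.SU3

variable {K : Type*} [Field K] {σ : K →+* K}

/-- the torus -/
def hT (σ : K →+* K) (t : Kˣ) : Matrix.SpecialLinearGroup (Fin 3) K :=
  ⟨!![(t : K)⁻¹, 0, 0; 0, (t : K) / σ t, 0; 0, 0, σ t], by
    have h1 : (t : K) ≠ 0 := t.ne_zero
    have h2 : σ (t : K) ≠ 0 := (map_ne_zero σ).2 h1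
    rw [Matrix.det_fin_three]
    simp
    field_simp⟩

/-- the Weyl element -/
def n3 (K : Type*) [Field K] : Matrix.SpecialLinearGroup (Fin 3) K :=
  ⟨!![0, 0, 1; 0, -1, 0; 1, 0, 0], by rw [Matrix.det_fin_three]; simp⟩

theorem sp (t : Kˣ) : σ (t : K) ≠ 0 := (map_ne_zero σ).2 t.ne_zero

theorem hT_mul (t t' : Kˣ) : hT σ (t * t') = hT σ t * hT σ t' := by
  apply Subtype.ext
  change !![((t * t' : Kˣ) : K)⁻¹, 0, 0; 0, ((t * t' : Kˣ) : K) / σ (t * t' : Kˣ), 0; 0, 0, σ (t * t' : Kˣ)] =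
    !![(t : K)⁻¹, 0, 0; 0, (t : K) / σ t, 0; 0, 0, σ t] * !![(t' : K)⁻¹, 0, 0; 0, (t' : K) / σ t', 0; 0, 0, σ t']
  have h1 := t.ne_zero
  have h2 := t'.ne_zero
  have h3 := sp (σ := σ) t
  have h4 := sp (σ := σ) t'
  rw [Matrix.mul_fin_three]
  simp only [Units.val_mul, map_mul]
  ext i j
  fin_cases i <;> fin_cases j <;> simp <;> field_simp

theorem hT_one : hT σ (1 : Kˣ) = 1 := by
  have := hT_mul (σ := σ) (1 : Kˣ) 1
  rw [one_mul] at this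
  exact mul_eq_left.1 this.symm

/-- the torus homomorphism -/
def hTh (σ : K →+* K) : Kˣ →* Matrix.SpecialLinearGroup (Fin 3) K where
  toFun := hT σ
  map_one' := hT_one
  map_mul' := hT_mul

theorem hT_pow (t : Kˣ) (m : ℕ) : hT σ (t ^ m) = hT σ t ^ m := map_pow (hTh σ) t m
theorem hT_inv (t : Kˣ) : hT σ t⁻¹ = (hT σ t)⁻¹ := map_inv (hTh σ) t

theorem hT_wL (hσ : ∀ x, σ (σ x) = x) (t : Kˣ) (s r : K) : hT σ t * wL σ s r * (hT σ t)⁻¹ =
    wL σ (s * ((t : K) ^ 2 / σ t)) (r * (t * σ t)) := by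
  rw [mul_inv_eq_iff_eq_mul]
  apply Subtype.ext
  change !![(t : K)⁻¹, 0, 0; 0, (t : K) / σ t, 0; 0, 0, σ t] * !![1, 0, 0; s, 1, 0; r, -σ s, 1] =
    !![1, 0, 0; s * ((t : K) ^ 2 / σ t), 1, 0; r * (t * σ t), -σ (s * ((t : K) ^ 2 / σ t)), 1] *
    !![(t : K)⁻¹, 0, 0; 0, (t : K) / σ t, 0; 0, 0, σ t]
  have h1 := t.ne_zero
  have h3 := sp (σ := σ) t
  rw [Matrix.mul_fin_three, Matrix.mul_fin_three]
  simp only [map_mul, map_div₀, map_pow, hσ]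
  ext i j
  fin_cases i <;> fin_cases j <;> simp <;> field_simp

theorem n3_sq : n3 K * n3 K = 1 := by
  apply Subtype.ext
  change !![0, 0, 1; 0, -1, 0; 1, 0, 0] * !![0, 0, 1; 0, -1, 0; 1, 0, 0] = (1 : Matrix (Fin 3) (Fin 3) K)
  rw [Matrix.mul_fin_three, Matrix.one_fin_three]
  simp

theorem n3_hT (hσ : ∀ x, σ (σ x) = x) (t : Kˣ) : n3 K * hT σ t * n3 K = hT σ (Units.map (σ : K →* K) t)⁻¹ := by
  apply Subtype.ext
  change !![0, 0, 1; 0, -1, 0; 1, 0, 0] * !![(t : K)⁻¹, 0, 0; 0, (t : K) / σ t, 0; 0, 0, σ t] * !![0, 0, 1; 0, -1, 0; 1, 0, 0] =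
    !![(((Units.map (σ : K →* K) t)⁻¹ : Kˣ) : K)⁻¹, 0, 0; 0, (((Units.map (σ : K →* K) t)⁻¹ : Kˣ) : K) / σ (((Units.map (σ : K →* K) t)⁻¹ : Kˣ) : K), 0;
      0, 0, σ (((Units.map (σ : K →* K) t)⁻¹ : Kˣ) : K)]
  have h1 := t.ne_zero
  have h3 := sp (σ := σ) t
  have e : (((Units.map (σ : K →* K) t)⁻¹ : Kˣ) : K) = (σ t)⁻¹ := by
    rw [Units.val_inv_eq_inv_val]; rfl
  rw [Matrix.mul_fin_three, Matrix.mul_fin_three, e, map_inv₀, hσ]
  ext i j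
  fin_cases i <;> fin_cases j <;> simp <;> field_simp

theorem n3_wL (hσ : ∀ x, σ (σ x) = x) (s r : K) (hr : r ≠ 0) (h : r + σ r + s * σ s = 0) :
    n3 K * wL σ s r * n3 K = wL σ (-s / r) (1 / r) * n3 K * (hT σ (Units.map (σ : K →* K) (Units.mk0 r hr)) * wL σ (-s / σ r) (1 / r)) := by
  apply Subtype.ext
  change !![0, 0, 1; 0, -1, 0; 1, 0, 0] * !![1, 0, 0; s, 1, 0; r, -σ s, 1] * !![0, 0, 1; 0, -1, 0; 1, 0, 0] =
    !![1, 0, 0; -s / r, 1, 0; 1 / r, -σ (-s / r), 1] * !![0, 0, 1; 0, -1, 0; 1, 0, 0] *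
    (!![(σ r)⁻¹, 0, 0; 0, (σ r) / σ (σ r), 0; 0, 0, σ (σ r)] * !![1, 0, 0; -s / σ r, 1, 0; 1 / r, -σ (-s / σ r), 1])
  have h3 : σ r ≠ 0 := (map_ne_zero σ).2 hr
  simp only [Matrix.mul_fin_three, map_div₀, map_neg, hσ]
  ext i j
  fin_cases i <;> fin_cases j
  · simp; field_simp
  · simp; field_simp
  · simp
  · simp; field_simp; ring
  · simp; field_simp; linear_combination h
  · simp; field_simp
  · simp; field_simp; linear_combination (-1 : K) * h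
  · simp; field_simp; ring
  · simp; field_simp

theorem hT_mem (hσ : ∀ x, σ (σ x) = x) (t : Kˣ) : hT σ t ∈ SJ σ := by
  intro x y
  have e : ∀ x : Fin 3 → K, ((hT σ t : Matrix.SpecialLinearGroup (Fin 3) K) : Matrix (Fin 3) (Fin 3) K) *ᵥ x =
      ![(t : K)⁻¹ * x 0, (t : K) / σ t * x 1, σ t * x 2] := by
    intro x
    change !![(t : K)⁻¹, 0, 0; 0, (t : K) / σ t, 0; 0, 0, σ t] *ᵥ x = _
    funext i
    fin_cases i <;> simp [Matrix.mulVec, dotProduct, Fin.sum_univ_three]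
  rw [e, e]
  have h1 := t.ne_zero
  have h3 := sp (σ := σ) t
  simp only [B, Matrix.cons_val_zero, Matrix.cons_val_one, Matrix.cons_val, map_mul, map_inv₀, map_div₀, hσ]
  field_simp

theorem n3_mulVec (x : Fin 3 → K) : ((n3 K : Matrix.SpecialLinearGroup (Fin 3) K) : Matrix (Fin 3) (Fin 3) K) *ᵥ x =
    ![x 2, -x 1, x 0] := by
  change !![0, 0, 1; 0, -1, 0; 1, 0, 0] *ᵥ x = _
  funext i
  fin_cases i <;> simp [Matrix.mulVec, dotProduct, Fin.sum_univ_three]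

theorem n3_mem : n3 K ∈ SJ σ := by
  intro x y
  rw [n3_mulVec, n3_mulVec]
  simp only [B, Matrix.cons_val_zero, Matrix.cons_val_one, Matrix.cons_val, map_neg]
  ring

theorem n3_wL_zero (c : K) : n3 K * wL σ 0 c * n3 K = uT c := by
  apply Subtype.ext
  change !![0, 0, 1; 0, -1, 0; 1, 0, 0] * !![1, 0, 0; 0, 1, 0; c, -σ 0, 1] * !![0, 0, 1; 0, -1, 0; 1, 0, 0] =
    !![1, 0, c; 0, 1, 0; 0, 0, 1]
  rw [Matrix.mul_fin_three, Matrix.mul_fin_three]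
  simp

/-- injectivity of the parametrization -/
theorem wL_hT_inj {s r s' r' : K} {t t' : Kˣ} (h : wL σ s r * hT σ t = wL σ s' r' * hT σ t') : s = s' ∧ r = r' ∧ t = t' := by
  have h0 := congrArg (fun g : Matrix.SpecialLinearGroup (Fin 3) K => (g : Matrix (Fin 3) (Fin 3) K)) h
  change !![1, 0, 0; s, 1, 0; r, -σ s, 1] * !![(t : K)⁻¹, 0, 0; 0, (t : K) / σ t, 0; 0, 0, σ t] =
    !![1, 0, 0; s', 1, 0; r', -σ s', 1] * !![(t' : K)⁻¹, 0, 0; 0, (t' : K) / σ t', 0; 0, 0, σ t'] at h0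
  rw [Matrix.mul_fin_three, Matrix.mul_fin_three] at h0
  have e0 := congrFun (congrFun h0 0) 0
  have e1 := congrFun (congrFun h0 1) 0
  have e2 := congrFun (congrFun h0 2) 0
  simp at e0 e1 e2
  have h1 := t'.ne_zero
  have et : t = t' := Units.ext e0
  subst et
  refine ⟨mul_right_cancel₀ (inv_ne_zero h1) e1, mul_right_cancel₀ (inv_ne_zero h1) e2, rfl⟩

/-- uniqueness in the big cell -/
theorem cell_inj {s r s' r' : K} {b b' : Matrix.SpecialLinearGroup (Fin 3) K}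
    (hb : ∃ (s r : K) (t : Kˣ), b = wL σ s r * hT σ t) (hb' : ∃ (s r : K) (t : Kˣ), b' = wL σ s r * hT σ t)
    (h : wL σ s r * n3 K * b = wL σ s' r' * n3 K * b') : s = s' ∧ r = r' ∧ b = b' := by
  obtain ⟨s1, r1, t1, e1⟩ := hb
  obtain ⟨s2, r2, t2, e2⟩ := hb'
  have act : ∀ (s1 r1 : K) (t1 : Kˣ), ((wL σ s1 r1 * hT σ t1 : Matrix.SpecialLinearGroup (Fin 3) K) : Matrix (Fin 3) (Fin 3) K) *ᵥ ![0, 0, 1] =
      ![0, 0, σ t1] := by
    intro s1 r1 t1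
    rw [Matrix.SpecialLinearGroup.coe_mul, ← Matrix.mulVec_mulVec]
    have : ((hT σ t1 : Matrix.SpecialLinearGroup (Fin 3) K) : Matrix (Fin 3) (Fin 3) K) *ᵥ ![0, 0, 1] = ![0, 0, σ t1] := by
      change !![(t1 : K)⁻¹, 0, 0; 0, (t1 : K) / σ t1, 0; 0, 0, σ t1] *ᵥ ![0, 0, 1] = _
      funext i
      fin_cases i <;> simp [Matrix.mulVec, dotProduct, Fin.sum_univ_three]
    rw [this, wL_mulVec]
    funext i
    fin_cases i <;> simp
  have act2 : ∀ (s r s1 r1 : K) (t1 : Kˣ), ((wL σ s r * n3 K * (wL σ s1 r1 * hT σ t1) : Matrix.SpecialLinearGroup (Fin 3) K) :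
      Matrix (Fin 3) (Fin 3) K) *ᵥ ![0, 0, 1] = ![σ t1, s * σ t1, r * σ t1] := by
    intro s r s1 r1 t1
    rw [Matrix.SpecialLinearGroup.coe_mul, ← Matrix.mulVec_mulVec, act, Matrix.SpecialLinearGroup.coe_mul,
      ← Matrix.mulVec_mulVec, n3_mulVec, wL_mulVec]
    funext i
    fin_cases i <;> simp
  have key : ![σ t1, s * σ t1, r * σ t1] = ![σ t2, s' * σ t2, r' * σ t2] := by
    rw [← act2 s r s1 r1 t1, ← act2 s' r' s2 r2 t2, ← e1, ← e2, h]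
  have k0 := congrFun key 0
  have k1 := congrFun key 1
  have k2 := congrFun key 2
  simp only [Matrix.cons_val_zero, Matrix.cons_val_one, Matrix.cons_val] at k0 k1 k2
  rw [← k0] at k1 k2
  have hs := mul_right_cancel₀ (sp (σ := σ) t1) k1
  have hr := mul_right_cancel₀ (sp (σ := σ) t1) k2
  subst hs
  subst hr
  exact ⟨rfl, rfl, mul_left_cancel h⟩

end H43.U3
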