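import Cfsg.Agent.Lib.H43.U3Good
import Cfsg.Agent.Lib.H43.PresTools

/-!
`SU_3(q)`: from a presentation of the Borel subgroup to the whole group.
-/
set_option autoImplicit false

namespace H43.U3

open Matrix H43.SU3 H43.Borel H49.Unitary H43.Tietze

universe u

theorem hasPres_of_equiv {Γ : Type*} [Group Γ] {m k : ℕ} {J : Type*} [Finite J] (R : J → FreeGroup (Fin m))
    (hJ : Nat.card J ≤ k) (e : Nonempty (PresentedGroup (Set.range R) ≃* Γ)) : HasPres Γ m k := by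
  have hf : (Set.range R).Finite := Set.finite_range R
  refine ⟨hf.toFinset, ?_, ?_⟩
  · rw [← Set.ncard_eq_toFinset_card _ hf]
    exact (ncard_range_le R).trans hJ
  · rw [Set.Finite.coe_toFinset]; exact e

theorem lift2 {G H : Type*} [Group G] [Group H] (f : G →* H) (a b : G) (W : FreeGroup (Fin 2)) :
    f (FreeGroup.lift ![a, b] W) = FreeGroup.lift ![f a, f b] W := by
  have : f.comp (FreeGroup.lift ![a, b]) = FreeGroup.lift ![f a, f b] := by
    apply FreeGroup.ext_hom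
    intro i
    fin_cases i <;> simp
  rw [← this]; rfl

theorem lift_castSucc {G : Type*} [Group G] (a b c : G) (W : FreeGroup (Fin 2)) :
    FreeGroup.lift ![a, b, c] (FreeGroup.lift ![FreeGroup.of 0, FreeGroup.of 1] W) = FreeGroup.lift ![a, b] W := by
  rw [lift2]
  congr 2
  simp

/-- the inclusion of words -/
def cw : FreeGroup (Fin 2) →* FreeGroup (Fin 3) := FreeGroup.lift ![FreeGroup.of 0, FreeGroup.of 1]

/-- the relators involving the Weyl element -/
def RN (q : ℕ) (Wz Wz1 Wz2 Wu1 Wu2 : FreeGroup (Fin 2)) : Fin 4 → FreeGroup (Fin 3) :=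
  ![FreeGroup.of 2 * FreeGroup.of 2, FreeGroup.of 2 * FreeGroup.of 1 * FreeGroup.of 2 * FreeGroup.of 1 ^ q,
    FreeGroup.of 2 * cw Wz * FreeGroup.of 2 * (cw Wz1 * FreeGroup.of 2 * cw Wz2)⁻¹,
    FreeGroup.of 2 * FreeGroup.of 0 * FreeGroup.of 2 * (cw Wu1 * FreeGroup.of 2 * cw Wu2)⁻¹]

theorem lift_cw {G : Type*} [Group G] (a b d : G) (W : FreeGroup (Fin 2)) :
    FreeGroup.lift ![a, b, d] (cw W) = FreeGroup.lift ![a, b] W := lift_castSucc a b d W

theorem RN_iff (q : ℕ) (Wz Wz1 Wz2 Wu1 Wu2 : FreeGroup (Fin 2)) {G : Type*} [Group G] (a b d : G) :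
    (∀ i, FreeGroup.lift ![a, b, d] (RN q Wz Wz1 Wz2 Wu1 Wu2 i) = 1) ↔
      d * d = 1 ∧ d * b * d * b ^ q = 1 ∧
      d * FreeGroup.lift ![a, b] Wz * d = FreeGroup.lift ![a, b] Wz1 * d * FreeGroup.lift ![a, b] Wz2 ∧
      d * a * d = FreeGroup.lift ![a, b] Wu1 * d * FreeGroup.lift ![a, b] Wu2 := by
  have l0 : FreeGroup.lift ![a, b, d] (FreeGroup.of 0) = a := by rw [FreeGroup.lift_apply_of]; rfl
  have l1 : FreeGroup.lift ![a, b, d] (FreeGroup.of 1) = b := by rw [FreeGroup.lift_apply_of]; rfl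
  have l2 : FreeGroup.lift ![a, b, d] (FreeGroup.of 2) = d := by rw [FreeGroup.lift_apply_of]; rfl
  have e0 : FreeGroup.lift ![a, b, d] (RN q Wz Wz1 Wz2 Wu1 Wu2 0) = d * d := by
    change FreeGroup.lift ![a, b, d] (FreeGroup.of 2 * FreeGroup.of 2) = _
    rw [map_mul, l2]
  have e1 : FreeGroup.lift ![a, b, d] (RN q Wz Wz1 Wz2 Wu1 Wu2 1) = d * b * d * b ^ q := by
    change FreeGroup.lift ![a, b, d] (FreeGroup.of 2 * FreeGroup.of 1 * FreeGroup.of 2 * FreeGroup.of 1 ^ q) = _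
    rw [map_mul, map_mul, map_mul, map_pow, l1, l2]
  have e2 : FreeGroup.lift ![a, b, d] (RN q Wz Wz1 Wz2 Wu1 Wu2 2) =
      d * FreeGroup.lift ![a, b] Wz * d * (FreeGroup.lift ![a, b] Wz1 * d * FreeGroup.lift ![a, b] Wz2)⁻¹ := by
    change FreeGroup.lift ![a, b, d] (FreeGroup.of 2 * cw Wz * FreeGroup.of 2 * (cw Wz1 * FreeGroup.of 2 * cw Wz2)⁻¹) = _
    rw [map_mul, map_mul, map_mul, map_inv, map_mul, map_mul, l2, lift_cw, lift_cw, lift_cw]
  have e3 : FreeGroup.lift ![a, b, d] (RN q Wz Wz1 Wz2 Wu1 Wu2 3) =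
      d * a * d * (FreeGroup.lift ![a, b] Wu1 * d * FreeGroup.lift ![a, b] Wu2)⁻¹ := by
    change FreeGroup.lift ![a, b, d] (FreeGroup.of 2 * FreeGroup.of 0 * FreeGroup.of 2 * (cw Wu1 * FreeGroup.of 2 * cw Wu2)⁻¹) = _
    rw [map_mul, map_mul, map_mul, map_inv, map_mul, map_mul, l2, lift_cw, lift_cw, l0]
  constructor
  · intro H
    have h0 := H 0
    have h1 := H 1
    have h2 := H 2
    have h3 := H 3
    rw [e0] at h0
    rw [e1] at h1
    rw [e2, mul_inv_eq_one] at h2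
    rw [e3, mul_inv_eq_one] at h3
    exact ⟨h0, h1, h2, h3⟩
  · rintro ⟨h0, h1, h2, h3⟩ i
    fin_cases i
    · exact e0.trans h0
    · exact e1.trans h1
    · exact e2.trans (mul_inv_eq_one.2 h2)
    · exact e3.trans (mul_inv_eq_one.2 h3)

theorem closure_pair_top {G : Type*} [Group G] {x y : G} {D : Subgroup G} (hD : D = Subgroup.closure {x, y})
    (hx : x ∈ D) (hy : y ∈ D) : Subgroup.closure {(⟨x, hx⟩ : D), ⟨y, hy⟩} = ⊤ := by
  apply Subgroup.map_injective D.subtype_injective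
  rw [MonoidHom.map_closure, Set.image_pair, ← MonoidHom.range_eq_map, Subgroup.range_subtype]
  exact hD.symm

variable {K : Type u} [Field K] [Fintype K] {q : ℕ}

theorem main_pres (hF : Fintype.card K = q ^ 2) (hK : Nat.card K = q ^ 2) {ζ : Kˣ}
    (hζ : ∀ t : Kˣ, t ∈ Subgroup.zpowers ζ) {δ : K} (hδ0 : δ ≠ 0) (hδ : frob hK δ = -δ) (hζf : frob hK ζ ≠ ζ)
    {c1 : K} (hc1 : c1 ≠ 0) (hct : c1 + frob hK c1 = 0)
    (hfull : ∀ s r, Cd (frob hK) s r → wL (frob hK) s r ∈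
      Subgroup.closure (Set.range ![wL (frob hK) 1 (Bf (frob hK) δ ζ), hT (frob hK) ζ]))
    {J : Type} [Finite J] (RB : J → FreeGroup (Fin 2))
    (sat : ∀ j, FreeGroup.lift ![wL (frob hK) 1 (Bf (frob hK) δ ζ), hT (frob hK) ζ] (RB j) = 1)
    (bnd : ∀ (G : Type u) [Group G] (u h : G), Subgroup.closure {u, h} = ⊤ → (∀ j, FreeGroup.lift ![u, h] (RB j) = 1) →
      Finite G ∧ Nat.card G ≤ q ^ 2 * q * (q ^ 2 - 1)) :
    HasPres (SJ (frob hK)) 3 (Nat.card J + 4) := by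
  classical
  set σ := frob hK with hσdef
  have hσ : ∀ x, σ (σ x) = x := frob_frob hK
  set gu := wL σ 1 (Bf σ δ ζ) with hgu
  set gh := hT σ ζ with hgh
  have htr : Bf σ δ (ζ : K) + σ (Bf σ δ (ζ : K)) = -1 := Bf_trace hσ hδ0 hδ hζf
  have hcdu : Cd σ 1 (Bf σ δ ζ) := by
    unfold Cd; rw [map_one]; linear_combination htr
  have hcdz : Cd σ 0 c1 := by unfold Cd; simpa using hct
  have hβ0 := ne_of_trace htr
  -- words
  have hword : ∀ g, InB σ g → ∃ W : FreeGroup (Fin 2), FreeGroup.lift ![gu, gh] W = g := by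
    rintro g ⟨s, r, t, hc, rfl⟩
    have h0 : gh ∈ Subgroup.closure (Set.range ![gu, gh]) := Subgroup.subset_closure ⟨1, rfl⟩
    have h1 : wL σ s r * hT σ t ∈ Subgroup.closure (Set.range ![gu, gh]) := by
      refine mul_mem (hfull s r hc) ?_
      obtain ⟨m, hm⟩ := exists_npow hζ t
      rw [← hm, hT_pow]
      exact pow_mem h0 m
    rw [← FreeGroup.range_lift_eq_closure] at h1
    exact h1
  have hBz := InB_wL hcdz
  have Bz1 : InB σ (wL σ (-0 / c1) (1 / c1)) := InB_wL (Cd_wone hσ hc1 hcdz)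
  have Bz2 : InB σ (hT σ (Units.map (σ : K →* K) (Units.mk0 c1 hc1)) * wL σ (-0 / σ c1) (1 / c1)) :=
    InB_mul hσ (InB_hT _) (InB_wL (Cd_wtwo hσ hc1 hcdz))
  have Bu1 : InB σ (wL σ (-1 / Bf σ δ ζ) (1 / Bf σ δ ζ)) := InB_wL (Cd_wone hσ hβ0 hcdu)
  have Bu2 : InB σ (hT σ (Units.map (σ : K →* K) (Units.mk0 (Bf σ δ ζ) hβ0)) * wL σ (-1 / σ (Bf σ δ ζ)) (1 / Bf σ δ ζ)) :=
    InB_mul hσ (InB_hT _) (InB_wL (Cd_wtwo hσ hβ0 hcdu))
  have ez := n3_wL hσ 0 c1 hc1 hcdz
  have eu := n3_wL hσ 1 (Bf σ δ ζ) hβ0 hcdu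
  obtain ⟨Wz, hWz⟩ := hword _ hBz
  obtain ⟨Wz1, hWz1⟩ := hword _ Bz1
  obtain ⟨Wz2, hWz2⟩ := hword _ Bz2
  obtain ⟨Wu1, hWu1⟩ := hword _ Bu1
  obtain ⟨Wu2, hWu2⟩ := hword _ Bu2
  -- the relators
  let R : J ⊕ Fin 4 → FreeGroup (Fin 3) := Sum.elim (fun j => cw (RB j)) (RN q Wz Wz1 Wz2 Wu1 Wu2)
  have hσq : (Units.map (σ : K →* K) ζ)⁻¹ = (ζ ^ q)⁻¹ := by
    rw [show Units.map (σ : K →* K) ζ = ζ ^ q from Units.ext (by
      rw [Units.val_pow_eq_pow_val]; exact frob_apply hK _)]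
  have hgR : ∀ r ∈ Set.range R, FreeGroup.lift ![gu, gh, n3 K] r = 1 := by
    rintro _ ⟨i | i, rfl⟩
    · change FreeGroup.lift ![gu, gh, n3 K] (cw (RB i)) = 1
      rw [lift_cw]; exact sat i
    · revert i
      change ∀ i, FreeGroup.lift ![gu, gh, n3 K] (RN q Wz Wz1 Wz2 Wu1 Wu2 i) = 1
      rw [RN_iff, hWz, hWz1, hWz2, hWu1, hWu2]
      refine ⟨n3_sq, ?_, ez, eu⟩
      rw [hgh, n3_hT hσ, hσq, ← hT_pow, ← hT_mul, inv_mul_cancel, hT_one]
  let P := PresentedGroup (Set.range R)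
  let uP : P := PresentedGroup.of 0
  let hP : P := PresentedGroup.of 1
  let nP : P := PresentedGroup.of 2
  have hvP : (fun i => (PresentedGroup.of i : P)) = ![uP, hP, nP] := by
    funext i; fin_cases i <;> rfl
  have hrP : ∀ i, FreeGroup.lift ![uP, hP, nP] (R i) = 1 := by
    intro i
    rw [← hvP, mk_eq_lift]
    exact PresentedGroup.one_of_mem ⟨i, rfl⟩
  obtain ⟨rn, rh, rz, ru⟩ := (RN_iff q Wz Wz1 Wz2 Wu1 Wu2 uP hP nP).1 (fun i => hrP (Sum.inr i))
  have hgP : Subgroup.closure {uP, hP, nP} = ⊤ := by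
    rw [eq_top_iff, ← PresentedGroup.closure_range_of (Set.range R), Subgroup.closure_le]
    rintro _ ⟨i, rfl⟩
    apply Subgroup.subset_closure
    fin_cases i
    · left; rfl
    · right; left; rfl
    · right; right; rfl
  -- transfer
  have htrans : ∀ W : FreeGroup (Fin 2), FreeGroup.lift ![gu, gh] W = 1 → FreeGroup.lift ![uP, hP] W = 1 := by
    intro W hW
    set D := Subgroup.closure (Set.range (fun i => (![uP, hP] i, ![gu, gh] i))) with hD
    have hset : Set.range (fun i => (![uP, hP] i, ![gu, gh] i)) = {(uP, gu), (hP, gh)} := by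
      ext y
      constructor
      · rintro ⟨i, rfl⟩
        fin_cases i
        · left; rfl
        · right; rfl
      · rintro (rfl | rfl)
        · exact ⟨0, rfl⟩
        · exact ⟨1, rfl⟩
    have m1 : (uP, gu) ∈ D := Subgroup.subset_closure ⟨0, rfl⟩
    have m2 : (hP, gh) ∈ D := Subgroup.subset_closure ⟨1, rfl⟩
    have hb := bnd D ⟨_, m1⟩ ⟨_, m2⟩ (closure_pair_top (by rw [hD, hset]) m1 m2) (by
      intro j
      apply Subtype.ext
      have h1 := lift2 D.subtype ⟨(uP, gu), m1⟩ ⟨(hP, gh), m2⟩ (RB j)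
      change D.subtype _ = _
      rw [h1]
      apply Prod.ext
      · have h2 := lift2 (MonoidHom.fst P (Matrix.SpecialLinearGroup (Fin 3) K)) (uP, gu) (hP, gh) (RB j)
        change MonoidHom.fst P (Matrix.SpecialLinearGroup (Fin 3) K) (FreeGroup.lift ![(uP, gu), (hP, gh)] (RB j)) = 1
        rw [h2]
        have h3 := hrP (Sum.inl j)
        change FreeGroup.lift ![uP, hP, nP] (cw (RB j)) = 1 at h3
        rwa [lift_cw] at h3
      · have h2 := lift2 (MonoidHom.snd P (Matrix.SpecialLinearGroup (Fin 3) K)) (uP, gu) (hP, gh) (RB j)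
        change MonoidHom.snd P (Matrix.SpecialLinearGroup (Fin 3) K) (FreeGroup.lift ![(uP, gu), (hP, gh)] (RB j)) = 1
        rw [h2]
        exact sat j)
    apply transfer_of_card ![uP, hP] ![gu, gh] hb.1 _ hW
    refine hb.2.trans ?_
    apply card_borel_ge hF hK
    · intro s r h
      exact hfull s r h
    · intro t
      have h0 : gh ∈ Subgroup.closure (Set.range ![gu, gh]) := Subgroup.subset_closure ⟨1, rfl⟩
      obtain ⟨m, hm⟩ := exists_npow hζ t
      rw [← hm, hT_pow]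
      exact pow_mem h0 m
  have htrans' : ∀ W W' : FreeGroup (Fin 2), FreeGroup.lift ![gu, gh] W = FreeGroup.lift ![gu, gh] W' →
      FreeGroup.lift ![uP, hP] W = FreeGroup.lift ![uP, hP] W' := by
    intro W W' e
    have := htrans (W * W'⁻¹) (by rw [map_mul, map_inv, e, mul_inv_cancel])
    rwa [map_mul, map_inv, mul_inv_eq_one] at this
  let wd : Matrix.SpecialLinearGroup (Fin 3) K → FreeGroup (Fin 2) := fun g => if h : InB σ g then (hword g h).choose else 1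
  have hwd : ∀ g, InB σ g → FreeGroup.lift ![gu, gh] (wd g) = g := by
    intro g h
    simp only [wd, dif_pos h]
    exact (hword g h).choose_spec
  let φ : Matrix.SpecialLinearGroup (Fin 3) K → P := fun g => FreeGroup.lift ![uP, hP] (wd g)
  have hφ : ∀ g, InB σ g → ∀ W, FreeGroup.lift ![gu, gh] W = g → φ g = FreeGroup.lift ![uP, hP] W := by
    intro g h W hW
    exact htrans' _ _ (by rw [hwd g h, hW])
  have hmul : ∀ a b, InB σ a → InB σ b → φ (a * b) = φ a * φ b := by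
    intro a b ha hb
    rw [hφ (a * b) (InB_mul hσ ha hb) (wd a * wd b) (by rw [map_mul, hwd a ha, hwd b hb]), map_mul]
  have hBu : InB σ gu := InB_wL hcdu
  have hBh : InB σ gh := InB_hT ζ
  have hφu : φ gu = uP := by
    rw [hφ gu hBu (FreeGroup.of 0) (by rw [FreeGroup.lift_apply_of]; rfl), FreeGroup.lift_apply_of]; rfl
  have hφh : φ gh = hP := by
    rw [hφ gh hBh (FreeGroup.of 1) (by rw [FreeGroup.lift_apply_of]; rfl), FreeGroup.lift_apply_of]; rfl
  have hφpow : ∀ m : ℕ, φ (hT σ (ζ ^ m)) = hP ^ m := by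
    intro m
    rw [hφ _ (InB_hT _) (FreeGroup.of 1 ^ m) (by
      rw [map_pow, FreeGroup.lift_apply_of, hT_pow]; rfl), map_pow, FreeGroup.lift_apply_of]; rfl
  have hR : RK σ φ nP := by
    refine ⟨hmul, rn, ?_⟩
    intro t
    obtain ⟨m, rfl⟩ := exists_npow hζ t
    have hninv : nP⁻¹ = nP := inv_eq_of_mul_eq_one_left rn
    have e1 : nP * hP * nP⁻¹ = (hP ^ q)⁻¹ := by
      rw [hninv]; exact eq_inv_of_mul_eq_one_left rh
    have e2 : nP * hP ^ m * nP = ((hP ^ q) ^ m)⁻¹ := by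
      have : nP * hP ^ m * nP⁻¹ = (nP * hP * nP⁻¹) ^ m := conj_pow.symm
      rw [e1, hninv, inv_pow] at this
      exact this
    have e3 : (Units.map (σ : K →* K) (ζ ^ m))⁻¹ = ((ζ ^ q) ^ m)⁻¹ := by
      rw [map_pow, show Units.map (σ : K →* K) ζ = ζ ^ q from inv_injective hσq]
    have e4 : φ (hT σ ((ζ ^ q) ^ m)⁻¹) = ((hP ^ q) ^ m)⁻¹ := by
      rw [hφ _ (InB_hT _) ((FreeGroup.of 1 ^ q) ^ m)⁻¹ (by
        rw [map_inv, map_pow, map_pow, FreeGroup.lift_apply_of, hT_inv, hT_pow, hT_pow]; rfl),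
        map_inv, map_pow, map_pow, FreeGroup.lift_apply_of]; rfl
    rw [hφpow, e2, e3, e4]
  have hGu : Good σ φ nP gu := by
    refine ⟨_, _, Bu1, Bu2, eu, ?_⟩
    rw [hφu, hφ _ Bu1 Wu1 hWu1, hφ _ Bu2 Wu2 hWu2]; exact ru
  have hGz : Good σ φ nP (wL σ 0 c1) := by
    refine ⟨_, _, Bz1, Bz2, ez, ?_⟩
    rw [hφ _ hBz Wz hWz, hφ _ Bz1 Wz1 hWz1, hφ _ Bz2 Wz2 hWz2]; exact rz
  have hall := all_good hF hK hR hζ hδ0 hδ hζf hGu hc1 hct hGz
  -- the projection
  let π : P →* Matrix.SpecialLinearGroup (Fin 3) K := PresentedGroup.toGroup (f := ![gu, gh, n3 K]) hgR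
  have hπu : π uP = gu := PresentedGroup.toGroup.of hgR
  have hπh : π hP = gh := PresentedGroup.toGroup.of hgR
  have hπn : π nP = n3 K := PresentedGroup.toGroup.of hgR
  have hπφ : ∀ b, InB σ b → π (φ b) = b := by
    intro b hb
    change π (FreeGroup.lift ![uP, hP] (wd b)) = b
    rw [lift2, hπu, hπh, hwd b hb]
  have hinj := inj_of_good hK hR hall π hπφ hπn (by
    rw [eq_top_iff, ← hgP, Subgroup.closure_le]
    rintro _ (rfl | rfl | rfl)
    · exact Subgroup.subset_closure (Or.inl ⟨gu, hBu, hφu.symm⟩)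
    · exact Subgroup.subset_closure (Or.inl ⟨gh, hBh, hφh.symm⟩)
    · exact Subgroup.subset_closure (Or.inr rfl))
  have hrange : π.range = SJ σ := by
    apply le_antisymm
    · rw [MonoidHom.range_eq_map, ← hgP, MonoidHom.map_closure, Subgroup.closure_le]
      rintro _ ⟨y, (rfl | rfl | rfl), rfl⟩
      · change π uP ∈ SJ σ
        rw [hπu]; exact wL_mem hσ hcdu
      · change π hP ∈ SJ σ
        rw [hπh]; exact hT_mem hσ ζ
      · change π nP ∈ SJ σ
        rw [hπn]; exact n3_mem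
    · have hB : ∀ b, InB σ b → b ∈ π.range := fun b hb => ⟨φ b, hπφ b hb⟩
      have hle : π.range ≤ SJ σ := by
        rw [MonoidHom.range_eq_map, ← hgP, MonoidHom.map_closure, Subgroup.closure_le]
        rintro _ ⟨y, (rfl | rfl | rfl), rfl⟩
        · change π uP ∈ SJ σ
          rw [hπu]; exact wL_mem hσ hcdu
        · change π hP ∈ SJ σ
          rw [hπh]; exact hT_mem hσ ζ
        · change π nP ∈ SJ σ
          rw [hπn]; exact n3_mem
      apply gen_of_full (sig_frob hF hK) hle (fun s r h => hB _ (InB_wL h)) hc1 hct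
      rw [← n3_wL_zero (σ := σ)]
      exact mul_mem (mul_mem ⟨nP, hπn⟩ (hB _ hBz)) ⟨nP, hπn⟩
  refine hasPres_of_equiv R ?_ ⟨(MonoidHom.ofInjective hinj).trans (MulEquiv.subgroupCongr hrange)⟩
  rw [Nat.card_sum, Nat.card_eq_fintype_card (α := Fin 4), Fintype.card_fin]

end H43.U3
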