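import Cfsg.Agent.Lib.H43.U3Gen

/-!
`SU_3(q)`: the rank one argument.
-/
set_option autoImplicit false

namespace H43.U3

open Matrix H43.SU3 H43.Borel H49.Unitary

section basics
variable {K : Type*} [Field K] {σ : K →+* K}

/-- the condition on the unipotent parameters -/
def Cd (σ : K →+* K) (s r : K) : Prop := r + σ r + s * σ s = 0

/-- the Borel subgroup as a set -/
def InB (σ : K →+* K) (g : Matrix.SpecialLinearGroup (Fin 3) K) : Prop :=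
  ∃ (s r : K) (t : Kˣ), Cd σ s r ∧ g = wL σ s r * hT σ t

theorem Cd_zero : Cd σ (0 : K) 0 := by unfold Cd; simp

theorem InB_wL {s r : K} (h : Cd σ s r) : InB σ (wL σ s r) := ⟨s, r, 1, h, by rw [hT_one, mul_one]⟩
theorem InB_hT (t : Kˣ) : InB σ (hT σ t) := ⟨0, 0, t, Cd_zero, by rw [wL_zero, one_mul]⟩
theorem InB_one : InB σ (1 : Matrix.SpecialLinearGroup (Fin 3) K) := by rw [← hT_one (σ := σ)]; exact InB_hT 1

theorem Cd_tor (hσ : ∀ x, σ (σ x) = x) {s r : K} (h : Cd σ s r) (t : Kˣ) :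
    Cd σ (s * ((t : K) ^ 2 / σ t)) (r * (t * σ t)) := by
  unfold Cd at *
  have h1 := t.ne_zero
  have h2 := sp (σ := σ) t
  simp only [map_mul, map_div₀, map_pow, hσ]
  field_simp
  linear_combination ((t : K) * σ t) * h

theorem InB_mul (hσ : ∀ x, σ (σ x) = x) {a b : Matrix.SpecialLinearGroup (Fin 3) K} (ha : InB σ a) (hb : InB σ b) :
    InB σ (a * b) := by
  obtain ⟨s, r, t, h, rfl⟩ := ha
  obtain ⟨s', r', t', h', rfl⟩ := hb
  have h2 := Cd_tor hσ h' t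
  refine ⟨_, _, t * t', wL_mul_cond h h2 hσ, ?_⟩
  rw [← wL_mul, ← hT_wL hσ, hT_mul]
  group

theorem InB_inv (hσ : ∀ x, σ (σ x) = x) {a : Matrix.SpecialLinearGroup (Fin 3) K} (ha : InB σ a) : InB σ a⁻¹ := by
  obtain ⟨s, r, t, h, rfl⟩ := ha
  rw [_root_.mul_inv_rev, ← hT_inv, wL_inv h]
  refine InB_mul hσ (InB_hT _) (InB_wL ?_)
  unfold Cd at *
  simp only [map_neg, hσ]
  linear_combination h

theorem InB_mulVec {a : Matrix.SpecialLinearGroup (Fin 3) K} (ha : InB σ a) :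
    ∃ c : K, c ≠ 0 ∧ (a : Matrix (Fin 3) (Fin 3) K) *ᵥ ![0, 0, 1] = ![0, 0, c] := by
  obtain ⟨s, r, t, h, rfl⟩ := ha
  refine ⟨σ t, sp t, ?_⟩
  rw [Matrix.SpecialLinearGroup.coe_mul, ← Matrix.mulVec_mulVec]
  have : ((hT σ t : Matrix.SpecialLinearGroup (Fin 3) K) : Matrix (Fin 3) (Fin 3) K) *ᵥ ![0, 0, 1] = ![0, 0, σ t] := by
    change !![(t : K)⁻¹, 0, 0; 0, (t : K) / σ t, 0; 0, 0, σ t] *ᵥ ![0, 0, 1] = _
    funext i
    fin_cases i <;> simp [Matrix.mulVec, dotProduct, Fin.sum_univ_three]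
  rw [this, wL_mulVec]
  funext i
  fin_cases i <;> simp

theorem n3_not_InB {a b : Matrix.SpecialLinearGroup (Fin 3) K} (hσ : ∀ x, σ (σ x) = x) (ha : InB σ a) (hb : InB σ b) :
    a * n3 K * b ≠ 1 := by
  intro h
  have h1 : n3 K = a⁻¹ * b⁻¹ := by
    calc n3 K = a⁻¹ * (a * n3 K * b) * b⁻¹ := by group
      _ = _ := by rw [h, mul_one]
  have h2 : InB σ (n3 K) := by rw [h1]; exact InB_mul hσ (InB_inv hσ ha) (InB_inv hσ hb)
  obtain ⟨c, -, hc⟩ := InB_mulVec h2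
  rw [n3_mulVec] at hc
  have := congrFun hc 0
  simp at this

end basics

/-- abstract data over the Borel subgroup -/
structure RK {K : Type*} [Field K] (σ : K →+* K) {P : Type*} [Group P] (φ : Matrix.SpecialLinearGroup (Fin 3) K → P) (n : P) : Prop where
  mul : ∀ a b, InB σ a → InB σ b → φ (a * b) = φ a * φ b
  nn : n * n = 1
  nh : ∀ t : Kˣ, n * φ (hT σ t) * n = φ (hT σ (Units.map (σ : K →* K) t)⁻¹)

/-- good elements -/
def Good {K : Type*} [Field K] (σ : K →+* K) {P : Type*} [Group P] (φ : Matrix.SpecialLinearGroup (Fin 3) K → P) (n : P)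
    (w : Matrix.SpecialLinearGroup (Fin 3) K) : Prop :=
  ∃ b b', InB σ b ∧ InB σ b' ∧ n3 K * w * n3 K = b * n3 K * b' ∧ n * φ w * n = φ b * n * φ b'

section
variable {K : Type*} [Field K] {σ : K →+* K} {P : Type*} [Group P] {φ : Matrix.SpecialLinearGroup (Fin 3) K → P} {n : P}

theorem RK.one (R : RK σ φ n) : φ 1 = 1 := by
  have := R.mul 1 1 InB_one InB_one
  rw [mul_one] at this
  exact mul_eq_left.1 this.symm

theorem RK.inv (R : RK σ φ n) (hσ : ∀ x, σ (σ x) = x) {a : Matrix.SpecialLinearGroup (Fin 3) K} (ha : InB σ a) :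
    φ a⁻¹ = (φ a)⁻¹ := by
  rw [eq_inv_iff_mul_eq_one, ← R.mul _ _ (InB_inv hσ ha) ha, inv_mul_cancel, R.one]

theorem RK.ninv (R : RK σ φ n) : n⁻¹ = n := inv_eq_of_mul_eq_one_left R.nn

theorem n3_inv : (n3 K)⁻¹ = n3 K := inv_eq_of_mul_eq_one_left n3_sq

/-- `φ(h) n = n φ(h*)` -/
theorem RK.hn (R : RK σ φ n) (t : Kˣ) : φ (hT σ t) * n = n * φ (hT σ (Units.map (σ : K →* K) t)⁻¹) := by
  rw [← R.nh t, ← mul_assoc, ← mul_assoc, R.nn, one_mul]

theorem hn3 (hσ : ∀ x, σ (σ x) = x) (t : Kˣ) : hT σ t * n3 K = n3 K * hT σ (Units.map (σ : K →* K) t)⁻¹ := by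
  rw [← n3_hT hσ t, ← mul_assoc, ← mul_assoc, n3_sq, one_mul]

/-- normal form -/
theorem Good.form (R : RK σ φ n) (hσ : ∀ x, σ (σ x) = x) {s r : K} (hr : r ≠ 0) (hc : Cd σ s r)
    (h : Good σ φ n (wL σ s r)) : n * φ (wL σ s r) * n = φ (wL σ (-s / r) (1 / r)) * n *
      φ (hT σ (Units.map (σ : K →* K) (Units.mk0 r hr)) * wL σ (-s / σ r) (1 / r)) := by
  obtain ⟨b, b', hb, hb', e1, e2⟩ := h
  obtain ⟨s1, r1, t1, h1, rfl⟩ := hb
  rw [n3_wL hσ s r hr hc] at e1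
  have e3 : wL σ s1 r1 * hT σ t1 * n3 K * b' = wL σ s1 r1 * n3 K * (hT σ (Units.map (σ : K →* K) t1)⁻¹ * b') := by
    calc wL σ s1 r1 * hT σ t1 * n3 K * b' = wL σ s1 r1 * (hT σ t1 * n3 K) * b' := by group
      _ = _ := by rw [hn3 hσ]; group
  rw [e3] at e1
  have hB2 : InB σ (hT σ (Units.map (σ : K →* K) t1)⁻¹ * b') := InB_mul hσ (InB_hT _) hb'
  have hcd : Cd σ (-s / σ r) (1 / r) := by
    have h3 : σ r ≠ 0 := (map_ne_zero σ).2 hr
    unfold Cd at *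
    simp only [map_div₀, map_neg, map_one, hσ]
    field_simp
    linear_combination hc
  have hB1 : InB σ (hT σ (Units.map (σ : K →* K) (Units.mk0 r hr)) * wL σ (-s / σ r) (1 / r)) :=
    InB_mul hσ (InB_hT _) (InB_wL hcd)
  have toE : ∀ {a : Matrix.SpecialLinearGroup (Fin 3) K}, InB σ a → ∃ (s r : K) (t : Kˣ), a = wL σ s r * hT σ t := by
    rintro a ⟨s, r, t, -, h⟩; exact ⟨s, r, t, h⟩
  obtain ⟨k1, k2, k3⟩ := cell_inj (toE hB1) (toE hB2) e1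
  rw [e2, R.mul _ _ (InB_wL h1) (InB_hT t1), k3, k1, k2, R.mul _ _ (InB_hT _) hb']
  calc φ (wL σ s1 r1) * φ (hT σ t1) * n * φ b' = φ (wL σ s1 r1) * (φ (hT σ t1) * n) * φ b' := by group
    _ = _ := by rw [R.hn]; group

theorem Good.tor (R : RK σ φ n) (hσ : ∀ x, σ (σ x) = x) {s r : K} (hc : Cd σ s r)
    (h : Good σ φ n (wL σ s r)) (t : Kˣ) : Good σ φ n (wL σ (s * ((t : K) ^ 2 / σ t)) (r * (t * σ t))) := by
  obtain ⟨b, b', hb, hb', e1, e2⟩ := h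
  set t' := (Units.map (σ : K →* K) t)⁻¹ with ht'
  refine ⟨hT σ t' * b, b' * (hT σ t')⁻¹, InB_mul hσ (InB_hT _) hb, InB_mul hσ hb' (InB_inv hσ (InB_hT _)), ?_, ?_⟩
  · rw [← hT_wL hσ]
    have e3 := n3_hT hσ t
    calc n3 K * (hT σ t * wL σ s r * (hT σ t)⁻¹) * n3 K =
        (n3 K * hT σ t * (n3 K)⁻¹) * (n3 K * wL σ s r * n3 K) * ((n3 K)⁻¹ * (hT σ t)⁻¹ * n3 K) := by group
      _ = (n3 K * hT σ t * n3 K) * (n3 K * wL σ s r * n3 K) * (n3 K * hT σ t * n3 K)⁻¹ := by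
        rw [_root_.mul_inv_rev, _root_.mul_inv_rev, n3_inv]; group
      _ = _ := by rw [e3, e1, ← ht']; group
  · have e3 := R.nh t
    rw [← hT_wL hσ, R.mul _ _ (InB_mul hσ (InB_hT _) (InB_wL hc)) (InB_inv hσ (InB_hT _)),
      R.mul _ _ (InB_hT _) (InB_wL hc), R.inv hσ (InB_hT _), R.mul _ _ (InB_hT _) hb,
      R.mul _ _ hb' (InB_inv hσ (InB_hT _)), R.inv hσ (InB_hT _)]
    calc n * (φ (hT σ t) * φ (wL σ s r) * (φ (hT σ t))⁻¹) * n =
        (n * φ (hT σ t) * n⁻¹) * (n * φ (wL σ s r) * n) * (n⁻¹ * (φ (hT σ t))⁻¹ * n) := by group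
      _ = (n * φ (hT σ t) * n) * (n * φ (wL σ s r) * n) * (n * φ (hT σ t) * n)⁻¹ := by
        rw [_root_.mul_inv_rev, _root_.mul_inv_rev, R.ninv]; group
      _ = _ := by rw [e3, e2, ← ht']; group

theorem Good.inv (R : RK σ φ n) (hσ : ∀ x, σ (σ x) = x) {s r : K} (hc : Cd σ s r)
    (h : Good σ φ n (wL σ s r)) : Good σ φ n (wL σ (-s) (σ r)) := by
  obtain ⟨b, b', hb, hb', e1, e2⟩ := h
  refine ⟨b'⁻¹, b⁻¹, InB_inv hσ hb', InB_inv hσ hb, ?_, ?_⟩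
  · rw [← wL_inv hc]
    have := congrArg (fun g => g⁻¹) e1
    simp only [_root_.mul_inv_rev, n3_inv] at this
    rw [mul_assoc, this, mul_assoc]
  · rw [← wL_inv hc, R.inv hσ (InB_wL hc), R.inv hσ hb, R.inv hσ hb']
    have := congrArg (fun g => g⁻¹) e2
    simp only [_root_.mul_inv_rev, R.ninv] at this
    rw [mul_assoc, this, mul_assoc]

theorem Cd_wone (hσ : ∀ x, σ (σ x) = x) {s r : K} (hr : r ≠ 0) (hc : Cd σ s r) : Cd σ (-s / r) (1 / r) := by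
  have h3 : σ r ≠ 0 := (map_ne_zero σ).2 hr
  unfold Cd at *
  simp only [map_div₀, map_neg, map_one]
  field_simp
  linear_combination hc

theorem Cd_wtwo (hσ : ∀ x, σ (σ x) = x) {s r : K} (hr : r ≠ 0) (hc : Cd σ s r) : Cd σ (-s / σ r) (1 / r) := by
  have h3 : σ r ≠ 0 := (map_ne_zero σ).2 hr
  unfold Cd at *
  simp only [map_div₀, map_neg, map_one, hσ]
  field_simp
  linear_combination hc

theorem Good.wone (R : RK σ φ n) (hσ : ∀ x, σ (σ x) = x) {s r : K} (hr : r ≠ 0) (hc : Cd σ s r)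
    (h : Good σ φ n (wL σ s r)) : Good σ φ n (wL σ (s / r) (1 / σ r)) := by
  have e2 := h.form R hσ hr hc
  have e1 := n3_wL hσ s r hr hc
  have c1 := Cd_wone hσ hr hc
  have c2 := Cd_wtwo hσ hr hc
  set w1 := wL σ (-s / r) (1 / r) with hw1
  set b2 := hT σ (Units.map (σ : K →* K) (Units.mk0 r hr)) * wL σ (-s / σ r) (1 / r) with hb2
  have hB2 : InB σ b2 := InB_mul hσ (InB_hT _) (InB_wL c2)
  have ew : wL σ (s / r) (1 / σ r) = w1⁻¹ := by
    rw [hw1, wL_inv c1]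
    congr 1
    · ring
    · rw [map_div₀, map_one]
  have hw : InB σ (wL σ s r) := InB_wL hc
  refine ⟨b2, (wL σ s r)⁻¹, hB2, InB_inv hσ hw, ?_, ?_⟩
  · rw [ew]
    have e3 : w1⁻¹ = n3 K * b2 * (n3 K * wL σ s r * n3 K)⁻¹ := by rw [e1]; group
    rw [e3, _root_.mul_inv_rev, _root_.mul_inv_rev, n3_inv]
    calc n3 K * (n3 K * b2 * (n3 K * ((wL σ s r)⁻¹ * n3 K))) * n3 K =
        (n3 K * n3 K) * b2 * n3 K * (wL σ s r)⁻¹ * (n3 K * n3 K) := by group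
      _ = _ := by rw [n3_sq]; group
  · rw [ew, R.inv hσ (InB_wL c1), R.inv hσ hw]
    have e3 : (φ w1)⁻¹ = n * φ b2 * (n * φ (wL σ s r) * n)⁻¹ := by rw [e2]; group
    rw [e3, _root_.mul_inv_rev, _root_.mul_inv_rev, R.ninv]
    calc n * (n * φ b2 * (n * ((φ (wL σ s r))⁻¹ * n))) * n =
        (n * n) * φ b2 * n * (φ (wL σ s r))⁻¹ * (n * n) := by group
      _ = _ := by rw [R.nn]; group

theorem Good.rule (R : RK σ φ n) (hσ : ∀ x, σ (σ x) = x) {s r c : K} (hr : r ≠ 0) (hc0 : c ≠ 0) (hrc : r + c ≠ 0)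
    (hc : Cd σ s r) (hcc : Cd σ 0 c)
    (h : Good σ φ n (wL σ s r)) (hz : Good σ φ n (wL σ 0 c)) (h' : Good σ φ n (wL σ s (r + c))) :
    Good σ φ n (wL σ (-s / σ r) (1 / r + 1 / c)) := by
  have e2 := h.form R hσ hr hc
  have e1 := n3_wL hσ s r hr hc
  have f2 := hz.form R hσ hc0 hcc
  have f1 := n3_wL hσ 0 c hc0 hcc
  have c1 := Cd_wone hσ hr hc
  have c2 := Cd_wtwo hσ hr hc
  have d1 := Cd_wone hσ hc0 hcc
  have d2 := Cd_wtwo hσ hc0 hcc
  obtain ⟨b, b', hb, hb', g1, g2⟩ := h'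
  have hcu : Cd σ s (r + c) := by
    unfold Cd at *
    rw [map_add]
    linear_combination hc + hcc
  set u := wL σ s r with hu
  set z := wL σ 0 c with hz'
  have huz : wL σ s (r + c) = u * z := by rw [hu, hz', wL_mul_z]
  set w1 := wL σ (-s / r) (1 / r) with hw1
  set t1 := Units.map (σ : K →* K) (Units.mk0 r hr) with ht1
  set u2 := wL σ (-s / σ r) (1 / r) with hu2
  set z1 := wL σ (-0 / c) (1 / c) with hz1
  set c2' := hT σ (Units.map (σ : K →* K) (Units.mk0 c hc0)) * wL σ (-0 / σ c) (1 / c) with hc2'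
  have hgoal : wL σ (-s / σ r) (1 / r + 1 / c) = u2 * z1 := by
    rw [hu2, hz1, neg_zero, zero_div, wL_mul_z]
  have Bw1 : InB σ w1 := InB_wL c1
  have Bu2 : InB σ u2 := InB_wL c2
  have Bz1 : InB σ z1 := InB_wL d1
  have Bc2 : InB σ c2' := InB_mul hσ (InB_hT _) (InB_wL d2)
  have Bu : InB σ u := InB_wL hc
  have Bz : InB σ z := InB_wL hcc
  set t2 := (Units.map (σ : K →* K) t1)⁻¹ with ht2
  have Ba : InB σ (w1 * hT σ t2) := InB_mul hσ Bw1 (InB_hT _)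
  refine ⟨(w1 * hT σ t2)⁻¹ * b, b' * c2'⁻¹, InB_mul hσ (InB_inv hσ Ba) hb, InB_mul hσ hb' (InB_inv hσ Bc2), ?_, ?_⟩
  · rw [hgoal]
    rw [huz] at g1
    have k1 : n3 K * (u * z) * n3 K = (n3 K * u * n3 K) * (n3 K * z * n3 K) := by
      calc n3 K * (u * z) * n3 K = n3 K * u * 1 * z * n3 K := by group
        _ = _ := by rw [← n3_sq]; group
    rw [k1, e1, f1] at g1
    have k2 : n3 K * hT σ t1 = hT σ t2 * n3 K := by
      rw [← n3_hT hσ t1]
      calc n3 K * hT σ t1 = n3 K * hT σ t1 * 1 := by group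
        _ = _ := by rw [← n3_sq]; group
    have k3 : w1 * n3 K * (hT σ t1 * u2) * (z1 * n3 K * c2') = (w1 * hT σ t2) * (n3 K * (u2 * z1) * n3 K) * c2' := by
      calc w1 * n3 K * (hT σ t1 * u2) * (z1 * n3 K * c2') = w1 * (n3 K * hT σ t1) * u2 * z1 * n3 K * c2' := by group
        _ = _ := by rw [k2]; group
    rw [k3] at g1
    calc n3 K * (u2 * z1) * n3 K = (w1 * hT σ t2)⁻¹ * ((w1 * hT σ t2) * (n3 K * (u2 * z1) * n3 K) * c2') * c2'⁻¹ := by group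
      _ = _ := by rw [g1]; group
  · rw [hgoal]
    rw [huz, R.mul _ _ Bu Bz] at g2
    have k1 : n * (φ u * φ z) * n = (n * φ u * n) * (n * φ z * n) := by
      calc n * (φ u * φ z) * n = n * φ u * 1 * φ z * n := by group
        _ = _ := by rw [← R.nn]; group
    rw [k1, e2, f2] at g2
    have k2 : n * φ (hT σ t1) = φ (hT σ t2) * n := by
      rw [ht2, ← R.nh t1]
      calc n * φ (hT σ t1) = n * φ (hT σ t1) * 1 := by group
        _ = _ := by rw [← R.nn]; group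
    rw [R.mul _ _ (InB_hT _) Bu2] at g2
    have k3 : φ w1 * n * (φ (hT σ t1) * φ u2) * (φ z1 * n * φ c2') = (φ w1 * φ (hT σ t2)) * (n * (φ u2 * φ z1) * n) * φ c2' := by
      calc φ w1 * n * (φ (hT σ t1) * φ u2) * (φ z1 * n * φ c2') = φ w1 * (n * φ (hT σ t1)) * φ u2 * φ z1 * n * φ c2' := by group
        _ = _ := by rw [k2]; group
    rw [k3] at g2
    rw [R.mul _ _ Bu2 Bz1, R.mul _ _ (InB_inv hσ Ba) hb, R.mul _ _ hb' (InB_inv hσ Bc2), R.inv hσ Ba, R.inv hσ Bc2,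
      R.mul _ _ Bw1 (InB_hT _)]
    calc n * (φ u2 * φ z1) * n = (φ w1 * φ (hT σ t2))⁻¹ * ((φ w1 * φ (hT σ t2)) * (n * (φ u2 * φ z1) * n) * φ c2') * (φ c2')⁻¹ := by group
      _ = _ := by rw [g2]; group

end

end H43.U3
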